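import Mathlib

/-!
Interface for the 3-local characterization of `A₈` (S3329), namespace `H19.Cm`.
`L = (S₃ × S₅)⁺`, `f : L →* G` has image `N(⟨z⟩)`, `s` swaps `z = f Z` and `z' = f Z'`.
-/

set_option autoImplicit false
set_option synthInstance.maxSize 4000

namespace H19.Cm
open Equiv Subgroup

abbrev P35 := Perm (Fin 3) × Perm (Fin 5)
abbrev L : Subgroup P35 := (((Equiv.Perm.sign).comp (MonoidHom.fst (Equiv.Perm (Fin 3)) (Equiv.Perm (Fin 5)))) *
  ((Equiv.Perm.sign).comp (MonoidHom.snd (Equiv.Perm (Fin 3)) (Equiv.Perm (Fin 5))))).ker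

def Z : L := ⟨(swap 0 1 * swap 1 2, 1), by decide +kernel⟩
def Z' : L := ⟨(1, swap 0 1 * swap 1 2), by decide +kernel⟩
def A : L := ⟨(1, swap 0 1 * swap 2 3), by decide +kernel⟩
def U : L := ⟨(1, swap 0 1 * swap 3 4), by decide +kernel⟩
def U' : L := ⟨(swap 0 1, swap 3 4), by decide +kernel⟩
def I : L := ⟨(swap 0 1, swap 0 1), by decide +kernel⟩
def A' : L := Z' * A * Z'⁻¹
def A8 : L := U * A * U
def A8' : L := Z' * A8 * Z'⁻¹

variable {G : Type*} [Group G]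

/-- the Sylow 3-subgroup -/
def D (f : L →* G) : Subgroup G := closure {f Z, f Z'}
/-- the elementary abelian group of order 16 -/
def E (f : L →* G) (s : G) : Subgroup G := closure {f A, f A', s * f A * s, s * f A' * s}

structure Hy (f : L →* G) (s : G) : Prop where
  inj : Function.Injective f
  hN : ∀ g, g ∈ normalizer (zpowers (f Z) : Set G) ↔ ∃ x, f x = g
  s2 : s * s = 1
  sz : s * f Z * s = f Z'
  si : s * f I = f I * s
  su : s * f U * s = f U'
  syl : ∃ P : Sylow 3 G, (P : Subgroup G) = D f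
  cD : Nat.card (D f) = 9
  hD : ∀ g ∈ normalizer (D f : Set G), (∃ x, f x = g) ∨ ∃ x, f x = g * s
  hy : ∀ g, g * f (Z * Z') = f (Z * Z') * g → g ∈ normalizer (D f : Set G)

/-- `u` and `s` are not conjugate -/
def US (f : L →* G) (s : G) : Prop := ¬ IsConj (f U) s
def I2 (G : Type*) [Group G] : Prop := ∀ H : Subgroup G, H.index ≠ 2
/-- `D`-invariant `3'`-subgroups -/
def Gen (f : L →* G) (s : G) : Prop := ∀ M : Subgroup G, (Nat.card M).Coprime 3 → D f ≤ normalizer (M : Set G) →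
  ¬ (f A ∈ M ∧ f A8 ∈ M) ∧ ¬ (s * f A * s ∈ M ∧ s * f A8 * s ∈ M) ∧
  ∀ X : Subgroup G, (f A ∈ M → f A ∈ X ∧ f A' ∈ X) → (f A8 ∈ M → f A8 ∈ X ∧ f A8' ∈ X) →
    (s * f A * s ∈ M → s * f A * s ∈ X ∧ s * f A' * s ∈ X) → (s * f A8 * s ∈ M → s * f A8 * s ∈ X ∧ s * f A8' * s ∈ X) → M ≤ X
def Oc (G : Type*) [Group G] : Prop := ∀ M : Subgroup G, M.Normal → (Odd (Nat.card M) ∨ IsPGroup 2 M) → M = ⊥
def Al (f : L →* G) (s : G) : Prop := f A * (s * f A * s) = s * f A * s * f A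
def Be (f : L →* G) (s : G) : Prop := f A * (s * f A8 * s) = s * f A8 * s * f A
def Ga (f : L →* G) : Prop := ∀ g, g * f A = f A * g → g * f A' = f A' * g → g ∈ closure {f A, f A', f Z}
/-- `C(V₇) = M ⟨z⟩` with `M` a `D`-invariant `3'`-group -/
def CV (f : L →* G) : Prop := ∃ M : Subgroup G, (Nat.card M).Coprime 3 ∧ D f ≤ normalizer (M : Set G) ∧ f A ∈ M ∧
  M ≤ centralizer {f A, f A'} ∧ centralizer {f A, f A'} ≤ M ⊔ zpowers (f Z)
def NE (f : L →* G) (s : G) : Prop := Nat.card (normalizer (E f s : Set G)) ≤ 576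
def Sol (s : G) : Prop := 64 ∣ Nat.card (centralizer {s}) → ¬ 128 ∣ Nat.card G → Group.IsSolvable (centralizer {s})

variable {f : L →* G} {s : G}

theorem Hy.cz (h : Hy f s) {g : G} (c : g * f Z = f Z * g) : ∃ x, f x = g ∧ x * Z = Z * x := by
  obtain ⟨x, rfl⟩ := (h.hN g).1 (centralizer_le_normalizer _ fun u hu => by
    obtain ⟨n, rfl⟩ := mem_zpowers_iff.1 hu
    exact ((show Commute g (f Z) from c).zpow_right n).symm.eq)
  exact ⟨x, rfl, h.inj (by rw [map_mul, map_mul, c])⟩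

theorem Hy.si' (h : Hy f s) : s⁻¹ = s := inv_eq_of_mul_eq_one_right h.s2

theorem Hy.sz' (h : Hy f s) : s * f Z' * s = f Z := by
  rw [← h.sz, ← mul_assoc, ← mul_assoc, h.s2, one_mul, mul_assoc, h.s2, mul_one]

theorem Hy.cz' (h : Hy f s) {g : G} (c : g * f Z' = f Z' * g) : ∃ x, s * f x * s = g ∧ x * Z = Z * x := by
  obtain ⟨x, hx, c'⟩ := h.cz (g := s * g * s) (by
    rw [← h.sz']
    calc s * g * s * (s * f Z' * s) = s * g * (s * s) * f Z' * s := by group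
      _ = s * (g * f Z') * s := by rw [h.s2]; group
      _ = s * f Z' * (s * s) * g * s := by rw [h.s2, c]; group
      _ = _ := by group)
  exact ⟨x, by rw [hx, ← mul_assoc, ← mul_assoc, h.s2, one_mul, mul_assoc, h.s2, mul_one], c'⟩

theorem czz : ∀ x : L, x * Z = Z * x → x * Z' = Z' * x → ∃ i j : Fin 3, x = Z ^ i.val * Z' ^ j.val := by decide +kernel

theorem Hy.cD' (h : Hy f s) {g : G} (c : g * f Z = f Z * g) (c' : g * f Z' = f Z' * g) : g ∈ D f := by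
  obtain ⟨x, rfl, c1⟩ := h.cz c
  obtain ⟨i, j, rfl⟩ := czz x c1 (h.inj (by rw [map_mul, map_mul, c']))
  rw [map_mul, map_pow, map_pow]
  exact mul_mem (pow_mem (subset_closure (by simp)) _) (pow_mem (subset_closure (by simp)) _)

theorem zz : Z * Z' = Z' * Z ∧ Z ^ 3 = 1 ∧ Z' ^ 3 = 1 := by decide +kernel

theorem mem_D {g : G} : g ∈ D f ↔ ∃ i j : ℕ, g = f (Z ^ i * Z' ^ j) := by
  have c : Commute Z Z' := zz.1
  refine ⟨fun hg => closure_induction (p := fun g _ => ∃ i j : ℕ, g = f (Z ^ i * Z' ^ j)) ?_ ⟨0, 0, by simp⟩ ?_ ?_ hg, ?_⟩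
  · rintro g (rfl | rfl)
    exacts [⟨1, 0, by simp⟩, ⟨0, 1, by simp⟩]
  · rintro _ _ - - ⟨i, j, rfl⟩ ⟨k, l, rfl⟩
    exact ⟨i + k, j + l, by rw [← map_mul, pow_add, pow_add, (c.pow_pow k j).symm.mul_mul_mul_comm]⟩
  · rintro _ - ⟨i, j, rfl⟩
    refine ⟨2 * i, 2 * j, ?_⟩
    rw [← map_inv, inv_eq_of_mul_eq_one_right]
    rw [(c.pow_pow (2 * i) j).symm.mul_mul_mul_comm, ← pow_add, ← pow_add, show i + 2 * i = 3 * i by ring,
      show j + 2 * j = 3 * j by ring, pow_mul, pow_mul, zz.2.1, zz.2.2]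
    simp
  · rintro ⟨i, j, rfl⟩
    rw [map_mul, map_pow, map_pow]
    exact mul_mem (pow_mem (subset_closure (by simp)) _) (pow_mem (subset_closure (by simp)) _)

end H19.Cm
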