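import Mathlib
import Cfsg.Agent.H19.CIT
import Cfsg.Agent.H19.Blich
import Cfsg.Agent.H08.Dihedral

/-!
Feit's theorem on characters of degree `p - 2`, group theoretic part (namespace H19).
* `sum_subgroup_two_values` : sums of functions taking one value on `W ⊓ Z` and another on `W \ Z`.
* `isCharacter_half` : the two eigenspaces of a central involution.
* `FeitD p ζ` : the functional equation `ζ(th)² - ζ(t²h²) = (p - 3) ζ(th²)` and the counting data.
* `FeitD.sl2` : `G / Z(G) ≃ SL(2, p - 1)`.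
-/

set_option linter.unusedSectionVars false

open H05 Cfsg Classical
open scoped ComplexConjugate MatrixGroups

namespace H19

variable {G : Type*} [Group G] [Fintype G]

theorem sum_subgroup_two_values (W Z : Subgroup G) [Fintype W] {f : W → ℂ} {a b : ℂ}
    (ha : ∀ w : W, (w : G) ∈ Z → f w = a) (hb : ∀ w : W, (w : G) ∉ Z → f w = b) :
    Z.relIndex W * ((Nat.card W : ℂ)⁻¹ * ∑ w, f w) = a + (Z.relIndex W - 1) * b := by
  have h1 := (Z.subgroupOf W).card_mul_index
  have h2 : ∑ w, f w = ∑ w : W, (b + if w ∈ Z.subgroupOf W then a - b else 0) :=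
    Finset.sum_congr rfl fun w _ => by
      by_cases h : (w : G) ∈ Z <;> simp [Subgroup.mem_subgroupOf, h, ha, hb]
  rw [h2, Finset.sum_add_distrib, ← Finset.sum_filter, Finset.sum_const, Finset.sum_const, ← Fintype.card_subtype,
    Finset.card_univ, ← Nat.card_eq_fintype_card, ← Nat.card_eq_fintype_card, ← h1, Subgroup.relIndex]
  have e1 := card_ne_zero_complex (G := Z.subgroupOf W)
  have e2 : ((Z.subgroupOf W).index : ℂ) ≠ 0 := by exact_mod_cast Subgroup.index_ne_zero_of_finite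
  simp only [nsmul_eq_mul, Nat.cast_mul]
  field_simp
  ring

theorem isCharacter_half {χ : G → ℂ} (hχ : IsCharacter G χ) {t : G} (ht : t ∈ Subgroup.center G)
    (h2 : χ (t * t) = χ 1) {s : ℂ} (hs : s = 1 ∨ s = -1) : IsCharacter G fun g => (χ g + s * χ (g * t)) / 2 := by
  have h1 : ∀ g h, χ (h * g * h⁻¹ * t) = χ (g * t) := fun g h => by
    rw [← hχ.isClassFunction (g * t) h, mul_assoc (h * g), Subgroup.mem_center_iff.1 ht, mul_assoc h, mul_assoc h,
      mul_assoc g]
  refine isCharacter_of_classInner (fun g h => by rw [hχ.isClassFunction g h, h1 g h]) fun ξ hξ => ?_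
  obtain ⟨n, hn⟩ := hχ.exists_classInner_eq_nat hξ.isCharacter
  have e1 := apply_one_mul_classInner_shift hχ.isClassFunction ⟨ξ, hξ⟩ t
  have e2 := apply_one_mul_classInner_shift hχ.isClassFunction ⟨ξ, hξ⟩ (t * t)
  have h0 := hξ.apply_one_ne_zero
  simp only [hχ.apply_mul_of_eq' h2, hξ.apply_mul_of_mem_center ht] at e1 e2
  rw [show (fun g => (χ g + s * χ (g * t)) / 2) = (2 : ℂ)⁻¹ • (χ + s • fun g => χ (g * t)) from
    funext fun g => by simp [div_eq_inv_mul], classInner_smul_left, classInner_add_left, classInner_smul_left]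
  change ξ 1 * classInner χ ξ = _ at e2
  rw [hn] at e1 e2 ⊢
  set u := classInner (fun g => χ (g * t)) ξ
  have e3 : (u - n) * (u + n) = 0 := by
    apply mul_left_cancel₀ (mul_ne_zero h0 h0)
    field_simp at e2
    linear_combination (ξ 1 * u + n * ξ t) * e1 - n * e2
  rcases mul_eq_zero.1 e3 with e | e <;> rcases hs with rfl | rfl
  · exact ⟨n, by linear_combination e / 2⟩
  · exact ⟨0, by push_cast; linear_combination -e / 2⟩
  · exact ⟨0, by push_cast; linear_combination e / 2⟩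
  · exact ⟨n, by linear_combination -e / 2⟩

theorem eq_zero_or_of_sq_iter {h : G} (hh : Odd (orderOf h)) (f : G → ℝ) {c : ℝ} (hc : 0 < c) (h0 : 0 ≤ f h)
    (hf : ∀ i, f (h ^ i) ^ 2 = c * f (h ^ i * h ^ i)) : f h = 0 ∨ f h = c := by
  have h1 : ∀ n, f (h ^ 2 ^ n) / c = (f h / c) ^ 2 ^ n := fun n => by
    induction n with
    | zero => simp
    | succ n ih => rw [pow_succ, pow_mul, pow_mul, ← ih, sq (h ^ 2 ^ n), div_pow, hf]; field_simp
  have h2 := h1 (orderOf h).totient
  rw [(pow_eq_pow_iff_modEq.2 (Nat.ModEq.pow_totient (Nat.coprime_two_left.2 hh))).trans (pow_one h)] at h2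
  obtain ⟨m, hm⟩ : ∃ m, 2 ^ (orderOf h).totient = m + 1 ∧ m ≠ 0 :=
    ⟨2 ^ (orderOf h).totient - 1, by
      have := Nat.one_lt_two_pow (Nat.totient_pos.2 (orderOf_pos h)).ne'; omega⟩
  rw [hm.1, pow_succ] at h2
  by_cases e : f h = 0
  · exact Or.inl e
  · have h3 := (mul_eq_right₀ (div_ne_zero e hc.ne')).1 h2.symm
    exact Or.inr ((div_eq_one_iff_eq hc.ne').1 ((pow_eq_one_iff_of_nonneg (by positivity) hm.2).1 h3))

theorem mem_of_sq_mem {Z : Subgroup G} {h : G} (hh : Odd (orderOf h)) (h2 : h * h ∈ Z) : h ∈ Z := by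
  obtain ⟨k, hk⟩ := hh
  have := Z.pow_mem h2 (k + 1)
  rwa [← sq, ← pow_mul, show 2 * (k + 1) = orderOf h + 1 by omega, pow_succ, pow_orderOf_eq_one, one_mul] at this

theorem two_pow_dvd_of_odd {x n b : ℕ} (hx : Odd x) (hn : Odd n) (h : 2 ^ b ∣ x ^ n + 1) : 2 ^ b ∣ x + 1 := by
  have h1 : Odd (∑ i ∈ Finset.range n, (-x : ℤ) ^ i) := by
    obtain ⟨m, rfl⟩ := hn
    clear h
    induction m with
    | zero => simp
    | succ m ih =>
      rw [show 2 * (m + 1) + 1 = 2 * m + 1 + 1 + 1 by ring, Finset.sum_range_succ, Finset.sum_range_succ, add_assoc]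
      exact ih.add_even ((hx.natCast.neg).pow.add_odd (hx.natCast.neg).pow)
  have h2 := geom_sum_mul (-x : ℤ) n
  rw [hn.neg_pow] at h2
  have h3 : (2 : ℤ) ^ b ∣ (∑ i ∈ Finset.range n, (-x : ℤ) ^ i) * (x + 1) := by
    rw [show (∑ i ∈ Finset.range n, (-x : ℤ) ^ i) * (x + 1) = x ^ n + 1 by linear_combination -h2]
    exact_mod_cast h
  exact_mod_cast ((Int.isCoprime_two_left.2 h1).pow_left).dvd_of_dvd_mul_left h3

/-- `c` at the identity, `1` at involutions. -/
noncomputable def fval {Q : Type*} [Group Q] (c : ℂ) (x : Q) : ℂ :=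
  (if x = 1 then c else 0) + if orderOf x = 2 then 1 else 0

theorem sum_fval (c : ℂ) : ∑ x : G, fval c x = c + Nat.card {x : G // orderOf x = 2} := by
  simp only [fval]
  rw [Finset.sum_add_distrib, Finset.sum_ite_eq', Finset.sum_boole, if_pos (Finset.mem_univ _),
    ← Fintype.card_subtype, ← Nat.card_eq_fintype_card]

/-- The data extracted from a character of degree `p - 2`. -/
structure FeitD (p : ℕ) (ζ : G → ℂ) : Prop where
  prime : p.Prime
  big : 5 < p
  irr : IsIrrCharacter G ζ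
  deg : charDegree ζ + 2 = p
  center : charCenter ζ = Subgroup.center G
  two : ∀ z ∈ Subgroup.center G, (∃ a, orderOf z = 2 ^ a) → ζ z = ζ 1
  rel : ∀ t h, Commute t h → (∃ a, orderOf t = 2 ^ a) → Odd (orderOf h) → ¬ p ∣ orderOf h →
    ζ (t * h) ^ 2 - ζ (t * h * (t * h)) = (p - 3) * ζ (t * (h * h))
  cent : ∀ t h, Commute t h → (∃ a, orderOf t = 2 ^ a) → p ∣ orderOf h → t ∈ Subgroup.center G
  zreg : ¬ p ∣ Nat.card (Subgroup.center G)
  count : p * ∑ g with p ∣ orderOf g, ‖ζ g‖ ^ 2 = Nat.card G * (p - 2)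

namespace FeitD
variable {p : ℕ} {ζ : G → ℂ} (D : FeitD p ζ)
include D

theorem one : ζ 1 = p - 2 := by rw [← D.irr.charDegree_eq, ← D.deg]; simp

theorem mem_iff {g : G} : g ∈ Subgroup.center G ↔ ‖ζ g‖ = p - 2 := by
  rw [← D.center, D.irr.mem_charCenter, ← D.deg]; simp

theorem norm_mul {z : G} (hz : z ∈ Subgroup.center G) (g : G) : ‖ζ (z * g)‖ = ‖ζ g‖ := by
  have : (5 : ℝ) < p := by exact_mod_cast D.big
  rw [D.irr.apply_mul_of_mem_center hz, _root_.norm_mul, norm_div, D.mem_iff.1 hz, D.mem_iff.1 (one_mem _),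
    div_self (by linarith), one_mul]

theorem odd_zero {h : G} (hh : Odd (orderOf h)) (hp : ¬ p ∣ orderOf h) (hZ : h ∉ Subgroup.center G) : ζ h = 0 := by
  have : (5 : ℝ) < p := by exact_mod_cast D.big
  refine norm_eq_zero.1 ((eq_zero_or_of_sq_iter hh (fun g => ‖ζ g‖) (c := p - 2) (by linarith) (norm_nonneg _)
    fun i => ?_).resolve_right (mt D.mem_iff.2 hZ))
  have := D.rel 1 (h ^ i) (Commute.one_left _) ⟨0, by simp⟩ (hh.of_dvd_nat (orderOf_pow_dvd i))
    fun e => hp (e.trans (orderOf_pow_dvd i))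
  simp only [one_mul] at this
  rw [← norm_pow, show ζ (h ^ i) ^ 2 = ((p - 2 : ℝ) : ℂ) * ζ (h ^ i * h ^ i) by push_cast; linear_combination this,
    _root_.norm_mul, Complex.norm_real, Real.norm_of_nonneg (by linarith)]

theorem rel_two {t : G} (ht : ∃ a, orderOf t = 2 ^ a) : ζ t ^ 2 - ζ (t * t) = (p - 3) * ζ t := by
  simpa using D.rel t 1 (Commute.one_right _) ht (by simp) (by simpa using D.prime.one_lt.ne')

omit D in
theorem two_pow {t : G} (ht : ∃ a, orderOf t = 2 ^ a) (n : ℕ) : ∃ a, orderOf (t ^ n) = 2 ^ a := by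
  obtain ⟨a, ha⟩ := ht
  obtain ⟨b, -, hb⟩ := (Nat.dvd_prime_pow Nat.prime_two).1 (ha ▸ orderOf_pow_dvd n)
  exact ⟨b, hb⟩

theorem inv_val {t : G} (ht : ∃ a, orderOf t = 2 ^ a) (hZ : t ∉ Subgroup.center G) (h2 : t * t ∈ Subgroup.center G) :
    ζ t = -1 := by
  have h1 := D.rel_two ht
  rw [D.two _ h2 (sq t ▸ two_pow ht 2), D.one] at h1
  have h3 : (ζ t - (p - 2)) * (ζ t + 1) = 0 := by linear_combination h1
  refine eq_neg_of_add_eq_zero_left ((mul_eq_zero.1 h3).resolve_left fun e => hZ ?_)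
  exact D.center ▸ charKer_le_charCenter (D.irr.isCharacter.mem_charKer.2 (D.one ▸ sub_eq_zero.1 e))

theorem sq_mem {t : G} (ht : ∃ a, orderOf t = 2 ^ a) : t * t ∈ Subgroup.center G := by
  by_contra hc
  have hex : ∃ i, t ^ 2 ^ (i + 2) ∈ Subgroup.center G := by
    obtain ⟨a, ha⟩ := ht
    exact ⟨a, by rw [pow_add, pow_mul, ← ha, pow_orderOf_eq_one, one_pow]; exact one_mem _⟩
  obtain ⟨s, hs, h1, h2⟩ : ∃ s : G, (∃ a, orderOf s = 2 ^ a) ∧ s * s ∉ Subgroup.center G ∧
      s * s * (s * s) ∈ Subgroup.center G := by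
    refine ⟨t ^ 2 ^ Nat.find hex, two_pow ht _, ?_, by
      have := Nat.find_spec hex
      rwa [pow_add, pow_mul, show 2 ^ 2 = 2 * 2 from rfl, pow_mul, sq, sq] at this⟩
    rw [← sq, ← pow_mul, ← pow_succ]
    rcases e : Nat.find hex with _ | i
    · simpa [sq] using hc
    · exact Nat.find_min hex (by omega : i < Nat.find hex)
  have h3 := D.rel_two hs
  rw [D.inv_val (sq s ▸ two_pow hs 2) h1 h2] at h3
  have h5 : (5 : ℝ) < p := by exact_mod_cast D.big
  have h4 : (ζ s).im = 0 := by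
    have e1 := congrArg Complex.re h3
    have e2 := congrArg Complex.im h3
    simp [sq] at e1 e2
    by_contra hc
    have e3 : 2 * (ζ s).re = p - 3 := mul_right_cancel₀ hc (by linear_combination e2)
    nlinarith [sq_nonneg (ζ s).im]
  have h6 : s ^ 4 ∈ charKer ζ := D.irr.isCharacter.mem_charKer.2 (D.two _ (by
    rwa [show 4 = 2 * 2 from rfl, pow_mul, sq, sq]) (two_pow hs 4))
  obtain ⟨n, hn⟩ := D.irr.isGeneralizedCharacter.exists_int_of_pow_eq s fun k hk => by
    have hk2 : k % 4 = 1 ∨ k % 4 = 3 := by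
      obtain ⟨a, ha⟩ := hs
      have : a ≠ 0 := by rintro rfl; exact h1 (by simp [orderOf_eq_one_iff.1 ha])
      have := Nat.odd_iff.1 (Nat.coprime_two_right.1 ((Nat.coprime_pow_right_iff (by omega) _ _).1 (ha ▸ hk)))
      omega
    rw [← Nat.div_add_mod k 4, pow_add, pow_mul, apply_mul_of_mem_charKer (pow_mem h6 _)]
    rcases hk2 with e | e <;> rw [e]
    · rw [pow_one]
    · rw [show s ^ 3 = s ^ 4 * s⁻¹ by group, apply_mul_of_mem_charKer h6, D.irr.apply_inv, Complex.conj_eq_iff_im.2 h4]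
  rw [hn] at h3
  have h7 : n * (p - 3 - n) = 1 := by
    have : ((n * (p - 3 - n) : ℤ) : ℂ) = 1 := by push_cast; linear_combination -h3
    exact_mod_cast this
  have := D.big
  rcases Int.eq_one_or_neg_one_of_mul_eq_one' h7 with e | e <;> omega

theorem cent_odd {t h : G} (ht : ∃ a, orderOf t = 2 ^ a) (hZ : t ∉ Subgroup.center G) (hh : Odd (orderOf h))
    (hc : Commute t h) : h ∈ Subgroup.center G := by
  have h5 : (5 : ℝ) < p := by exact_mod_cast D.big
  have h0 : ∀ h, Commute t h → ¬ p ∣ orderOf h := fun h hc e => hZ (D.cent t h hc ht e)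
  have h1 := D.inv_val ht hZ (D.sq_mem ht)
  have h2 := D.two _ (D.sq_mem ht) (sq t ▸ two_pow ht 2)
  have hW : ∀ {h : G}, Odd (orderOf h) → ∀ w : Subgroup.zpowers h, Odd (orderOf (w : G)) := fun hh w =>
    hh.of_dvd_nat (orderOf_dvd_of_mem_zpowers w.2)
  have hW' : ∀ {h : G}, Commute t h → ∀ w : Subgroup.zpowers h, Commute t w := fun hc w => by
    obtain ⟨_, k, rfl⟩ := w; exact hc.zpow_right k
  have h3 : ∀ h, Odd (orderOf h) → Commute t h → h ∉ Subgroup.center G → ζ (h * t) = 0 := fun h hh hc hZ' => by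
    rcases eq_zero_or_of_sq_iter hh (fun g => if g ∈ Subgroup.center G then 0 else ‖ζ (t * g)‖) (c := p - 3)
      (by linarith) (by positivity) fun i => by
        have e0 := hh.of_dvd_nat (orderOf_pow_dvd i)
        by_cases e : h ^ i ∈ Subgroup.center G
        · simp [e, mul_mem e e]
        have e1 := D.rel t (h ^ i) (hc.pow_right i) ht e0 (h0 _ (hc.pow_right i))
        have e2 := mt (mem_of_sq_mem e0) e
        rw [(hc.pow_right i).symm.mul_mul_mul_comm, D.irr.isCharacter.apply_mul_of_eq h2, D.odd_zero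
          (sq (h ^ i) ▸ e0.of_dvd_nat (orderOf_pow_dvd 2)) (h0 _ ((hc.pow_right i).mul_right (hc.pow_right i))) e2] at e1
        simp only [e, e2, if_false]
        rw [← norm_pow, show ζ (t * h ^ i) ^ 2 = ((p - 3 : ℝ) : ℂ) * ζ (t * (h ^ i * h ^ i)) by
          push_cast; linear_combination e1, _root_.norm_mul, Complex.norm_real, Real.norm_of_nonneg (by linarith)]
      with e | e <;> simp only [hZ', if_false, hc.eq] at e
    · exact norm_eq_zero.1 e
    exfalso
    set C := Subgroup.centralizer ({t} : Set G)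
    have hC : ∀ w : Subgroup.zpowers h, (w : G) ∈ C := fun w => Subgroup.mem_centralizer_singleton_iff.2 (hW' hc w).symm
    have htC : (⟨t, H21.self_mem_centralizer t⟩ : C) ∈ Subgroup.center C :=
      Subgroup.mem_center_iff.2 fun c => Subtype.ext (Subgroup.mem_centralizer_singleton_iff.1 c.2)
    have ha := (isCharacter_half (D.irr.isCharacter.comp C.subtype) htC h2 (Or.inl rfl)).comp (Subgroup.inclusion
      fun w hw => hC ⟨w, hw⟩)
    have hb := (isCharacter_half (D.irr.isCharacter.comp C.subtype) htC h2 (Or.inr rfl)).comp (Subgroup.inclusion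
      fun w hw => hC ⟨w, hw⟩)
    change IsCharacter _ fun w : Subgroup.zpowers h => (ζ w + 1 * ζ (w * t)) / 2 at ha
    change IsCharacter _ fun w : Subgroup.zpowers h => (ζ w + -1 * ζ (w * t)) / 2 at hb
    have hd : charDegree (fun w : Subgroup.zpowers h => (ζ w + 1 * ζ (w * t)) / 2) = ((p : ℝ) - 3) / 2 := by
      have := ha.charDegree_eq
      simp only [OneMemClass.coe_one, one_mul, h1, D.one] at this ⊢
      have : ((charDegree (fun w : Subgroup.zpowers h => (ζ w + ζ (w * t)) / 2) : ℝ) : ℂ) = (((p : ℝ) - 3) / 2 : ℝ) := by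
        push_cast; linear_combination this
      exact_mod_cast this
    have hz : (⟨h, Subgroup.mem_zpowers h⟩ : Subgroup.zpowers h) ∈ {w : Subgroup.zpowers h |
        ‖(ζ w + 1 * ζ (w * t)) / 2‖ = (p - 3) / 2} := by
      simp [D.odd_zero hh (h0 h hc) hZ', e]
    obtain ⟨ω, hω⟩ := ha.exists_scalar_of_norm_eq (hd ▸ hz :)
    have hω1 : ‖ω‖ = 1 := by
      have := congrArg norm (hω 1)
      rw [mul_one, hz, _root_.norm_mul, ha.norm_apply_one, hd] at this
      exact ((mul_eq_right₀ (by linarith)).1 this.symm)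
    have hn : ∀ w : Subgroup.zpowers h, ‖(ζ w + 1 * ζ (w * t)) / 2‖ = (p - 3) / 2 := fun w => by
      obtain ⟨k, rfl⟩ : ∃ k : ℕ, (⟨h, Subgroup.mem_zpowers h⟩ : Subgroup.zpowers h) ^ k = w := by
        obtain ⟨k, hk⟩ := (mem_powers_iff_mem_zpowers.2 w.2 : (w : G) ∈ Submonoid.powers h)
        exact ⟨k, Subtype.ext hk⟩
      induction k with
      | zero => rw [pow_zero, ← hd]; exact ha.norm_apply_one
      | succ k ih => rw [pow_succ', hω, _root_.norm_mul, hω1, one_mul, ih]
    obtain ⟨n, hn'⟩ := hb.exists_classInner_eq_nat ha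
    have key := sum_subgroup_two_values (Subgroup.zpowers h) (Subgroup.center G)
      (f := fun w => (ζ w + -1 * ζ (w * t)) / 2 * conj ((ζ w + 1 * ζ (w * t)) / 2))
      (a := (p - 1) * (p - 3) / 4) (b := -((p - 3) / 2) ^ 2) (fun w hw => by
        have e1 := Complex.mul_conj' (ζ w)
        rw [D.mem_iff.1 hw] at e1
        have e2 : (p - 2 : ℂ) ≠ 0 := D.one ▸ D.irr.apply_one_ne_zero
        rw [D.irr.apply_mul_of_mem_center hw, h1, D.one]
        simp only [map_div₀, map_add, map_mul, map_one, map_neg, map_sub, map_natCast, map_ofNat]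
        push_cast at e1
        field_simp
        linear_combination (4 * ((p - 2) ^ 2 - 1)) * e1) (fun w hw => by
        have e1 := Complex.mul_conj' ((ζ w + 1 * ζ (w * t)) / 2)
        rw [hn w] at e1
        rw [D.odd_zero (hW hh w) (h0 _ (hW' hc w)) hw] at e1 ⊢
        push_cast at e1
        linear_combination -e1)
    rw [← classInner_def, hn'] at key
    have e3 : 3 ≤ (Subgroup.center G).relIndex (Subgroup.zpowers h) := by
      have e4 : Odd ((Subgroup.center G).relIndex (Subgroup.zpowers h)) :=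
        hh.of_dvd_nat (Nat.card_zpowers h ▸ Subgroup.relIndex_dvd_card _ _)
      have e5 := mt Subgroup.relIndex_eq_one.1 fun e => hZ' (e (Subgroup.mem_zpowers h))
      obtain ⟨k, hk⟩ := e4
      omega
    have e6 : (((Subgroup.center G).relIndex (Subgroup.zpowers h) * n : ℝ) : ℂ) = (((p - 1) * (p - 3) / 4 +
        ((Subgroup.center G).relIndex (Subgroup.zpowers h) - 1) * -((p - 3) / 2) ^ 2 : ℝ) : ℂ) := by
      push_cast; exact key
    have e7 := Complex.ofReal_injective e6
    have e8 : (3 : ℝ) ≤ (Subgroup.center G).relIndex (Subgroup.zpowers h) := by exact_mod_cast e3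
    have e9 : (0 : ℝ) ≤ (Subgroup.center G).relIndex (Subgroup.zpowers h) * n := by positivity
    nlinarith [mul_pos (sub_pos.2 h5) (by linarith : (0 : ℝ) < p - 3),
      mul_nonneg (sub_nonneg.2 e8) (sq_nonneg ((p : ℝ) - 3))]
  set C := Subgroup.centralizer ({t} : Set G)
  have hC : ∀ w : Subgroup.zpowers h, (w : G) ∈ C := fun w => Subgroup.mem_centralizer_singleton_iff.2 (hW' hc w).symm
  have htC : (⟨t, H21.self_mem_centralizer t⟩ : C) ∈ Subgroup.center C :=
    Subgroup.mem_center_iff.2 fun c => Subtype.ext (Subgroup.mem_centralizer_singleton_iff.1 c.2)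
  have ha := ((isCharacter_half (D.irr.isCharacter.comp C.subtype) htC h2 (Or.inl rfl)).isGeneralizedCharacter.sub
    (isCharacter_half (D.irr.isCharacter.comp C.subtype) htC h2 (Or.inr rfl)).isGeneralizedCharacter).comp
    (Subgroup.inclusion fun w hw => hC ⟨w, hw⟩)
  change IsGeneralizedCharacter _ fun w : Subgroup.zpowers h =>
    (ζ w + 1 * ζ (w * t)) / 2 - (ζ w + -1 * ζ (w * t)) / 2 at ha
  obtain ⟨n, hn⟩ := ha.exists_classInner_self_eq_nat
  have key := sum_subgroup_two_values (Subgroup.zpowers h) (Subgroup.center G)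
    (f := fun w => ((ζ w + 1 * ζ (w * t)) / 2 - (ζ w + -1 * ζ (w * t)) / 2) *
      conj ((ζ w + 1 * ζ (w * t)) / 2 - (ζ w + -1 * ζ (w * t)) / 2)) (a := 1) (b := 0) (fun w hw => by
      rw [show (ζ w + 1 * ζ (w * t)) / 2 - (ζ w + -1 * ζ (w * t)) / 2 = ζ (w * t) by ring, Complex.mul_conj',
        D.norm_mul hw, h1]
      simp) (fun w hw => by rw [h3 _ (hW hh w) (hW' hc w) hw]; simp)
  rw [← classInner_def, hn, mul_zero, add_zero] at key
  exact Subgroup.relIndex_eq_one.1 (Nat.eq_one_of_mul_eq_one_right (by exact_mod_cast key)) (Subgroup.mem_zpowers h)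

omit D in
theorem odd_pReg (g : G) : Odd (orderOf (H21.pReg 2 g)) :=
  Nat.odd_iff.2 (Nat.two_dvd_ne_zero.1 (H21.not_dvd_orderOf_pReg 2 g))

omit D in
theorem pReg_mem {g : G} (h : g * g ∈ Subgroup.center G) : H21.pReg 2 g ∈ Subgroup.center G := by
  obtain ⟨k, hk⟩ := H21.pReg_mem_zpowers 2 g
  refine mem_of_sq_mem (odd_pReg g) ?_
  simp only at hk
  rw [← hk, ← (Commute.refl g).mul_zpow]
  exact zpow_mem h k

theorem apply_of_sq {g : G} (h : g * g ∈ Subgroup.center G) (hg : g ∉ Subgroup.center G) :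
    ζ g = -(ζ (H21.pReg 2 g) / ζ 1) := by
  conv_lhs => rw [← H21.pReg_mul_pPart 2 g]
  rw [D.irr.apply_mul_of_mem_center (pReg_mem h), D.inv_val (H21.orderOf_pPart 2 g) (fun e => hg (by
    rw [← H21.pReg_mul_pPart 2 g]; exact mul_mem (pReg_mem h) e)) (D.sq_mem (H21.orderOf_pPart 2 g)), mul_neg_one]

theorem norm_eq (g : G) : (‖ζ g‖ ^ 2 : ℂ) = (if p ∣ orderOf g then (‖ζ g‖ ^ 2 : ℂ) else 0) +
    fval ((p - 2 : ℂ) ^ 2) (g : G ⧸ Subgroup.center G) := by
  have h5 : (5 : ℝ) < p := by exact_mod_cast D.big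
  have h1 : g * g ∈ Subgroup.center G → ¬ p ∣ orderOf g := fun h e => by
    have : g ^ (2 * Nat.card (Subgroup.center G)) = 1 := by
      rw [pow_mul, sq]; exact congrArg Subtype.val (pow_card_eq_one' (x := (⟨_, h⟩ : Subgroup.center G)))
    rcases (Nat.Prime.dvd_mul D.prime).1 (e.trans (orderOf_dvd_of_pow_eq_one this)) with e | e
    · have := Nat.le_of_dvd two_pos e; have := D.big; omega
    · exact D.zreg e
  simp only [fval, QuotientGroup.eq_one_iff, H08.orderOf_eq_two_iff', ← QuotientGroup.mk_mul, ne_eq]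
  by_cases hZ : g ∈ Subgroup.center G
  · simp [hZ, h1 (mul_mem hZ hZ), D.mem_iff.1 hZ]
  by_cases h2 : g * g ∈ Subgroup.center G
  · rw [D.apply_of_sq h2 hZ, norm_neg, norm_div, D.mem_iff.1 (pReg_mem h2), D.mem_iff.1 (one_mem _),
      div_self (by linarith)]
    simp [hZ, h2, h1 h2]
  by_cases h3 : p ∣ orderOf g
  · simp [hZ, h2, h3]
  have h4 : H21.pReg 2 g ∉ Subgroup.center G := fun e => h2 (by
    rw [← H21.pPart_mul_pReg 2 g, (H21.commute_pPart_pReg 2 g).symm.mul_mul_mul_comm]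
    exact mul_mem (D.sq_mem (H21.orderOf_pPart 2 g)) (mul_mem e e))
  have h6 : H21.pPart 2 g ∈ Subgroup.center G := by
    by_contra e
    exact h4 (D.cent_odd (H21.orderOf_pPart 2 g) e (odd_pReg g) (H21.commute_pPart_pReg 2 g))
  have h7 : ‖ζ g‖ = 0 := by
    rw [← H21.pPart_mul_pReg 2 g, D.norm_mul h6, D.odd_zero (odd_pReg g)
      (fun e => h3 (e.trans (orderOf_dvd_of_mem_zpowers (H21.pReg_mem_zpowers 2 g)))) h4, norm_zero]
  simp [hZ, h2, h7]

theorem card_eq : 2 * Nat.card (G ⧸ Subgroup.center G) =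
    p * ((p - 2) ^ 2 + Nat.card {x : G ⧸ Subgroup.center G // orderOf x = 2}) := by
  have := Fintype.ofFinite (G ⧸ Subgroup.center G)
  have h1 : ∑ g, (‖ζ g‖ ^ 2 : ℂ) = Nat.card G := by exact_mod_cast D.irr.sum_norm_sq
  have h2 : (p : ℂ) * ∑ g with p ∣ orderOf g, (‖ζ g‖ ^ 2 : ℂ) = Nat.card G * (p - 2) := by exact_mod_cast D.count
  have h3 := sum_comp_of_surjective (QuotientGroup.mk' (Subgroup.center G)) (QuotientGroup.mk'_surjective _)
    (fval ((p - 2 : ℂ) ^ 2))
  simp only [QuotientGroup.mk'_apply] at h3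
  rw [Finset.sum_congr rfl fun g _ => D.norm_eq g, Finset.sum_add_distrib, h3, ← Finset.sum_filter,
    QuotientGroup.ker_mk', sum_fval] at h1
  rw [Subgroup.card_eq_card_quotient_mul_card_subgroup (Subgroup.center G), Nat.cast_mul] at h1 h2
  have h4 : ((2 * Nat.card (G ⧸ Subgroup.center G) : ℕ) : ℂ) =
      (p * ((p - 2) ^ 2 + Nat.card {x : G ⧸ Subgroup.center G // orderOf x = 2}) : ℕ) := by
    apply mul_left_cancel₀ (card_ne_zero_complex (G := Subgroup.center G))
    push_cast [Nat.cast_sub D.prime.two_le]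
    linear_combination h2 - p * h1
  exact_mod_cast h4

theorem sq_mem_of_cent {j : G ⧸ Subgroup.center G} (hj : orderOf j = 2) {c : G}
    (hc : (c : G ⧸ Subgroup.center G) ∈ Subgroup.centralizer ({j} : Set _)) : c * c ∈ Subgroup.center G := by
  obtain ⟨g, rfl⟩ := QuotientGroup.mk_surjective j
  rw [H08.orderOf_eq_two_iff', ← QuotientGroup.mk_mul, ne_eq, QuotientGroup.eq_one_iff, QuotientGroup.eq_one_iff] at hj
  have h1 : H21.pPart 2 g ∉ Subgroup.center G := fun e => hj.2 (by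
    rw [← H21.pReg_mul_pPart 2 g]; exact mul_mem (pReg_mem hj.1) e)
  have h2 : Commute ((H21.pReg 2 c : G) : G ⧸ Subgroup.center G) (H21.pPart 2 g : G) := by
    have e : Commute (c : G ⧸ Subgroup.center G) g := Subgroup.mem_centralizer_singleton_iff.1 hc
    obtain ⟨k, hk⟩ := H21.pReg_mem_zpowers 2 c
    obtain ⟨l, hl⟩ := H21.pPart_mem_zpowers 2 g
    rw [← hk, ← hl]
    exact e.zpow_zpow k l
  set h := H21.pReg 2 c
  set t := H21.pPart 2 g
  have h3 : h * t * h⁻¹ * t⁻¹ ∈ Subgroup.center G := by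
    rw [← QuotientGroup.eq_one_iff]; simp [h2.eq]
  have h4 : h * t * h⁻¹ = t := by
    obtain ⟨z, hz⟩ : ∃ z, h * t * h⁻¹ * t⁻¹ = z := ⟨_, rfl⟩
    rw [hz] at h3
    rw [mul_inv_eq_iff_eq_mul] at hz
    have e1 : ∀ n : ℕ, h ^ n * t * (h ^ n)⁻¹ = z ^ n * t := fun n => by
      induction n with
      | zero => simp
      | succ n ih =>
        calc _ = h * (h ^ n * t * (h ^ n)⁻¹) * h⁻¹ := by rw [pow_succ']; group
          _ = z ^ n * (h * t * h⁻¹) := by
            rw [ih, ← mul_assoc, Subgroup.mem_center_iff.1 (pow_mem h3 n) h]; group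
          _ = _ := by rw [hz, pow_succ, mul_assoc]
    have e2 := e1 (orderOf h)
    rw [pow_orderOf_eq_one, one_mul, inv_one, mul_one, right_eq_mul] at e2
    have e3 : z ^ 2 = 1 := by
      have e4 := Subgroup.mem_center_iff.1 (D.sq_mem (H21.orderOf_pPart 2 g)) h
      have : h * (t * t) * h⁻¹ = z ^ 2 * (t * t) := by
        calc _ = (h * t * h⁻¹) * (h * t * h⁻¹) := by group
          _ = _ := by rw [hz, mul_assoc, ← mul_assoc t, Subgroup.mem_center_iff.1 h3 t, sq]; group
      rwa [e4, mul_inv_cancel_right, right_eq_mul] at this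
    have e4 := pow_gcd_eq_one.2 ⟨e2, e3⟩
    rw [Nat.coprime_two_right.2 (odd_pReg c), pow_one] at e4
    rw [hz, e4, one_mul]
  have h5 := D.cent_odd (H21.orderOf_pPart 2 g) h1 (odd_pReg c) (mul_inv_eq_iff_eq_mul.1 h4).symm
  rw [← H21.pPart_mul_pReg 2 c, (H21.commute_pPart_pReg 2 c).symm.mul_mul_mul_comm]
  exact mul_mem (D.sq_mem (H21.orderOf_pPart 2 c)) (mul_mem h5 h5)

theorem card_cent_dvd {j : G ⧸ Subgroup.center G} (hj : orderOf j = 2) :
    Nat.card (Subgroup.centralizer ({j} : Set (G ⧸ Subgroup.center G))) ∣ p - 1 := by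
  set U := (Subgroup.centralizer ({j} : Set (G ⧸ Subgroup.center G))).comap (QuotientGroup.mk' (Subgroup.center G))
  have h1 : (Subgroup.center G).relIndex U = Nat.card (Subgroup.centralizer ({j} : Set (G ⧸ Subgroup.center G))) := by
    have := Subgroup.relIndex_comap ⊥ (QuotientGroup.mk' (Subgroup.center G)) U
    rwa [MonoidHom.comap_bot, QuotientGroup.ker_mk', Subgroup.map_comap_eq_self_of_surjective
      (QuotientGroup.mk'_surjective _), Subgroup.relIndex_bot_left] at this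
  obtain ⟨a, n, hn, e⟩ := Nat.exists_eq_two_pow_mul_odd (Nat.card_pos (α := G)).ne'
  have h0 := D.irr.apply_one_ne_zero
  have h2 : ∀ z ∈ Subgroup.center G, Odd (orderOf z) → (ζ z / ζ 1) ^ n = 1 := fun z hz ho => by
    have e1 : ∀ k : ℕ, ζ (z ^ k) = (ζ z / ζ 1) ^ k * ζ 1 := fun k => by
      induction k with
      | zero => simp
      | succ k ih => rw [pow_succ', D.irr.apply_mul_of_mem_center hz, ih]; ring
    have e2 := e1 n
    rw [orderOf_dvd_iff_pow_eq_one.1 ((Nat.coprime_two_right.2 ho).pow_right a |>.dvd_of_dvd_mul_left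
      (e ▸ orderOf_dvd_natCard z))] at e2
    exact (mul_eq_right₀ h0).1 e2.symm
  have h3 : IsCharacter U fun u => ζ u ^ n := (D.irr.isCharacter.comp U.subtype).pow n
  obtain ⟨m, hm⟩ := h3.exists_classInner_eq_nat isCharacter_one
  have key := sum_subgroup_two_values U (Subgroup.center G) (f := fun u => ζ u ^ n) (a := ζ 1 ^ n) (b := -1)
    (fun u hu => by
      rw [← H21.pReg_mul_pPart 2 (u : G), D.irr.apply_mul_of_mem_center (H21.pReg_mem 2 hu),
        D.two _ (H21.pPart_mem 2 hu) (H21.orderOf_pPart 2 _), mul_pow, h2 _ (H21.pReg_mem 2 hu) (odd_pReg _), one_mul])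
    fun u hu => by
      have := D.sq_mem_of_cent hj u.2
      rw [D.apply_of_sq this hu, hn.neg_pow, h2 _ (pReg_mem this) (odd_pReg _)]
  rw [← classInner_one_right, hm, h1, ← D.irr.charDegree_eq] at key
  obtain ⟨b, hb⟩ : ∃ b, Nat.card (Subgroup.centralizer ({j} : Set (G ⧸ Subgroup.center G))) = 2 ^ b :=
    IsPGroup.exists_card_eq fun ⟨c, hc⟩ => ⟨1, Subtype.ext (by
      obtain ⟨c, rfl⟩ := QuotientGroup.mk_surjective c
      simpa [sq, ← QuotientGroup.mk_mul] using D.sq_mem_of_cent hj hc)⟩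
  rw [hb] at key ⊢
  have h4 : 2 ^ b ∣ charDegree ζ ^ n + 1 := ⟨m + 1, by
    have : ((charDegree ζ ^ n + 1 : ℕ) : ℂ) = (2 ^ b * (m + 1) : ℕ) := by
      push_cast at key ⊢; linear_combination -key
    exact_mod_cast this⟩
  have h5 : Odd (charDegree ζ) := by
    have := D.prime.odd_of_ne_two (by have := D.big; omega)
    rw [← D.deg] at this
    exact (Nat.odd_add.1 this).2 (by decide)
  rw [← D.deg]
  exact two_pow_dvd_of_odd h5 hn h4

theorem sl2 : Nat.card (G ⧸ Subgroup.center G) = p * (p - 1) * (p - 2) ∧ (∃ m, 1 ≤ m ∧ p - 1 = 2 ^ m) ∧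
    ∀ (F : Type*) [Field F] [Fintype F], Fintype.card F = p - 1 → Nonempty (G ⧸ Subgroup.center G ≃* SL(2, F)) := by
  set Q := G ⧸ Subgroup.center G
  have := Fintype.ofFinite Q
  have h1 := D.card_eq
  have h5 := D.big
  rw [Nat.card_eq_fintype_card (α := {x : Q // _}), Fintype.card_subtype] at h1
  have h2 : ∀ j : Q, orderOf j = 2 → Nat.card Q ≤ (p - 1) * (Finset.univ.filter (IsConj j)).card := fun j hj => by
    rw [card_filter_isConj, ← (Subgroup.centralizer ({j} : Set Q)).card_mul_index]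
    exact Nat.mul_le_mul_right _ (Nat.le_of_dvd (by omega) (D.card_cent_dvd hj))
  have h3 : ∀ j : Q, orderOf j = 2 → Finset.univ.filter (IsConj j) ⊆ Finset.univ.filter fun x => orderOf x = 2 :=
    fun j hj x hx => by simpa [← H08.orderOf_eq_of_isConj (Finset.mem_filter.1 hx).2] using hj
  obtain ⟨j, hj⟩ : ∃ j : Q, orderOf j = 2 := by
    by_contra! hc
    rw [Finset.filter_false_of_mem fun x _ => hc x, Finset.card_empty, add_zero] at h1
    have h4 := D.prime.odd_of_ne_two (by omega)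
    exact Nat.not_even_iff_odd.2 (h4.mul (Nat.Odd.sub_even D.prime.two_le h4 even_two).pow) (h1 ▸ even_two_mul _)
  have hpos : 0 < (p - 2) ^ 2 := pow_pos (by omega) 2
  have h4 : ∀ l : Q, orderOf l = 2 → IsConj j l := fun l hl => by
    by_contra hc
    have e1 := Finset.card_le_card (Finset.union_subset (h3 j hj) (h3 l hl))
    rw [Finset.card_union_of_disjoint (Finset.disjoint_filter.2 fun x _ e e' => hc (e.trans e'.symm))] at e1
    have e2 := h2 j hj
    have e3 := h2 l hl
    obtain ⟨r, rfl⟩ : ∃ r, p = r + 1 := ⟨p - 1, by omega⟩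
    rw [Nat.add_sub_cancel] at e2 e3
    nlinarith
  have h6 : (Finset.univ.filter fun x => orderOf x = 2) = Finset.univ.filter (IsConj j) :=
    (h3 j hj).antisymm' fun x hx => by simpa using h4 x (Finset.mem_filter.1 hx).2
  rw [h6, card_filter_isConj] at h1
  have h7 := (Subgroup.centralizer ({j} : Set Q)).card_mul_index
  have h8 : Nat.card (Subgroup.centralizer ({j} : Set Q)) = p - 1 := by
    obtain ⟨c, hc⟩ := D.card_cent_dvd hj
    obtain rfl : c = 1 := by
      by_contra e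
      have e1 : 2 ≤ c := by rcases c with _ | _ | c <;> omega
      have e2 : 2 * Nat.card (Subgroup.centralizer ({j} : Set Q)) ≤ p := by nlinarith [Nat.sub_le p 1]
      nlinarith [Nat.mul_le_mul_right (Subgroup.centralizer ({j} : Set Q)).index e2]
    exact (hc.trans (mul_one _)).symm
  have h10 : Nat.card Q = p * (p - 1) * (p - 2) := by
    obtain ⟨r, rfl⟩ : ∃ r, p = r + 2 := ⟨p - 2, by omega⟩
    rw [h8] at h7
    simp only [Nat.add_sub_cancel, show r + 2 - 1 = r + 1 from rfl] at h1 h7 ⊢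
    have h9 : (Subgroup.centralizer ({j} : Set Q)).index = (r + 2) * r :=
      Nat.eq_of_mul_eq_mul_left (show 0 < r by omega) (by nlinarith)
    rw [← h7, h9]; ring
  refine ⟨h10, sl2_of_cit hj (fun l hl hl1 => h4 l (H08.orderOf_eq_two_iff'.2 ⟨?_, hl1⟩)) h8
    (by rw [h10, Nat.sub_add_cancel D.prime.one_le]; rfl)⟩
  obtain ⟨c, rfl⟩ := QuotientGroup.mk_surjective l
  exact (QuotientGroup.eq_one_iff _).2 (D.sq_mem_of_cent hj hl)

end FeitD

end H19
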