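import Mathlib
import Cfsg.Agent.H19.FeitA

/-!
Feit's theorem on faithful characters of degree `p - 2` (namespace H19).
* `DOne.sum_sing` : sums of class functions over the `p`-singular elements.
* `DOne.a_eq_inv`, `DOne.orb_one_eq` (the case `[N : C] = 2`), `DOne.small_two`, `DOne.feitD`.
* `eq_sum_of_constituent`, `prod_center_of_quotient`, `feit_p_sub_two` : `G ≃ SL(2, p - 1) × Z(G)`.
-/

set_option linter.unusedSectionVars false

open H05 Cfsg Classical
open scoped ComplexConjugate MatrixGroups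

namespace H19

theorem eq_sum_of_constituent {G : Type*} [Group G] [Fintype G] {φ : G → ℂ} (hφ : IsCharacter G φ)
    {Z : Finset (IrrCharacter G)} (h : ∀ χ ∈ Z, classInner φ χ ≠ 0) (h1 : φ 1 = ∑ χ ∈ Z, (χ : G → ℂ) 1) :
    φ = ∑ χ ∈ Z, (χ : G → ℂ) := by
  refine sub_eq_zero.1 ((isCharacter_of_classInner (hφ.isClassFunction.sub
    (IsClassFunction.sum _ fun χ _ => χ.2.isClassFunction)) fun ξ hξ => ?_).eq_zero_of_apply_one (by simp [h1]))
  obtain ⟨n, hn⟩ := hφ.exists_classInner_eq_nat hξ.isCharacter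
  rw [classInner_sub_left, classInner_sum_left, hn]
  simp only [classInner_irr _ ⟨ξ, hξ⟩, Finset.sum_ite_eq']
  split_ifs with e
  · obtain ⟨m, rfl⟩ := Nat.exists_eq_succ_of_ne_zero (n := n) fun e' => h _ e (by rw [hn, e', Nat.cast_zero])
    exact ⟨m, by simp⟩
  · exact ⟨n, by simp⟩

namespace DOne

variable {p : ℕ} [hp : Fact p.Prime] {G P H : Type*} [Group G] [Group P] [Group H] (S : DOne p G P H)
variable [Fintype G] [Fintype P] [Fintype H]

theorem sum_sing {F : G → ℂ} (hF : IsClassFunction G F) : Nat.card S.N * ∑ g with p ∣ orderOf g, F g =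
    Nat.card G * ∑ y ∈ Finset.univ.erase 1, ∑ k : S.K, F (S.jP y * S.jH k) := by
  set A := ((Finset.univ.erase (1 : P)) ×ˢ (Finset.univ : Finset S.K)).image fun x => S.jP x.1 * S.jH x.2 with hA
  have h1 : ∀ g, g ∈ A ↔ ∃ y, y ≠ 1 ∧ ∃ k : S.K, S.jP y * S.jH k = g := fun g => by simp [hA]
  have h2 : ∀ x : G, ∑ g ∈ A, F g = ∑ g, if x * g * x⁻¹ ∈ A then F g else 0 := fun x => by
    rw [← Finset.sum_filter]
    exact Finset.sum_bij' (fun g _ => x⁻¹ * g * x) (fun g _ => x * g * x⁻¹)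
      (fun g hg => Finset.mem_filter.2 ⟨Finset.mem_univ _, by simpa [mul_assoc] using hg⟩)
      (fun g hg => (Finset.mem_filter.1 hg).2) (fun g _ => by group) (fun g _ => by group)
      fun g _ => by simpa using (hF g x⁻¹).symm
  rw [← Finset.sum_product', ← Finset.sum_image (f := F) (g := fun x : P × S.K => S.jP x.1 * S.jH x.2)
    fun x _ x' _ e => Prod.ext (S.eq_of_mul_eq e).1 (Subtype.ext (S.eq_of_mul_eq e).2), ← hA,
    Nat.card_eq_fintype_card (α := G), ← nsmul_eq_mul, ← nsmul_eq_mul, ← Finset.card_univ, ← Finset.sum_const,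
    Finset.sum_congr (s₁ := (Finset.univ : Finset G)) rfl fun x _ => h2 x,
    Finset.sum_comm (s := (Finset.univ : Finset G)), Finset.sum_filter, Finset.smul_sum]
  refine Finset.sum_congr rfl fun g _ => ?_
  rw [← Finset.sum_filter, Finset.sum_const]
  split_ifs with hg
  · obtain ⟨x, y, k, hy, e⟩ := S.exists_conj_of_dvd hg
    congr 1
    rw [Nat.card_eq_fintype_card, Fintype.card_subtype]
    refine Finset.card_bij (fun n _ => n * x) (fun n hn => ?_) (fun _ _ _ _ e => mul_right_cancel e) fun u hu => ?_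
    · obtain ⟨z, h, rfl⟩ := S.decomp n (Finset.mem_filter.1 hn).2
      refine Finset.mem_filter.2 ⟨Finset.mem_univ _, (h1 _).2 ⟨S.a h y, by simpa using hy,
        ⟨_, (MonoidHom.normal_ker _).conj_mem _ k.2 h⟩, ?_⟩⟩
      rw [← S.conj_mul z, ← e]; group
    · obtain ⟨y', -, k', e'⟩ := (h1 _).1 (Finset.mem_filter.1 hu).2
      obtain ⟨z, h, e2⟩ := S.exists_of_conj hy (g := u * x⁻¹) (y' := y') (k' := k') (by rw [e', ← e]; group)
      exact ⟨u * x⁻¹, Finset.mem_filter.2 ⟨Finset.mem_univ _, e2 ▸ mul_mem (S.memP z) (S.memH h)⟩, by simp⟩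
  · rw [Finset.filter_false_of_mem fun x _ hx => hg (by
      obtain ⟨y, hy, k, e⟩ := (h1 _).1 hx
      rw [← H08.orderOf_conj' x, ← e]; exact S.dvd_orderOf hy k)]
    simp

theorem a_eq_inv (hf : S.K.index = 2) {h : H} (hh : h ∉ S.K) (y : P) : S.a h y = y⁻¹ := by
  by_contra hc
  refine hh (S.mem_K_of_fix (mt eq_inv_of_mul_eq_one_left hc) ?_)
  rw [map_mul, ← MulAut.mul_apply, ← map_mul, MonoidHom.mem_ker.1 (S.K.mul_self_mem_of_index_two hf h),
    MulAut.one_apply, S.commP]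

theorem orb_one_eq (hf : S.K.index = 2) {nu : IrrCharacter P} (h : nu ≠ irrOne P) (y : P) :
    S.orb (irrOne S.K) nu y = (nu : P → ℂ) y + (nu : P → ℂ) y⁻¹ := by
  apply mul_left_cancel₀ (card_ne_zero_complex (G := S.K))
  have h1 := S.K.card_mul_index
  have h2 := Finset.card_filter_add_card_filter_not (s := Finset.univ) (· ∈ S.K)
  rw [Finset.card_univ, ← Nat.card_eq_fintype_card, ← h1, hf, ← Fintype.card_subtype, ← Nat.card_eq_fintype_card] at h2
  rw [S.card_K_mul_orb _ h, T_irrOne, Finset.filter_true_of_mem fun _ _ => Subgroup.mem_top _,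
    ← Finset.sum_filter_add_sum_filter_not _ (· ∈ S.K),
    Finset.sum_congr rfl fun g hg => by rw [MonoidHom.mem_ker.1 (Finset.mem_filter.1 hg).2, MulAut.one_apply],
    Finset.sum_congr (s₁ := Finset.univ.filter (· ∉ S.K)) rfl fun g hg => by
      rw [S.a_eq_inv hf (Finset.mem_filter.1 hg).2], Finset.sum_const, Finset.sum_const, ← Fintype.card_subtype,
    ← Nat.card_eq_fintype_card, show (Finset.univ.filter (· ∉ S.K)).card = Nat.card S.K by omega]
  simp [mul_add]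

theorem apply_of_T {ψ : IrrCharacter G} {θ : IrrCharacter S.K} (hT : S.T θ = ⊤) (y : P) (k : S.K)
    (h : Nat.card (S.T θ) * (ψ : G → ℂ) (S.jP y * S.jH k) = ∑ h : H, S.d ψ θ (S.a h y) * (S.cK h θ : S.K → ℂ) k) :
    (ψ : G → ℂ) (S.jP y * S.jH k) = S.d ψ θ y * (θ : S.K → ℂ) k := by
  have h1 : ∀ h, S.cK h θ = θ := fun h => S.mem_T.1 (hT ▸ Subgroup.mem_top h)
  simp only [← S.d_cK ψ.2.isClassFunction, h1, Finset.sum_const, Finset.card_univ, ← Nat.card_eq_fintype_card, hT,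
    Subgroup.card_top, nsmul_eq_mul] at h
  exact mul_left_cancel₀ card_ne_zero_complex h

theorem small_two {ζ : IrrCharacter G} (hd : charDegree (ζ : G → ℂ) + 2 = p)
    (hP : ∃ y, S.jP y ∉ charCenter (ζ : G → ℂ)) : S.K.index = 2 ∧ (∀ k : S.K, S.jH k ∈ charCenter (ζ : G → ℂ)) ∧
      (∃ nu, nu ≠ irrOne P ∧ ∀ y, y ≠ 1 → (ζ : G → ℂ) (S.jP y) = -S.orb (irrOne S.K) nu y) ∧
      ∃ Y : Finset (IrrCharacter G), ζ ∈ Y ∧ Y.card * 2 = p - 1 ∧
        (∀ ψ ∈ Y, ∀ g, ¬ p ∣ orderOf g → (ψ : G → ℂ) g = (ζ : G → ℂ) g) ∧ ∀ y, y ≠ 1 → ∀ k : S.K,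
          (ζ : G → ℂ) 1 * ∑ ψ ∈ Y, (ψ : G → ℂ) (S.jP y * S.jH k) = (ζ : G → ℂ) (S.jH k) := by
  have h0 := ζ.2.charDegree_pos
  obtain ⟨θ, hθ⟩ := S.not_dvd_deg_iff.1 fun h : p ∣ charDegree (ζ : G → ℂ) => by have := Nat.le_of_dvd h0 h; omega
  obtain ⟨X, Y, δ, ε, D⟩ := S.exists_desc θ
  obtain ⟨y₀, hy₀⟩ := hP
  obtain ⟨h1, -, h2⟩ := D.small hθ (by omega) ⟨y₀, fun e => hy₀ (charKer_le_charCenter (ζ.2.isCharacter.mem_charKer.2 e))⟩
  obtain ⟨nu, h3, h4⟩ := D.dY' h1
  have h5 := fun y hy => S.apply_P_of_d hθ h3 h4 (y := y) hy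
  rcases h2 with ⟨rfl, -, h2⟩ | ⟨rfl, h2, h6, h7, h8⟩
  · obtain ⟨X, Y, δ, ε, D⟩ := S.exists_desc (irrOne S.K)
    have h6 : S.K.index = 1 := Nat.eq_one_of_dvd_one (by
      have := Nat.dvd_sub (Dvd.intro_left _ D.cardY1) (Dvd.intro_left _ h2.symm)
      rwa [show p - 1 - charDegree (ζ : G → ℂ) = 1 by omega] at this)
    have h7 := S.card_K_mul_orb (irrOne S.K) h3 y₀
    rw [T_irrOne, Finset.filter_true_of_mem fun _ _ => Subgroup.mem_top _, Finset.sum_congr rfl fun g _ => by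
      rw [MonoidHom.mem_ker.1 (Subgroup.index_eq_one.1 h6 ▸ Subgroup.mem_top g : g ∈ S.K), MulAut.one_apply],
      Finset.sum_const, Finset.card_univ, ← Nat.card_eq_fintype_card, ← S.K.card_mul_index, h6, mul_one,
      nsmul_eq_mul, mul_right_inj' card_ne_zero_complex] at h7
    refine absurd (ζ.2.mem_charCenter.2 ?_) hy₀
    have := S.isCyclicP
    obtain ⟨φ, hφ⟩ := nu.2.exists_monoidHom_of_comm
    rw [h5 y₀ fun e => hy₀ (by simp [e]), h7, hφ, h2, h6]
    simp [norm_monoidHom_eq_one]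
  have h9 : ∀ k : S.K, (ζ : G → ℂ) (S.jH k) = (ζ : G → ℂ) 1 * (θ : S.K → ℂ) k := fun k => by
    have := S.apply_of_T h2 1 k ((D.deg_small hθ (by omega)).2 1 k)
    rwa [map_one, one_mul, ← mm_eq, h8, ζ.2.charDegree_eq] at this
  have h10 : S.K.index = 2 := by omega
  refine ⟨h10, fun k => ζ.2.mem_charCenter.2 ?_, ⟨nu, h3, fun y hy => by simp [h5 y hy, h6]⟩, Y, h1, ?_,
    fun ψ h g hg => D.eq_of_regular h h1 hg, fun y hy k => ?_⟩
  · obtain ⟨φ, hφ⟩ := θ.2.isCharacter.exists_monoidHom (by rw [← θ.2.charDegree_eq, h6, Nat.cast_one])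
    rw [h9, hφ, norm_mul, norm_monoidHom_eq_one, mul_one, ζ.2.isCharacter.norm_apply_one]
  · rw [← h10, ← D.cardY, e, h2, Subgroup.relIndex_top_right]
  · rw [Finset.sum_congr rfl fun ψ h => S.apply_of_T h2 y k (S.apply_of_mem_Blk ((D.mem ψ).2 (Or.inr h)) hy k),
      ← Finset.sum_mul, D.sumYd y hy, h9]
    simp

theorem feitD (h5 : 5 < p) {ζ : IrrCharacter G} (hd : charDegree (ζ : G → ℂ) + 2 = p)
    (hZ : charCenter (ζ : G → ℂ) = Subgroup.center G) (hP : ∃ y, S.jP y ∉ Subgroup.center G)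
    (two : ∀ z ∈ Subgroup.center G, (∃ a, orderOf z = 2 ^ a) → (ζ : G → ℂ) z = (ζ : G → ℂ) 1) : FeitD p (ζ : G → ℂ) := by
  obtain ⟨h1, h2, ⟨nu, h3, h4⟩, -⟩ := S.small_two hd (hZ ▸ hP)
  rw [hZ] at h2
  obtain ⟨y₀, hy₀⟩ := hP
  have h0 := ζ.2.apply_one_ne_zero
  have hone : (ζ : G → ℂ) 1 = p - 2 := by rw [← ζ.2.charDegree_eq, ← hd]; simp
  have hodd : ∀ y, Odd (orderOf (S.jP y)) := fun y =>
    (hp.out.odd_of_ne_two (by omega)).of_dvd_nat (orderOf_dvd_of_pow_eq_one (S.pow_P y))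
  refine ⟨hp.out, h5, ζ.2, hd, hZ, two, fun t h hc ht hh hh' => ?_, fun t h hc ht hh => ?_,
    fun h => hy₀ (S.P_le_of_dvd h y₀), ?_⟩
  · obtain ⟨a, n, hn, e⟩ := Nat.exists_eq_two_pow_mul_odd (Nat.card_pos (α := G)).ne'
    obtain ⟨k, k1, k2⟩ := Nat.chineseRemainder ((Nat.coprime_two_left.2 hn).pow_left (a + 1)) 1 2
    have k3 : k.Coprime (Nat.card G) := by
      rw [e]
      refine Nat.Coprime.mul_right ((Nat.coprime_two_right.2 ?_).pow_right a) ?_
      · exact Nat.odd_iff.2 (k1.of_dvd (dvd_pow_self 2 a.succ_ne_zero))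
      · rw [Nat.Coprime, k2.gcd_eq]; exact Nat.coprime_two_left.2 hn
    have k4 : ∀ t : G, (∃ a, orderOf t = 2 ^ a) → t ^ k = t := fun t ⟨b, hb⟩ =>
      (pow_eq_pow_iff_modEq.2 (k1.of_dvd (hb ▸ ((Nat.coprime_two_left.2 hn).pow_left b |>.dvd_of_dvd_mul_right
        (e ▸ hb ▸ orderOf_dvd_natCard t)).trans (pow_dvd_pow 2 a.le_succ)))).trans (pow_one t)
    have k5 : ∀ t : G, Odd (orderOf t) → t ^ k = t * t := fun t ht =>
      (pow_eq_pow_iff_modEq.2 (k2.of_dvd ((Nat.coprime_two_right.2 ht).pow_right a |>.dvd_of_dvd_mul_left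
        (e ▸ orderOf_dvd_natCard t)))).trans (sq t)
    have k6 : ∀ z ∈ Subgroup.center G, (ζ : G → ℂ) (z ^ k) = (ζ : G → ℂ) (z * z) := fun z hz => by
      have e1 := ζ.2.isCharacter.apply_mul_of_eq (two _ (H21.pPart_mem 2 hz) (H21.orderOf_pPart 2 z))
      rw [← H21.pPart_mul_pReg 2 z, (H21.commute_pPart_pReg 2 z).mul_pow, k4 _ (H21.orderOf_pPart 2 z),
        k5 _ (FeitD.odd_pReg z), (H21.commute_pPart_pReg 2 z).symm.mul_mul_mul_comm, mul_assoc, e1, e1, e1]
    set ζ' : IrrCharacter G := ⟨_, ζ.2.pow_comp k3⟩ with hζ'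
    have e1 : ∀ g, (ζ' : G → ℂ) g = (ζ : G → ℂ) (g ^ k) := fun _ => rfl
    have e2 : charDegree (ζ' : G → ℂ) = charDegree (ζ : G → ℂ) := by simp only [charDegree, e1, one_pow]
    obtain ⟨-, -, -, Y, e3, e4, e5, e6⟩ := S.small_two (e2 ▸ hd) ⟨y₀, fun e => hy₀ (mem_of_sq_mem (hodd y₀) (by
      rw [← hZ, ζ.2.mem_charCenter, ← k5 _ (hodd y₀), ← e2]; exact ζ'.2.mem_charCenter.1 e))⟩
    have e7 : ∀ g, p ∣ orderOf g → ((ζ : G → ℂ) g ^ 2 - (ζ : G → ℂ) (g * g)) / 2 =
        ∑ ψ ∈ Y.erase ζ', (ψ : G → ℂ) g := fun g hg => by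
      obtain ⟨x, y, z, hy, e⟩ := S.exists_conj_of_dvd hg
      have f1 := e6 y hy z
      have f2 : y * y ≠ 1 := fun e => hy (by
        have := hodd y
        rw [orderOf_injective _ S.injP] at this
        exact Subgroup.mem_bot.1 (mem_of_sq_mem this e))
      have := S.isCyclicP
      obtain ⟨φ, hφ⟩ := nu.2.exists_monoidHom_of_comm
      have f3 : (ζ : G → ℂ) (S.jP y) ^ 2 + (ζ : G → ℂ) (S.jP y * S.jP y) = 2 := by
        rw [← map_mul, h4 y hy, h4 _ f2, S.orb_one_eq h1 h3, S.orb_one_eq h1 h3, hφ]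
        simp only [map_mul, map_inv, mul_inv_rev, Units.val_mul]
        linear_combination 2 * (φ y).mul_inv
      have f4 : ∀ g, (ζ : G → ℂ) (g * S.jH z) = (ζ : G → ℂ) (S.jH z) / (ζ : G → ℂ) 1 * (ζ : G → ℂ) g := fun g => by
        rw [Subgroup.mem_center_iff.1 (h2 z), ζ.2.apply_mul_of_mem_center (h2 z)]
      rw [← Finset.add_sum_erase _ _ e3, e1 1, e1 (_ * _), e1 (S.jH _), one_pow, (S.commute_K y z).mul_pow, k5 _ (hodd y),
        Subgroup.mem_center_iff.1 (pow_mem (h2 z) k), ζ.2.apply_mul_of_mem_center (pow_mem (h2 z) k), k6 _ (h2 z),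
        f4] at f1
      rw [← ζ.2.isClassFunction g x, ← ζ.2.isClassFunction (g * g) x, ← _root_.conj_mul, e,
        Finset.sum_congr rfl fun ψ _ => by rw [← ψ.2.isClassFunction g x, e],
        (S.commute_K y z).symm.mul_mul_mul_comm, ← mul_assoc, f4, f4, f4]
      field_simp at f1 ⊢
      linear_combination (ζ : G → ℂ) (S.jH z) ^ 2 * f3 - 2 * f1
    have e8 := ζ.2.isCharacter.altSq
    have e9 : ∀ g, ¬ p ∣ orderOf g → ∑ ψ ∈ Y.erase ζ', (ψ : G → ℂ) g = (p - 3) / 2 * (ζ : G → ℂ) (g ^ k) :=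
      fun g hg => by
      rw [Finset.sum_congr rfl fun ψ h => e5 ψ (Finset.mem_of_mem_erase h) g hg, Finset.sum_const,
        Finset.card_erase_of_mem e3, nsmul_eq_mul, e1, Nat.cast_sub (by omega)]
      have : (Y.card : ℂ) * 2 + 1 = p := by exact_mod_cast (by omega : Y.card * 2 + 1 = p)
      rw [← this]; ring
    have e10 := eq_sum_of_constituent e8 (Z := Y.erase ζ') (fun ψ h => by
      have f1 : classInner ((fun g => ((ζ : G → ℂ) g ^ 2 - (ζ : G → ℂ) (g * g)) / 2) -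
          ∑ ψ ∈ Y.erase ζ', (ψ : G → ℂ)) ((ψ : G → ℂ) - (ζ' : G → ℂ)) = 0 := by
        rw [classInner_def, Finset.sum_eq_zero fun g _ => ?_, mul_zero]
        by_cases hg : p ∣ orderOf g
        · simp [e7 g hg]
        · simp [e5 ψ (Finset.mem_of_mem_erase h) g hg]
      obtain ⟨m, hm⟩ := e8.exists_classInner_eq_nat ζ'.2.isCharacter
      simp only [classInner_sub_left, classInner_sub_right, classInner_sum_left, classInner_irr, Finset.sum_sub_distrib,
        Finset.sum_ite_eq', h, Finset.notMem_erase, if_true, if_false, hm] at f1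
      rw [show classInner _ (ψ : G → ℂ) = (m + 1 : ℕ) by push_cast; linear_combination f1]
      exact_mod_cast m.succ_ne_zero) (by
        rw [e9 1 (by simpa using hp.out.one_lt.ne'), one_pow, mul_one, hone]; ring)
    have hg : ¬ p ∣ orderOf (t * h) := fun hg => by
      obtain ⟨b, hb⟩ := ht
      rcases (Nat.Prime.dvd_mul hp.out).1 (hg.trans hc.orderOf_mul_dvd_mul_orderOf) with e | e
      · have := Nat.le_of_dvd two_pos (hp.out.dvd_of_dvd_pow (hb ▸ e)); omega
      · exact hh' e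
    have e11 := congrFun e10 (t * h)
    rw [Finset.sum_apply, e9 _ hg, hc.mul_pow, k4 t ht, k5 h hh] at e11
    linear_combination 2 * e11
  · obtain ⟨x, y, z, hy, e⟩ := S.exists_conj_of_dvd hh
    have e1 : Commute (x * t * x⁻¹) (S.jP y) := by
      rw [← S.pPart_eq y z, ← e]; exact H21.commute_pPart p (hc.conj x)
    obtain ⟨b, hb⟩ := ht
    obtain ⟨k, hk⟩ := S.exists_K_of_regular (S.centralizer_P hy ▸ Subgroup.mem_centralizer_singleton_iff.2 e1) (by
      rw [H08.orderOf_conj', hb]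
      exact fun e => by have := Nat.le_of_dvd two_pos (hp.out.dvd_of_dvd_pow e); omega)
    have := (inferInstance : (Subgroup.center G).Normal).conj_mem _ (hk ▸ h2 k) x⁻¹
    rwa [show x⁻¹ * (x * t * x⁻¹) * x⁻¹⁻¹ = t by group] at this
  · have e1 := S.sum_sing (F := fun g => (ζ : G → ℂ) g * conj ((ζ : G → ℂ) g)) fun g x => by
      simp only [ζ.2.isClassFunction g x]
    rw [Finset.sum_congr (s₁ := Finset.univ.erase 1) rfl (g := fun y => Nat.card S.K *
      (S.orb (irrOne S.K) nu y * conj (S.orb (irrOne S.K) nu y))) fun y hy => by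
        rw [Finset.sum_congr rfl (g := fun _ => S.orb (irrOne S.K) nu y * conj (S.orb (irrOne S.K) nu y)) fun k _ => by
          rw [Subgroup.mem_center_iff.1 (h2 k), ζ.2.apply_mul_of_mem_center (h2 k), h4 y (Finset.mem_erase.1 hy).1,
            Complex.mul_conj', Complex.mul_conj', norm_mul, norm_div, ζ.2.norm_eq_of_mem_center (h2 k),
            ζ.2.isCharacter.norm_apply_one, div_self (by exact_mod_cast ζ.2.charDegree_pos.ne'), one_mul, norm_neg],
          Finset.sum_const, Finset.card_univ, ← Nat.card_eq_fintype_card, nsmul_eq_mul],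
      ← Finset.mul_sum, S.sum_orb_mul_conj h3 h3, if_pos ((S.rel_equivalence _).refl _), S.card_N,
      ← S.K.card_mul_index, h1] at e1
    simp only [Complex.mul_conj'] at e1
    have e2 : (p : ℂ) * ∑ g with p ∣ orderOf g, (‖(ζ : G → ℂ) g‖ : ℂ) ^ 2 = Nat.card G * (p - 2) := by
      apply mul_left_cancel₀ (mul_ne_zero (card_ne_zero_complex (G := S.K)) two_ne_zero)
      push_cast at e1
      linear_combination e1
    exact_mod_cast e2

end DOne

theorem pow_index_mem_comm {X : Type*} [Group X] (U : Subgroup X) [U.FiniteIndex] {z : X}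
    (hz : z ∈ Subgroup.center X) (hz' : z ∈ commutator X) : z ^ U.index ∈ ⁅U, U⁆ := by
  have h1 := MonoidHom.transfer_eq_pow (Abelianization.of : U →* _) z (fun k g₀ _ => by
    rw [mul_assoc, ← Subgroup.mem_center_iff.1 (pow_mem hz k) g₀, inv_mul_cancel_left])
  have h2 : MonoidHom.transfer (Abelianization.of : U →* _) z = 1 :=
    Abelianization.commutator_subset_ker _ hz'
  rw [h2, eq_comm, ← MonoidHom.mem_ker, Abelianization.ker_of] at h1
  rw [← Subgroup.map_subtype_commutator]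
  exact Subgroup.mem_map_of_mem _ h1

theorem prod_center_of_quotient {G L : Type*} [Group G] [Group L] (e : G ⧸ Subgroup.center G ≃* L)
    (hL : commutator L = ⊤) (h : commutator G ⊓ Subgroup.center G = ⊥) : Nonempty (G ≃* L × Subgroup.center G) := by
  let f : commutator G →* L := e.toMonoidHom.comp ((QuotientGroup.mk' _).comp (commutator G).subtype)
  have hs : Function.Surjective (e.toMonoidHom.comp (QuotientGroup.mk' (Subgroup.center G))) :=
    e.surjective.comp (QuotientGroup.mk'_surjective _)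
  have h1 : Function.Bijective f := ⟨(injective_iff_map_eq_one f).2 fun x hx => Subtype.ext (Subgroup.mem_bot.1
    (h ▸ ⟨x.2, (QuotientGroup.eq_one_iff _).1 (e.map_eq_one_iff.1 hx)⟩)), fun l => by
      obtain ⟨g, hg, rfl⟩ : l ∈ (commutator G).map (e.toMonoidHom.comp (QuotientGroup.mk' (Subgroup.center G))) := by
        rw [map_commutator_eq, MonoidHom.range_eq_top.2 hs, ← commutator_def, hL]; trivial
      exact ⟨⟨g, hg⟩, rfl⟩⟩
  let φ : commutator G × Subgroup.center G →* G := (commutator G).subtype.noncommCoprod (Subgroup.center G).subtype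
    fun a b => Subgroup.mem_center_iff.1 b.2 a
  have h2 : Function.Bijective φ := ⟨(injective_iff_map_eq_one φ).2 fun x hx => by
      have e1 : (x.1 : G) = (x.2 : G)⁻¹ := eq_inv_of_mul_eq_one_left hx
      have e2 : (x.1 : G) = 1 := Subgroup.mem_bot.1 (h ▸ ⟨x.1.2, e1 ▸ (Subgroup.center G).inv_mem x.2.2⟩)
      exact Prod.ext (Subtype.ext e2) (Subtype.ext (inv_eq_one.1 (e1 ▸ e2))), fun g => by
      obtain ⟨c, hc⟩ := h1.2 (e g)
      exact ⟨(c, ⟨(c : G)⁻¹ * g, QuotientGroup.eq.1 (e.injective hc)⟩), mul_inv_cancel_left _ _⟩⟩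
  exact ⟨(MulEquiv.ofBijective φ h2).symm.trans ((MulEquiv.ofBijective f h1).prodCongr (MulEquiv.refl _))⟩

theorem exists_orderOf_sl2 (F : Type*) [Field F] [Fintype F] : ∃ g : SL(2, F), orderOf g = Fintype.card F - 1 := by
  obtain ⟨a, ha⟩ := IsCyclic.exists_ofOrder_eq_natCard (α := Fˣ)
  let f : Fˣ →* SL(2, F) := MonoidHom.mk' (fun a => ⟨!![(a : F), 0; 0, (a : F)⁻¹], by simp [Matrix.det_fin_two]⟩)
    fun a b => Subtype.ext (show !![((a * b :) : F), 0; 0, ((a * b :) : F)⁻¹] =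
      !![(a : F), 0; 0, (a : F)⁻¹] * !![(b : F), 0; 0, (b : F)⁻¹] by simp [mul_comm])
  refine ⟨f a, ?_⟩
  rw [orderOf_injective f fun a b e => Units.ext (congrFun (congrFun (congrArg Subtype.val e) 0) 0), ha,
    Nat.card_eq_fintype_card, Fintype.card_units]

theorem feit_p_sub_two {G : Type*} [Group G] [Finite G] {p : ℕ} [hp : Fact p.Prime] (h5 : 5 < p) (P : Sylow p G)
    (hP : Nat.card P = p) (hnn : ¬ (P : Subgroup G).Normal) {ζ : G → ℂ} (hζ : IsIrrCharacter G ζ)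
    (hker : charKer ζ = ⊥) (hd : charDegree ζ + 2 = p) : (∃ m, 1 ≤ m ∧ p - 1 = 2 ^ m) ∧
      ∀ (F : Type*) [Field F] [Fintype F], Fintype.card F = p - 1 → Nonempty (G ≃* SL(2, F) × Subgroup.center G) := by
  have := Fintype.ofFinite G
  have := Fintype.ofFinite P
  obtain ⟨H, _, _, S, hS⟩ := exists_dOne' P hP
  obtain ⟨a, n, hn, e⟩ := Nat.exists_eq_two_pow_mul_odd (Nat.card_pos (α := G)).ne'
  have h1 : Odd (charDegree ζ) := by
    have := hp.out.odd_of_ne_two (by omega)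
    rw [← hd] at this
    exact (Nat.odd_add.1 this).2 (by decide)
  obtain ⟨r, hr⟩ : ∃ r, charDegree ζ * r + 1 ≡ 0 [MOD 2 ^ a] := by
    obtain ⟨r, hr⟩ := Nat.exists_mul_mod_eq_of_coprime (2 ^ a - 1) ((Nat.coprime_two_right.2 h1).pow_right a)
      (pow_ne_zero a two_ne_zero)
    refine ⟨r, (Nat.ModEq.add_right 1 hr.2).trans ?_⟩
    rw [Nat.sub_add_cancel Nat.one_le_two_pow]
    exact Nat.modEq_zero_iff_dvd.2 dvd_rfl
  have h0 := hζ.apply_one_ne_zero
  have h2 : ∀ z ∈ Subgroup.center G, (H07.detHom ζ z : ℂ) = (ζ z / ζ 1) ^ charDegree ζ := fun z hz =>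
    H07.detHom_of_scalar hζ.isCharacter (hζ.apply_mul_of_mem_center hz)
  have h3 : ∀ z ∈ Subgroup.center G, ∀ k : ℕ, ζ (z ^ k) = (ζ z / ζ 1) ^ k * ζ 1 := fun z hz k => by
    induction k with
    | zero => simp
    | succ k ih => rw [pow_succ', hζ.apply_mul_of_mem_center hz, ih]; ring
  have h4 := hζ.mul_monoidHom (H07.detHom ζ ^ r)
  have h6 : charDegree (fun g => ζ g * (H07.detHom ζ ^ r) g) = charDegree ζ := by simp only [charDegree, map_one]; simp
  have D := S.feitD h5 (ζ := ⟨_, h4⟩) (h6 ▸ hd) (by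
      ext g
      rw [h4.mem_charCenter, h6, norm_mul, norm_monoidHom_eq_one, mul_one, ← hζ.mem_charCenter,
        charCenter_eq_center_of_charKer_eq_bot hker])
    (by
      by_contra! hc
      exact hnn ⟨fun y hy g => by
        obtain ⟨z, hz⟩ : y ∈ S.jP.range := by rw [hS]; exact hy
        rwa [Subgroup.mem_center_iff.1 (hz ▸ hc z) g, mul_inv_cancel_right]⟩)
    fun z hz ⟨b, hb⟩ => by
      have e1 := h3 z hz (charDegree ζ * r + 1)
      rw [orderOf_dvd_iff_pow_eq_one.1 ((hb ▸ (Nat.coprime_two_left.2 hn).pow_left b |>.dvd_of_dvd_mul_right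
        (e ▸ orderOf_dvd_natCard z)).trans (Nat.modEq_zero_iff_dvd.1 hr))] at e1
      simp only [map_one, Units.val_one, mul_one, MonoidHom.pow_apply, Units.val_pow_eq_pow_val, h2 z hz]
      rw [pow_succ, pow_mul, mul_assoc, div_mul_cancel₀ _ h0] at e1
      rw [mul_comm, ← e1]
  obtain ⟨h7, h8, h9⟩ := D.sl2
  refine ⟨h8, fun F _ _ hF => ?_⟩
  obtain ⟨φ⟩ := h9 F hF
  obtain ⟨x, hx⟩ := IsCyclic.exists_ofOrder_eq_natCard (α := Fˣ)
  refine prod_center_of_quotient φ (Matrix.SL2.commutator_eq_top x.ne_zero fun e => ?_) (eq_bot_iff.2 fun z hz => ?_)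
  · have := orderOf_le_of_pow_eq_one two_pos (Units.ext e : x ^ 2 = 1)
    rw [hx, Nat.card_eq_fintype_card, Fintype.card_units, hF] at this
    omega
  obtain ⟨u, hu⟩ := exists_orderOf_sl2 F
  set U := (Subgroup.zpowers (φ.symm u)).comap (QuotientGroup.mk' (Subgroup.center G))
  have e1 : U.index = p * (p - 1) := by
    rw [Subgroup.index_comap_of_surjective _ (QuotientGroup.mk'_surjective _)]
    have := (Subgroup.zpowers (φ.symm u)).card_mul_index
    rw [Nat.card_zpowers, MulEquiv.orderOf_eq, hu, h7, hF, mul_comm] at this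
    exact Nat.eq_of_mul_eq_mul_right (by omega) this
  have e2 := pow_index_mem_comm U hz.2 hz.1
  have e3 : ⁅U, U⁆ = ⊥ := Subgroup.commutator_eq_bot_iff_le_centralizer.2 fun x hx y hy => by
    obtain ⟨v, hv⟩ := QuotientGroup.mk_surjective (φ.symm u)
    obtain ⟨i, hi⟩ := hx
    obtain ⟨j, hj⟩ := hy
    simp only [← hv, QuotientGroup.mk'_apply, ← QuotientGroup.mk_zpow, QuotientGroup.eq] at hi hj
    rw [← mul_inv_cancel_left (v ^ i) x, ← mul_inv_cancel_left (v ^ j) y]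
    exact (((Commute.refl v).zpow_zpow j i).mul_right (Subgroup.mem_center_iff.1 hi _)).mul_left
      (Subgroup.mem_center_iff.1 hj _).symm
  rw [e1, e3, Subgroup.mem_bot] at e2
  have e4 : z ^ charDegree ζ = 1 := Subgroup.mem_bot.1 (hker ▸ hζ.isCharacter.mem_charKer.2 (by
    rw [h3 z hz.2, ← h2 z hz.2, MonoidHom.mem_ker.1 (Abelianization.commutator_subset_ker _ hz.1)]; simp))
  have e5 := pow_gcd_eq_one.2 ⟨e2, e4⟩
  rwa [show (p * (p - 1)).gcd (charDegree ζ) = 1 by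
    rw [← hd]
    exact Nat.Coprime.mul_left (by simpa using h1) (by simp), pow_one] at e5

end H19
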