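import Mathlib
import Cfsg.Agent.H19.FeitB
import Cfsg.Agent.H19.Brauer43
import Cfsg.Agent.H19.FieldCoords
import Cfsg.Agent.H08.Small
import Cfsg.Agent.H07.Glb2
import Cfsg.Agent.H21.Major
import Cfsg.Agent.H05.RepEquiv
import Cfsg.Agent.L.PSL2Max
import Cfsg.Agent.H18.Prim
import Cfsg.Agent.H18.PrimeDegree

/-!
Groups with a Sylow subgroup `P` of prime order `p` and `|N(P)| = 2p` (namespace H19).
* `eq_top_of_forall_irr`, `DOne.sum_lin_le`, `DOne.lin_eq_deg_of_dvd`
* `DOne.Two ξ Y δ` (principal block `{1, ξ} ∪ Y` when `C(P) = P`, `|N(P) : P| = 2`), `DOne.exists_two`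
* `DOne.Two.sl2` (`ξ(1) = p - 1` gives `SL(2, p - 1)`), `sl2_of_perm`, `sl2_of_action` (the same from a
  primitive action of degree `p` or `2p`)
* `not_index_two_mul` (`SL(2, 2^m)`, `m ≥ 3`, has no maximal subgroup of index `2 (q + 1)`)
-/

open H05 Cfsg Classical
open scoped ComplexConjugate MatrixGroups

namespace H19

theorem eq_top_of_forall_irr {G : Type*} [Group G] [Finite G] {M : Subgroup G} [M.Normal]
    (h : ∀ χ : IrrCharacter G, M ≤ charKer (χ : G → ℂ) → χ = irrOne G) : M = ⊤ :=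
  eq_top_iff.2 fun g _ => (QuotientGroup.eq_one_iff g).1 (eq_one_of_forall_irr fun θ => by
    have h1 := θ.2.comp_of_surjective (QuotientGroup.mk' M) (QuotientGroup.mk'_surjective M)
    have h2 := congrArg Subtype.val (h ⟨_, h1⟩ fun x hx => h1.isCharacter.mem_charKer.2 (by
      simp [(QuotientGroup.eq_one_iff x).2 hx]))
    exact (congrFun h2 g).trans (congrFun h2 1).symm)

namespace DOne

variable {p : ℕ} [hp : Fact p.Prime] {G P H : Type*} [Group G] [Group P] [Group H] (S : DOne p G P H)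
variable [Fintype G] [Fintype P] [Fintype H]

theorem sum_lin_le {φ : G → ℂ} (hφ : IsCharacter G φ) {Z : Finset (IrrCharacter G)}
    (h : ∀ χ ∈ Z, classInner φ χ ≠ 0) : ∑ χ ∈ Z, S.lin χ ≤ S.lin φ := by
  obtain ⟨m, hm, e⟩ := hφ.exists_nat_coeff
  rw [e, lin_sum]
  exact (Finset.sum_le_sum fun χ hχ => Nat.le_mul_of_pos_left _
    (Nat.pos_of_ne_zero fun h0 => h χ hχ (by simp [hm, h0]))).trans
    (Finset.sum_le_sum_of_subset (Finset.subset_univ _))

theorem lin_eq_deg_of_dvd {χ : IrrCharacter G} (h : p ∣ Nat.card (charKer (χ : G → ℂ))) :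
    S.lin χ = charDegree (χ : G → ℂ) := by
  have := S.lin_of_const χ.2.isCharacter (c := charDegree (χ : G → ℂ)) fun y _ => by
    rw [χ.2.isCharacter.mem_charKer.1 (S.P_le_of_dvd h y), ← χ.2.charDegree_eq, Int.cast_natCast]
  exact_mod_cast mul_left_cancel₀ (Nat.cast_ne_zero.2 hp.out.ne_zero : (p : ℤ) ≠ 0)
    (show (p : ℤ) * S.lin χ = p * charDegree (χ : G → ℂ) by rw [this]; ring)

/-- The principal block when `C(P) = P` and `|N(P) : P| = 2`. -/
structure Two (ξ : IrrCharacter G) (Y : Finset (IrrCharacter G)) (δ : ℤ) : Prop where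
  ne : ξ ≠ irrOne G
  nξ : ξ ∉ Y
  n1 : irrOne G ∉ Y
  sign : δ = 1 ∨ δ = -1
  card : Y.card * 2 = p - 1
  mem : ∀ χ : IrrCharacter G, ¬ p ∣ charDegree (χ : G → ℂ) → χ = irrOne G ∨ χ = ξ ∨ χ ∈ Y
  linX : (p * S.lin ξ : ℤ) = charDegree (ξ : G → ℂ) + (p - 1) * δ
  linY : ∀ ψ ∈ Y, (p * S.lin ψ : ℤ) = charDegree (ψ : G → ℂ) - δ * 2
  valX : ∀ y, y ≠ 1 → (ξ : G → ℂ) (S.jP y) = δ
  reg : ∀ ψ ∈ Y, ∀ g, ¬ p ∣ orderOf g → (ψ : G → ℂ) g = (ξ : G → ℂ) g + δ

theorem exists_two (h3 : 3 < p) (hK : S.K = ⊥) (hH : Nat.card H = 2) : ∃ ξ Y δ, S.Two ξ Y δ := by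
  obtain ⟨X, Y, δ, ε, D⟩ := S.exists_desc (irrOne S.K)
  have h1 : S.K.index = 2 := (S.index_K hK).trans hH
  have h2 : irrOne G ∉ Y := fun h => by
    have := D.lin_Y h
    rw [lin_irrOne, charDegree_irrOne, h1] at this
    rcases D.sign with rfl | rfl <;> omega
  have h4 : irrOne G ∈ X := ((D.mem _).1 S.irrOne_mem_Blk).resolve_right h2
  obtain ⟨ξ, h5⟩ := Finset.card_eq_one.1 (show (X.erase (irrOne G)).card = 1 by
    rw [Finset.card_erase_of_mem h4, D.cardX1, h1])
  have h6 : ξ ∈ X.erase (irrOne G) := h5 ▸ Finset.mem_singleton_self ξ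
  have h7 : ∀ ψ ∈ Y, ∀ g, ¬ p ∣ orderOf g → ε * (ψ : G → ℂ) g = 1 + δ ξ * (ξ : G → ℂ) g := fun ψ h g hg => by
    rw [D.reg ψ h g hg, ← Finset.add_sum_erase _ _ h4, h5, D.δ_irrOne h4]; simp
  have h8 : ε = δ ξ := by
    obtain ⟨ψ, h⟩ := D.Y_nonempty
    have := h7 ψ h 1 (by simpa using hp.out.one_lt.ne')
    rw [← ψ.2.charDegree_eq, ← ξ.2.charDegree_eq] at this
    have e : ε * charDegree (ψ : G → ℂ) = 1 + δ ξ * charDegree (ξ : G → ℂ) := by exact_mod_cast this
    have := ψ.2.charDegree_pos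
    have := ξ.2.charDegree_pos
    rcases D.sign with rfl | rfl <;> rcases D.signX ξ (Finset.mem_of_mem_erase h6) with e' | e' <;>
      rw [e'] at e ⊢ <;> omega
  refine ⟨ξ, Y, ε, (Finset.mem_erase.1 h6).1, Finset.disjoint_left.1 D.disj (Finset.mem_of_mem_erase h6), h2, D.sign,
    h1 ▸ D.cardY1, fun χ h => ?_, h8 ▸ D.lin_X (Finset.mem_of_mem_erase h6), fun ψ h => by rw [D.lin_Y h, h1]; rfl,
    fun y hy => by simpa [h8] using D.val_X (Finset.mem_of_mem_erase h6) hy 1, fun ψ h g hg => ?_⟩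
  · obtain ⟨θ, hθ⟩ := S.not_dvd_deg_iff.1 h
    rw [S.irr_eq_of_K hK θ, D.mem] at hθ
    rcases hθ with e | e
    · exact or_iff_not_imp_left.2 fun e' => Or.inl (Finset.mem_singleton.1 (h5 ▸ Finset.mem_erase.2 ⟨e', e⟩))
    · exact Or.inr (Or.inr e)
  · have := h7 ψ h g hg
    rw [← h8] at this
    rcases D.sign with rfl | rfl <;> push_cast at this ⊢ <;> [linear_combination this; linear_combination -this]

theorem K_eq_bot_of_card (h2 : 2 < p) (hH : Nat.card H = 2)
    (hM : ∀ M : Subgroup G, M.Normal → M ≠ ⊥ → p ∣ Nat.card M) : S.K = ⊥ := by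
  have := Fact.mk Nat.prime_two
  refine (S.K.eq_bot_or_eq_top_of_prime_card (hp := hH ▸ this)).resolve_right fun hK => ?_
  obtain ⟨X, Y, δ, ε, D⟩ := S.exists_desc (irrOne S.K)
  have h1 : S.K.index = 1 := by rw [hK, Subgroup.index_top]
  have h4 : irrOne G ∈ X := ((D.mem _).1 S.irrOne_mem_Blk).resolve_right fun h => by
    have := D.lin_Y h
    rw [lin_irrOne, charDegree_irrOne, h1] at this
    rcases D.sign with rfl | rfl <;> omega
  obtain ⟨χ, rfl⟩ := Finset.card_eq_one.1 (D.cardX1.trans h1)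
  obtain rfl := Finset.mem_singleton.1 h4
  obtain ⟨ψ, h⟩ := D.Y_nonempty
  have h5 := D.reg ψ h
  have h6 := D.deg_eq h
  have h7 := D.lin_Y h
  simp only [Finset.sum_singleton, D.δ_irrOne h4, charDegree_irrOne, h1] at h5 h6 h7
  have := ψ.2.charDegree_pos
  obtain rfl : ε = 1 := D.sign.resolve_right (by rintro rfl; omega)
  have h8 : charKer (ψ : G → ℂ) = ⊥ := by_contra fun e => S.not_dvd_charKer (χ := ψ) (by
    have : (p : ℤ) * S.lin ψ = 0 := by omega
    simpa [hp.out.ne_zero] using this) (hM _ inferInstance e)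
  have : Nontrivial H := Finite.one_lt_card_iff_nontrivial.1 (by omega)
  obtain ⟨k, hk⟩ := _root_.exists_ne (1 : H)
  refine hk ((map_eq_one_iff _ S.injH).1 (Subgroup.mem_bot.1 (h8 ▸ ψ.2.isCharacter.mem_charKer.2 ?_)))
  simpa using (h5 _ (S.not_dvd_orderOf_H k)).trans (h5 1 (by simpa using hp.out.one_lt.ne')).symm

variable {S} {ξ : IrrCharacter G} {Y : Finset (IrrCharacter G)} {δ : ℤ} (T : S.Two ξ Y δ)
include T

theorem Two.deg {ψ : IrrCharacter G} (h : ψ ∈ Y) : (charDegree (ψ : G → ℂ) : ℤ) = charDegree (ξ : G → ℂ) + δ := by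
  have := T.reg ψ h 1 (by simpa using hp.out.one_lt.ne')
  rw [← ψ.2.charDegree_eq, ← ξ.2.charDegree_eq] at this
  exact_mod_cast this

theorem Two.inner {π : G → ℂ} (h0 : ∀ g, p ∣ orderOf g → π g = 0) {ψ : IrrCharacter G} (h : ψ ∈ Y) :
    classInner π ψ = classInner π ξ + δ * classInner π 1 := by
  simp only [classInner_def, Finset.mul_sum, ← Finset.sum_add_distrib]
  refine Finset.sum_congr rfl fun g _ => ?_
  by_cases hg : p ∣ orderOf g
  · simp [h0 g hg]
  · simp [T.reg ψ h g hg]; ring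

variable (hM : ∀ M : Subgroup G, M.Normal → M ≠ ⊥ → p ∣ Nat.card M)
include hM

omit T in
theorem charKer_eq_bot {χ : IrrCharacter G} (h : S.lin χ ≠ charDegree (χ : G → ℂ)) : charKer (χ : G → ℂ) = ⊥ :=
  by_contra fun e => h (S.lin_eq_deg_of_dvd (hM _ inferInstance e))

theorem Two.normal {ψ : IrrCharacter G} (h : ψ ∈ Y) (h0 : S.lin ψ = 0) : S.jP.range.Normal := by
  have h1 := T.linY ψ h
  have h2 := T.deg h
  have h3 := ψ.2.charDegree_pos
  rw [h0, Nat.cast_zero, mul_zero] at h1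
  obtain rfl : δ = 1 := T.sign.resolve_right (by rintro rfl; omega)
  have h4 : (ξ : G → ℂ) 1 = 1 := by rw [← ξ.2.charDegree_eq, show charDegree (ξ : G → ℂ) = 1 by omega, Nat.cast_one]
  have h5 := charKer_eq_bot (S := S) hM (χ := ψ) (by omega)
  have h6 : S.jP.range ≤ charKer (ξ : G → ℂ) := by
    rintro _ ⟨y, rfl⟩
    by_cases hy : y = 1
    · simp [hy]
    · rw [ξ.2.isCharacter.mem_charKer, T.valX y hy, h4, Int.cast_one]
  obtain ⟨n, hn⟩ : ∃ n, Nat.card (charKer (ξ : G → ℂ)) = p ^ n :=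
    ⟨_, Nat.eq_prime_pow_of_unique_prime_dvd Nat.card_pos.ne' fun {r} hr hd => by_contra fun e => by
      have := Fact.mk hr
      obtain ⟨x, hx⟩ := exists_prime_orderOf_dvd_card' r hd
      have h7 : (x : G) ∈ charKer (ψ : G → ℂ) := by
        rw [ψ.2.isCharacter.mem_charKer, T.reg ψ h 1 (by simpa using hp.out.one_lt.ne'), T.reg ψ h x (by
          rw [Subgroup.orderOf_coe, hx, Nat.prime_dvd_prime_iff_eq hp.out hr]; exact Ne.symm e),
          ξ.2.isCharacter.mem_charKer.1 x.2]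
      rw [h5, Subgroup.mem_bot, OneMemClass.coe_eq_one] at h7
      exact hr.one_lt.ne (by rw [← hx, h7, orderOf_one])⟩
  rw [Subgroup.eq_of_le_of_card_ge h6 (by
    rw [hn, (Nat.card_congr (MonoidHom.ofInjective S.injP).toEquiv).symm.trans S.cardP]
    exact (Nat.pow_le_pow_right hp.out.pos (show n ≤ 1 from not_lt.1 fun e => S.cardG ((pow_dvd_pow p e).trans
      (hn ▸ Subgroup.card_subgroup_dvd_card _)))).trans (pow_one p).le)]
  infer_instance

theorem Two.simple (h3 : 3 < p) (hd : charDegree (ξ : G → ℂ) + 1 = p) : IsSimpleGroup G := by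
  have h1 := T.linX
  have h2 : δ = -1 ∧ S.lin ξ = 0 := by
    rw [show (charDegree (ξ : G → ℂ) : ℤ) = p - 1 by omega] at h1
    rcases T.sign with rfl | rfl
    · have := Int.le_of_dvd two_pos (show (p : ℤ) ∣ 2 from ⟨2 - S.lin ξ, by linear_combination h1⟩)
      omega
    · exact ⟨rfl, by simpa [hp.out.ne_zero] using show (p : ℤ) * S.lin ξ = 0 by linear_combination h1⟩
  obtain ⟨y, hy⟩ := S.exists_ne
  have : Nontrivial G := ⟨_, _, (map_ne_one_iff _ S.injP).2 hy⟩
  refine ⟨fun M _ => or_iff_not_imp_left.2 fun e => eq_top_of_forall_irr fun χ h => ?_⟩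
  have h4 := (hM M ‹_› e).trans (Subgroup.card_dvd_of_le h)
  have h5 := S.lin_eq_deg_of_dvd h4
  have h6 := χ.2.charDegree_pos
  rcases T.mem χ fun hd => χ.2.apply_one_ne_zero ((χ.2.isCharacter.mem_charKer.1 (S.P_le_of_dvd h4 y)).symm.trans
    (S.apply_eq_zero_of_dvd hd (by rw [orderOf_injective _ S.injP, S.orderOf_P hy]))) with e | rfl | e
  · exact e
  · omega
  · have h7 := T.linY χ e
    have h8 := T.deg e
    rw [h5, h8, h2.1] at h7
    nlinarith

omit hM in
theorem Two.exists_int {ψ : IrrCharacter G} (h : ψ ∈ Y) (hd : ¬ p ∣ charDegree (ξ : G → ℂ)) (h1 : charDegree (ξ : G → ℂ) ≠ 1)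
    {g : G} (hg : ¬ p ∣ orderOf g) : ∃ m : ℤ, (ψ : G → ℂ) g = m := by
  have h2 : ∀ σ, gal σ ξ = ξ := fun σ => by
    have e : charDegree (gal σ ξ : G → ℂ) = charDegree (ξ : G → ℂ) := by simp only [charDegree, gal_apply_one]
    rcases T.mem (gal σ ξ) (e ▸ hd) with e' | e' | e'
    · rw [e', charDegree_irrOne] at e; exact absurd e.symm h1
    · exact e'
    · have := T.deg e'
      rcases T.sign with rfl | rfl <;> omega
  obtain ⟨m, hm⟩ := exists_int_of_fixed (ξ.2.isIntegral g) fun σ => congrFun (congrArg Subtype.val (h2 σ)) g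
  exact ⟨m + δ, by rw [T.reg ψ h g hg, hm, Int.cast_add]⟩

theorem Two.sl2 (h3 : 3 < p) (hd : charDegree (ξ : G → ℂ) + 1 = p) (hH : Nat.card H = 2) (Q : Sylow p G)
    (hQ : S.jP.range = Q) : (∃ m, 1 ≤ m ∧ p - 1 = 2 ^ m) ∧
      ∀ (F : Type*) [Field F] [Fintype F], Fintype.card F = p - 1 → Nonempty (G ≃* SL(2, F)) := by
  have := T.simple hM h3 hd
  have hc : Nat.card Q = p := hQ ▸ (Nat.card_congr (MonoidHom.ofInjective S.injP).toEquiv).symm.trans S.cardP
  have hN : Nat.card (Subgroup.normalizer ((Q : Subgroup G) : Set G)) = p * 2 := by rw [← hQ, ← N_eq, card_N, hH]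
  have hnn : ¬ (Q : Subgroup G).Normal := fun h => by
    rcases h.eq_bot_or_eq_top with e | e
    · rw [e, Subgroup.card_bot] at hc; omega
    · have := Subgroup.card_le_of_le (show Subgroup.normalizer ((Q : Subgroup G) : Set G) ≤ Q from le_top.trans e.ge)
      omega
  have hG : ¬ IsMulCommutative G := fun h => hnn inferInstance
  obtain ⟨ψ, h⟩ : Y.Nonempty := Finset.card_pos.1 (by have := T.card; omega)
  have h1 : ψ ≠ irrOne G := fun e => T.n1 (e ▸ h)
  have h2 : charDegree (ψ : G → ℂ) + 2 = p := by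
    have e1 := T.deg h
    have e2 := T.linX
    rcases T.sign with rfl | rfl
    · rw [show (charDegree (ξ : G → ℂ) : ℤ) = p - 1 by omega] at e2
      have := Int.le_of_dvd two_pos (show (p : ℤ) ∣ 2 from ⟨2 - S.lin ξ, by linear_combination e2⟩)
      omega
    · omega
  rcases Nat.lt_or_ge 5 p with h5 | h5
  · obtain ⟨h6, h7⟩ := feit_p_sub_two h5 Q hc hnn ψ.2 (ψ.2.charKer_eq_bot_of_simple fun e => h1 (Subtype.ext e)) h2
    refine ⟨h6, fun F _ _ hF => ?_⟩
    obtain ⟨e⟩ := h7 F hF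
    have : Unique (Subgroup.center G) := by rw [center_eq_bot_of_simple hG]; infer_instance
    exact ⟨e.trans MulEquiv.prodUnique⟩
  obtain rfl : p = 5 := by
    have : p ≠ 4 := fun e => absurd (e ▸ hp.out) (by decide)
    omega
  have h6 : ∀ r : ℕ, r.Prime → r ≠ 5 → ∀ g : G, g ≠ 1 → (∃ k, orderOf g = r ^ k) →
      ∃ m : ℤ, (ψ : G → ℂ) g = m ∧ -3 < m ∧ m < 3 ∧ (r : ℤ) ∣ m - 3 := fun r hr h5 g hg ⟨k, hk⟩ => by
    obtain ⟨m, hm⟩ := T.exists_int h (by omega) (by omega) (g := g) fun e =>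
      h5 ((Nat.prime_dvd_prime_iff_eq hp.out hr).1 (hp.out.dvd_of_dvd_pow (hk ▸ e))).symm
    have e1 := (ψ.2.isCharacter.norm_le g).lt_of_ne fun e => hg (Subgroup.mem_bot.1
      (charCenter_eq_bot_of_simple hG h1 ▸ ψ.2.mem_charCenter.2 e))
    rw [hm, Complex.norm_intCast, show charDegree (ψ : G → ℂ) = 3 by omega, abs_lt] at e1
    exact ⟨m, hm, by exact_mod_cast e1.1, by exact_mod_cast e1.2, H07.dvd_sub_of_pElt ψ.2.isGeneralizedCharacter hr
      (hk ▸ pow_orderOf_eq_one g) (Commute.one_right g) (by rwa [mul_one]) (by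
        rw [← ψ.2.charDegree_eq, show charDegree (ψ : G → ℂ) = 3 by omega]; simp)⟩
  have h7 : (ψ : G → ℂ) 1 = 3 := by rw [← ψ.2.charDegree_eq, show charDegree (ψ : G → ℂ) = 3 by omega]; simp
  have h8 : Nat.card G ∣ 120 := (Nat.dvd_iff_prime_pow_dvd_dvd _ _).2 fun r k hr hk => by
    have e0 := pow_dvd_pow r ((hr.pow_dvd_iff_le_factorization Nat.card_pos.ne').1 hk)
    by_cases e2 : r = 2
    · subst e2
      obtain ⟨n, hn⟩ := H21.exists_int_of_vanish hr ((ψ.2.isGeneralizedCharacter.mul ψ.2.isGeneralizedCharacter).sub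
        isGeneralizedCharacter_one) fun g hg hg' => by
          obtain ⟨m, e, _, _, _⟩ := h6 2 hr (by decide) g hg hg'
          rcases (by omega : m = 1 ∨ m = -1) with rfl | rfl <;> simp [e]
      simp only [Pi.sub_apply, Pi.mul_apply, h7, Pi.one_apply] at hn
      exact (e0.trans (Int.natCast_dvd_natCast.1 (show _ ∣ ((8 : ℕ) : ℤ) from ⟨n, by
        rw [show (3 * 3 - 1 : ℂ) = 8 by norm_num] at hn; exact_mod_cast hn⟩))).trans (by decide)
    by_cases e3 : r = 3
    · subst e3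
      obtain ⟨n, hn⟩ := H21.exists_int_of_vanish hr ψ.2.isGeneralizedCharacter fun g hg hg' => by
          obtain ⟨m, e, _, _, _⟩ := h6 3 hr (by decide) g hg hg'
          simp [e, show m = 0 by omega]
      rw [h7] at hn
      exact (e0.trans (Int.natCast_dvd_natCast.1 (show _ ∣ ((3 : ℕ) : ℤ) from ⟨n, by
        exact_mod_cast hn⟩))).trans (by decide)
    by_cases e5 : r = 5
    · subst e5
      rw [S.factorization_card] at e0
      exact e0.trans (by decide)
    rcases k with _ | k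
    · simp
    have := Fact.mk hr
    obtain ⟨g, hg⟩ := exists_prime_orderOf_dvd_card' r ((dvd_pow_self r k.succ_ne_zero).trans hk)
    obtain ⟨m, -, _, _, e⟩ := h6 r hr e5 g (fun e => hr.one_lt.ne (by rw [← hg, e, orderOf_one])) ⟨1, by rw [hg, pow_one]⟩
    have := Int.le_of_dvd (by omega) (dvd_sub_comm.1 e)
    have := hr.two_le
    have : r ≠ 4 := fun e => absurd (e ▸ hr) (by decide)
    omega
  have h9 : Nat.card G = 60 := by
    have e1 := (Subgroup.normalizer ((Q : Subgroup G) : Set G)).card_mul_index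
    have e2 := card_sylow_modEq_one 5 G
    have e3 : Nat.card (Sylow 5 G) ≠ 1 := fun e => hnn (by
      have := (Nat.card_eq_one_iff_unique.1 e).1
      infer_instance)
    rw [hN, show (Subgroup.normalizer ((Q : Subgroup G) : Set G)).index = _ from Q.card_eq_index_normalizer.symm] at e1
    have := Nat.le_of_dvd (by decide) h8
    rw [Nat.ModEq] at e2
    rcases (by omega : Nat.card G = 60 ∨ Nat.card G = 110) with e | e
    · exact e
    · exact absurd (e ▸ h8) (by decide)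
  refine ⟨⟨2, by decide, rfl⟩, fun F _ _ hF => ?_⟩
  obtain ⟨e1⟩ := H08.A5_of_simple h9
  obtain ⟨e2⟩ := H08.A5_of_psl2 (Or.inl hF)
  obtain ⟨e3⟩ := nonempty_sl_equiv_psl_of_even (F := F) (by rw [hF]; decide)
  exact ⟨e1.trans (e3.trans e2).symm⟩

end DOne

theorem sl2_of_perm {G : Type*} [Group G] [Fintype G] {p : ℕ} [hp : Fact p.Prime] (h3 : 3 < p) (P : Sylow p G)
    (hP : Nat.card P = p) (hN : Nat.card (Subgroup.normalizer ((P : Subgroup G) : Set G)) = 2 * p)
    (hnn : ¬ (P : Subgroup G).Normal) (hM : ∀ M : Subgroup G, M.Normal → M ≠ ⊥ → p ∣ Nat.card M) {π : G → ℂ}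
    (hπ : IsCharacter G π) (hπ' : IsCharacter G fun g => π g - 1) (h0 : ∀ g, p ∣ orderOf g → π g = 0)
    (h1 : classInner π 1 = 1) (hd : charDegree π ≤ 2 * p)
    (hirr : charDegree π = 2 * p → ¬ IsIrrCharacter G fun g => π g - 1) : (∃ m, 1 ≤ m ∧ p - 1 = 2 ^ m) ∧
      ∀ (F : Type*) [Field F] [Fintype F], Fintype.card F = p - 1 → Nonempty (G ≃* SL(2, F)) := by
  have := Fintype.ofFinite P
  obtain ⟨H, _, _, S, hS⟩ := exists_dOne' P hP
  have hH : Nat.card H = 2 := by
    rw [← hS, ← S.N_eq, S.card_N, mul_comm] at hN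
    exact Nat.eq_of_mul_eq_mul_right hp.out.pos hN
  obtain ⟨ξ, Y, δ, T⟩ := S.exists_two h3 (S.K_eq_bot_of_card (by omega) hH hM) hH
  have h2 : S.lin π ≤ 2 := by
    have := S.lin_of_const hπ (c := 0) fun y hy => by
      simpa using h0 _ (by rw [orderOf_injective _ S.injP, S.orderOf_P hy])
    exact Nat.le_of_mul_le_mul_left (show p * _ ≤ p * 2 by omega) hp.out.pos
  obtain ⟨ψ, h, ψ', h', hne⟩ := Finset.one_lt_card.1 (show 1 < Y.card by have := T.card; omega)
  have h4 := fun ψ (h : ψ ∈ Y) => T.inner h0 h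
  have h5 : classInner π (irrOne G : G → ℂ) ≠ 0 := h1.trans_ne one_ne_zero
  rw [h1, mul_one] at h4
  rcases T.sign with rfl | rfl
  · obtain ⟨a, ha⟩ := hπ.exists_classInner_eq_nat ξ.2.isCharacter
    have h6 : ∀ ψ ∈ Y, classInner π (ψ : G → ℂ) ≠ 0 := fun ψ h => by
      rw [h4 ψ h, ha]; exact_mod_cast a.succ_ne_zero
    have h7 := S.sum_lin_le hπ (Z := {irrOne G, ψ, ψ'}) (by simp [h5, h6, h, h'])
    rw [Finset.sum_insert (by simp [ne_of_mem_of_not_mem h T.n1, ne_of_mem_of_not_mem h' T.n1, eq_comm]),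
      Finset.sum_pair hne, S.lin_irrOne] at h7
    exact absurd (hS ▸ (show S.lin ψ = 0 ∨ S.lin ψ' = 0 by omega).elim (T.normal hM h) (T.normal hM h')) hnn
  · obtain ⟨b, hb⟩ := hπ.exists_classInner_eq_nat ψ.2.isCharacter
    have h6 : classInner π (ξ : G → ℂ) = (b + 1 : ℕ) := by
      have := h4 ψ h
      push_cast at this ⊢
      linear_combination hb - this
    have h7 := S.sum_lin_le hπ (Z := {irrOne G, ξ}) (by simp only [Finset.mem_insert, Finset.mem_singleton]; rintro _ (rfl | rfl); exacts [h5, h6 ▸ Nat.cast_ne_zero.2 b.succ_ne_zero])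
    rw [Finset.sum_pair T.ne.symm, S.lin_irrOne] at h7
    have h8 := T.linX
    rcases (by omega : S.lin ξ = 0 ∨ S.lin ξ = 1) with e | e <;> rw [e] at h8
    · exact T.sl2 hM h3 (by omega) hH P hS
    have h9 : classInner (fun g => π g - 1) (ξ : G → ℂ) ≠ 0 := by
      rw [show (fun g => π g - 1) = π - (irrOne G : G → ℂ) from rfl, classInner_sub_left, h6, classInner_irr,
        if_neg T.ne.symm, sub_zero]
      exact Nat.cast_ne_zero.2 b.succ_ne_zero
    have h10 := sum_deg_le_of_constituent hπ' (Z := {ξ}) (by simpa using h9)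
    have h11 : charDegree (fun g => π g - 1) + 1 = charDegree π := by
      apply Nat.cast_injective (R := ℂ)
      rw [Nat.cast_add, hπ'.charDegree_eq, hπ.charDegree_eq]; simp
    rw [Finset.sum_singleton] at h10
    refine absurd ?_ (hirr (by omega))
    rw [eq_sum_of_constituent hπ' (Z := {ξ}) (by simpa using h9) (by
      rw [Finset.sum_singleton, ← hπ'.charDegree_eq, ← ξ.2.charDegree_eq, Nat.cast_inj]; omega), Finset.sum_singleton]
    exact ξ.2

theorem sl2_of_action {G α : Type*} [Group G] [Finite G] [MulAction G α] [Finite α] [FaithfulSMul G α]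
    (hprim : MulAction.IsPreprimitive G α) {p : ℕ} [hp : Fact p.Prime] (h3 : 3 < p) (P : Sylow p G)
    (hN : Nat.card (Subgroup.normalizer ((P : Subgroup G) : Set G)) = 2 * p) (hnn : ¬ (P : Subgroup G).Normal)
    (hα : Nat.card α = p ∨ (Nat.card α = 2 * p ∧ ¬ MulAction.IsMultiplyPretransitive G α 2)) :
    (∃ m, 1 ≤ m ∧ p - 1 = 2 ^ m) ∧
      ∀ (F : Type*) [Field F] [Fintype F], Fintype.card F = p - 1 → Nonempty (G ≃* SL(2, F)) := by
  have := Fintype.ofFinite G
  have h1 : p ∣ Nat.card α := hα.elim (fun e => e.symm.dvd) fun e => e.1 ▸ dvd_mul_left _ _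
  have : Nontrivial α := Finite.one_lt_card_iff_nontrivial.1 (by omega)
  have h2 : ¬ p ^ 2 ∣ Nat.card G := fun h => by
    have e1 := (P.pow_dvd_card_of_pow_dvd_card h).trans (Subgroup.card_dvd_of_le Subgroup.le_normalizer)
    rw [hN, sq] at e1
    have := Nat.le_of_dvd two_pos (Nat.dvd_of_mul_dvd_mul_right hp.out.pos e1)
    omega
  have h4 : charDegree (fun g : G => (Nat.card (MulAction.fixedBy α g) : ℂ)) = Nat.card α :=
    charDegree_eq_of_apply_one (by simp)
  refine sl2_of_perm h3 P (card_sylow_eq_prime ((dvd_mul_left p 2).trans (hN ▸ Subgroup.card_subgroup_dvd_card _)) h2 P)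
    hN hnn (fun M _ hM => ?_) (isCharacter_perm α) (isCharacter_perm_sub_one α) (fun g hg => ?_)
    (classInner_perm_one_of_transitive α) (by omega) fun e => by
      rw [isIrr_perm_sub_one_iff]; exact (hα.resolve_left (by omega)).2
  · have := H18.normal_trans_of_prim_faithful hprim M hM
    obtain ⟨a⟩ : Nonempty α := inferInstance
    exact h1.trans (MulAction.index_stabilizer_of_transitive M a ▸ Subgroup.index_dvd_card _)
  · rw [Nat.cast_eq_zero, Nat.card_eq_zero]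
    refine Or.inl ⟨fun a => h2 ?_⟩
    rw [← (MulAction.stabilizer G a.1).card_mul_index, MulAction.index_stabilizer_of_transitive, sq]
    exact mul_dvd_mul (hg.trans (Subgroup.orderOf_dvd_natCard _ a.2)) h1

theorem not_index_two_mul {F : Type*} [Field F] [Fintype F] {m : ℕ} (hF : Fintype.card F = 2 ^ m) (h8 : 8 ≤ Fintype.card F)
    {U : Subgroup PSL(2, F)} (hU : IsCoatom U) : U.index ≠ 2 * (Fintype.card F + 1) := fun h => by
  have : CharP F 2 := by
    obtain ⟨r, _, n, hr, hn⟩ := FiniteField.card' F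
    rwa [← (Nat.prime_dvd_prime_iff_eq hr Nat.prime_two).1 (hr.dvd_of_dvd_pow (hF ▸ hn ▸ dvd_pow_self r n.ne_zero))]
  have := Fact.mk Nat.prime_two
  obtain ⟨k, hk⟩ : 8 ∣ Fintype.card F := hF ▸ pow_dvd_pow 2 ((Nat.pow_le_pow_iff_right one_lt_two).1 (hF ▸ h8 : 2 ^ 3 ≤ _))
  have h1 : 2 * Nat.card U = Fintype.card F * (Fintype.card F - 1) := by
    have e1 := L.Dk.card_psl (F := F)
    rw [((L.Dk.dd_cases (F := F)).resolve_right (by omega)).2, one_mul, ← U.card_mul_index, h, L.Dk.sq_sub_one] at e1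
    exact Nat.eq_of_mul_eq_mul_right (show 0 < Fintype.card F + 1 by omega) (by linear_combination e1)
  have h2 : Nat.card U = 4 * (k * (8 * k - 1)) := by rw [hk] at h1; linarith
  have h3 : ∀ (K : Type) [Field K] [Fintype K] (m : ℕ), 1 ≤ m → Fintype.card K ^ m = Fintype.card F →
      Nat.card U ≤ Nat.card PGL(2, K) → Fintype.card K = Fintype.card F := fun K _ _ m hm hK e => by
    rcases hm.eq_or_lt with rfl | hm
    · rwa [pow_one] at hK
    have e1 := (Nat.pow_le_pow_right (Fintype.card_pos (α := K)) hm).trans hK.le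
    rw [L.Dk.card_PGL2] at e
    have e2 : 2 * Fintype.card K < Fintype.card F := by nlinarith
    have e3 := Nat.mul_le_mul_left (Fintype.card K) (Nat.sub_le_sub_right e1 1)
    have e4 := Nat.mul_lt_mul_of_pos_right e2 (show 0 < Fintype.card F - 1 by omega)
    exact absurd e4 (not_lt.2 (by rw [← h1, mul_assoc]; exact Nat.mul_le_mul_left 2 (e.trans e3)))
  have h4 : 7 ≤ k * (8 * k - 1) ∧ k * (8 * k - 1) ≠ 15 := by
    rcases (by omega : k = 1 ∨ 2 ≤ k) with rfl | e
    · decide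
    · have := Nat.mul_le_mul e (show 15 ≤ 8 * k - 1 by omega); omega
  rcases L.Dk.clsPSL 2 U with ⟨x, e⟩ | ⟨-, e⟩ | ⟨C, -, e, e', -⟩ | ⟨⟨e⟩⟩ | ⟨⟨e⟩⟩ | ⟨⟨e⟩⟩ | ⟨K, _, _, m, hm, hK, ⟨e⟩⟩ |
    ⟨K, _, _, m, hm, hK, ⟨e⟩⟩
  · have e1 := L.Dk.index_stab x
    rcases hU.le_iff.1 (show U ≤ MulAction.stabilizer _ x from fun g hg => e ⟨g, hg⟩) with e2 | e2 <;> rw [e2] at e1
    · simp at e1
    · omega
  · omega
  · have := C.card_mul_index; rw [e'] at this; omega
  · rw [Nat.card_congr e.toEquiv, nat_card_alternatingGroup, Nat.card_fin] at h2; simp [Nat.factorial] at h2; omega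
  · rw [Nat.card_congr e.toEquiv, Nat.card_perm, Nat.card_fin] at h2; simp [Nat.factorial] at h2; omega
  · rw [Nat.card_congr e.toEquiv, H08.card_A5] at h2; omega
  · exact hU.1 (L.Dk.eq_top_of_pgl (h3 K m hm hK (Nat.card_congr e.toEquiv).le) e)
  · exact hU.1 (L.Dk.eq_top_of_psl (h3 K m hm hK ((Nat.card_congr e.toEquiv).le.trans L.Dk.card_psl_le_pgl)) e)

end H19
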