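import Mathlib
import Cfsg.Agent.H19.SharpF
import Cfsg.Agent.S4496

/-!
Non-solvable transitive groups of prime degree (namespace H19).
* `commutator_le_of_prime_degree`, `simple_commutator_of_prime_degree`, `exists_isConj_mem_of_dvd`, `card_le_two_mul_inf_alt`
-/

open MulAction Subgroup

namespace H19

variable {G α : Type*} [Group G] [Finite G] [MulAction G α] [Fintype α] [FaithfulSMul G α] [IsPretransitive G α]

theorem commutator_le_of_prime_degree (hp : (Fintype.card α).Prime) {L : Subgroup G} [L.Normal] (hL : L ≠ ⊥) :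
    IsPretransitive L α ∧ commutator G ≤ L := by
  have := Fact.mk hp
  have h1 : IsPretransitive L α := (IsPreprimitive.of_prime_card (G := G) (Nat.card_eq_fintype_card (α := α) ▸ hp)).isQuasiPreprimitive.isPretransitive_of_normal
    fun h => hL (eq_bot_iff.2 fun g hg => FaithfulSMul.eq_of_smul_eq_smul (α := α) fun a => by
      simpa using h.ge (Set.mem_univ a) ⟨g, hg⟩)
  obtain ⟨x, hx⟩ := exists_prime_orderOf_dvd_card' _ (H18.exists_orderOf_eq_prime_degree (G := G) (α := α) rfl)
  obtain ⟨e, he⟩ := H18.exists_coords (α := α) rfl hx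
  exact ⟨h1, (Cfsg.Agent.S4496.result _ hp x hx (le_antisymm (fun c hc => H18.centralizer_le_zpowers he
    (mem_centralizer_singleton_iff.1 hc)) (zpowers_le.2 (mem_centralizer_singleton_iff.2 rfl))) L).1
      (H18.exists_orderOf_eq_prime_degree (G := L) (α := α) rfl)⟩

theorem simple_commutator_of_prime_degree (hp : (Fintype.card α).Prime) (hG : ¬ Group.IsSolvable G) :
    IsSimpleGroup (commutator G) ∧ ¬ IsMulCommutative (commutator G) ∧ IsPretransitive (commutator G) α := by
  have h1 : ∀ n, derivedSeries G n ≠ ⊥ := fun n h => hG ⟨n, h⟩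
  have h2 := (commutator_le_of_prime_degree hp (L := commutator G) (h1 1)).1
  have h3 : (commutator (commutator G)).map (commutator G).subtype = derivedSeries G 2 := by
    rw [_root_.commutator_def (commutator G), map_commutator, ← MonoidHom.range_eq_map, range_subtype]; rfl
  have h4 : commutator (commutator G) = ⊤ := eq_top_iff.2 fun g _ => by
    obtain ⟨u, hu, e⟩ := h3.ge ((commutator_le_of_prime_degree hp (h1 2)).2 g.2)
    rwa [← show u = g from Subtype.ext e]
  have : Nontrivial (commutator G) := (nontrivial_iff_ne_bot _).2 (h1 1)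
  refine ⟨⟨fun L hL => or_iff_not_imp_left.2 fun h => top_le_iff.1 (h4 ▸ (commutator_le_of_prime_degree hp h).2)⟩,
    fun h => ?_, h2⟩
  rw [(commutator_eq_bot_iff_center_eq_top _).2 (center_eq_top (G := commutator G))] at h4
  exact bot_ne_top h4

theorem exists_isConj_mem_of_dvd {G : Type*} [Group G] [Finite G] {p k j : ℕ} (hp : p.Prime) {H : Subgroup G}
    (h1 : p ^ k ∣ Nat.card H) (h2 : ¬ p ^ (k + 1) ∣ Nat.card G) {g : G} (hg : g ^ p ^ j = 1) : ∃ u ∈ H, IsConj g u := by
  have := Fact.mk hp
  obtain ⟨Q, hQ⟩ := Sylow.exists_subgroup_card_pow_prime p h1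
  have h3 : (Nat.card G).factorization p = k := le_antisymm
    (not_lt.1 fun e => h2 ((hp.pow_dvd_iff_le_factorization Nat.card_pos.ne').2 e))
    ((hp.pow_dvd_iff_le_factorization Nat.card_pos.ne').1 (h1.trans (card_subgroup_dvd_card H)))
  obtain ⟨u, ⟨v, -, rfl⟩, hu⟩ := exists_isConj_mem_sylow (Sylow.ofCard (Q.map H.subtype) (by rw [card_subtype, hQ, h3])) hg
  exact ⟨_, v.2, hu⟩

theorem card_inf_alt {α : Type*} [Fintype α] [DecidableEq α] (G : Subgroup (Equiv.Perm α)) :
    (Nat.card G = Nat.card (G ⊓ alternatingGroup α :) ∨ Nat.card G = 2 * Nat.card (G ⊓ alternatingGroup α :)) ∧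
      Nat.card (commutator G) ∣ Nat.card (G ⊓ alternatingGroup α :) := by
  have h1 := ((alternatingGroup α).subgroupOf G).index_mul_card
  rw [card_inf_eq, inf_comm] at h1
  refine ⟨?_, ?_⟩
  · have h2 : ((alternatingGroup α).subgroupOf G).index ∣ 2 := by
      have := (Equiv.Perm.sign.comp G.subtype).range.card_subgroup_dvd_card
      rw [← index_ker] at this
      exact this.trans (by simp)
    rcases (Nat.dvd_prime Nat.prime_two).1 h2 with h | h <;> rw [h] at h1 <;> omega
  · rw [inf_comm, ← card_inf_eq]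
    exact card_dvd_of_le (Abelianization.commutator_subset_ker (Equiv.Perm.sign.comp G.subtype))

end H19
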