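import Mathlib

/-!
Interface for the 3-local characterization of `S₈` (S3330), namespace `H19.Dm`.
`F : S₃ × S₅ →* G` has image `N(⟨z⟩)`, `s` swaps `F z` and `F z'`, `C(D) = D ⟨F t⟩`.
-/

set_option autoImplicit false
set_option synthInstance.maxSize 4000

namespace H19.Dm
open Equiv Subgroup

abbrev P35 := Perm (Fin 3) × Perm (Fin 5)
abbrev A5 := alternatingGroup (Fin 5)

def z : P35 := (swap 0 1 * swap 1 2, 1)
def z' : P35 := (1, swap 0 1 * swap 1 2)
def t : P35 := (1, swap 3 4)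
def u : P35 := (1, swap 0 1 * swap 3 4)
def w : P35 := (swap 0 1, 1)
def v : P35 := (1, swap 0 3 * swap 1 4)
def p : P35 := (1, swap 2 3)
/-- a 3-cycle and two generators of a four-group normalised by it -/
def c3 : A5 := ⟨swap 0 1 * swap 1 2, Perm.mem_alternatingGroup.2 (by decide +kernel)⟩
def a1 : A5 := ⟨swap 0 1 * swap 2 3, Perm.mem_alternatingGroup.2 (by decide +kernel)⟩
def a2 : A5 := c3 * a1 * c3⁻¹
/-- conjugation by the transposition `(3 4)` -/
def tw (x : A5) : A5 := MulAut.conjNormal (swap 3 4 : Perm (Fin 5)) x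

variable {G : Type*} [Group G]

def D (F : P35 →* G) : Subgroup G := closure {F z, F z'}

structure Hy (F : P35 →* G) (s : G) : Prop where
  inj : Function.Injective F
  hN : ∀ g, g ∈ normalizer (zpowers (F z) : Set G) ↔ ∃ x, F x = g
  s2 : s * s = 1
  sz : s * F z * s = F z'
  st : s * F t = F t * s
  syl : ∃ P : Sylow 3 G, (P : Subgroup G) = D F
  cD : Nat.card (D F) = 9
  hD : ∀ g ∈ normalizer (D F : Set G), (∃ x, F x = g) ∨ ∃ x, F x = g * s
  hy : ∀ g, g * F (z * z') = F (z * z') * g → g ∈ normalizer (D F : Set G)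
  dih : ∃ φ : normalizer (D F : Set G) →* DihedralGroup 4, Function.Surjective φ ∧
    ∀ g, φ g = 1 ↔ g.1 ∈ centralizer (D F : Set G)

def CA (F : P35 →* G) (s : G) : Prop := s * F u * s = F (w * t)
def CB (F : P35 →* G) (s : G) : Prop := s * F u * s = F w
/-- fusion of `t` and `u` -/
def CT (F : P35 →* G) (s : G) : Prop := (∀ r, IsConj (F t) r → r * F (z * z') = F (z * z') * r → r = F t) ∧
  ¬ IsConj (F t) (F u) ∧ ¬ IsConj (F u) s
def PI (F : P35 →* G) : Prop := ∃ π : centralizer ({F t} : Set G) →* Perm (Fin 6), Function.Surjective π ∧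
  ∀ g, π g = 1 ↔ g.1 = 1 ∨ g.1 = F t
def CN (F : P35 →* G) : Prop := centralizer ({F t} : Set G) ≤ normalizer (D F : Set G)
def RA (F : P35 →* G) (s : G) : Prop := s * F p * s * F (t * p * t) = F (t * p * t) * (s * F p * s)
def PS (F : P35 →* G) (s : G) : Prop := ∃ ψ : Perm (Fin 8) →* G, Function.Injective ψ ∧ ψ (swap 6 7) = F t ∧
  ψ (swap 3 4 * swap 6 7) = F u ∧ ψ (swap 0 3 * swap 1 4 * swap 2 5) = s
def IX (F : P35 →* G) : Prop := ∃ H : Subgroup G, H.index = 2 ∧ F t ∉ H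
def KK (F : P35 →* G) (s : G) : Prop := ∀ x y : A5, F (1, x.1) * (s * F (1, y.1) * s) = s * F (1, y.1) * s * F (1, x.1)

/-- the subgroup `A₅ × A₅` in case B -/
structure HB (F : P35 →* G) (s : G) (φ : A5 × A5 →* G) : Prop where
  inj : Function.Injective φ
  val : ∀ x y, φ (x, y) = F (1, x.1) * (s * F (1, y.1) * s)
  cs : ∀ x y, s * φ (x, y) * s = φ (y, x)
  ct : ∀ x y, F t * φ (x, y) * F t = φ (tw x, tw y)
  fm : ∀ x, F x ∈ φ.range ∨ F x * F t ∈ φ.range
  nt : F t ∉ φ.range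
  ns : s ∉ φ.range
  nst : s * F t ∉ φ.range

/-- abstract setting for `A₅ × A₅` -/
structure AB {X : Type*} [Group X] (φ : A5 × A5 →* X) : Prop where
  inj : Function.Injective φ
  n32 : ¬ 32 ∣ Nat.card X
  n3 : ∀ d : A5 × A5, d ≠ 1 → d ^ 3 = 1 → normalizer (zpowers (φ d) : Set X) ≤ φ.range
  nD : normalizer (closure {φ (c3, 1), φ (1, c3)} : Set X) ≤ φ.range
  n27 : ¬ 27 ∣ Nat.card X

def E {X : Type*} [Group X] (φ : A5 × A5 →* X) : Subgroup X := closure {φ (a1, 1), φ (a2, 1), φ (1, a1), φ (1, a2)}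
def AB1 {X : Type*} [Group X] (φ : A5 × A5 →* X) : Prop := normalizer (E φ : Set X) ≤ φ.range
def AB2 {X : Type*} [Group X] (φ : A5 × A5 →* X) : Prop :=
  centralizer {φ (a1, 1)} ≤ φ.range ∧ centralizer {φ (1, a1)} ≤ φ.range

variable {F : P35 →* G} {s : G}

theorem Hy.cz (h : Hy F s) {g : G} (c : g * F z = F z * g) : ∃ x, F x = g ∧ x * z = z * x := by
  obtain ⟨x, rfl⟩ := (h.hN g).1 (centralizer_le_normalizer _ fun u hu => by
    obtain ⟨n, rfl⟩ := mem_zpowers_iff.1 hu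
    exact ((show Commute g (F z) from c).zpow_right n).symm.eq)
  exact ⟨x, rfl, h.inj (by rw [map_mul, map_mul, c])⟩

theorem Hy.si' (h : Hy F s) : s⁻¹ = s := inv_eq_of_mul_eq_one_right h.s2

theorem Hy.ss (h : Hy F s) (g : G) : s * (s * g * s) * s = g := by
  rw [← mul_assoc, ← mul_assoc, h.s2, one_mul, mul_assoc, h.s2, mul_one]

theorem Hy.sm (h : Hy F s) (g k : G) : s * (g * k) * s = s * g * s * (s * k * s) := by
  rw [show s * g * s * (s * k * s) = s * g * (s * s) * k * s by group, h.s2]; group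

theorem Hy.sz' (h : Hy F s) : s * F z' * s = F z := by rw [← h.sz, h.ss]

theorem Hy.st' (h : Hy F s) : s * F t * s = F t := by rw [h.st, mul_assoc, h.s2, mul_one]

theorem k0 : t * t = 1 ∧ t * z * t = z ∧ t * u * t = u ∧ t * w * t = w ∧ t * z' * t = z' ∧ t * (w * t) * t = w * t := by decide +kernel

theorem Hy.tc (h : Hy F s) (x : P35) : s * F t * F x * (s * F t) = s * F (t * x * t) * s := by
  rw [map_mul, map_mul]
  calc _ = s * F t * F x * (F t * s) := by rw [← h.st]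
    _ = _ := by simp only [mul_assoc]

/-- `s` may be replaced by `s t` -/
theorem Hy.tw (h : Hy F s) : Hy F (s * F t) where
  inj := h.inj
  hN := h.hN
  s2 := by rw [mul_assoc, ← mul_assoc (F t), ← h.st, mul_assoc, ← map_mul, k0.1, map_one, mul_one, h.s2]
  sz := by rw [h.tc, k0.2.1, h.sz]
  st := by rw [← mul_assoc (F t), ← h.st]
  syl := h.syl
  cD := h.cD
  hD := fun g hg => (h.hD g hg).imp_right fun ⟨x, r⟩ => ⟨x * t, by rw [map_mul, r, mul_assoc]⟩
  hy := h.hy
  dih := h.dih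

theorem Hy.twA (h : Hy F s) (a : CA F s) : CA F (s * F t) := by rw [CA, h.tc, k0.2.2.1]; exact a
theorem Hy.twB (h : Hy F s) (a : CB F s) : CB F (s * F t) := by rw [CB, h.tc, k0.2.2.1]; exact a

end H19.Dm
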