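import Mathlib
import Cfsg.Agent.H13.Basic

/-!
Certified coset enumeration with redundant cosets (namespace `H19.Am`).
* `okFact`, `sound` (a list of facts `gen l • val i = val j`, each a definition, an assumption or the end of a closed path);
* `tabOk`, `tab`, `idxOk`, `card_eq` (the final table, and its primitivity, give the number of cosets).
-/

set_option autoImplicit false

namespace H19.Am
open H13

variable {G X : Type*} [Group G] [MulAction G X] {gen : ℕ → G} {x₀ : X}

/-- value of a word -/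
def ev (gen : ℕ → G) (w : List ℕ) : G := (w.map gen).prod

@[simp] theorem ev_nil : ev gen [] = 1 := rfl

@[simp] theorem ev_cons (l : ℕ) (w : List ℕ) : ev gen (l :: w) = gen l * ev gen w := by simp [ev]

theorem ev_append (u w : List ℕ) : ev gen (u ++ w) = ev gen u * ev gen w := by simp [ev]

/-- letter of a fact -/
def fL (f : ℕ) : ℕ := Nat.land f 15
/-- source of a fact -/
def fI (f : ℕ) : ℕ := Nat.land (Nat.shiftRight f 4) 16383
/-- target of a fact -/
def fJ (f : ℕ) : ℕ := Nat.shiftRight f 18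

/-- the value of a node -/
noncomputable def val (gen : ℕ → G) (x₀ : X) (FA : ℕ) (k : ℕ) : X :=
  if _h : fI (get 32 FA k) < k then gen (fL (get 32 FA k)) • val gen x₀ FA (fI (get 32 FA k)) else x₀
termination_by k

theorem val_zero (FA : ℕ) : val gen x₀ FA 0 = x₀ := by rw [val, dif_neg (Nat.not_lt_zero _)]

/-- meaning of a fact -/
def Holds (gen : ℕ → G) (v : ℕ → X) (f : ℕ) : Prop := gen (fL f) • v (fI f) = v (fJ f)

/-- add a letter other than the identity -/
noncomputable def push (l : ℕ) (w : List ℕ) (k : List ℕ → Bool) : Bool :=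
  force l fun l => Bool.rec (k (l :: w)) (k w) (Nat.ble l 1)

/-- the letters come in inverse pairs, the first pair being trivial -/
def Let (gen : ℕ → G) : Prop := gen 0 = 1 ∧ ∀ l, gen (Nat.xor l 1) = (gen l)⁻¹

theorem Let.push (h : Let gen) {l : ℕ} {w : List ℕ} {k : List ℕ → Bool} (e : push l w k = true) :
    ∃ w', k w' = true ∧ ev gen w' = gen l * ev gen w := by
  unfold Am.push at e
  rw [force_eq] at e
  cases c : Nat.ble l 1 <;> rw [c] at e
  · exact ⟨_, e, ev_cons _ _⟩
  · refine ⟨_, e, ?_⟩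
    have := Nat.le_of_ble_eq_true c
    have h1 : gen 1 = 1 := by simpa [h.1] using h.2 0
    interval_cases l <;> simp [h.1, h1]

/-- follow a path of known facts -/
noncomputable def walk (FA PR k : ℕ) (fin : ℕ → List ℕ → Bool) (n : ℕ) : ℕ → ℕ → List ℕ → Bool :=
  Nat.rec (fun _ c w => fin c w) (fun _ ih pos c w => force (get 16 PR pos) fun p => force (Nat.shiftRight p 1) fun q =>
    band (Nat.blt q k) (force (get 32 FA q) fun f => force (Nat.succ pos) fun pos' =>
      Bool.rec (band (Nat.beq (fJ f) c) (force (fI f) fun c' => push (Nat.xor (fL f) 1) w (ih pos' c')))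
        (band (Nat.beq (fI f) c) (force (fJ f) fun c' => push (fL f) w (ih pos' c'))) (Nat.beq (Nat.land p 1) 0))) n

theorem Let.walk (h : Let gen) {v : ℕ → X} {FA PR k : ℕ} (H : ∀ q < k, Holds gen v (get 32 FA q))
    {fin : ℕ → List ℕ → Bool} {x : X} (n : ℕ) {pos c : ℕ} {w : List ℕ} (e : walk FA PR k fin n pos c w = true)
    (r : v c = ev gen w • x) : ∃ c w, fin c w = true ∧ v c = ev gen w • x := by
  induction n generalizing pos c w with
  | zero => exact ⟨c, w, e, r⟩
  | succ n ih =>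
    unfold Am.walk at e
    simp only [force_eq, band_eq_true, Nat.blt_eq] at e
    obtain ⟨e1, e2⟩ := e
    have a := H _ e1
    revert e2
    cases Nat.beq (Nat.land (get 16 PR pos) 1) 0
    all_goals
      intro e2
      obtain ⟨e3, e4⟩ := band_eq_true.1 e2
      obtain ⟨w', e5, e6⟩ := h.push e4
      refine ih e5 ?_
      rw [← Nat.eq_of_beq_eq_true e3] at r
    · rw [e6, mul_smul, ← r, h.2, ← a, inv_smul_smul]
    · rw [e6, mul_smul, ← r, a]

/-- check of one fact -/
noncomputable def okFact (FA PR OF AX : ℕ) (wok : List ℕ → Bool) (k : ℕ) : Bool :=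
  force (get 32 FA k) fun f => bor (band (Nat.beq (fJ f) k) (Nat.blt (fI f) k))
    (bor (band (Nat.beq (fI f) 0) (band (Nat.beq (fJ f) 0) (Nat.beq (get 1 AX (fL f)) 1)))
      (force (get 16 OF k) fun o => walk FA PR k (fun c w => band (Nat.beq c (fJ f)) (push (Nat.xor (fL f) 1) w wok))
        (Nat.sub (get 16 OF (Nat.succ k)) o) o (fI f) []))

theorem Let.sound (h : Let gen) {FA PR OF AX n : ℕ} {wok : List ℕ → Bool} (hw : ∀ w, wok w = true → ev gen w = 1)
    (ha : ∀ l, get 1 AX l = 1 → gen l • x₀ = x₀) (e : ∀ k < n, okFact FA PR OF AX wok k = true) :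
    ∀ k < n, Holds gen (val gen x₀ FA) (get 32 FA k) := by
  intro k
  induction k using Nat.strong_induction_on with
  | _ k ih =>
    intro hk
    have := e k hk
    simp only [okFact, force_eq, bor_eq_true, band_eq_true, Nat.beq_eq, Nat.blt_eq] at this
    rcases this with ⟨a, b⟩ | ⟨a, b, c⟩ | a
    · rw [Holds, a]; conv_rhs => rw [val, dif_pos b]
    · rw [Holds, a, b, val_zero, ha _ c]
    · obtain ⟨c, w, e1, e2⟩ := h.walk (fun q hq => ih q hq (hq.trans hk)) _ a (x := val gen x₀ FA (fI (get 32 FA k))) (by simp)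
      obtain ⟨e3, e4⟩ := band_eq_true.1 e1
      obtain ⟨w', e5, e6⟩ := h.push e4
      rw [hw _ e5, h.2, eq_comm, inv_mul_eq_one] at e6
      rw [Holds, ← Nat.eq_of_beq_eq_true e3, e2, e6]

/-- the word is the given letter -/
noncomputable def isL (l : ℕ) (w : List ℕ) : Bool :=
  List.rec false (fun a w' _ => List.rec (Nat.beq a l) (fun _ _ _ => false) w') w

theorem isL_spec {l : ℕ} {w : List ℕ} (e : isL l w = true) : w = [l] := by
  rcases w with _ | ⟨a, _ | _⟩
  · cases e
  · rw [Nat.eq_of_beq_eq_true (show Nat.beq a l = true from e)]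
  · cases e

/-- the final table -/
def tb (TB a i : ℕ) : ℕ := get 8 TB (Nat.add (Nat.mul 4 i) a)

/-- check of the final table -/
noncomputable def tabOk (FA RF ND TB LT k n : ℕ) : Bool :=
  band (Nat.beq (get 16 ND 0) 0) (allLt (fun i => allLt (fun a => band (Nat.blt (tb TB a i) n)
    (walk FA RF k (fun c w => band (Nat.beq c (get 16 ND (tb TB a i))) (isL (get 4 LT a) w)) 1 (Nat.add (Nat.mul 4 i) a)
      (get 16 ND i) [])) 4) n)

/-- a complete table -/
def Tab (g : ℕ → G) (x₀ : X) (TB n : ℕ) (v : ℕ → X) : Prop :=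
  v 0 = x₀ ∧ ∀ i < n, ∀ a < 4, tb TB a i < n ∧ g a • v i = v (tb TB a i)

theorem Let.tab (h : Let gen) {FA RF ND TB LT k n : ℕ} (H : ∀ q < k, Holds gen (val gen x₀ FA) (get 32 FA q))
    (e : tabOk FA RF ND TB LT k n = true) : ∃ v, Tab (fun a => gen (get 4 LT a)) x₀ TB n v := by
  simp only [tabOk, band_eq_true, allLt_iff, Nat.beq_eq, Nat.blt_eq] at e
  refine ⟨fun i => val gen x₀ FA (get 16 ND i), by simp only [e.1, val_zero], fun i hi a ha => ⟨(e.2 i hi a ha).1, ?_⟩⟩
  obtain ⟨c, w, e1, e2⟩ := h.walk H _ (e.2 i hi a ha).2 (x := val gen x₀ FA (get 16 ND i)) (by simp)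
  obtain ⟨e3, e4⟩ := band_eq_true.1 e1
  simp only [← Nat.eq_of_beq_eq_true e3, e2, isL_spec e4, ev_cons, ev_nil, mul_one]

/-- apply a packed word -/
noncomputable def ap (TB fuel : ℕ) : ℕ → ℕ → ℕ :=
  Nat.rec (fun _ i => i) (fun _ ih c i => Bool.rec (force (tb TB (Nat.land c 3) i) fun j => force (Nat.shiftRight c 2) fun c' => ih c' j)
    i (Nat.ble c 1)) fuel

/-- the packed word avoids the last letter -/
noncomputable def noL (fuel : ℕ) : ℕ → Bool :=
  Nat.rec (fun _ => true) (fun _ ih c => bor (Nat.ble c 1) (band (Nat.blt (Nat.land c 3) 3) (ih (Nat.shiftRight c 2)))) fuel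

variable {g : ℕ → G} {TB n : ℕ} {v : ℕ → X}

theorem land3 (c : ℕ) : Nat.land c 3 < 4 := Nat.and_lt_two_pow (n := 2) c (by norm_num)

theorem Tab.ap (T : Tab g x₀ TB n v) (hA : ∀ a < 3, g a • x₀ = x₀)
    (inj : ∀ a < 4, ∀ i < n, ∀ j < n, tb TB a i = tb TB a j → i = j) (f c : ℕ) :
    ∃ γ : G, (noL f c = true → γ • x₀ = x₀) ∧ (∀ i < n, ap TB f c i < n ∧ γ • v i = v (ap TB f c i)) ∧
      ∀ i < n, ∀ j < n, ap TB f c i = ap TB f c j → i = j := by
  induction f generalizing c with
  | zero => exact ⟨1, fun _ => one_smul _ _, fun i hi => ⟨hi, one_smul _ _⟩, fun _ _ _ _ e => e⟩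
  | succ f ih =>
    unfold Am.ap noL
    simp only [force_eq]
    cases Nat.ble c 1
    · obtain ⟨γ, a, b, d⟩ := ih (Nat.shiftRight c 2)
      refine ⟨γ * g (Nat.land c 3), fun e => ?_, fun i hi => ?_, fun i hi j hj e => ?_⟩
      · simp only [bor_eq_true, band_eq_true, Nat.blt_eq, Bool.false_eq_true, false_or] at e
        rw [mul_smul, hA _ e.1, a e.2]
      · obtain ⟨p, q⟩ := T.2 i hi _ (land3 c)
        exact ⟨(b _ p).1, by rw [mul_smul, q]; exact (b _ p).2⟩
      · exact inj _ (land3 c) i hi j hj (d _ (T.2 i hi _ (land3 c)).1 _ (T.2 j hj _ (land3 c)).1 e)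
    · exact ⟨1, fun _ => one_smul _ _, fun i hi => ⟨hi, one_smul _ _⟩, fun _ _ _ _ e => e⟩

/-- nonzero and of smaller rank -/
noncomputable def low (RK j t : ℕ) : Bool := band (Nat.blt 0 t) (Nat.blt (get 8 RK t) (get 8 RK j))

/-- check of primitivity -/
noncomputable def idxOk (TB PW WS US RK n : ℕ) : Bool :=
  allLt (fun j => band (allLt (fun a => Nat.beq (ap TB 16 (get 32 PW a) (tb TB a j)) j) 4)
    (band (Nat.beq (ap TB 16 (get 32 WS j) j) 0) (bor (Nat.beq j 0) (band (noL 16 (get 32 US j))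
      (force (ap TB 16 (get 32 US j) j) fun t => bor (Nat.beq t (tb TB 3 0))
        (bor (low RK j t) (low RK j (ap TB 16 (get 32 WS j) t)))))))) n

theorem Tab.card_eq [Finite G] (T : Tab g x₀ TB n v) (hn : 0 < n) (hA : ∀ a < 3, g a • x₀ = x₀) (hm : g 3 • x₀ ≠ x₀)
    (hg : Subgroup.closure {g 0, g 1, g 2, g 3} = ⊤) [MulAction.IsPretransitive G X] {PW WS US RK : ℕ}
    (e : idxOk TB PW WS US RK n = true) : Nat.card X = n := by
  simp only [idxOk, low, allLt_iff, band_eq_true, bor_eq_true, Nat.beq_eq, Nat.blt_eq, force_eq] at e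
  have inj : ∀ a < 4, ∀ i < n, ∀ j < n, tb TB a i = tb TB a j → i = j := fun a ha i hi j hj r => by
    rw [← (e i hi).1 a ha, r, (e j hj).1 a ha]
  have kill : ∀ j < n, 0 < j → v j ≠ x₀ := by
    intro j
    induction hr : get 8 RK j using Nat.strong_induction_on generalizing j with
    | _ r ih =>
      intro hj j0 r0
      obtain ⟨a, b⟩ := (e j hj).2.2.resolve_left j0.ne'
      obtain ⟨γ, c1, c2, -⟩ := T.ap hA inj 16 (get 32 US j)
      obtain ⟨δ, -, d2, -⟩ := T.ap hA inj 16 (get 32 WS j)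
      obtain ⟨t1, t2⟩ := c2 j hj
      rw [r0, c1 a] at t2
      rcases b with b | b | b
      · exact hm (by rw [← T.1, (T.2 0 hn 3 (by norm_num)).2, ← b, ← t2, T.1])
      · exact ih _ (hr ▸ b.2) _ rfl t1 b.1 t2.symm
      · have d3 := (d2 j hj).2
        rw [(e j hj).2.1, r0, T.1] at d3
        exact ih _ (hr ▸ b.2) _ rfl (d2 _ t1).1 b.1 (by rw [← (d2 _ t1).2, ← t2, d3])
  rw [← Nat.card_congr (Equiv.ofBijective (fun i : Fin n => v i) ⟨fun i j r => ?_, fun y => ?_⟩), Nat.card_fin]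
  · obtain ⟨δ, -, d2, d3⟩ := T.ap hA inj 16 (get 32 WS i)
    refine Fin.ext (d3 _ i.2 _ j.2 ?_)
    rw [(e i i.2).2.1]
    by_contra c
    refine kill _ (d2 _ j.2).1 (Nat.pos_of_ne_zero (Ne.symm c)) ?_
    rw [← (d2 _ j.2).2, ← show v i = v j from r, (d2 _ i.2).2, (e i i.2).2.1, T.1]
  · obtain ⟨γ, rfl⟩ := MulAction.exists_smul_eq G x₀ y
    have : γ ∈ Submonoid.closure {g 0, g 1, g 2, g 3} := by
      rw [← Subgroup.closure_toSubmonoid_of_finite, hg]; trivial
    suffices ∀ i < n, ∃ j < n, γ • v i = v j by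
      obtain ⟨j, a, b⟩ := this 0 hn
      exact ⟨⟨j, a⟩, by rw [← T.1, b]⟩
    induction this using Submonoid.closure_induction with
    | mem x hx =>
      intro i hi
      rcases hx with rfl | rfl | rfl | rfl <;> exact ⟨_, T.2 i hi _ (by norm_num)⟩
    | one => exact fun i hi => ⟨i, hi, one_smul _ _⟩
    | mul x y _ _ a b =>
      intro i hi
      obtain ⟨j, c, d⟩ := b i hi
      obtain ⟨k, c', d'⟩ := a j c
      exact ⟨k, c', by rw [mul_smul, d, d']⟩

end H19.Am
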