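import Mathlib
import Cfsg.Agent.H19.Am1

/-!
The affine group `3² : GL₂(3)` inside a group (namespace `H19.Am`).
* `Act`, `Orc` (words in the letters of `A` are evaluated on nine conjugate involutions), `Orc.ok`, `Orc.all`;
* `Par A U`, `Par.basis`, `Par.exists_conj`, `Par.frame`.
-/

set_option autoImplicit false

namespace H19.Am
open H13 Subgroup

variable {G : Type*} [Group G] {gen : ℕ → G} {A U : Subgroup G} {P : ℕ → G} {T : ℕ}

/-- the element acts on the points as the packed table -/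
def Act (A : Subgroup G) (P : ℕ → G) (g : G) (σ : ℕ) : Prop :=
  g ∈ A ∧ get 4 σ 0 = 0 ∧ ∀ k, get 4 σ k ≠ 0 → g * P k * g⁻¹ = P (get 4 σ k)

theorem Act.inv {g : G} {σ τ : ℕ} (h : Act A P g σ)
    (e : τ < 2 ^ 64 ∧ get 4 τ 0 = 0 ∧ ∀ k < 16, get 4 τ k ≠ 0 → get 4 σ (get 4 τ k) = k) : Act A P g⁻¹ τ := by
  refine ⟨inv_mem h.1, e.2.1, fun k hk => ?_⟩
  have k1 : k < 16 := lt_of_not_ge fun c => hk (get_eq_zero_of_lt (n := 16) e.1 c)
  have k2 := h.2.2 (get 4 τ k) (by rw [e.2.2 k k1 hk]; rintro rfl; exact hk e.2.1)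
  rw [e.2.2 k k1 hk] at k2
  rw [← k2]; group

/-- image of a point under a word -/
noncomputable def tr (T : ℕ) (w : List ℕ) (k : ℕ) : ℕ := List.rec k (fun l _ ih => get 4 (get 64 T l) ih) w

/-- the evaluation of words is sound and faithful -/
structure Orc (gen : ℕ → G) (A : Subgroup G) (P : ℕ → G) (T : ℕ) : Prop where
  act : ∀ l, get 64 T l = 0 ∨ Act A P (gen l) (get 64 T l)
  faith : ∀ g ∈ A, g * P 1 * g⁻¹ = P 1 → g * P 2 * g⁻¹ = P 2 → g * P 4 * g⁻¹ = P 4 → g = 1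
  inj : ∀ k l, 0 < k → k < 10 → 0 < l → l < 10 → P k = P l → k = l

theorem Orc.tr (h : Orc gen A P T) (w : List ℕ) {k : ℕ} (e : tr T w k ≠ 0) :
    ev gen w ∈ A ∧ ev gen w * P k * (ev gen w)⁻¹ = P (tr T w k) := by
  induction w with
  | nil => exact ⟨one_mem _, by simp [Am.tr]⟩
  | cons l w ih =>
    change get 4 (get 64 T l) (Am.tr T w k) ≠ 0 at e
    have a := (h.act l).resolve_left fun c => e (by rw [c, get_zero_left])
    obtain ⟨b, c⟩ := ih fun c => e (by rw [c, a.2.1])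
    refine ⟨by rw [ev_cons]; exact mul_mem a.1 b, ?_⟩
    rw [ev_cons, show ∀ a b c : G, a * b * c * (a * b)⁻¹ = a * (b * c * b⁻¹) * a⁻¹ by intros; group, c]
    exact a.2.2 _ e

/-- the word is trivial -/
noncomputable def ok (T : ℕ) (w : List ℕ) : Bool :=
  band (Nat.beq (tr T w 1) 1) (band (Nat.beq (tr T w 2) 2) (Nat.beq (tr T w 4) 4))

theorem Orc.ok (h : Orc gen A P T) {w : List ℕ} (e : ok T w = true) : ev gen w = 1 := by
  simp only [Am.ok, band_eq_true, Nat.beq_eq] at e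
  obtain ⟨a, b, c⟩ := e
  have k : ∀ k, Am.tr T w k = k → k ≠ 0 → ev gen w * P k * (ev gen w)⁻¹ = P k := fun k r s => by
    have := (h.tr w (k := k) (by rwa [r])).2
    rwa [r] at this
  exact h.faith _ (h.tr w (k := 1) (by omega)).1 (k 1 a (by omega)) (k 2 b (by omega)) (k 4 c (by omega))

/-- code of a word -/
noncomputable def code (T : ℕ) (w : List ℕ) : ℕ := tr T w 1 + 16 * tr T w 2 + 256 * tr T w 4

/-- the images are points -/
noncomputable def rng (T : ℕ) (w : List ℕ) : Bool := allL (fun k => band (Nat.blt 0 (tr T w k)) (Nat.blt (tr T w k) 10)) [1, 2, 4]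

theorem Orc.code (h : Orc gen A P T) {u w : List ℕ} (hu : rng T u = true) (hw : rng T w = true) (e : ev gen u = ev gen w) :
    code T u = code T w := by
  simp only [rng, allL_iff, band_eq_true, Nat.blt_eq] at hu hw
  have k : ∀ k ∈ [1, 2, 4], Am.tr T u k = Am.tr T w k := fun k hk =>
    h.inj _ _ (hu k hk).1 (hu k hk).2 (hw k hk).1 (hw k hk).2 (by
      rw [← (h.tr u (hu k hk).1.ne').2, ← (h.tr w (hw k hk).1.ne').2, e])
  rw [Am.code, Am.code, k 1 (by simp), k 2 (by simp), k 4 (by simp)]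

/-- unpack a word -/
noncomputable def dec (fuel : ℕ) : ℕ → List ℕ :=
  Nat.rec (fun _ => []) (fun _ ih c => Bool.rec (Nat.land c 15 :: ih (Nat.shiftRight c 4)) [] (Nat.beq c 0)) fuel

theorem Orc.all [Finite G] (h : Orc gen A P T) {ws : List (List ℕ)} (h1 : ∀ w ∈ ws, rng T w = true)
    (h2 : (ws.map (Am.code T)).IsChain (· < ·)) (h3 : ws.length = Nat.card A) {g : G} (hg : g ∈ A) : ∃ w ∈ ws, ev gen w = g := by
  have h4 : (ws.map (Am.code T)).Nodup := (List.isChain_iff_pairwise.1 h2).imp ne_of_lt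
  have m : ∀ w ∈ ws, ev gen w ∈ A := fun w hw => by
    have := h1 w hw
    simp only [rng, allL_iff, band_eq_true, Nat.blt_eq] at this
    exact (h.tr w (this 1 (by simp)).1.ne').1
  have : Function.Injective fun i : Fin ws.length => (⟨ev gen (ws.get i), m _ (ws.get_mem i)⟩ : A) := fun i j r =>
    (List.Nodup.of_map _ h4).get_inj_iff.1 (List.inj_on_of_nodup_map h4 (ws.get_mem i) (ws.get_mem j)
      (h.code (h1 _ (ws.get_mem i)) (h1 _ (ws.get_mem j)) (congrArg Subtype.val r)))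
  obtain ⟨i, r⟩ := (this.bijective_of_nat_card_le (by simp [h3])).2 ⟨g, hg⟩
  exact ⟨_, ws.get_mem i, congrArg Subtype.val r⟩

/-- the shape of a parabolic subgroup -/
structure Par (A U : Subgroup G) : Prop where
  le : U ≤ A
  norm : ∀ g ∈ A, ∀ u ∈ U, g * u * g⁻¹ ∈ U
  comm : ∀ u ∈ U, ∀ v ∈ U, u * v = v * u
  exp : ∀ u ∈ U, u ^ 3 = 1
  cU : Nat.card U = 9
  cA : Nat.card A = 432
  self : ∀ g ∈ A, (∀ u ∈ U, g * u = u * g) → g ∈ U

/-- a basis -/
structure Bas (U : Subgroup G) (x z : G) : Prop where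
  hx : x ∈ U
  hz : z ∈ U
  z1 : z ≠ 1
  nx : x ∉ zpowers z

variable {x z a y b : G}

theorem Par.e_mod (h : Par A U) (B : Bas U x z) (i j : ℕ) : x ^ (i % 3) * z ^ (j % 3) = x ^ i * z ^ j := by
  rw [← pow_eq_pow_mod _ (h.exp x B.hx), ← pow_eq_pow_mod _ (h.exp z B.hz)]

theorem Par.e_conj (h : Par A U) (B : Bas U x z) {g : G} {i j k l : ℕ} (h1 : g * x * g⁻¹ = x ^ i * z ^ j)
    (h2 : g * z * g⁻¹ = x ^ k * z ^ l) (α β : ℕ) : g * (x ^ α * z ^ β) * g⁻¹ = x ^ (i * α + k * β) * z ^ (j * α + l * β) := by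
  have c : Commute x z := h.comm x B.hx z B.hz
  rw [← conj_mul, ← conj_pow, ← conj_pow, h1, h2, (c.pow_pow _ _).mul_pow, (c.pow_pow _ _).mul_pow]
  simp only [← pow_mul, pow_add, mul_assoc]
  rw [← mul_assoc (z ^ _), ← (c.pow_pow _ _).eq, mul_assoc]

theorem Par.e_inj (h : Par A U) (B : Bas U x z) {i j k l : ℕ} (e : x ^ i * z ^ j = x ^ k * z ^ l) :
    i % 3 = k % 3 ∧ j % 3 = l % 3 := by
  have := Fact.mk Nat.prime_three
  have x3 := h.exp x B.hx
  have a : x ^ ((i + 2 * k) % 3) ∈ zpowers z := by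
    have : x ^ (i + 2 * k) * z ^ j = z ^ l := by
      rw [add_comm, pow_add, mul_assoc, e, ← mul_assoc, ← pow_add, show 2 * k + k = 3 * k by ring, pow_mul, x3]; simp
    rw [← pow_eq_pow_mod _ x3, eq_mul_inv_of_mul_eq this]
    exact mul_mem (npow_mem_zpowers _ _) (inv_mem (npow_mem_zpowers _ _))
  have b : i % 3 = k % 3 := by
    by_contra c
    have : (i + 2 * k) % 3 = 1 ∨ (i + 2 * k) % 3 = 2 := by omega
    rcases this with r | r <;> rw [r] at a
    · exact B.nx (by simpa using a)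
    · have := mul_mem a a
      rw [← pow_add, pow_succ, x3, one_mul] at this
      exact B.nx this
  rw [pow_eq_pow_mod _ x3, b, ← pow_eq_pow_mod _ x3, mul_right_inj, pow_eq_pow_iff_modEq,
    orderOf_eq_prime (h.exp z B.hz) B.z1] at e
  exact ⟨b, e⟩

theorem Par.basis (h : Par A U) (B : Bas U x z) {u : G} (hu : u ∈ U) : ∃ i < 3, ∃ j < 3, u = x ^ i * z ^ j := by
  have : Finite U := Nat.finite_of_card_ne_zero (by rw [h.cU]; norm_num)
  have : Function.Injective fun p : Fin 3 × Fin 3 =>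
      (⟨x ^ p.1.1 * z ^ p.2.1, mul_mem (pow_mem B.hx _) (pow_mem B.hz _)⟩ : U) := fun p q r => by
    obtain ⟨c, d⟩ := h.e_inj B (congrArg Subtype.val r)
    have := p.1.2; have := p.2.2; have := q.1.2; have := q.2.2
    exact Prod.ext (Fin.ext (by omega)) (Fin.ext (by omega))
  obtain ⟨p, r⟩ := (this.bijective_of_nat_card_le (by simp [h.cU])).2 ⟨u, hu⟩
  exact ⟨_, p.1.2, _, p.2.2, (congrArg Subtype.val r).symm⟩

theorem Par.mem_of (h : Par A U) (B : Bas U x z) {g : G} (hg : g ∈ A) (h1 : g * x * g⁻¹ = x) (h2 : g * z * g⁻¹ = z) : g ∈ U :=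
  h.self g hg fun u hu => by
    obtain ⟨i, -, j, -, rfl⟩ := h.basis B hu
    rw [← mul_inv_eq_iff_eq_mul, ← conj_mul, ← conj_pow, ← conj_pow, h1, h2]

theorem Par.det (h : Par A U) (B : Bas U x z) {g : G} (hg : g ∈ A) : ∃ i j k l : Fin 3, i * l ≠ j * k ∧
    g * x * g⁻¹ = x ^ i.1 * z ^ j.1 ∧ g * z * g⁻¹ = x ^ k.1 * z ^ l.1 := by
  obtain ⟨i, hi, j, hj, e1⟩ := h.basis B (h.norm _ hg x B.hx)
  obtain ⟨k, hk, l, hl, e2⟩ := h.basis B (h.norm _ hg z B.hz)
  refine ⟨⟨i, hi⟩, ⟨j, hj⟩, ⟨k, hk⟩, ⟨l, hl⟩, ?_, e1, e2⟩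
  have key : ∀ α < 3, ∀ β < 3, (i * α + k * β) % 3 = 0 → (j * α + l * β) % 3 = 0 → α % 3 = 0 ∧ β % 3 = 0 :=
    fun α _ β _ r s => by
      have := h.e_conj B e1 e2 α β
      rw [← h.e_mod B (_ + _), r, s, pow_zero, pow_zero, mul_one, conj_eq_one_iff] at this
      exact h.e_inj B (k := 0) (l := 0) (by simpa using this)
  exact (by decide +kernel : ∀ i j k l : Fin 3, (∀ α < 3, ∀ β < 3, (i.1 * α + k.1 * β) % 3 = 0 → (j.1 * α + l.1 * β) % 3 = 0 →
    α % 3 = 0 ∧ β % 3 = 0) → i * l ≠ j * k) _ _ _ _ key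

theorem Par.exists_conj (h : Par A U) (B : Bas U x z) (i j k l : Fin 3) (hd : i * l ≠ j * k) :
    ∃ g ∈ A, g * x * g⁻¹ = x ^ i.1 * z ^ j.1 ∧ g * z * g⁻¹ = x ^ k.1 * z ^ l.1 := by
  classical
  let A' : Subgroup (ConjAct G) := A
  let U' : Subgroup (ConjAct G) := U
  have st : MulAction.stabilizer A' (x, z) = U'.subgroupOf A' := by
    ext g
    rw [MulAction.mem_stabilizer_iff, mem_subgroupOf]
    exact ⟨fun r => h.mem_of B g.2 (congrArg Prod.fst r) (congrArg Prod.snd r), fun r =>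
      Prod.ext (mul_inv_eq_iff_eq_mul.2 (h.comm _ r x B.hx)) (mul_inv_eq_iff_eq_mul.2 (h.comm _ r z B.hz))⟩
  have c1 := (MulAction.stabilizer A' (x, z)).index_mul_card
  rw [MulAction.index_stabilizer, st, Nat.card_congr (subgroupOfEquivOfLe (show U' ≤ A' from h.le)).toEquiv,
    show Nat.card U' = 9 from h.cU, show Nat.card A' = 432 from h.cA] at c1
  let S : Finset (Fin 3 × Fin 3 × Fin 3 × Fin 3) := Finset.univ.filter fun p => p.1 * p.2.2.2 ≠ p.2.1 * p.2.2.1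
  let f : Fin 3 × Fin 3 × Fin 3 × Fin 3 → G × G := fun p => (x ^ p.1.1 * z ^ p.2.1.1, x ^ p.2.2.1.1 * z ^ p.2.2.2.1)
  have c2 : MulAction.orbit A' (x, z) = ↑(S.image f) := by
    refine Set.eq_of_subset_of_ncard_le ?_ ?_ (Finset.finite_toSet _)
    · rintro _ ⟨g, rfl⟩
      obtain ⟨i, j, k, l, e⟩ := h.det B (g := g.1) g.2
      exact Finset.mem_coe.2 (Finset.mem_image.2 ⟨(i, j, k, l), Finset.mem_filter.2 ⟨Finset.mem_univ _, e.1⟩,
        Prod.ext e.2.1.symm e.2.2.symm⟩)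
    · rw [Set.ncard_coe_finset]
      exact Finset.card_image_le.trans (by rw [show S.card = 48 by decide]; omega)
  obtain ⟨g, r⟩ : f (i, j, k, l) ∈ MulAction.orbit A' (x, z) :=
    c2 ▸ Finset.mem_coe.2 (Finset.mem_image_of_mem f (Finset.mem_filter.2 ⟨Finset.mem_univ _, hd⟩))
  exact ⟨g.1, g.2, congrArg Prod.fst r, congrArg Prod.snd r⟩

/-- the nine points -/
def pt (x z a : G) (k : ℕ) : G := x ^ ((k - 1) % 3) * z ^ ((k - 1) / 3) * a

theorem Par.act (h : Par A U) (B : Bas U x z) {g : G} (hg : g ∈ A) {i j k l s t σ : ℕ} (h1 : g * x * g⁻¹ = x ^ i * z ^ j)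
    (h2 : g * z * g⁻¹ = x ^ k * z ^ l) (h3 : g * a * g⁻¹ = x ^ s * z ^ t * a)
    (e : σ < 2 ^ 40 ∧ get 4 σ 0 = 0 ∧ ∀ c < 9, get 4 σ (c + 1) =
      1 + (i * (c % 3) + k * (c / 3) + s) % 3 + 3 * ((j * (c % 3) + l * (c / 3) + t) % 3)) : Act A (pt x z a) g σ := by
  refine ⟨hg, e.2.1, fun c hc => ?_⟩
  have k1 : c < 10 := lt_of_not_ge fun r => hc (get_eq_zero_of_lt (n := 10) e.1 r)
  obtain _ | c := c
  · exact absurd e.2.1 hc
  have c0 : Commute x z := h.comm x B.hx z B.hz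
  rw [e.2.2 c (by omega), pt, pt, ← conj_mul, h3, h.e_conj B h1 h2, Nat.add_sub_cancel, ← mul_assoc]
  congr 1
  rw [show ∀ p q : ℕ, (1 + p % 3 + 3 * (q % 3) - 1) % 3 = p % 3 by omega,
    show ∀ p q : ℕ, (1 + p % 3 + 3 * (q % 3) - 1) / 3 = q % 3 by omega, h.e_mod B, pow_add x _ s, pow_add z _ t]
  simp only [mul_assoc]
  rw [← mul_assoc (z ^ _), ← (c0.pow_pow _ _).eq, mul_assoc]

theorem Par.inv_all (h : Par A U) (B : Bas U x z) (h1 : a * x * a⁻¹ = x⁻¹) (h2 : a * z * a⁻¹ = z⁻¹) {u : G} (hu : u ∈ U) :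
    a * u * a⁻¹ = u⁻¹ := by
  obtain ⟨i, -, j, -, rfl⟩ := h.basis B hu
  rw [← conj_mul, ← conj_pow, ← conj_pow, h1, h2, h.comm _ (pow_mem B.hx i) _ (pow_mem B.hz j)]; group

theorem Par.inv_sq (h : Par A U) {u : G} (hu : u ∈ U) : u⁻¹ = u ^ 2 :=
  inv_eq_of_mul_eq_one_left (by rw [← pow_succ, h.exp u hu])

theorem Par.orc (h : Par A U) (B : Bas U x z) (h1 : a * x * a⁻¹ = x⁻¹) (h2 : a * z * a⁻¹ = z⁻¹)
    (act : ∀ l, get 64 T l = 0 ∨ Act A (pt x z a) (gen l) (get 64 T l)) : Orc gen A (pt x z a) T := by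
  refine ⟨act, fun g hg e1 e2 e3 => ?_, fun k l a b c d e => ?_⟩
  · simp only [pt, Nat.reduceSub, Nat.reduceMod, Nat.reduceDiv, pow_zero, pow_one, one_mul, mul_one] at e1 e2 e3
    rw [← conj_mul, e1, mul_left_inj] at e2 e3
    have hU := h.mem_of B hg e2 e3
    have := h.inv_all B h1 h2 hU
    rw [← mul_inv_eq_iff_eq_mul.1 e1, mul_inv_cancel_right, h.inv_sq hU] at this
    have t := h.exp g hU
    rw [pow_succ, ← this, ← pow_two, ← this] at t
    exact t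
  · obtain ⟨r, s⟩ := h.e_inj B (mul_right_cancel e)
    omega

theorem Par.conj_inv (h : Par A U) (B : Bas U x z) (ha : a ∈ A) (h1 : a * x * a⁻¹ = x⁻¹) (h2 : a * z * a⁻¹ = z⁻¹) {g : G}
    (hg : g ∈ A) : g * a * g⁻¹ * a⁻¹ ∈ U := by
  refine h.self _ (mul_mem (mul_mem (mul_mem hg ha) (inv_mem hg)) (inv_mem ha)) fun u hu => ?_
  have k1 := h.inv_all B h1 h2 (h.norm _ (inv_mem ha) u hu)
  have k2 := h.inv_all B h1 h2 (h.norm _ (inv_mem hg) _ (h.norm _ (inv_mem ha) u hu))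
  have k3 : a⁻¹ * u * a = u⁻¹ := by
    rw [show a * (a⁻¹ * u * a⁻¹⁻¹) * a⁻¹ = u by group, inv_inv] at k1
    exact (inv_eq_iff_eq_inv.1 k1.symm)
  rw [inv_inv, inv_inv, k3] at k2
  rw [← mul_inv_eq_iff_eq_mul]
  calc _ = g * (a * (g⁻¹ * (a⁻¹ * u * a) * g) * a⁻¹) * g⁻¹ := by group
    _ = u := by rw [k3, k2]; group

/-- the tables of the letters of a frame -/
structure Fr (A : Subgroup G) (x z a y b n : G) : Prop where
  t1 : Act A (pt x z a) 1 0x9876543210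
  tx : Act A (pt x z a) x 0x8795462130
  tX : Act A (pt x z a) x⁻¹ 0x7984651320
  ty : Act A (pt x z a) y 0x6273849510
  tY : Act A (pt x z a) y⁻¹ 0x3579246810
  tz : Act A (pt x z a) z 0x6543219870
  tZ : Act A (pt x z a) z⁻¹ 0x3219876540
  ta : Act A (pt x z a) a 0x5648972310
  tA : Act A (pt x z a) a⁻¹ 0x5648972310
  tb : Act A (pt x z a) b 0x6549873210
  tB : Act A (pt x z a) b⁻¹ 0x6549873210
  tn : Act A (pt x z a) n 0x8529637410
  tN : Act A (pt x z a) n⁻¹ 0x6935824710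

theorem Par.frame (h : Par A U) (B : Bas U x z) (ha : a ∈ A) (hy : y ∈ A) (hb : b ∈ A)
    (a1 : a * x * a⁻¹ = x⁻¹) (a2 : a * z * a⁻¹ = z⁻¹) (y1 : y * x * y⁻¹ = x * z) (y2 : y * z * y⁻¹ = z) (y3 : y * a * y⁻¹ = a)
    (b1 : b * x * b⁻¹ = x) (b2 : b * z * b⁻¹ = z⁻¹) (b3 : b * a * b⁻¹ = a) : ∃ n, Fr A x z a y b n := by
  have k : ∀ u ∈ U, u * a * u⁻¹ = u ^ 2 * a := fun u hu => by
    rw [mul_assoc, mul_inv_eq_iff_eq_mul.1 (h.inv_all B a1 a2 (inv_mem hu)), inv_inv, pow_two, mul_assoc]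
  have c := h.comm x B.hx z B.hz
  obtain ⟨n, n0, n1, n2⟩ := h.exists_conj B 0 1 2 0 (by decide)
  have n3 := h.conj_inv B ha a1 a2 n0
  set u := n * a * n⁻¹ * a⁻¹ with hu
  have f : ∀ v ∈ U, u * n * v * (u * n)⁻¹ = n * v * n⁻¹ := fun v hv => by
    rw [show u * n * v * (u * n)⁻¹ = u * (n * v * n⁻¹) * u⁻¹ by group, h.comm u n3 _ (h.norm n n0 v hv)]; group
  have n4 : u * n * a * (u * n)⁻¹ = a := by
    rw [show u * n * a * (u * n)⁻¹ = u * (u * a * u⁻¹) by rw [hu]; group, k u n3, ← mul_assoc, ← pow_succ', h.exp u n3, one_mul]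
  have p1 := h.act (a := a) B (h.le B.hx) (i := 1) (j := 0) (k := 0) (l := 1) (s := 2) (t := 0) (σ := 0x8795462130) (by simp)
    (by simp [c]) (by simp [k x B.hx]) (by decide +kernel)
  have p2 := h.act (a := a) B hy (i := 1) (j := 1) (k := 0) (l := 1) (s := 0) (t := 0) (σ := 0x6273849510) (by simp [y1])
    (by simp [y2]) (by simp [y3]) (by decide +kernel)
  have p3 := h.act (a := a) B (h.le B.hz) (i := 1) (j := 0) (k := 0) (l := 1) (s := 0) (t := 2) (σ := 0x6543219870)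
    (by simp [← c]) (by simp) (by simp [k z B.hz]) (by decide +kernel)
  have p4 := h.act (a := a) B ha (i := 2) (j := 0) (k := 0) (l := 2) (s := 0) (t := 0) (σ := 0x5648972310)
    (by simp [a1, h.inv_sq B.hx]) (by simp [a2, h.inv_sq B.hz]) (by simp) (by decide +kernel)
  have p5 := h.act (a := a) B hb (i := 1) (j := 0) (k := 0) (l := 2) (s := 0) (t := 0) (σ := 0x6549873210)
    (by simp [b1]) (by simp [b2, h.inv_sq B.hz]) (by simp [b3]) (by decide +kernel)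
  have p6 := h.act (a := a) B (mul_mem (h.le n3) n0) (i := 0) (j := 1) (k := 2) (l := 0) (s := 0) (t := 0) (σ := 0x8529637410)
    (by rw [f x B.hx]; exact n1) (by rw [f z B.hz]; exact n2) (by rw [n4]; simp) (by decide +kernel)
  exact ⟨u * n, h.act B (one_mem _) (i := 1) (j := 0) (k := 0) (l := 1) (s := 0) (t := 0) (by simp) (by simp) (by simp)
    (by decide +kernel), p1, p1.inv (by decide +kernel), p2, p2.inv (by decide +kernel), p3, p3.inv (by decide +kernel), p4,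
    p4.inv (by decide +kernel), p5, p5.inv (by decide +kernel), p6, p6.inv (by decide +kernel)⟩

end H19.Am
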