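import Mathlib
import Cfsg.Agent.H19.PBx
import Cfsg.Agent.H19.SharpF
import Cfsg.Agent.H14.Witt

/-!
Steiner systems from fixed points of involutions (namespace H19).
* `exists_steiner`, `multi_of_classInner`, `card_fixedBy_eq_of_min`, `exists_hom_aut`
* `exists_steiner_of_char`, `moments`
-/

set_option linter.unusedSectionVars false

open H05 Cfsg MulAction Subgroup
open scoped Pointwise

namespace H19

variable {G α : Type*} [Group G] [Finite G] [MulAction G α] [Fintype α] [DecidableEq α]

theorem exists_steiner {k : ℕ} (h48 : ∀ s : Finset α, s.card = k → Nat.card (fixingSubgroup G (s : Set α)) = 48)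
    (hinv : ∀ t : G, orderOf t = 2 → k ≤ Nat.card (fixedBy α t) → Nat.card (fixedBy α t) = k + 3) :
    ∃ B : Set (Finset α), IsSteinerSystem k (k + 3) B ∧ ∀ g : G, ∀ b ∈ B, g • b ∈ B := by
  have key : ∀ (t : G) (s : Finset α), orderOf t = 2 → k ≤ s.card → t ∈ fixingSubgroup G (s : Set α) →
      (s ⊆ Finset.univ.filter fun a : α => t • a = a) ∧ (Finset.univ.filter fun a : α => t • a = a).card = k + 3 := fun t s h1 h2 h3 => by
    have h4 : s ⊆ Finset.univ.filter fun a : α => t • a = a := fun a ha =>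
      Finset.mem_filter.2 ⟨Finset.mem_univ a, (mem_fixingSubgroup_iff G).1 h3 a ha⟩
    have h5 : (Finset.univ.filter fun a : α => t • a = a).card = Nat.card (fixedBy α t) := by
      rw [Nat.card_eq_fintype_card, Fintype.card_subtype]; rfl
    exact ⟨h4, h5 ▸ hinv t h1 (h5 ▸ h2.trans (Finset.card_le_card h4))⟩
  refine ⟨{b | b.card = k + 3 ∧ 8 ∣ Nat.card (fixingSubgroup G (b : Set α))}, ⟨fun b hb => hb.1, fun s hs => ?_⟩,
    fun g b hb => ⟨(Finset.card_smul_finset g b).trans hb.1, ?_⟩⟩
  · obtain ⟨t, h1, h2, h3⟩ := exists_central_elt (k := 3) Nat.prime_two (H := fixingSubgroup G (s : Set α))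
      (by rw [h48 s hs]; norm_num)
    obtain ⟨h4, h5⟩ := key t s h2 hs.ge h1
    refine existsUnique_of_exists_of_unique ⟨_, ⟨h5, ?_⟩, h4⟩ fun b b' ⟨⟨e3, e5⟩, e1⟩ ⟨⟨e4, e6⟩, e2⟩ => ?_
    · set C := centralizer ({t} : Set G) ⊓ fixingSubgroup G (s : Set α)
      let S : SubMulAction C α := ⟨{a | a ∈ (Finset.univ.filter fun a : α => t • a = a) \ s}, fun c a ha => by
        simp only [Set.mem_setOf, Finset.mem_sdiff, Finset.mem_filter, Finset.mem_univ, true_and] at ha ⊢
        refine ⟨by rw [Subgroup.smul_def, smul_smul, ← mem_centralizer_singleton_iff.1 c.2.1, mul_smul, ha.1], fun h => ha.2 ?_⟩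
        exact (smul_left_cancel_iff _).1 ((mem_fixingSubgroup_iff G).1 c.2.2 _ h) ▸ h⟩
      have h6 : Nat.card S = 3 := by
        have := Finset.card_sdiff_add_card_eq_card h4
        exact (Nat.card_eq_finsetCard _).trans (by omega)
      have h7 : (toPermHom C S).ker.index ∣ 6 := by
        rw [index_ker]
        exact (card_subgroup_dvd_card _).trans (by rw [Nat.card_perm, h6]; rfl)
      have h8 : 8 ∣ Nat.card (toPermHom C S).ker := by
        rw [← (toPermHom C S).ker.index_mul_card] at h3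
        have := Nat.le_of_dvd (by norm_num) h7
        generalize (toPermHom C S).ker.index = i at *
        interval_cases i <;> omega
      refine h8.trans ((card_subtype _ _).symm.dvd.trans (card_dvd_of_le ?_))
      rintro _ ⟨c, hc, rfl⟩
      refine (mem_fixingSubgroup_iff G).2 fun a ha => ?_
      by_cases h : a ∈ s
      · exact (mem_fixingSubgroup_iff G).1 c.2.2 a h
      · exact congrArg Subtype.val (DFunLike.congr_fun hc (⟨a, Finset.mem_sdiff.2 ⟨ha, h⟩⟩ : S))
    have e7 := H01.card_mul_relIndex (fixingSubgroup_antitone G α (Finset.coe_subset.2 e2))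
    have e8 := relIndex_le_of_le_right (H := fixingSubgroup G (b' : Set α))
      (fixingSubgroup_antitone G α (Finset.coe_subset.2 e1)) index_ne_zero_of_finite
    have e9 := H01.card_mul_relIndex (inf_le_right (a := fixingSubgroup G (b' : Set α)) (b := fixingSubgroup G (b : Set α)))
    rw [inf_relIndex_right] at e9
    have e10 : (fixingSubgroup G (b' : Set α)).relIndex (fixingSubgroup G (b : Set α)) ≠ 0 := index_ne_zero_of_finite
    obtain ⟨⟨u, f1⟩, f3⟩ := exists_prime_orderOf_dvd_card' (G := (fixingSubgroup G (b' : Set α) ⊓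
      fixingSubgroup G (b : Set α) : Subgroup G)) 2 (by
        rw [← e9] at e5
        rw [h48 s hs] at e7
        have := Nat.le_of_dvd Nat.card_pos e6
        have : (fixingSubgroup G (b' : Set α)).relIndex (fixingSubgroup G (s : Set α)) ≤ 6 := by nlinarith
        generalize (fixingSubgroup G (b' : Set α)).relIndex (fixingSubgroup G (b : Set α)) = i at *
        have : i ≤ 6 := by omega
        interval_cases i <;> omega)
    rw [orderOf_mk] at f3
    obtain ⟨f4, f5⟩ := key u b f3 (by omega) f1.2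
    exact (Finset.eq_of_subset_of_card_le f4 (by omega)).trans
      (Finset.eq_of_subset_of_card_le (key u b' f3 (by omega) f1.1).1 (by omega)).symm
  · rw [Finset.coe_smul_finset, SubMulAction.fixingSubgroup_smul_eq_fixingSubgroup_map_conj,
      card_map_of_injective (MulAut.conj g).injective]
    exact hb.2

theorem multi_of_classInner [Fintype G] {k : ℕ}
    (h : classInner (fun g : G => ((Nat.card (fixedBy α g)).descFactorial k : ℂ)) 1 = 1) : IsMultiplyPretransitive G α k := by
  have h1 : ∀ g : G, Nat.card (fixedBy (Fin k ↪ α) g) = (Nat.card (fixedBy α g)).descFactorial k := fun g => by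
    have := Fintype.ofFinite (fixedBy α g)
    rw [Nat.card_eq_fintype_card (α := fixedBy α g), ← Fintype.card_fin k, ← Fintype.card_embedding_eq, Fintype.card_fin,
      ← Nat.card_eq_fintype_card]
    exact Nat.card_congr ⟨fun x => ⟨fun i => ⟨x.1 i, DFunLike.congr_fun x.2 i⟩, fun i j e => x.1.injective (congrArg Subtype.val e)⟩,
      fun y => ⟨y.trans (Function.Embedding.subtype _), Function.Embedding.ext fun i => (y i).2⟩, fun _ => rfl, fun _ => rfl⟩
  simp only [← h1] at h
  rw [classInner_perm_one, Nat.cast_eq_one, Nat.card_eq_one_iff_unique] at h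
  exact ⟨fun x y => (orbitRel_apply.1 (Quotient.exact (h.1.elim (Quotient.mk (orbitRel G _) y) (Quotient.mk _ x))))⟩

theorem card_fixedBy_eq_of_min [IsPretransitive G α] {χ : IrrCharacter G} (hα : Fintype.card α = charDegree (χ : G → ℂ) + 1)
    (h : ∀ ψ : IrrCharacter G, ψ ≠ irrOne G → charDegree (ψ : G → ℂ) ≤ charDegree (χ : G → ℂ) → ψ = χ) (g : G) :
    (Nat.card (fixedBy α g) : ℂ) = (χ : G → ℂ) g + 1 := by
  classical
  have := Fintype.ofFinite G
  have : Nonempty α := Fintype.card_pos_iff.1 (by omega)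
  obtain ⟨L, h1⟩ := exists_list_of_char (isCharacter_perm_sub_one (G := G) α)
  have h2 := classInner_list L (irrOne G)
  simp only [← h1] at h2
  have h3 : (L.map fun ψ : IrrCharacter G => charDegree (ψ : G → ℂ)).sum = charDegree (χ : G → ℂ) := by
    have := h1 1
    simp only [← (Subtype.property (_ : IrrCharacter _)).charDegree_eq] at this
    exact Nat.cast_injective (R := ℂ) (by rw [Nat.cast_list_sum, List.map_map]; simpa [hα] using this.symm)
  have h4 : irrOne G ∉ L := List.count_eq_zero.1 (Nat.cast_eq_zero.1 (h2.symm.trans (by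
    exact (classInner_sub_left _ _ _).trans (by
      rw [sub_eq_zero]; exact (classInner_perm_one_of_transitive α).trans (irrOne G).2.classInner_self.symm))))
  have h5 := List.eq_replicate_of_mem (a := χ) fun ψ e => h ψ (ne_of_mem_of_not_mem e h4)
    (h3 ▸ List.single_le_sum (by simp) _ (List.mem_map_of_mem e))
  rw [h5, List.map_replicate, List.sum_replicate, smul_eq_mul] at h3
  have h6 := h1 g
  rw [h5, Nat.eq_of_mul_eq_mul_right χ.2.charDegree_pos (h3.trans (one_mul _).symm)] at h6
  simpa [sub_eq_iff_eq_add] using h6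

theorem exists_hom_aut [IsSimpleGroup G] [IsPretransitive G α] (hα : 1 < Fintype.card α) {B : Set (Finset α)}
    (h : ∀ g : G, ∀ b ∈ B, g • b ∈ B) : ∃ φ : G →* setSystemAut B, Function.Injective φ := by
  have : Nontrivial α := Fintype.one_lt_card_iff_nontrivial.1 hα
  obtain ⟨a, b, e⟩ := exists_pair_ne α
  obtain ⟨g, rfl⟩ := exists_smul_eq G a b
  refine ⟨(toPermHom G α).codRestrict _ fun g => Set.ext fun b => ⟨?_, fun hb => ⟨g⁻¹ • b, h _ b hb, ?_⟩⟩,
    (MonoidHom.injective_codRestrict _ _ _).2 (toPermHom_injective_of_simple ⟨g, a, e.symm⟩)⟩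
  · rintro ⟨c, hc, rfl⟩
    exact h g c hc
  · exact smul_inv_smul g b

theorem exists_steiner_of_char [Fintype G] [IsSimpleGroup G] {k : ℕ} {χ : IrrCharacter G}
    (h : ∀ ψ : IrrCharacter G, ψ ≠ irrOne G → charDegree (ψ : G → ℂ) ≤ charDegree (χ : G → ℂ) → ψ = χ)
    (hd : charDegree (χ : G → ℂ) = k + 18) {M : Subgroup G} (hM : M.index = charDegree (χ : G → ℂ) + 1)
    (hn : Nat.card G * (19).factorial = 48 * (k + 19).factorial)
    (hk : classInner (fun g => (descPochhammer ℂ k).eval ((χ : G → ℂ) g + 1)) 1 = 1)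
    (hinv : ∀ t : G, orderOf t = 2 → ∀ f : ℕ, (χ : G → ℂ) t + 1 = f → k ≤ f → f = k + 3) :
    ∃ (_ : Fintype (G ⧸ M)) (_ : DecidableEq (G ⧸ M)) (B : Set (Finset (G ⧸ M))), Fintype.card (G ⧸ M) = k + 19 ∧
      IsSteinerSystem k (k + 3) B ∧ ∃ φ : G →* setSystemAut B, Function.Injective φ := by
  classical
  have := Fintype.ofFinite (G ⧸ M)
  have h1 : Fintype.card (G ⧸ M) = charDegree (χ : G → ℂ) + 1 := Nat.card_eq_fintype_card.symm.trans hM
  have h2 := card_fixedBy_eq_of_min h1 h
  have h3 : IsMultiplyPretransitive G (G ⧸ M) k :=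
    multi_of_classInner (by simpa only [← h2, descPochhammer_eval_eq_descFactorial] using hk)
  obtain ⟨B, h4, h5⟩ := exists_steiner (G := G) (α := G ⧸ M) (k := k) (fun s hs => by
    have e1 := h3.index_of_fixingSubgroup_mul (s := (s : Set (G ⧸ M))) (by simpa using hs)
    rw [Nat.card_eq_fintype_card, h1, hd, add_assoc, Nat.add_sub_cancel_left] at e1
    rw [← (fixingSubgroup G (s : Set (G ⧸ M))).card_mul_index, mul_assoc, e1] at hn
    exact Nat.eq_of_mul_eq_mul_right (Nat.factorial_pos _) hn) fun t ht => hinv t ht _ (h2 t).symm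
  exact ⟨_, _, B, by omega, h4, exists_hom_aut (by omega) h5⟩

theorem classInner_list_right [Fintype G] (θ : G → ℂ) (L : List (IrrCharacter G)) :
    classInner θ (fun g => (L.map fun ψ : IrrCharacter G => (ψ : G → ℂ) g).sum) =
      (L.map fun ψ : IrrCharacter G => classInner θ ψ).sum := by
  induction L with
  | nil => simp [classInner_def]
  | cons ψ L ih =>
    simp only [List.map_cons, List.sum_cons, ← ih, ← classInner_add_right]
    rfl

theorem classInner_self_list [Fintype G] {θ : G → ℂ} {L : List (IrrCharacter G)}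
    (h : ∀ g, θ g = (L.map fun ψ : IrrCharacter G => (ψ : G → ℂ) g).sum)
    (hL : (L.map fun ψ : IrrCharacter G => charDegree (ψ : G → ℂ)).Nodup) : classInner θ θ = L.length := by
  classical
  have h1 := classInner_list_right θ L
  rw [← funext h, List.map_congr_left (g := fun _ => 1) fun ψ e => by
    rw [funext h, classInner_list, List.count_eq_one_of_mem hL.of_map e, Nat.cast_one]] at h1
  simpa using h1

theorem sq_parts [Fintype G] [IsSimpleGroup G] (hG : ¬ IsMulCommutative G) {χ : IrrCharacter G}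
    (hr : ∀ g, ((χ : G → ℂ) g).im = 0) {a b : ℕ} (ha : charDegree (χ : G → ℂ) ^ 2 = 2 * a + charDegree (χ : G → ℂ))
    (hb : b = a + charDegree (χ : G → ℂ)) {D : List ℕ}
    (hD : ∀ ψ : IrrCharacter G, charDegree (ψ : G → ℂ) ≤ b → charDegree (ψ : G → ℂ) ∈ D) {f : ℕ} {f₁ f₂ : List ℕ → Bool}
    (h1 : Sv.parts f₁ f D a [] = true) (h2 : Sv.parts f₂ f D b [] = true) : ∃ L₁ L₂ : List (IrrCharacter G),
      (∀ g, ((χ : G → ℂ) g ^ 2 - (χ : G → ℂ) (g * g)) / 2 = (L₁.map fun ψ : IrrCharacter G => (ψ : G → ℂ) g).sum) ∧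
      (∀ g, ((χ : G → ℂ) g ^ 2 + (χ : G → ℂ) (g * g)) / 2 = (L₂.map fun ψ : IrrCharacter G => (ψ : G → ℂ) g).sum) ∧
      f₁ (L₁.map fun ψ : IrrCharacter G => charDegree (ψ : G → ℂ)) = true ∧
      f₂ (L₂.map fun ψ : IrrCharacter G => charDegree (ψ : G → ℂ)) = true ∧
      (L₁.map fun ψ : IrrCharacter G => charDegree (ψ : G → ℂ)).count 1 +
        (L₂.map fun ψ : IrrCharacter G => charDegree (ψ : G → ℂ)).count 1 = 1 := by
  have h3 := congrArg (Nat.cast (R := ℂ)) ha
  obtain ⟨L₁, e1, e2⟩ := exists_parts χ.2.isCharacter.altSq (N := a) (by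
    simp only [mul_one, ← χ.2.charDegree_eq]; push_cast at h3; linear_combination h3 / 2) (fun ψ h => hD ψ (by omega)) h1
  obtain ⟨L₂, e3, e4⟩ := exists_parts χ.2.isCharacter.symSq (N := b) (by
    simp only [mul_one, ← χ.2.charDegree_eq, hb]; push_cast at h3 ⊢; linear_combination h3 / 2) hD h2
  refine ⟨L₁, L₂, e1, e3, e2, e4, Nat.cast_injective (R := ℂ) ?_⟩
  have h4 := fun ψ : IrrCharacter G => eq_irrOne_of_perfect (commutator_eq_top_of_simple hG) (χ := ψ)
  have h5 := χ.2.classInner_self
  rw [Nat.cast_add, ← classInner_list_deg e1 (charDegree_irrOne G) h4, ← classInner_list_deg e3 (charDegree_irrOne G) h4,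
    ← classInner_add_left, Nat.cast_one, ← h5, classInner_def, classInner_def]
  exact congrArg _ (Finset.sum_congr rfl fun g _ => by simp [Complex.conj_eq_iff_im.2 (hr g)]; ring)

theorem moments [Fintype G] {χ : IrrCharacter G} (h0 : χ ≠ irrOne G) (hr : ∀ g, ((χ : G → ℂ) g).im = 0)
    (h1 : classInner (fun g => (χ : G → ℂ) g ^ 2) χ = 1) :
    classInner (fun g => (descPochhammer ℂ 3).eval ((χ : G → ℂ) g + 1)) 1 = 1 ∧
      (classInner (fun g => (χ : G → ℂ) g ^ 2) (fun g => (χ : G → ℂ) g ^ 2) = 4 →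
        classInner (fun g => (descPochhammer ℂ 4).eval ((χ : G → ℂ) g + 1)) 1 = 1) := by
  have c := fun g => Complex.conj_eq_iff_im.2 (hr g)
  have h2 := χ.2.classInner_self
  have h3 := χ.2.sum_eq_zero fun e => h0 (Subtype.ext e)
  have e3 : ∀ z : ℂ, (descPochhammer ℂ 3).eval (z + 1) = z ^ 2 * z - z := fun z => by
    simp [descPochhammer_succ_eval]; ring
  have e4 : ∀ z : ℂ, (descPochhammer ℂ 4).eval (z + 1) = z ^ 2 * z ^ 2 - 2 * (z ^ 2 * z) - z * z + 2 * z := fun z => by
    simp [descPochhammer_succ_eval]; ring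
  simp only [classInner_def, c, e3, e4, map_pow, Pi.one_apply, map_one, mul_one, Finset.sum_sub_distrib,
    Finset.sum_add_distrib, ← Finset.mul_sum, h3] at h1 h2 ⊢
  exact ⟨by linear_combination h1, fun h => by linear_combination h - 2 * h1 - h2⟩

end H19
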