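import Mathlib
import Cfsg.Agent.H19.Stein

/-!
Simple groups of order 443520 with self-centralising elements of orders 7 and 11: the principal blocks (namespace H19).
* `PB.vals_inv'`, `exists_last`, `m22_deg`, `m22_blocks`
-/

set_option linter.unusedSectionVars false

namespace H19

/-- Possible degrees. -/
def m22D : List ℕ := [6, 10, 11, 21, 22, 28, 32, 45, 55, 56, 60, 66, 77, 88, 99, 105, 120, 126, 132, 144, 154, 160, 165, 176,
  192, 210, 220, 231, 252, 280, 308, 330, 336, 384, 385, 396, 440, 462, 528, 560, 616]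

open H05 Cfsg Classical Subgroup

variable {G : Type*} [Group G] [Finite G]

theorem PB.vals_inv' {p r e : ℕ} {X : List (IrrCharacter G × ℤ)} {Y : List (IrrCharacter G)} {y : ℤ} (A : PB G p r e X Y y)
    [IsSimpleGroup G] (hG : ¬ IsMulCommutative G) (hp : p.Prime) (hp2 : p ≠ 2) {n : ℕ} (hn : Nat.card G = n) (h0 : ¬ p ^ 2 ∣ n)
    (h0' : p ∣ n) (he : Odd e) {l : List ℤ} (hl : X.map Prod.snd = l) {t : G} (ht : orderOf t = 2) {N Q : ℕ}
    (hN : Nat.card (centralizer ({t} : Set G)) ∣ N) (hN' : N ≠ 0) (hQ : Q ∣ Nat.card (centralizer ({t} : Set G)))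
    {out : List (ℕ × ℤ × List ℤ)} (h : Sv.chkv n p ((p - 1) / e) 4 true y l N Q out = true) :
    ∃ o ∈ out, Nat.card (centralizer ({t} : Set G)) = o.1 ∧ (∀ ψ ∈ Y, (ψ : G → ℂ) t = o.2.1) ∧
      X.map (fun z => (z.1 : G → ℂ) t) = o.2.2.map (↑) := by
  have := Fact.mk hp
  have h1 : t ≠ 1 := by rintro rfl; simp at ht
  have h2 : t ^ 2 = 1 := ht ▸ pow_orderOf_eq_one t
  have h3 : ¬ p ∣ orderOf t := fun h => hp2 ((Nat.prime_dvd_prime_iff_eq hp Nat.prime_two).1 (ht ▸ h))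
  obtain ⟨x, hx⟩ := exists_prime_orderOf_dvd_card' (G := G) p (hn ▸ h0')
  exact A.vals hp hG hl h1 h3 (fun z _ => z.1.2.isGeneralizedCharacter.exists_int_of_sq_eq_one h2)
    (fun χ v hv => four_dvd_deg_sub hG h2 hv) (fun _ => ⟨h2, x, hx, A.not_isConj_inv hp (hn ▸ h0) he hp2 hx⟩) hn hN hN' hQ h

theorem exists_last {L : List (IrrCharacter G)} (hL : L.Nodup) {k : ℕ} (h0 : 0 < k)
    (hk : ∀ χ ∉ L, k ∣ charDegree (χ : G → ℂ))
    (h : (L.map fun χ : IrrCharacter G => charDegree (χ : G → ℂ) ^ 2).sum + k ^ 2 = Nat.card G) :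
    ∃ ρ : IrrCharacter G, charDegree (ρ : G → ℂ) = k ∧ (∀ χ ∉ L, χ = ρ) ∧
      ∀ F : IrrCharacter G → ℂ, ∑ χ, F χ = (L.map F).sum + F ρ := by
  rw [← sum_charDegree_sq, ← Finset.sum_add_sum_compl L.toFinset, List.sum_toFinset _ hL, add_right_inj] at h
  obtain ⟨ρ, h1⟩ : L.toFinsetᶜ.Nonempty := Finset.nonempty_of_sum_ne_zero (h ▸ (pow_pos h0 2).ne')
  have h2 := Nat.pow_le_pow_left (Nat.le_of_dvd ρ.2.charDegree_pos (hk ρ (by simpa using h1))) 2
  rw [← Finset.add_sum_erase _ _ h1] at h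
  have h3 : L.toFinsetᶜ = {ρ} := Finset.eq_singleton_iff_unique_mem.2 ⟨h1, fun χ e => by_contra fun e' =>
    (pow_pos χ.2.charDegree_pos 2).ne' (Finset.sum_eq_zero_iff.1 (show ∑ χ ∈ L.toFinsetᶜ.erase ρ,
      charDegree (χ : G → ℂ) ^ 2 = 0 by omega) χ (Finset.mem_erase.2 ⟨e', e⟩))⟩
  exact ⟨ρ, Nat.pow_left_injective two_ne_zero (show _ ^ 2 = k ^ 2 by omega),
    fun χ e => Finset.mem_singleton.1 (h3 ▸ by simpa using e), fun F => by
      rw [← Finset.sum_add_sum_compl L.toFinset, List.sum_toFinset _ hL, h3, Finset.sum_singleton]⟩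

variable [IsSimpleGroup G] (hn : Nat.card G = 443520)
include hn

theorem m22_blocks (h11 : Nat.card (Sylow 11 G) = 8064) (h7 : Nat.card (Sylow 7 G) = 21120)
    (h5 : Nat.card (Sylow 5 G) = 22176) : ∃ X Y X' Y' y' Z W z, PB G 11 8064 5 X Y (-280) ∧ PB G 7 21120 3 X' Y' y' ∧
      PB G 5 22176 4 Z W z ∧ Z.length + 1 = 4 ∧
      (X.map Prod.snd = [-21, 210, 45, 45] ∧ y' = -45 ∧ X'.map Prod.snd = [99, -55] ∧
        (z :: Z.map Prod.snd).Perm [21, -99, -154, 231] ∨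
      X.map Prod.snd = [-21, 210, 210, -120] ∧ y' = -66 ∧ X'.map Prod.snd = [120, -55]) := by
  have hG : ¬ IsMulCommutative G := not_comm_of_simple_card (by rw [hn]; norm_num)
  have p11 : Nat.Prime 11 := by norm_num
  have p7 : Nat.Prime 7 := by norm_num
  obtain ⟨_, e, X, Y, y, A, hA, e1, e2, -, rfl, k, e3⟩ := exists_pb_of_syl hG p11 (by omega) (by omega)
  obtain ⟨_, e', X', Y', y', B, hB, e4, e5, -, rfl, k', e6⟩ := exists_pb_of_syl hG p7 (by omega) (by omega)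
  obtain ⟨_, f, Z, W, z, C, hC, e7, e8, -, rfl, k'', e9⟩ := exists_pb_of_syl hG Nat.prime_five (by omega) (by omega)
  rw [h11] at A e3
  rw [h7] at B e6
  rw [h5] at C
  obtain rfl : e = 5 := by have := Nat.le_of_dvd (by norm_num) e2; interval_cases e <;> omega
  obtain rfl : e' = 3 := by have := Nat.le_of_dvd (by norm_num) e5; interval_cases e' <;> omega
  have hD : ∀ χ : IrrCharacter G, χ ≠ irrOne G → charDegree (χ : G → ℂ) ∈ m22D := fun χ h => by
    have h4 := A.deg_mod p11 hn hA χ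
    have h5 := B.deg_mod p7 hn hB χ
    exact Sv.degChk_sound (R := [(11, [0, 1, 5, 6, 10]), (7, [0, 1, 3, 4, 6])]) (by decide +kernel)
      (deg_facts hG hn (B := 666) (by norm_num) h) (by
        simp only [List.forall_mem_cons]
        simp only [List.mem_cons, List.not_mem_nil, false_imp_iff, implies_true, and_true] at h4 h5 ⊢
        exact ⟨by clear h5; omega, by clear h4; omega⟩)
  obtain ⟨X', B, hB, h1⟩ := B.search p7 (by omega) hB hD (M := []) (by simp) hn (fin := fun y l =>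
    Sv.chkv 443520 7 2 4 true y l 63360 128 [] || [(-45, [99, -55]), (-66, [120, -55])].any fun σ => y == σ.1 && l.isPerm σ.2)
    (by decide +kernel)
  simp only [Bool.or_eq_true, List.any_eq_true, Bool.and_eq_true, beq_iff_eq, List.isPerm_iff] at h1
  obtain ⟨⟨y', l⟩, h1, rfl, h2⟩ := h1.resolve_left fun h => by
    obtain ⟨t, -, ot, ht⟩ := exists_central_elt (k := 6) Nat.prime_two (H := (⊤ : Subgroup G)) (by rw [card_top]; omega)
    rw [inf_top_eq] at ht
    obtain ⟨_, ⟨⟩, -⟩ := B.vals_inv hG p7 (by norm_num) (by norm_num) (by decide) hn rfl ot ht h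
  obtain ⟨X', B, hl⟩ := B.perm' h2
  replace hB : X'.length + 1 = 3 := by
    have := (hl ▸ h2).length_eq
    simp only [List.length_map] at this; omega
  dsimp only at B hl
  have hD1 : ∀ χ : IrrCharacter G, χ ≠ irrOne G → charDegree (χ : G → ℂ) ∈
      m22D.filter fun d => d % 7 == 0 || (Sv.bl 2 y' l).contains d := fun χ h =>
    List.mem_filter.2 ⟨hD χ h, by simpa [← hl, Nat.dvd_iff_mod_eq_zero] using B.deg_mem_bl p7 hn hB χ⟩
  obtain rfl : f = 4 := by
    have := Nat.le_of_dvd (by norm_num) e8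
    interval_cases f
    · obtain ⟨_, -, -, h⟩ := C.search Nat.prime_five (by omega) hC hD1 (M := []) (by simp) hn (fin := fun _ _ => false)
        (by rcases List.mem_pair.1 h1 with ⟨rfl, rfl⟩ | ⟨rfl, rfl⟩ <;> decide +kernel)
      simp at h
    all_goals omega
  have hD2 : ∀ χ : IrrCharacter G, χ ≠ irrOne G → charDegree (χ : G → ℂ) ∈
      (m22D.filter fun d => d % 7 == 0 || (Sv.bl 2 y' l).contains d).filter fun d => [0, 1, 4].contains (d % 5) := fun χ h =>
    List.mem_filter.2 ⟨hD1 χ h, by have := C.deg_mod Nat.prime_five hn hC χ; simp at this ⊢; omega⟩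
  have h3 : (Sv.bl 2 y' l : Multiset ℕ) ≤ degs G := hl ▸ B.bl_le p7
  obtain ⟨X, A, hA, h4⟩ := A.search p11 (by omega) hA hD2 h3 hn (fin := fun y l' =>
    !((Sv.bl 2 y' l).filter fun d => d % 11 != 0).isSubperm (Sv.bl 2 y l') ||
    decide (5 < ((Sv.bl 2 y l' ++ (Sv.bl 2 y' l).filter fun d => d % 11 == 0).filter fun d => d % 5 != 0).length) ||
    (y == -280 && l'.isPerm (if y' = -45 then [-21, 210, 45, 45] else [-21, 210, 210, -120])))
    (by rcases List.mem_pair.1 h1 with ⟨rfl, rfl⟩ | ⟨rfl, rfl⟩ <;> decide +kernel)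
  have h6 := (C.subperm Nat.prime_five hn hC (add_filter_le_degs (A.bl_le p11) (A.not_dvd_bl p11 (by omega) hA) h3)).length_le
  rw [show (Sv.bl ((5 - 1) / 4) z (Z.map Prod.snd)).length = 5 by simp [Sv.bl]; omega] at h6
  simp only [List.isSubperm_iff.2 (A.subperm p11 hn hA h3), Bool.not_true, Bool.false_or, decide_eq_false (not_lt.2 h6),
    Bool.and_eq_true, beq_iff_eq, List.isPerm_iff] at h4
  obtain ⟨rfl, h4⟩ := h4
  obtain ⟨X, A, h8⟩ := A.perm' h4
  replace hA : X.length + 1 = 5 := by simpa [← hA, ← h8] using h4.length_eq.symm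
  rcases List.mem_pair.1 h1 with ⟨rfl, rfl⟩ | ⟨rfl, rfl⟩
  swap
  · exact ⟨X, Y, X', Y', _, Z, W, z, A, B, C, hC, Or.inr ⟨h8, rfl, hl⟩⟩
  have h9 := add_filter_le_degs (A.bl_le p11) (A.not_dvd_bl p11 (by omega) hA) h3
  rw [h8] at h9
  obtain ⟨Z, C, hC, h10⟩ := C.search Nat.prime_five (by omega) hC (D := [21, 45, 55, 99, 154, 210, 231, 280, 385, 616])
    (fun χ h => (by decide +kernel : ∀ d ∈ _, 11 ∣ d ∨ d ∈ Sv.bl 2 (-280) [-21, 210, 45, 45] →
      d ∈ [21, 45, 55, 99, 154, 210, 231, 280, 385, 616]) _ (hD2 χ h) (by simpa [h8] using A.deg_mem_bl p11 hn hA χ)) h9 hn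
    (fin := fun y l => !([1, 21, 99].isSubperm (Sv.bl 1 y l)) || (y :: l).isPerm [21, -99, -154, 231]) (by decide +kernel)
  rw [show [1, 21, 99].isSubperm _ = true from List.isSubperm_iff.2 (C.subperm Nat.prime_five hn hC h9)] at h10
  exact ⟨X, Y, X', Y', _, Z, W, z, A, B, C, hC, Or.inl ⟨h8, rfl, hl, List.isPerm_iff.1 (by simpa using h10)⟩⟩

end H19
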