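import Mathlib
import Cfsg.Agent.H19.M22a
import Cfsg.Agent.H19.M12a

/-!
More tests on a principal block of defect one (namespace H19).
* `PB.lev` : level sets of central characters modulo another prime, `Sv.lev`
* `PB.vals'` with `Sv.chkw`, `PB.search'`, `PB.dvd_bl`, `PB.stanton`, `PB.int_of_count`, `exists_cfilter`
-/

set_option linter.unusedSectionVars false

namespace H19

namespace Sv

/-- The level test. -/
def lev (q Q k i : ℕ) (L : List (ℤ × ℤ)) : Bool :=
  (List.range q).all fun ρ : ℕ => (k * ((L.filter fun z : ℤ × ℤ => (i : ℤ) * z.2 / z.1.natAbs % q == ρ).map Prod.fst).sum) % Q == 0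

/-- The final test on a list of values. -/
def finw (n p t m : ℕ) (quad : Bool) (y : ℤ) (l : List ℤ) (F : ℕ → ℤ → List ℤ → Bool) (c : ℕ) (V : List ℤ) (b : ℕ) : Bool :=
  let w := -y.sign * (1 + (List.zipWith (fun d v : ℤ => d.sign * v) l V).sum)
  decide (b < t * w.natAbs ^ 2) || (quad && n + y.sign * (n / y.natAbs : ℕ) * w ^ 2 +
    (List.zipWith (fun d v : ℤ => d.sign * (n / d.natAbs : ℕ) * v ^ 2) l V).sum != (0 : ℤ)) ||
    !(cand p (n / c) c m y.natAbs).contains w || F c w V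

/-- All value lists for centraliser orders in `cs` pass the test `F`. -/
def chkw (n p t m : ℕ) (quad : Bool) (y : ℤ) (l : List ℤ) (cs : List ℕ) (F : ℕ → ℤ → List ℤ → Bool) : Bool :=
  cs.all fun c => vs (finw n p t m quad y l F c) (l.map fun d => cand p (n / c) c m d.natAbs) (c - 1) []

/-- The level tests for a list of prime powers. -/
def levs (n k : ℕ) (qs : List (ℕ × ℕ)) (y : ℤ) (l : List ℤ) (c : ℕ) (w : ℤ) (V : List ℤ) : Bool :=
  qs.all fun q => lev q.1 (q.1 ^ q.2) k (n / c) ((1, 1) :: (y, w) :: l.zip V)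

end Sv

open H05 Cfsg Classical Subgroup
open scoped ComplexConjugate

variable {G : Type*} [Group G] [Finite G]

theorem exists_cfilter {p : ℕ} (hp : p.Prime) (h2 : ¬ p ^ 2 ∣ Nat.card G) {x : G} (hx : orderOf x = p) {H : Subgroup G}
    (hH : x ∈ H) : ∃ m u, Nat.card H = m * u ∧ m % p = 1 ∧ Nat.card (centralizer ({x} : Set G) ⊓ H : Subgroup G) ∣ u ∧
      u * Nat.card (Sylow p G) ∣ Nat.card G := by
  have := Fact.mk hp
  obtain ⟨P⟩ : Nonempty (Sylow p G) := inferInstance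
  have h1 := card_sylow_eq_prime (hx ▸ orderOf_dvd_natCard x) h2 P
  obtain ⟨Q, hQ⟩ := exists_sylow_eq_zpowers h1 hx
  have h3 : (Q : Subgroup G) ≤ H := hQ ▸ zpowers_le.2 hH
  have h4 : Nat.card (normalizer (Q.subtype h3 : Set H)) = Nat.card (normalizer (Q : Set G) ⊓ H : Subgroup G) := by
    rw [← card_inf_eq]; exact congrArg (fun U : Subgroup H => Nat.card U) (subgroupOf_normalizer_eq h3).symm
  refine ⟨_, _, (card_sylow_mul_card_normalizer (Q.subtype h3)).symm,
    Eq.trans (card_sylow_modEq_one p H) (Nat.mod_eq_of_lt hp.one_lt), h4 ▸ card_dvd_of_le (inf_le_inf_right _ ?_), ?_⟩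
  · rw [centralizer_eq_of_sylow ((sylow_card_eq Q P).trans h1) (hQ ▸ mem_zpowers x)
      (by rintro rfl; exact hp.one_lt.ne (orderOf_one.symm.trans hx))]
    exact centralizer_le_normalizer _
  · rw [← card_sylow_mul_card_normalizer Q, mul_comm, h4]
    exact Nat.mul_dvd_mul_left _ (card_dvd_of_le inf_le_left)

namespace PB

variable {p r e : ℕ} {X : List (IrrCharacter G × ℤ)} {Y : List (IrrCharacter G)} {y : ℤ} (A : PB G p r e X Y y) (hp : p.Prime)
include A hp

theorem int_of_count {z : IrrCharacter G × ℤ} (hz : z ∈ X)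
    (h2 : (1 :: y :: X.map Prod.snd).countP (fun v => v.natAbs = z.2.natAbs) ≤ 1) (g : G) : ∃ m : ℤ, (z.1 : G → ℂ) g = m := by
  obtain ⟨M, hM⟩ := H21.exists_isPModular hp
  refine exists_int_of_fixed (z.1.2.isCharacter.isIntegral g) fun σ => ?_
  have h : charDegree (gal σ z.1 : G → ℂ) = z.2.natAbs :=
    charDegree_eq_of_apply_one (by rw [gal_apply_one, ← z.1.2.charDegree_eq, A.degX z hz])
  have h0 := (A.blk M hM _).1 (gal_mem_principal hM ((A.blk M hM z.1).2
    (List.mem_cons_of_mem _ (List.mem_append_right _ (List.mem_map_of_mem hz)))) σ)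
  rw [← gal_apply]
  generalize gal σ z.1 = ψ at h h0
  have h3 : 0 < X.countP fun z' => z'.2.natAbs = z.2.natAbs := List.countP_pos_iff.2 ⟨z, hz, by simp⟩
  simp only [List.countP_cons, List.countP_map, Function.comp_def, decide_eq_true_eq] at h2
  rcases List.mem_cons.1 h0 with rfl | h4
  · rw [charDegree_irrOne] at h
    rw [if_pos (show (1 : ℤ).natAbs = _ from h)] at h2
    omega
  rcases List.mem_append.1 h4 with h4 | h4
  · rw [if_pos ((A.degY ψ h4).symm.trans h)] at h2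
    omega
  obtain ⟨z', h5, rfl⟩ := List.mem_map.1 h4
  by_contra h6
  have := (List.subperm_of_subset (l₁ := [z, z']) (l₂ := X.filter fun z' => z'.2.natAbs = z.2.natAbs)
    (by simpa using fun e : z = z' => h6 (e ▸ rfl)) (by simp [hz, h5, ← A.degX z' h5, h])).length_le
  rw [← List.countP_eq_length_filter] at this
  simp only [List.length_cons, List.length_nil] at this
  omega

theorem vals' [IsSimpleGroup G] (hG : ¬ IsMulCommutative G) {l : List ℤ} (hl : X.map Prod.snd = l) {g : G} (hg : g ≠ 1)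
    (h1 : ¬ p ∣ orderOf g) (h2 : ∀ z ∈ X, ∃ v : ℤ, (z.1 : G → ℂ) g = v) {m : ℕ}
    (h3 : ∀ (χ : IrrCharacter G) (v : ℤ), (χ : G → ℂ) g = v → (m : ℤ) ∣ charDegree (χ : G → ℂ) - v) {quad : Bool}
    (h4 : quad = true → g ^ 2 = 1 ∧ ∃ x : G, orderOf x = p ∧ ¬ IsConj x x⁻¹) {n : ℕ} (hn : Nat.card G = n) {cs : List ℕ}
    (hc : Nat.card (centralizer ({g} : Set G)) ∈ cs) {F : ℕ → ℤ → List ℤ → Bool}
    (h : Sv.chkw n p ((p - 1) / e) m quad y l cs F = true) :
    ∃ (w : ℤ) (V : List ℤ), F (Nat.card (centralizer ({g} : Set G))) w V = true ∧ (∀ ψ ∈ Y, (ψ : G → ℂ) g = w) ∧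
      X.map (fun z => (z.1 : G → ℂ) g) = V.map (↑) := by
  set c := Nat.card (centralizer ({g} : Set G))
  have h0 : 0 < c := Nat.card_pos
  have key : ∀ (E : List (List ℤ)) (b : ℕ) (acc : List ℤ), Sv.vs (Sv.finw n p ((p - 1) / e) m quad y l F c) E b acc = true →
      ∃ out : List (ℕ × ℤ × List ℤ), (∀ o ∈ out, o.1 = c → F c o.2.1 o.2.2 = true) ∧ ∀ out', out ⊆ out' →
        Sv.vs (Sv.finv n p ((p - 1) / e) m quad y l out' c) E b acc = true := fun E => by
    induction E with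
    | nil =>
      intro b acc h
      simp only [Sv.vs, Sv.finw, Sv.finv, Bool.or_eq_true] at h ⊢
      exact h.elim (fun h => ⟨[], by simp, fun _ _ => Or.inl h⟩) fun h =>
        ⟨[(c, _, acc.reverse)], by simpa using h, fun _ e => Or.inr (List.contains_iff_mem.2 (e List.mem_cons_self))⟩
    | cons C E ih =>
      intro b acc h
      simp only [Sv.vs, List.all_eq_true, Bool.or_eq_true] at h ⊢
      choose f f1 f2 using fun v : {v // v ∈ C ∧ ¬ decide (b < v.natAbs ^ 2) = true} =>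
        ih _ _ ((h v.1 v.2.1).resolve_left v.2.2)
      have : Fintype {v // v ∈ C ∧ ¬ decide (b < v.natAbs ^ 2) = true} :=
        (C.finite_toSet.subset fun _ h => h.1).fintype
      refine ⟨Finset.univ.toList.flatMap f, fun o ho => ?_, fun out' e v hv => or_iff_not_imp_left.2 fun h' =>
        f2 ⟨v, hv, h'⟩ _ fun o ho => e (List.mem_flatMap.2 ⟨_, by simp, ho⟩)⟩
      obtain ⟨v, -, hv⟩ := List.mem_flatMap.1 ho
      exact f1 v o hv
  obtain ⟨out, h5, h6⟩ := key _ _ _ (List.all_eq_true.1 h c hc)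
  obtain ⟨o, h7, h8, h9⟩ := A.vals hp hG hl hg h1 h2 h3 h4 hn (N := c) (Q := c) dvd_rfl h0.ne' dvd_rfl (out := out)
    (by simpa [Sv.chkv, Nat.div_self h0] using h6 out (List.Subset.refl _))
  exact ⟨_, _, h5 o h7 h8.symm, h9⟩

variable (h1 : p ∣ Nat.card G)
include h1

theorem dvd_bl : ∀ s ∈ y :: X.map Prod.snd, s.natAbs ∣ e * r := by
  have := Fact.mk hp
  obtain ⟨x, hx⟩ := exists_prime_orderOf_dvd_card' p h1
  have h2 : (centralizer ({x} : Set G)).index = e * r := Nat.eq_of_mul_eq_mul_left Nat.card_pos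
    ((card_mul_index _).trans (A.cent x hx).symm)
  have key : ∀ s : ℤ, s ≠ 0 → (s.natAbs : ℤ) ∣ (e * r : ℕ) * s.sign → s.natAbs ∣ e * r := fun s h0 h => by
    have := Int.natAbs_dvd_natAbs.2 h
    rwa [Int.natAbs_mul, Int.natAbs_sign_of_ne_zero h0, mul_one, Int.natAbs_natCast, Int.natAbs_natCast] at this
  have h0 : ∀ s ∈ y :: X.map Prod.snd, s ≠ 0 := fun s hs => by
    obtain ⟨χ, -, h⟩ := A.exists_deg hp.one_lt hs
    have := χ.2.charDegree_pos
    omega
  rw [List.forall_mem_cons, List.forall_mem_map] at h0 ⊢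
  refine ⟨key y h0.1 (int_dvd_of_isIntegral_div (by simpa using h0.1) ?_), fun z hz =>
    key _ (h0.2 z hz) (h2 ▸ A.degX z hz ▸ deg_dvd_index_mul (A.valX z hz x hx.symm.dvd))⟩
  have h3 : IsIntegral ℤ (Y.map fun ψ : IrrCharacter G => centralChar (ψ : G → ℂ) x).sum :=
    (integralClosure ℤ ℂ).list_sum_mem (List.forall_mem_map.2 fun ψ _ => H20.isIntegral_centralChar ψ.2 x)
  rw [List.map_congr_left (g := fun ψ : IrrCharacter G => (ψ : G → ℂ) x * ((e * r : ℕ) / y.natAbs)) fun ψ h => by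
    simp [centralChar, h2, ← ψ.2.charDegree_eq, A.degY ψ h]; ring, List.sum_map_mul_right, A.valY x hx.symm.dvd] at h3
  convert h3 using 1
  rw [Int.cast_mul, Int.cast_natCast, Int.cast_natCast]; ring

theorem search' (hl : X.length + 1 = e) {D : List ℕ} (hD : ∀ s ∈ y :: X.map Prod.snd, s.natAbs ∈ D)
    {M : List ℕ} (hM : (M : Multiset ℕ) ≤ degs G) {n : ℕ} (hn : Nat.card G = n) {fin : ℤ → List ℤ → Bool}
    (h : Sv.chk2 D (n - ((M.filter fun d => d % p == 0).map (· ^ 2)).sum) p e fin = true) :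
    ∃ X', PB G p r e X' Y y ∧ X'.length + 1 = e ∧ fin y (X'.map Prod.snd) = true := by
  have h2 := sum_sq_le_of_le_degs (add_filter_le_degs (A.bl_le hp) (A.not_dvd_bl hp h1 hl) hM)
  simp only [Sv.bl, List.map_append, List.map_cons, List.sum_append, List.sum_cons, List.map_replicate, List.sum_replicate,
    smul_eq_mul, hn] at h2
  have h3 : ∀ s ∈ y :: X.map Prod.snd, s ∈ D.flatMap fun d : ℕ => [(d : ℤ), -(d : ℤ)] := fun s hs =>
    List.mem_flatMap.2 ⟨_, hD s hs, by simpa using Int.natAbs_eq s⟩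
  have h4 := List.all_eq_true.1 h y (List.mem_filter.2 ⟨h3 y List.mem_cons_self,
    beq_iff_eq.2 (Int.emod_eq_zero_of_dvd (A.congY hp h1 hl))⟩)
  rw [Bool.or_eq_true, decide_eq_true_eq] at h4
  obtain ⟨l, h5, h6⟩ := Sv.srch_sound (h4.resolve_left (by omega)) (l := (X.map Prod.snd : List ℤ)) (by simp; omega)
    (fun s hs => List.mem_filter.2 ⟨h3 s (List.mem_cons_of_mem _ hs),
      beq_iff_eq.2 (Int.emod_eq_zero_of_dvd (A.congX hp h1 s hs))⟩)
    (by rw [Multiset.map_coe, Multiset.sum_coe]; rw [List.map_map, Function.comp_def] at h2; omega)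
  have h7 : (X.map Prod.snd).Perm l := Multiset.coe_eq_coe.1 (by simpa using h5.symm)
  obtain ⟨X', B, rfl⟩ := A.perm' h7
  exact ⟨X', B, by simpa [← hl] using h7.length_eq.symm, by simpa [B.eqn hp] using h6⟩

variable (h2 : ¬ p ^ 2 ∣ Nat.card G)
include h2

theorem stanton [IsSimpleGroup G] (hG : ¬ IsMulCommutative G) {s : ℤ} (hs : s ∈ y :: X.map Prod.snd) (h : s.natAbs < 2 * p) :
    Nat.card G = p * e * r := by
  have := Fact.mk hp
  have := Fintype.ofFinite G
  obtain ⟨M, hM⟩ := H21.exists_isPModular hp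
  obtain ⟨P, H, _, _, _, _, S, -⟩ := exists_desc_of_dvd h1 h2
  have : Nontrivial P := Finite.one_lt_card_iff_nontrivial.1 (S.cardP ▸ hp.one_lt)
  obtain ⟨u, hu⟩ := exists_ne (1 : P)
  obtain ⟨χ, e1, e2⟩ : ∃ χ ∈ Y ++ X.map Prod.fst, charDegree (χ : G → ℂ) = s.natAbs := by
    rcases List.mem_cons.1 hs with rfl | hs
    · obtain ⟨ψ, hψ⟩ := List.exists_mem_of_length_pos (Nat.pos_of_mul_pos_right (A.lenY ▸ Nat.sub_pos_of_lt hp.one_lt))
      exact ⟨ψ, List.mem_append_left _ hψ, A.degY ψ hψ⟩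
    · obtain ⟨z, hz, rfl⟩ := List.mem_map.1 hs
      exact ⟨z.1, List.mem_append_right _ (List.mem_map_of_mem hz), A.degX z hz⟩
  have h3 := S.K_eq_bot_of_lt hG (S.principal_eq_Blk hM ▸ (A.blk M hM χ).2 (List.mem_cons_of_mem _ e1))
    (fun e => (List.nodup_cons.1 A.nodup).1 (e ▸ e1)) (e2 ▸ h)
  have h4 := A.cent _ (S.orderOf_P hu |> ((orderOf_injective _ S.injP u).trans ·))
  have h5 := (centralizer ({S.jP u} : Set G)).card_mul_index
  rw [S.index_centralizer_P hu, h3, index_bot, S.card_G, mul_assoc] at h5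
  rw [← h4, Nat.eq_of_mul_eq_mul_right (Nat.mul_pos Nat.card_pos (Nat.pos_of_ne_zero index_ne_zero_of_finite)) h5, mul_assoc]

theorem lev {k : ℕ} (hk : p * k * (e * r) = Nat.card G) {q b : ℕ} (hq : q.Prime) (hb : q ^ b ∣ Nat.card G) {t : G} {w : ℤ}
    {V : List ℤ} (hw : ∀ ψ ∈ Y, (ψ : G → ℂ) t = w) (hV : X.map (fun z => (z.1 : G → ℂ) t) = V.map (↑)) :
    Sv.lev q (q ^ b) k (centralizer ({t} : Set G)).index ((1, 1) :: (y, w) :: (X.map Prod.snd).zip V) = true := by
  have := Fact.mk hp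
  have := Fintype.ofFinite G
  obtain ⟨M, hM⟩ := H21.exists_isPModular hq
  obtain ⟨M', hM'⟩ := H21.exists_isPModular hp
  have := hM.2.1
  obtain ⟨P, H, _, _, _, _, S, -⟩ := exists_desc_of_dvd h1 h2
  have : Nontrivial P := Finite.one_lt_card_iff_nontrivial.1 (S.cardP ▸ hp.one_lt)
  obtain ⟨u, hu⟩ := exists_ne (1 : P)
  have hx := (orderOf_injective _ S.injP u).trans (S.orderOf_P hu)
  have h3 : Nat.card S.K = k := by
    have h4 := A.cent _ hx
    have h5 := (centralizer ({S.jP u} : Set G)).card_mul_index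
    rw [S.index_centralizer_P hu, S.card_G, ← S.K.card_mul_index, ← mul_assoc p, mul_assoc (p * _)] at h5
    rw [Nat.eq_of_mul_eq_mul_right (Nat.mul_pos (Nat.pos_of_ne_zero index_ne_zero_of_finite)
      (Nat.pos_of_ne_zero index_ne_zero_of_finite)) h5, ← hk] at h4
    exact Nat.eq_of_mul_eq_mul_left hp.pos (Nat.eq_of_mul_eq_mul_right (Nat.pos_of_mul_pos_left (hk ▸ Nat.card_pos)) h4)
  refine List.all_eq_true.2 fun ρ hρ => beq_iff_eq.2 (Int.emod_eq_zero_of_dvd ?_)
  set i := (centralizer ({t} : Set G)).index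
  let B : Set (IrrCharacter G) := {χ | MemLocalIdeal M (centralChar (χ : G → ℂ) t - ρ)}
  have h4 : ∀ (χ : IrrCharacter G) (d v : ℤ), charDegree (χ : G → ℂ) = d.natAbs → (χ : G → ℂ) t = v →
      (χ ∈ B ↔ (i * v / d.natAbs % q == ρ) = true) := fun χ d v e1 e2 => by
    obtain ⟨m, hm⟩ := e1 ▸ deg_dvd_index_mul e2
    have h0 : (d.natAbs : ℤ) ≠ 0 := by rw [← e1]; exact_mod_cast χ.2.charDegree_pos.ne'
    have e3 : centralChar (χ : G → ℂ) t - ρ = (m - ρ : ℤ) := by
      have := congrArg (Int.cast : ℤ → ℂ) hm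
      rw [Int.cast_mul, Int.cast_mul, Int.cast_natCast, Int.cast_natCast] at this
      rw [centralChar, e2, ← χ.2.charDegree_eq, this, ← e1, mul_div_cancel_left₀ _ (by exact_mod_cast χ.2.charDegree_pos.ne')]
      simp
    rw [Set.mem_setOf, e3, H21.ideal_intCast_iff hM, hm, Int.mul_ediv_cancel_left _ h0, beq_iff_eq, dvd_sub_comm,
      ← Int.modEq_iff_dvd, Int.ModEq, Int.emod_eq_of_lt (a := ρ) (by positivity) (by exact_mod_cast List.mem_range.1 hρ)]
  have h5 : ∀ χ : IrrCharacter G, ∑ k : S.K, (χ : G → ℂ) 1 * (χ : G → ℂ) (S.jP u * S.jH k) =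
      if χ ∈ (irrOne G :: (Y ++ X.map Prod.fst)).toFinset then k * (charDegree (χ : G → ℂ) * (χ : G → ℂ) (S.jP u)) else 0 :=
    fun χ => by
    have h6 : ∑ k : S.K, (χ : G → ℂ) 1 * (χ : G → ℂ) (S.jP u * S.jH k) =
        Nat.card S.K * (charDegree (χ : G → ℂ) * S.d χ (irrOne S.K) u) := by
      rw [mul_left_comm, DOne.d, card_mul_classInner, χ.2.charDegree_eq, Finset.mul_sum]; simp
    simp only [h6, h3, List.mem_toFinset, ← A.blk M' hM', S.principal_eq_Blk hM']
    split_ifs with h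
    · rw [S.apply_P h hu]
    · rw [by_contra fun e => h (S.mem_Blk_iff.2 ⟨u, hu, e⟩), mul_zero, mul_zero]
  have h6 : ∀ s : ℤ, (s.natAbs : ℂ) * s.sign = s := fun s => by
    rw [← Int.cast_natCast, ← Int.cast_mul, mul_comm, Int.sign_mul_natAbs]
  rw [Nat.cast_pow]
  refine pow_dvd_of_ring hM Nat.card_pos.ne' ?_ hb
  have h8 : ∀ g, MemLocalRing M (blockCoeff B g) := H20.isInt_idem_of_separated (M := M) B
    fun χ e1 ψ e2 e3 => e2 (H21.ideal_sub_trans (H21.ideal_sub_comm.1 (e3 t)) e1)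
  convert H21.ring_sum (s := Finset.univ) fun (k : S.K) _ => h8 (S.jP u * S.jH k)⁻¹
  simp only [H21.blockCoeff_eq, inv_inv]
  rw [← Finset.mul_sum, Finset.sum_comm, Finset.sum_congr rfl fun χ _ => h5 χ]
  rw [Finset.sum_ite_mem, Finset.inter_comm, ← Finset.filter_mem_eq_inter, Finset.filter_congr (q := (· ∈ B)) (by simp),
    Finset.sum_filter, List.sum_toFinset _ A.nodup]
  congr 1
  have h7 : ∀ (X : List (IrrCharacter G × ℤ)) (V : List ℤ), (∀ z ∈ X, charDegree (z.1 : G → ℂ) = z.2.natAbs ∧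
      (z.1 : G → ℂ) (S.jP u) = z.2.sign) → X.map (fun z => (z.1 : G → ℂ) t) = V.map (↑) →
      ((X.map Prod.fst).map fun χ => if χ ∈ B then (k : ℂ) * (charDegree (χ : G → ℂ) * (χ : G → ℂ) (S.jP u)) else 0).sum =
      k * (((((X.map Prod.snd).zip V).filter fun z : ℤ × ℤ => (i : ℤ) * z.2 / z.1.natAbs % q == ρ).map Prod.fst).sum : ℤ) :=
    fun X => by
    induction X with
    | nil => simp
    | cons z X ih =>
      rintro (_ | ⟨v, V⟩) e1 e2
      · simp at e2
      rw [List.forall_mem_cons] at e1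
      simp only [List.map_cons, List.cons.injEq] at e2
      simp only [List.map_cons, List.sum_cons, List.zip_cons_cons, List.filter_cons, ih V e1.2 e2.2, h4 _ _ _ e1.1.1 e2.1]
      rw [e1.1.1, e1.1.2, h6]
      split_ifs <;> simp [mul_add]
  simp only [List.map_cons, List.map_append, List.sum_cons, List.sum_append, List.filter_cons,
    h7 X V (fun z hz => ⟨A.degX z hz, A.valX z hz _ hx.symm.dvd⟩) hV, h4 (irrOne G) 1 1 (charDegree_irrOne G) (by simp)]
  rw [List.map_congr_left (g := fun ψ : IrrCharacter G => (if (i * w / y.natAbs % q == ρ) = true then (k : ℂ) * y.natAbs else 0) *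
      (ψ : G → ℂ) (S.jP u)) fun ψ h => by
    simp only [h4 ψ y w (A.degY ψ h) (hw ψ h), A.degY ψ h]; split_ifs <;> simp [mul_assoc], List.sum_map_mul_left,
    A.valY _ hx.symm.dvd, charDegree_irrOne]
  split_ifs <;> simp [mul_add, mul_assoc, h6, -Nat.cast_natAbs]

end PB

end H19
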