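import Mathlib
import Cfsg.Agent.H19.Lev
import Cfsg.Agent.H21.IntVec

/-!
Characters of defect one for the primes two and three (namespace H19).
* `exists_contr`, `exists_tri`, `exists_pair`, `PB.exc3`
-/

set_option linter.unusedSectionVars false

namespace H19

open H05 Cfsg Classical Subgroup
open scoped ComplexConjugate

variable {G : Type*} [Group G] [Finite G]

theorem exists_contr {q : ℕ} (hq : q.Prime) {χ : IrrCharacter G}
    (h : (Nat.card G).factorization q = (charDegree (χ : G → ℂ)).factorization q + 1) :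
    ∃ n : IrrCharacter G → ℤ, (∀ g, q * pRegularPart q (χ : G → ℂ) g = ∑ ψ, n ψ * (ψ : G → ℂ) g) ∧
      ∑ ψ ∈ Finset.univ.erase χ, n ψ * n ψ = n χ * (q - n χ) ∧ 0 < n χ ∧ n χ < q := by
  have := Fintype.ofFinite G
  have := Fact.mk hq
  choose n hn using fun ψ : IrrCharacter G => H21.exists_int_pow_contrib hq χ ψ.2.isGeneralizedCharacter (i := 1)
    (by rw [h, add_comm])
  simp only [pow_one, H21.contrib] at hn
  have h1 := H21.pRegularPart_isClassFunction (p := q) χ.2.isClassFunction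
  have h2 : ∀ g, q * pRegularPart q (χ : G → ℂ) g = ∑ ψ, n ψ * (ψ : G → ℂ) g := fun g => by
    rw [h1.apply_eq_sum, Finset.mul_sum]
    exact Finset.sum_congr rfl fun ψ _ => by rw [← hn, mul_assoc]
  have h3 : ∑ ψ, n ψ * n ψ = q * n χ := Int.cast_injective (α := ℂ) (by
    have e := h1.classInner_eq_sum (pRegularPart q (χ : G → ℂ))
    rw [← H21.classInner_pRegularPart, H21.pRegularPart_idem] at e
    rw [Int.cast_mul, Int.cast_natCast, ← hn, e, Finset.mul_sum, Finset.mul_sum, Int.cast_sum]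
    refine Finset.sum_congr rfl fun ψ _ => ?_
    have e1 := congrArg conj (hn ψ)
    rw [map_mul, classInner_conj_symm, map_natCast, map_intCast] at e1
    rw [Int.cast_mul]
    nth_rw 2 [← e1]
    rw [← hn]; ring)
  replace h3 : n χ * n χ + ∑ ψ ∈ Finset.univ.erase χ, n ψ * n ψ = q * n χ :=
    (Finset.add_sum_erase _ (fun ψ => n ψ * n ψ) (Finset.mem_univ χ)).trans h3
  have h4 : 0 ≤ ∑ ψ ∈ Finset.univ.erase χ, n ψ * n ψ := Finset.sum_nonneg fun _ _ => mul_self_nonneg _
  have h5 : ∑ ψ ∈ Finset.univ.erase χ, n ψ * n ψ = 0 → ∀ g, q * pRegularPart q (χ : G → ℂ) g = n χ * (χ : G → ℂ) g :=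
    fun e g => by
      rw [h2, Finset.sum_eq_single χ (fun ψ _ e' => by
        rw [mul_self_eq_zero.1 ((Finset.sum_eq_zero_iff_of_nonneg fun _ _ => mul_self_nonneg _).1 e ψ (by simpa using e'))]
        simp) (by simp)]
  have hq0 : (q : ℂ) ≠ 0 := by exact_mod_cast hq.ne_zero
  have h6 : n χ ≠ 0 := fun e => by
    have := h5 (by rw [e] at h3; simpa using h3) 1
    rw [H21.pRegularPart_of_not_dvd _ (by simpa using hq.ne_one), e, ← χ.2.charDegree_eq] at this
    exact χ.2.charDegree_pos.ne' (by simpa [hq0] using this)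
  have h7 : n χ ≠ q := fun e => by
    obtain ⟨P⟩ : Nonempty (Sylow q G) := inferInstance
    have e1 := card_dvd_of_vanish χ.2.isGeneralizedCharacter P (m := charDegree (χ : G → ℂ)) (by simp [χ.2.charDegree_eq])
      fun u hu h0 => by
        have := h5 (by rw [e] at h3; simpa using h3) u
        obtain ⟨k, hk⟩ := (IsPGroup.iff_orderOf.1 P.2) ⟨u, hu⟩
        rw [orderOf_mk] at hk
        rw [H21.pRegularPart_of_dvd _ (hk ▸ dvd_pow_self q (by rintro rfl; exact h0 (by simpa using hk))), e] at this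
        simpa [hq0] using this.symm
    rw [P.card_eq_multiplicity, Int.natCast_dvd_natCast, hq.pow_dvd_iff_le_factorization χ.2.charDegree_pos.ne'] at e1
    omega
  have h8 : (0 : ℤ) < q := by exact_mod_cast hq.pos
  exact ⟨n, h2, by rw [mul_sub, mul_comm (n χ) q]; convert eq_sub_of_add_eq' h3, lt_of_le_of_ne (by nlinarith) h6.symm, lt_of_le_of_ne (by nlinarith) h7⟩

theorem exists_tri {χ : IrrCharacter G} (h : (Nat.card G).factorization 3 = (charDegree (χ : G → ℂ)).factorization 3 + 1) :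
    ∃ (a b : IrrCharacter G) (s s' m : ℤ), a ≠ χ ∧ b ≠ χ ∧ a ≠ b ∧ (s = 1 ∨ s = -1) ∧ (s' = 1 ∨ s' = -1) ∧ (m = 1 ∨ m = 2) ∧
      (∀ g, ¬ 3 ∣ orderOf g → m * (χ : G → ℂ) g = s * (a : G → ℂ) g + s' * (b : G → ℂ) g) ∧
      ∀ g, 3 ∣ orderOf g → (3 - m) * (χ : G → ℂ) g + s * (a : G → ℂ) g + s' * (b : G → ℂ) g = 0 := by
  obtain ⟨n, h1, h2, h3, h4⟩ := exists_contr Nat.prime_three h
  have h5 : n χ = 1 ∨ n χ = 2 := by omega
  obtain ⟨a, e1, b, e2, e3, e4, e5, e6⟩ := H21.exists_of_norm_two (h2.trans (by rcases h5 with e | e <;> simp [e]))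
  rw [Finset.mem_erase] at e1 e2
  have h6 : ∀ g, 3 * pRegularPart 3 (χ : G → ℂ) g = n χ * (χ : G → ℂ) g + n a * (a : G → ℂ) g + n b * (b : G → ℂ) g := fun g => by
    rw [← Nat.cast_ofNat, h1, ← Finset.add_sum_erase _ _ (Finset.mem_univ χ), add_assoc,
      Finset.sum_eq_add a b e3 (fun c e e' => by simp [e6 c e e'.1 e'.2]) (by simp [e1]) (by simp [e2])]
  refine ⟨a, b, n a, n b, 3 - n χ, e1.1, e2.1, e3, e4, e5, by omega, fun g hg => ?_, fun g hg => ?_⟩
  · have := h6 g
    rw [H21.pRegularPart_of_not_dvd _ hg] at this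
    push_cast; linear_combination this
  · have := h6 g
    rw [H21.pRegularPart_of_dvd _ hg] at this
    push_cast; linear_combination -this

theorem exists_pair {χ : IrrCharacter G} (h : (Nat.card G).factorization 2 = (charDegree (χ : G → ℂ)).factorization 2 + 1) :
    ∃ a : IrrCharacter G, a ≠ χ ∧ ∀ g, ¬ 2 ∣ orderOf g → (a : G → ℂ) g = (χ : G → ℂ) g := by
  obtain ⟨n, h1, h2, h3, h4⟩ := exists_contr Nat.prime_two h
  have h5 : n χ = 1 := by omega
  rw [h5] at h2
  have h6 := H21.card_support_of_signs fun i hi => H21.sign_or_zero_of_sum_sq (h2.trans_le (by norm_num)) hi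
  obtain ⟨a, ha⟩ := Finset.card_eq_one.1 (Int.natCast_inj.1 ((h6.trans h2).trans (by norm_num)))
  have h7 : ∀ c, (c ≠ χ ∧ n c ≠ 0) ↔ c = a := fun c => by simpa using Finset.ext_iff.1 ha c
  have h8 : ∀ g, ¬ 2 ∣ orderOf g → (χ : G → ℂ) g = n a * (a : G → ℂ) g := fun g hg => by
    have := h1 g
    rw [H21.pRegularPart_of_not_dvd _ hg, Finset.sum_eq_add χ a ((h7 a).2 rfl).1.symm
      (fun c _ e => by simp [by_contra fun e' => e.2 ((h7 c).1 ⟨e.1, e'⟩)]) (by simp) (by simp), h5] at this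
    push_cast at this; linear_combination this
  have h9 := h8 1 (by simp)
  have := χ.2.charDegree_pos
  rw [← χ.2.charDegree_eq, ← a.2.charDegree_eq] at h9
  rcases (H21.sign_or_zero_of_sum_sq (h2.trans_le (by norm_num)) (i := a) (by simpa using ((h7 a).2 rfl).1)).resolve_left
    ((h7 a).2 rfl).2 with e | e
  · exact ⟨a, ((h7 a).2 rfl).1, fun g hg => by simp [h8 g hg, e]⟩
  · rw [e] at h9
    have : (charDegree (χ : G → ℂ) : ℤ) = -1 * charDegree (a : G → ℂ) := by exact_mod_cast h9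
    omega

namespace PB

variable {p r e : ℕ} {X : List (IrrCharacter G × ℤ)} {Y : List (IrrCharacter G)} {y : ℤ} (A : PB G p r e X Y y) (hp : p.Prime)
  (hn : Nat.card G = p * e * r) (hl : X.length + 1 = e)
include A hp hn hl

theorem exc3 (h2 : ¬ p ^ 2 ∣ Nat.card G) (he : Odd e) (ht : 2 * e + 1 = p) (h3 : p ≠ 3)
    (h : (Nat.card G).factorization 3 = y.natAbs.factorization 3 + 1) : 2 * y ∈ 1 :: X.map Prod.snd := by
  have := Fact.mk hp
  obtain ⟨x, hx⟩ := exists_prime_orderOf_dvd_card' (G := G) p (hn ▸ mul_assoc p e r ▸ dvd_mul_right _ _)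
  have h4 := A.valY x hx.symm.dvd
  have h5 := fun ψ => A.exc_norm hp hn hl h2 he ht hx (ψ := ψ)
  obtain ⟨ψ, ψ', rfl⟩ := List.length_eq_two.1 (show Y.length = 2 from
    Nat.eq_of_mul_eq_mul_right (show 0 < e by omega) (by have := A.lenY; omega))
  simp only [List.map_cons, List.map_nil, List.sum_cons, List.sum_nil, add_zero] at h4
  obtain ⟨a, b, s, s', m, e1, e2, e3, e4, e5, e6, e7, -⟩ := exists_tri (χ := ψ) (by rw [h, A.degY ψ (by simp)])
  have h6 := e7 x fun h => h3 ((Nat.prime_dvd_prime_iff_eq Nat.prime_three hp).1 (hx ▸ h)).symm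
  have h7 := e7 1 (by simp)
  have h8 : ∀ c : IrrCharacter G, c ≠ ψ → c ≠ ψ' → (c : G → ℂ) x = 0 ∨
      ∃ d ∈ 1 :: X.map Prod.snd, charDegree (c : G → ℂ) = d.natAbs ∧ (c : G → ℂ) x = d.sign := fun c f1 f2 => by
    by_cases f : p ∣ charDegree (c : G → ℂ)
    · exact Or.inl (A.val0 c f x hx.symm.dvd)
    rcases List.mem_cons.1 (A.all hn c f) with rfl | f
    · exact Or.inr ⟨1, by simp, charDegree_irrOne G, by simp⟩
    obtain ⟨z, f', rfl⟩ := List.mem_map.1 ((List.mem_append.1 f).resolve_left (by simp [f1, f2]))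
    exact Or.inr ⟨z.2, List.mem_cons_of_mem _ (List.mem_map_of_mem f'), A.degX z f', A.valX z f' x hx.symm.dvd⟩
  have h9 : ∀ c : IrrCharacter G, c ≠ ψ → c ≠ ψ' → ((c : G → ℂ) x).im = 0 := fun c f1 f2 => by
    rcases h8 c f1 f2 with f | ⟨d, -, -, f⟩ <;> simp [f]
  have h10 := (h5 ψ (by simp)).2
  have h11 : ((ψ' : G → ℂ) x).im = -((ψ : G → ℂ) x).im := by
    have := congrArg Complex.im h4
    simp at this; linarith
  have key : ∀ (b : IrrCharacter G) (s s' : ℤ), b ≠ ψ → ψ' ≠ b → (s = 1 ∨ s = -1) → (s' = 1 ∨ s' = -1) →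
      m * (ψ : G → ℂ) x = s * (ψ' : G → ℂ) x + s' * (b : G → ℂ) x → m * (ψ : G → ℂ) 1 = s * (ψ' : G → ℂ) 1 + s' * (b : G → ℂ) 1 →
      2 * y ∈ 1 :: X.map Prod.snd := fun b s s' f1 f2 f3 f4 f5 f6 => by
    have f7 := congrArg Complex.im f5
    simp [h9 b f1 f2.symm, h11] at f7
    have f8 : (m : ℝ) = -s := mul_right_cancel₀ h10 (by linarith)
    obtain ⟨rfl, rfl⟩ : m = 1 ∧ s = -1 := by norm_cast at f8; omega
    rw [← ψ.2.charDegree_eq, ← ψ'.2.charDegree_eq, ← b.2.charDegree_eq, A.degY ψ (by simp), A.degY ψ' (by simp)] at f6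
    have f9 : (1 : ℤ) * y.natAbs = -1 * y.natAbs + s' * charDegree (b : G → ℂ) := Int.cast_injective (α := ℂ) (by
      simpa only [Int.cast_add, Int.cast_mul, Int.cast_natCast] using f6)
    have f10 := A.sign_mul_sign hp
    have f0 := b.2.charDegree_pos
    obtain rfl : s' = 1 := f4.resolve_right (by rintro rfl; omega)
    have f11 : (b : G → ℂ) x = y.sign := by push_cast at f5; linear_combination h4 - f5
    rcases h8 b f1 f2.symm with f | ⟨d, f, f', f''⟩
    · rw [show y.sign = 0 by exact_mod_cast f11.symm.trans f] at f10; simp at f10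
    · rwa [← Int.sign_mul_natAbs y, ← show d.sign = y.sign by exact_mod_cast f''.symm.trans f11, mul_left_comm,
        show 2 * (y.natAbs : ℤ) = d.natAbs by omega, Int.sign_mul_natAbs]
  by_cases f1 : ψ' = a
  · subst f1; exact key b s s' e2 e3 e4 e5 h6 h7
  by_cases f2 : ψ' = b
  · subst f2; exact key a s' s e1 e3.symm e5 e4 (h6.trans (add_comm _ _)) (h7.trans (add_comm _ _))
  have f7 := congrArg Complex.im h6
  simp [h9 a e1 (Ne.symm f1), h9 b e2 (Ne.symm f2), h10] at f7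
  omega

end PB

end H19
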