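import Mathlib
import Cfsg.Agent.H19.Tri

/-!
Searches through all types of Sylow normalisers for a prime dividing the order once (namespace H19).
* `Sv.divs`, `Sv.srch3`, `Sv.chk3`, `Sv.chkT`, `PB.search3`, `exists_pb_types`, `PB.vals_inv2`, `exists_dvd_cent`
-/

set_option linter.unusedSectionVars false

namespace H19

namespace Sv

/-- All divisors of a product of prime powers. -/
def divs : List (ℕ × ℕ) → List ℕ
  | [] => [1]
  | q :: L => (List.range (q.2 + 1)).flatMap fun i => (divs L).map (q.1 ^ i * ·)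

theorem mem_divs {L : List (ℕ × ℕ)} (h : ∀ q ∈ L, q.1.Prime) {d : ℕ} (hd : d ∣ (L.map fun q => q.1 ^ q.2).prod) :
    d ∈ divs L := by
  induction L generalizing d with
  | nil => simpa [divs] using hd
  | cons q L ih =>
    obtain ⟨a, b, h1, h2, rfl⟩ := exists_dvd_and_dvd_of_dvd_mul hd
    obtain ⟨i, h3, rfl⟩ := (Nat.dvd_prime_pow (h q List.mem_cons_self)).1 h1
    exact List.mem_flatMap.2 ⟨i, List.mem_range.2 (by omega),
      List.mem_map_of_mem (ih (fun q e => h q (List.mem_cons_of_mem _ e)) h2)⟩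

/-- Search through all multisets of candidates with given sum and bounded sum of squares. -/
def srch3 (fin : List ℤ → Bool) : ℕ → List ℤ → ℕ → ℕ → ℤ → List ℤ → Bool
  | _, _, 0, _, s, acc => s != 0 || fin acc
  | _, [], _ + 1, _, _, _ => true
  | 0, _ :: _, _ + 1, _, _, _ => false
  | f + 1, c :: cs, m + 1, b, s, acc => decide ((m + 1) * c.natAbs < s.natAbs) || (srch3 fin f cs (m + 1) b s acc &&
      (decide (b < c.natAbs ^ 2) || srch3 fin f (c :: cs) m (b - c.natAbs ^ 2) (s - c) (c :: acc)))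

theorem srch3_sound {fin : List ℤ → Bool} {f : ℕ} {cs : List ℤ} {m b : ℕ} {s : ℤ} {acc : List ℤ}
    (h : srch3 fin f cs m b s acc = true) (h0 : cs.Pairwise fun a b => b.natAbs ≤ a.natAbs) {l : Multiset ℤ} (h1 : l.card = m)
    (h2 : ∀ s ∈ l, s ∈ cs) (h3 : (l.map fun s => s.natAbs ^ 2).sum ≤ b) (h4 : l.sum = s) :
    ∃ l' : List ℤ, (l' : Multiset ℤ) = l + acc ∧ fin l' = true := by
  have key : ∀ (l : Multiset ℤ) (c : ℕ), (∀ s ∈ l, s.natAbs ≤ c) → l.sum.natAbs ≤ l.card * c := fun l c => by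
    induction l using Multiset.induction_on with
    | empty => simp
    | cons a l ih =>
      intro h
      have := ih fun s e => h s (Multiset.mem_cons_of_mem e)
      have := h a (Multiset.mem_cons_self _ _)
      rw [Multiset.sum_cons, Multiset.card_cons, add_mul]; omega
  induction f generalizing cs m b s acc l with
  | zero =>
    rcases m with _ | m
    · obtain rfl := Multiset.card_eq_zero.1 h1
      exact ⟨acc, by simp, by simpa [srch3, ← h4] using h⟩
    obtain ⟨s, hs⟩ := (Multiset.card_pos_iff_exists_mem (s := l)).1 (by omega)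
    rcases cs with _ | ⟨c, cs⟩
    · simpa using h2 s hs
    · simp [srch3] at h
  | succ f ih =>
    rcases m with _ | m
    · obtain rfl := Multiset.card_eq_zero.1 h1
      exact ⟨acc, by simp, by simpa [srch3, ← h4] using h⟩
    obtain ⟨s, hs⟩ := (Multiset.card_pos_iff_exists_mem (s := l)).1 (by omega)
    rcases cs with _ | ⟨c, cs⟩
    · simpa using h2 s hs
    rw [srch3, Bool.or_eq_true, decide_eq_true_eq, Bool.and_eq_true, Bool.or_eq_true, decide_eq_true_eq] at h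
    replace h := h.resolve_left (not_lt.2 (h4 ▸ h1 ▸ key l _ fun t ht => (List.mem_cons.1 (h2 t ht)).elim (fun e => e ▸ le_rfl)
      ((List.pairwise_cons.1 h0).1 t)))
    by_cases hc : c ∈ l
    · obtain ⟨l, rfl⟩ := Multiset.exists_cons_of_mem hc
      rw [Multiset.map_cons, Multiset.sum_cons] at h3
      obtain ⟨l', e, h4⟩ := ih (h.2.resolve_left (by omega)) h0 (l := l) (by simpa using h1)
        (fun t ht => h2 t (Multiset.mem_cons_of_mem ht)) (by omega) (by rw [← h4]; simp)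
      exact ⟨l', by rw [e, ← Multiset.cons_coe, Multiset.add_cons, Multiset.cons_add], h4⟩
    · exact ih h.1 h0.of_cons h1 (fun t ht => (List.mem_cons.1 (h2 t ht)).resolve_left fun e => hc (e ▸ ht)) h3 h4

/-- All solutions of the degree equation with degrees in `D` pass the test `fin`. -/
def chk3 (D : List ℕ) (b p e : ℕ) (fin : ℤ → List ℤ → Bool) : Bool :=
  let C := D.flatMap fun d : ℕ => [(d : ℤ), -(d : ℤ)]
  let X := C.filter fun s : ℤ => (s - 1) % p == 0
  (C.filter fun s : ℤ => (s + e) % p == 0).all fun y => decide (b < 1 + (p - 1) / e * y.natAbs ^ 2) ||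
    srch3 (fin y) (X.length + e) X (e - 1) (b - (1 + (p - 1) / e * y.natAbs ^ 2)) (-1 - y) []

/-- The search through all types. -/
def chkT (R D : List ℕ) (n p : ℕ) (skip : ℕ → ℕ → ℕ → Bool) (fin : ℕ → ℕ → ℕ → ℤ → List ℤ → Bool) : Bool :=
  R.all fun r => r % p != 1 || (List.range' 2 p).all fun e => (p - 1) % e != 0 || n % (p * (e * r)) != 0 ||
    skip r e (n / (p * (e * r))) || chk3 (D.filter fun d => e * r % d == 0 && (n == p * (e * r) || decide (2 * p ≤ d))) n p e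
      (fin r e (n / (p * (e * r))))

/-- Every divisor is `1`, too large, excluded or listed. -/
def covers (R D : List ℕ) (n : ℕ) (ok : ℕ → Bool) : Bool :=
  R.all fun d => d == 1 || decide (n < d ^ 2) || !ok d || D.contains d

end Sv

open H05 Cfsg Classical Subgroup

variable {G : Type*} [Group G] [Finite G]

theorem deg_mem_of_covers [IsSimpleGroup G] (hG : ¬ IsMulCommutative G) {n : ℕ} (hn : Nat.card G = n) {R D : List ℕ}
    (hR : ∀ d, d ∣ n → d ∈ R) {ok : ℕ → Bool} (h : Sv.covers R D n ok = true) {χ : IrrCharacter G} (h1 : χ ≠ irrOne G)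
    (h2 : ok (charDegree (χ : G → ℂ)) = true) : charDegree (χ : G → ℂ) ∈ D := by
  have h3 := List.all_eq_true.1 h _ (hR _ (hn ▸ χ.2.charDegree_dvd_card))
  have h4 := sum_sq_le_of_le_degs (map_deg_le_degs (List.nodup_singleton χ))
  simpa [h2, mt (eq_irrOne_of_perfect (commutator_eq_top_of_simple hG)) h1, show ¬ n < charDegree (χ : G → ℂ) ^ 2 by
    simpa [hn] using h4] using h3

theorem exists_dvd_cent {p q : ℕ} (hq : q.Prime) {x : G} (hx : orderOf x = p) (h : q ∣ Nat.card (centralizer ({x} : Set G))) :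
    ∃ z ∈ centralizer ({x} : Set G), orderOf z = q ∧ p ∣ Nat.card (centralizer ({z} : Set G)) := by
  have := Fact.mk hq
  obtain ⟨z, hz⟩ := exists_prime_orderOf_dvd_card' q h
  exact ⟨z, z.2, (orderOf_coe z).trans hz, hx ▸ orderOf_dvd_natCard _ (mem_centralizer_singleton_iff.2
    (mem_centralizer_singleton_iff.1 z.2).symm)⟩

namespace PB

variable {p r e : ℕ} {X : List (IrrCharacter G × ℤ)} {Y : List (IrrCharacter G)} {y : ℤ} (A : PB G p r e X Y y) (hp : p.Prime)
include A hp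

theorem search3 (h1 : p ∣ Nat.card G) (hl : X.length + 1 = e) {D : List ℕ} (hs : D.Pairwise (· ≥ ·))
    (hD : ∀ s ∈ y :: X.map Prod.snd, s.natAbs ∈ D)
    {M : List ℕ} (hM : (M : Multiset ℕ) ≤ degs G) {n : ℕ} (hn : Nat.card G = n) {fin : ℤ → List ℤ → Bool}
    (h : Sv.chk3 D (n - ((M.filter fun d => d % p == 0).map (· ^ 2)).sum) p e fin = true) :
    ∃ X', PB G p r e X' Y y ∧ X'.length + 1 = e ∧ fin y (X'.map Prod.snd) = true := by
  have h2 := sum_sq_le_of_le_degs (add_filter_le_degs (A.bl_le hp) (A.not_dvd_bl hp h1 hl) hM)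
  simp only [Sv.bl, List.map_append, List.map_cons, List.sum_append, List.sum_cons, List.map_replicate, List.sum_replicate,
    smul_eq_mul, hn] at h2
  have h3 : ∀ s ∈ y :: X.map Prod.snd, s ∈ D.flatMap fun d : ℕ => [(d : ℤ), -(d : ℤ)] := fun s hs =>
    List.mem_flatMap.2 ⟨_, hD s hs, by simpa using Int.natAbs_eq s⟩
  have h4 := List.all_eq_true.1 h y (List.mem_filter.2 ⟨h3 y List.mem_cons_self,
    beq_iff_eq.2 (Int.emod_eq_zero_of_dvd (A.congY hp h1 hl))⟩)
  rw [Bool.or_eq_true, decide_eq_true_eq] at h4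
  obtain ⟨l, h5, h6⟩ := Sv.srch3_sound (h4.resolve_left (by omega)) (List.Pairwise.filter _ (List.pairwise_flatMap.2
      ⟨by simp, hs.imp fun h => by simpa using h⟩)) (l := (X.map Prod.snd : List ℤ)) (by simp; omega)
    (fun s hs => List.mem_filter.2 ⟨h3 s (List.mem_cons_of_mem _ hs),
      beq_iff_eq.2 (Int.emod_eq_zero_of_dvd (A.congX hp h1 s hs))⟩)
    (by rw [Multiset.map_coe, Multiset.sum_coe]; rw [List.map_map, Function.comp_def] at h2; omega)
    (by have := A.eqn hp; rw [Multiset.sum_coe]; omega)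
  have h7 : (X.map Prod.snd).Perm l := Multiset.coe_eq_coe.1 (by simpa using h5.symm)
  obtain ⟨X', B, rfl⟩ := A.perm' h7
  exact ⟨X', B, by simpa [← hl] using h7.length_eq.symm, h6⟩

theorem vals_inv2 [IsSimpleGroup G] (hG : ¬ IsMulCommutative G) (hp2 : p ≠ 2) {n : ℕ} (hn : Nat.card G = n) (h0 : ¬ p ^ 2 ∣ n)
    (h0' : p ∣ n) {quad : Bool} (he : quad = true → Odd e) {t : G} (ht : orderOf t = 2) {cs : List ℕ}
    (hc : Nat.card (centralizer ({t} : Set G)) ∈ cs) {F : ℕ → ℤ → List ℤ → Bool}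
    (h : Sv.chkw n p ((p - 1) / e) 4 quad y (X.map Prod.snd) cs F = true) :
    ∃ (w : ℤ) (V : List ℤ), F (Nat.card (centralizer ({t} : Set G))) w V = true ∧ (∀ ψ ∈ Y, (ψ : G → ℂ) t = w) ∧
      X.map (fun z => (z.1 : G → ℂ) t) = V.map (↑) := by
  have := Fact.mk hp
  have h1 : t ≠ 1 := by rintro rfl; simp at ht
  have h2 : t ^ 2 = 1 := ht ▸ pow_orderOf_eq_one t
  have h3 : ¬ p ∣ orderOf t := fun h => hp2 ((Nat.prime_dvd_prime_iff_eq hp Nat.prime_two).1 (ht ▸ h))
  obtain ⟨x, hx⟩ := exists_prime_orderOf_dvd_card' (G := G) p (hn ▸ h0')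
  exact A.vals' hp hG rfl h1 h3 (fun z _ => z.1.2.isGeneralizedCharacter.exists_int_of_sq_eq_one h2)
    (fun χ v hv => four_dvd_deg_sub hG h2 hv) (fun e => ⟨h2, x, hx, A.not_isConj_inv hp (hn ▸ h0) (he e) hp2 hx⟩) hn hc h

theorem levs {n k : ℕ} (hn : Nat.card G = n) (h1 : p ∣ n) (h2 : ¬ p ^ 2 ∣ n) (hk : p * k * (e * r) = n) {qs : List (ℕ × ℕ)}
    (hq : ∀ q ∈ qs, q.1.Prime ∧ q.1 ^ q.2 ∣ n) {t : G} {w : ℤ} {V : List ℤ} (hw : ∀ ψ ∈ Y, (ψ : G → ℂ) t = w)
    (hV : X.map (fun z => (z.1 : G → ℂ) t) = V.map (↑)) :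
    Sv.levs n k qs y (X.map Prod.snd) (Nat.card (centralizer ({t} : Set G))) w V = true := by
  subst hn
  rw [Sv.levs, ← index_mul_card (centralizer ({t} : Set G)), Nat.mul_div_cancel _ Nat.card_pos]
  exact List.all_eq_true.2 fun q h => A.lev hp h1 h2 hk (hq q h).1 (hq q h).2 hw hV

theorem card_cent {k : ℕ} (hk : p * k * (e * r) = Nat.card G) {x : G} (hx : orderOf x = p) :
    Nat.card (centralizer ({x} : Set G)) = p * k :=
  Nat.eq_of_mul_eq_mul_right (Nat.pos_of_mul_pos_left (hk ▸ Nat.card_pos)) ((A.cent x hx).trans hk.symm)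

end PB

theorem exists_pb_types [IsSimpleGroup G] (hG : ¬ IsMulCommutative G) {p n : ℕ} (hp : p.Prime) (hn : Nat.card G = n) (h1 : p ∣ n)
    (h2 : ¬ p ^ 2 ∣ n) {R D : List ℕ} (hR : ∀ d, d ∣ n → d ∈ R) (hs : D.Pairwise (· ≥ ·))
    (hD : ∀ χ : IrrCharacter G, χ ≠ irrOne G → charDegree (χ : G → ℂ) ∈ D) {skip : ℕ → ℕ → ℕ → Bool}
    {fin : ℕ → ℕ → ℕ → ℤ → List ℤ → Bool} (h : Sv.chkT R D n p skip fin = true) :
    ∃ r e k X Y y, PB G p r e X Y y ∧ X.length + 1 = e ∧ 2 ≤ e ∧ e ∣ p - 1 ∧ r % p = 1 ∧ p * k * (e * r) = n ∧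
      (skip r e k = true ∨ fin r e k y (X.map Prod.snd) = true) := by
  subst hn
  obtain ⟨r, e, X, Y, y, A, e1, e2, e3, e4, -, k, e5⟩ := exists_pb_of_syl hG hp h1 h2
  have h3 := List.all_eq_true.1 h r (hR r ⟨p * k * e, by rw [← e5]; ring⟩)
  have h0 : 0 < p * (e * r) := Nat.mul_pos hp.pos (Nat.pos_of_mul_pos_left (e5 ▸ Nat.card_pos))
  have h4 : Nat.card G = p * (e * r) * k := by rw [← e5]; ring
  have h5 := Nat.le_of_dvd (Nat.sub_pos_of_lt hp.one_lt) e3
  simp only [e4, bne_self_eq_false, Bool.false_or, List.all_eq_true] at h3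
  have h6 := h3 e (List.mem_range'_1.2 ⟨e2, by omega⟩)
  rw [Nat.mod_eq_zero_of_dvd e3, Nat.mod_eq_zero_of_dvd ⟨k, h4⟩, show Nat.card G / (p * (e * r)) = k by
    rw [h4, Nat.mul_div_cancel_left _ h0], bne_self_eq_false, Bool.false_or, Bool.false_or, Bool.or_eq_true] at h6
  rcases h6 with h6 | h6
  · exact ⟨r, e, k, X, Y, y, A, e1, e2, e3, e4, e5, Or.inl h6⟩
  obtain ⟨X, A, e1, h7⟩ := A.search3 hp h1 e1 (hs.filter _) (fun s hs => by
    obtain ⟨χ, f1, f2⟩ := A.exists_deg hp.one_lt hs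
    refine List.mem_filter.2 ⟨f2 ▸ hD χ f1, ?_⟩
    rw [Nat.mod_eq_zero_of_dvd (A.dvd_bl hp h1 s hs)]
    simpa [or_iff_not_imp_right, ← mul_assoc] using A.stanton hp h1 h2 hG hs) (M := []) (by simp) rfl h6
  exact ⟨r, e, k, X, Y, y, A, e1, e2, e3, e4, e5, Or.inr h7⟩

end H19
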