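import Mathlib
import Cfsg.Agent.H19.Typ

/-!
More tests on a principal block of defect one (namespace H19).
* `Sv.chkf` (a faster `Sv.chkw`), `PB.exc_lt`, `PB.uniq_le`
-/

set_option linter.unusedSectionVars false

namespace H19

namespace Sv

/-- Evaluate the argument first. -/
def fN {α : Type} (n : ℕ) (f : ℕ → α) : α := match n with
  | 0 => f 0
  | k + 1 => f (k + 1)

theorem fN_eq {α : Type} (n : ℕ) (f : ℕ → α) : fN n f = f n := by cases n <;> rfl

/-- Candidates for the value of a character of degree `d`. -/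
def cand2 (p i c m d : ℕ) : List ℤ :=
  fN i fun i => fN d fun d => fN (d / d.gcd i) fun g => fN (min d (c.sqrt + 1) / g) fun B =>
    ((List.range (2 * B + 1)).map fun j : ℕ => ((j : ℤ) - B) * g).filter fun v =>
      (d - v) % m == 0 && (i * v / d - i) % p == 0 && decide (v.natAbs < d)

theorem cand_subset (p i c m d : ℕ) : cand p i c m d ⊆ cand2 p i c m d := fun v hv => by
  simp only [cand, cand2, fN_eq, List.mem_filter, List.mem_map, List.mem_range, Bool.and_eq_true, beq_iff_eq,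
    decide_eq_true_eq] at hv ⊢
  obtain ⟨⟨j, h1, h2⟩, ⟨⟨h3, h4⟩, h5⟩, h6⟩ := hv
  have h0 : 0 < d.gcd i := Nat.gcd_pos_of_pos_left _ (by omega)
  have h7 : d / d.gcd i ∣ v.natAbs := by
    have e1 : d ∣ i * v.natAbs := by simpa [Int.natAbs_mul] using Int.natAbs_dvd_natAbs.2 (Int.dvd_of_emod_eq_zero h4)
    refine (Nat.coprime_div_gcd_div_gcd h0).dvd_of_dvd_mul_left (Nat.dvd_of_mul_dvd_mul_right h0 ?_)
    rwa [Nat.div_mul_cancel (Nat.gcd_dvd_left _ _), mul_right_comm, Nat.div_mul_cancel (Nat.gcd_dvd_right _ _)]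
  have h8 : 0 < d / d.gcd i := Nat.div_pos (Nat.gcd_le_left _ (by omega)) h0
  generalize d / d.gcd i = g at h7 h8
  obtain ⟨a, rfl⟩ := Int.natCast_dvd.2 h7
  have h9 : a.natAbs ≤ min d (c.sqrt + 1) / g := (Nat.le_div_iff_mul_le h8).2 (by
    have := Int.natAbs_mul g a
    rw [Int.natAbs_natCast, mul_comm g] at this
    omega)
  exact ⟨⟨(a + (min d (c.sqrt + 1) / g : ℕ)).toNat, by omega, by
    rw [Int.toNat_of_nonneg (by omega), add_sub_cancel_right, mul_comm]⟩, ⟨h3, h5⟩, h6⟩

theorem vs_mono {fin : List ℤ → ℕ → Bool} {E E' : List (List ℤ)} (h : List.Forall₂ (· ⊆ ·) E E') {b : ℕ} {acc : List ℤ}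
    (h1 : (E'.any List.isEmpty || vs fin E' b acc) = true) : vs fin E b acc = true := by
  induction h generalizing b acc with
  | nil => simpa using h1
  | cons h2 _ ih =>
    simp only [vs, List.any_cons, Bool.or_eq_true, List.all_eq_true, List.isEmpty_iff] at h1 ih ⊢
    rcases h1 with (rfl | h1) | h1
    exacts [fun v e => by simpa using h2 e, fun v _ => Or.inr (ih (Or.inl h1)),
      fun v e => (h1 v (h2 e)).imp_right fun e => ih (Or.inr e)]

/-- All value lists for centraliser orders in `cs` pass the test `F`. -/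
def chkf (n p t m : ℕ) (quad : Bool) (y : ℤ) (l : List ℤ) (cs : List ℕ) (F : ℕ → ℤ → List ℤ → Bool) : Bool :=
  cs.all fun c => (l.map fun d => cand2 p (n / c) c m d.natAbs).any List.isEmpty ||
    vs (finw n p t m quad y l F c) (l.map fun d => cand2 p (n / c) c m d.natAbs) (c - 1) []

theorem chkw_of_chkf {n p t m : ℕ} {quad : Bool} {y : ℤ} {l : List ℤ} {cs : List ℕ} {F : ℕ → ℤ → List ℤ → Bool}
    (h : chkf n p t m quad y l cs F = true) : chkw n p t m quad y l cs F = true :=
  List.all_eq_true.2 fun c hc => vs_mono (by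
    rw [List.forall₂_map_left_iff, List.forall₂_map_right_iff, List.forall₂_same]
    exact fun _ _ => cand_subset _ _ _ _ _) (List.all_eq_true.1 h c hc)

end Sv

open H05 Cfsg Classical Subgroup
open scoped ComplexConjugate

variable {G : Type*} [Group G] [Finite G]

namespace PB

variable {p r e : ℕ} {X : List (IrrCharacter G × ℤ)} {Y : List (IrrCharacter G)} {y : ℤ} (A : PB G p r e X Y y) (hp : p.Prime)
include A hp

theorem not_dvd_order {k q : ℕ} (hk : p * k * (e * r) = Nat.card G) (hq : q.Prime) (h1 : q ≠ p) (h2 : ¬ q ∣ k) {g : G}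
    (hg : p ∣ orderOf g) : ¬ q ∣ orderOf g := fun h => by
  have h3 := orderOf_pow_orderOf_div (orderOf_pos g).ne' hg
  have h4 := h.trans (orderOf_dvd_natCard _ (mem_centralizer_singleton_iff.2 (Commute.self_pow g (orderOf g / p))))
  rw [A.card_cent hp hk h3] at h4
  exact h2 ((hq.dvd_mul.1 h4).resolve_left (mt (Nat.prime_dvd_prime_iff_eq hq hp).1 h1))

theorem exc_lt {k q : ℕ} (hk : p * k * (e * r) = Nat.card G) (hq : q.Prime) (h1 : q ≠ p) (h2 : ¬ q ∣ k)
    (h : (Nat.card G).factorization q = y.natAbs.factorization q + 1) : (p - 1) / e < q := by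
  have := Fintype.ofFinite G
  obtain ⟨ψ, hψ⟩ := List.exists_mem_of_length_pos (Nat.pos_of_mul_pos_right (A.lenY ▸ Nat.sub_pos_of_lt hp.one_lt))
  obtain ⟨n, e1, e2, e3, e4⟩ := exists_contr hq (χ := ψ) (by rw [h, A.degY ψ hψ])
  replace e1 : ∀ g, q * pRegularPart q (ψ : G → ℂ) g = ∑ φ, n φ * (φ : G → ℂ) g := by convert e1
  replace e2 : ∑ φ ∈ Finset.univ.erase ψ, n φ * n φ = n ψ * (q - n ψ) := by convert e2
  have e5 : ∀ φ : IrrCharacter G, q * classInner (pRegularPart q (ψ : G → ℂ)) φ = n φ := fun φ => by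
    rw [← classInner_sum_smul_irr (fun χ => (n χ : ℂ)) φ, ← classInner_smul_left]
    exact congrArg (classInner · _) (funext fun g => by simpa using e1 g)
  have e0 : (y.sign * y.sign : ℂ) = 1 := by exact_mod_cast A.sign_mul_sign hp
  have e6 : ∀ φ ∈ Y.toFinset.erase ψ, n φ = n ψ - q := fun φ hφ => by
    rw [Finset.mem_erase, List.mem_toFinset] at hφ
    have f1 : classInner (pRegularPart q (ψ : G → ℂ) - (ψ : G → ℂ)) ((ψ : G → ℂ) - (φ : G → ℂ)) = 0 := by
      rw [classInner_def, Finset.sum_eq_zero fun g _ => ?_, mul_zero]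
      by_cases f : p ∣ orderOf g
      · simp [H21.pRegularPart_of_not_dvd _ (A.not_dvd_order hp hk hq h1 h2 f)]
      · have : (ψ : G → ℂ) g - (φ : G → ℂ) g = 0 := by
          linear_combination y.sign * (A.reg ψ hψ g f - A.reg φ hφ.2 g f) - ((ψ : G → ℂ) g - (φ : G → ℂ) g) * e0
        simp [this]
    rw [classInner_sub_left, classInner_sub_right, classInner_sub_right, ψ.2.classInner_self,
      ψ.2.classInner_of_ne φ.2 fun e => hφ.1 (Subtype.ext e).symm] at f1
    exact Int.cast_injective (α := ℂ) (by push_cast; linear_combination e5 ψ - e5 φ - q * f1)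
  have e7 : (Y.toFinset.erase ψ).card + 1 = (p - 1) / e := by
    rw [Finset.card_erase_add_one (by simpa using hψ), List.toFinset_card_of_nodup (List.nodup_cons.1 A.nodup).2.of_append_left,
      A.length_Y hp]
  have e8 : Y.toFinset.erase ψ ⊆ Finset.univ.erase ψ := Finset.erase_subset_erase _ (Finset.subset_univ _)
  rw [← Finset.sum_sdiff e8, Finset.sum_congr (s₁ := Y.toFinset.erase ψ) rfl fun φ h => by rw [e6 φ h], Finset.sum_const,
    nsmul_eq_mul] at e2
  have e9 : 0 ≤ ∑ φ ∈ Finset.univ.erase ψ \ Y.toFinset.erase ψ, n φ * n φ := Finset.sum_nonneg fun _ _ => mul_self_nonneg _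
  by_contra hc
  have f1 : (q : ℤ) ≤ (Y.toFinset.erase ψ).card + 1 := by omega
  have f2 : (Y.toFinset.erase ψ).card * (q - n ψ) ≤ n ψ := le_of_mul_le_mul_right (by linarith) (sub_pos.2 e4)
  have f3 : n ψ = q - 1 := by nlinarith
  have f4 : ((Y.toFinset.erase ψ).card : ℤ) = q - 1 := by rw [f3] at f2; omega
  have f5 := (Finset.sum_eq_zero_iff_of_nonneg fun _ _ => mul_self_nonneg _).1
    (show ∑ φ ∈ Finset.univ.erase ψ \ Y.toFinset.erase ψ, n φ * n φ = 0 by rw [f3, f4] at e2; linarith)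
  have f6 := e1 1
  rw [H21.pRegularPart_of_not_dvd _ (by simpa using hq.ne_one), ← Finset.add_sum_erase _ _ (Finset.mem_univ ψ),
    ← Finset.sum_subset e8 fun φ a b => by simp [mul_self_eq_zero.1 (f5 φ (Finset.mem_sdiff.2 ⟨a, b⟩))],
    Finset.sum_congr rfl (g := fun _ => -(ψ : G → ℂ) 1) fun φ h => by
      rw [e6 φ h, f3, ← φ.2.charDegree_eq, ← ψ.2.charDegree_eq, A.degY ψ hψ, A.degY φ (by simpa using (Finset.mem_erase.1 h).2)]
      simp, Finset.sum_const, nsmul_eq_mul, f3.trans f4.symm, ← ψ.2.charDegree_eq] at f6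
  simp [hq.ne_zero, ψ.2.charDegree_pos.ne'] at f6

theorem uniq_le [IsSimpleGroup G] (hG : ¬ IsMulCommutative G) (h0 : ¬ p ^ 2 ∣ Nat.card G) {k q : ℕ}
    (hk : p * k * (e * r) = Nat.card G) (hq : q.Prime) (h1 : q ≠ p) (h2 : q ∣ k) {s : ℤ} (hs : s ∈ y :: X.map Prod.snd)
    (h3 : (Sv.bl ((p - 1) / e) y (X.map Prod.snd)).count s.natAbs ≤ 1) : (q - 1) * p ≤ s.natAbs := by
  have := Fact.mk hp
  obtain ⟨M, hM⟩ := H21.exists_isPModular hp
  obtain ⟨x, hx⟩ := exists_prime_orderOf_dvd_card' (G := G) p ⟨_, by rw [← hk, mul_assoc]⟩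
  obtain ⟨u, hu, ou, -⟩ := exists_dvd_cent hq hx (A.card_cent hp hk hx ▸ h2.mul_left p)
  obtain ⟨χ, e1, e2⟩ : ∃ χ ∈ Y ++ X.map Prod.fst, charDegree (χ : G → ℂ) = s.natAbs := by
    rcases List.mem_cons.1 hs with rfl | hs
    · obtain ⟨ψ, hψ⟩ := List.exists_mem_of_length_pos (Nat.pos_of_mul_pos_right (A.lenY ▸ Nat.sub_pos_of_lt hp.one_lt))
      exact ⟨ψ, List.mem_append_left _ hψ, A.degY ψ hψ⟩
    · obtain ⟨z, hz, rfl⟩ := List.mem_map.1 hs
      exact ⟨z.1, List.mem_append_right _ (List.mem_map_of_mem hz), A.degX z hz⟩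
  have e3 := (A.blk M hM χ).2 (List.mem_cons_of_mem _ e1)
  have e4 : ∀ g, ∃ v : ℤ, (χ : G → ℂ) g = v := fun g => exists_int_of_fixed (χ.2.isCharacter.isIntegral g) fun σ => by
    rw [← gal_apply]
    by_contra f
    have := (List.subperm_of_subset (l₁ := [gal σ χ, χ]) (l₂ := (irrOne G :: (Y ++ X.map Prod.fst)).filter
      fun φ => charDegree (φ : G → ℂ) == s.natAbs) (by simpa using fun e : gal σ χ = χ => f (by rw [e])) (by
        simp only [List.cons_subset, List.nil_subset, List.mem_filter, ← A.blk M hM, e3, gal_mem_principal hM e3 σ, e2,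
          charDegree_eq_of_apply_one (χ := (gal σ χ : G → ℂ)) (n := s.natAbs) (by rw [gal_apply_one, ← χ.2.charDegree_eq, e2])]
        simp)).length_le
    rw [← A.map_deg hp, List.count_eq_countP, List.countP_map, List.countP_eq_length_filter] at h3
    exact absurd (this.trans h3) (by simp)
  choose f hf using e4
  have e5 : ∀ g ∈ zpowers u, g ≠ 1 → f g ≤ s.natAbs - p * q := fun g h h' => by
    have f1 : orderOf g = q := ((Nat.dvd_prime hq).1 (ou ▸ orderOf_dvd_of_mem_zpowers h)).resolve_left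
      (mt orderOf_eq_one_iff.1 h')
    have f2 := natAbs_lt_deg hG (fun e => (List.nodup_cons.1 A.nodup).1 (e ▸ e1)) h' (hf g)
    have f3 := dvd_deg_sub_of_pow hq (k := 1) (by rw [pow_one, ← f1, pow_orderOf_eq_one]) (hf g)
    have f4 := blk_cong hM e3 (hf g)
    obtain ⟨m, f5⟩ := deg_dvd_index_mul (hf g)
    have f6 : p ∣ Nat.card (centralizer ({g} : Set G)) := hx ▸ orderOf_dvd_natCard _ (mem_centralizer_singleton_iff.2
      (mem_centralizer_singleton_iff.1 (zpowers_le.2 hu h)).symm)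
    have f7 : ¬ (p : ℤ) ∣ (centralizer ({g} : Set G)).index := fun e => h0 (by
      rw [← (centralizer ({g} : Set G)).card_mul_index, sq]; exact mul_dvd_mul f6 (Int.natCast_dvd_natCast.1 e))
    rw [f5, Int.mul_ediv_cancel_left _ (by exact_mod_cast χ.2.charDegree_pos.ne')] at f4
    have f8 : (p : ℤ) ∣ charDegree (χ : G → ℂ) - f g := ((Nat.prime_iff_prime_int.1 hp).dvd_or_dvd
      (by convert dvd_neg.2 (f4.mul_left (charDegree (χ : G → ℂ))) using 1; linear_combination -f5)).resolve_left f7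
    have := Int.le_of_dvd (by omega) ((Nat.isCoprime_iff_coprime.2 ((Nat.coprime_primes hp hq).2 h1.symm)).mul_dvd f8 f3)
    omega
  have := Fintype.ofFinite (zpowers u)
  obtain ⟨j, hj⟩ := (χ.2.isCharacter.comp (zpowers u).subtype).exists_classInner_eq_nat isCharacter_one
  have e6 := card_mul_classInner (φ := fun g : zpowers u => (χ : G → ℂ) g) (ψ := 1)
  have e7 : ∑ g : zpowers u, f g = q * j := Int.cast_injective (α := ℂ) (by
    rw [Nat.card_zpowers, ou] at e6
    push_cast
    rw [← hj]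
    simpa [hf] using e6.symm)
  have e8 := Finset.sum_le_card_nsmul (Finset.univ.erase (1 : zpowers u)) (fun g => f g) _ fun g h =>
    e5 g g.2 fun e => (Finset.mem_erase.1 h).1 (Subtype.ext e)
  have e9 : f 1 = s.natAbs := by have := hf 1; rw [← χ.2.charDegree_eq, e2, ← Int.cast_natCast] at this; exact Int.cast_injective this.symm
  rw [← Finset.add_sum_erase _ _ (Finset.mem_univ 1), OneMemClass.coe_one, e9] at e7
  rw [Finset.card_erase_of_mem (Finset.mem_univ _), Finset.card_univ, ← Nat.card_eq_fintype_card, Nat.card_zpowers, ou,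
    nsmul_eq_mul] at e8
  have h4 := hq.pos
  generalize s.natAbs = d at e7 e8 ⊢
  zify [hq.one_le] at e8 ⊢ h4
  nlinarith [mul_nonneg h4.le (Int.natCast_nonneg j)]

end PB

end H19
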