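import Mathlib
import Cfsg.Agent.H19.Fast

/-!
Exact cover searches through lists of blocks of character degrees (namespace H19.Sv).
* `It`, `cv`, `cv_sound`, `filt`, `enc`, `chkB`, `chkB_sound`
-/

set_option linter.unusedSectionVars false

namespace H19

namespace Sv

/-- An item: a divisor, four resources and a list of degrees. -/
structure It where
  /-- divisor -/
  A : ℕ
  /-- cost -/
  k : ℕ
  /-- squares -/
  s : ℕ
  /-- count -/
  c : ℕ
  /-- weight -/
  w : ℕ
  /-- degrees -/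
  m : List ℕ
deriving DecidableEq

/-- Search through all multisets of items with given product and bounded resources. -/
def cv (fin : List It → ℕ → ℕ → ℕ → ℕ → Bool) : ℕ → List It → ℕ → ℕ → ℕ → ℕ → ℕ → List It → Bool
  | 0, _, _, _, _, _, _, _ => false
  | _ + 1, [], R, k, s, c, w, acc => R != 1 || fin acc k s c w
  | f + 1, b :: L, R, k, s, c, w, acc => cond (R == 1) (fin acc k s c w) (cv fin f L R k s c w acc &&
      (Nat.blt k b.k || Nat.blt s b.s || Nat.blt c b.c || Nat.blt w b.w || R % b.A != 0 ||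
        cv fin f (b :: L) (R / b.A) (k - b.k) (s - b.s) (c - b.c) (w - b.w) (b :: acc)))

theorem cv_sound {fin : List It → ℕ → ℕ → ℕ → ℕ → Bool} {f : ℕ} {L : List It} {R k s c w : ℕ} {acc : List It}
    (h : cv fin f L R k s c w acc = true) {l : Multiset It} (h1 : ∀ b ∈ l, b ∈ L ∧ 1 < b.A) (hR : (l.map It.A).prod = R)
    {k' s' c' w' : ℕ} (hk : (l.map It.k).sum + k' = k) (hs : (l.map It.s).sum + s' = s) (hc : (l.map It.c).sum + c' = c)
    (hw : (l.map It.w).sum + w' = w) : ∃ l' : List It, (l' : Multiset It) = l + acc ∧ fin l' k' s' c' w' = true := by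
  have key : ∀ {L : List It} {l : Multiset It}, (∀ b ∈ l, b ∈ L ∧ 1 < b.A) → (l.map It.A).prod = 1 → l = 0 := fun h1 h2 =>
    Multiset.eq_zero_of_forall_notMem fun b hb => (h1 b hb).2.ne'
      (Nat.dvd_one.1 (h2 ▸ Multiset.dvd_prod (Multiset.mem_map_of_mem _ hb)))
  induction f generalizing L R k s c w acc l with
  | zero => simp [cv] at h
  | succ f ih =>
    rcases L with _ | ⟨b, L⟩
    · obtain rfl : l = 0 := Multiset.eq_zero_of_forall_notMem fun b hb => by simpa using (h1 b hb).1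
      simp only [Multiset.map_zero, Multiset.sum_zero, Multiset.prod_zero, zero_add] at hR hk hs hc hw
      subst hR hk hs hc hw
      exact ⟨acc, by simp, by simpa [cv] using h⟩
    by_cases h0 : R = 1
    · obtain rfl := key h1 (hR.trans h0)
      simp only [Multiset.map_zero, Multiset.sum_zero, zero_add] at hk hs hc hw
      subst h0 hk hs hc hw
      exact ⟨acc, by simp, by simpa [cv] using h⟩
    rw [cv, beq_false_of_ne h0, cond_false, Bool.and_eq_true] at h
    by_cases hb : b ∈ l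
    · have h2 := (h1 b hb).2
      obtain ⟨l, rfl⟩ := Multiset.exists_cons_of_mem hb
      simp only [Multiset.map_cons, Multiset.sum_cons, Multiset.prod_cons] at hR hk hs hc hw
      have h3 := h.2
      simp only [Bool.or_eq_true, Nat.blt_eq, bne_iff_ne, ← hR, Nat.mul_mod_right, ne_eq, not_true_eq_false, or_false,
        Nat.mul_div_cancel_left _ (Nat.zero_lt_of_lt h2)] at h3
      obtain ⟨l', e, h4⟩ := ih (h3.resolve_left (by omega)) (l := l) (fun t ht => h1 t (Multiset.mem_cons_of_mem ht)) rfl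
        (by omega) (by omega) (by omega) (by omega)
      exact ⟨l', by rw [e, ← Multiset.cons_coe, Multiset.add_cons, Multiset.cons_add], h4⟩
    · exact ih h.1 (fun t ht => ⟨(List.mem_cons.1 (h1 t ht).1).resolve_left fun e => hb (e ▸ ht), (h1 t ht).2⟩) hR hk hs hc hw

/-- Strict filtering. -/
def filt {α : Type*} (p : α → Bool) (k : List α → Bool) : List α → List α → Bool
  | [], acc => k acc
  | b :: L, acc => cond (p b) (filt p k L (b :: acc)) (filt p k L acc)

theorem filt_eq {α : Type*} (p : α → Bool) (k : List α → Bool) (L acc : List α) :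
    filt p k L acc = k ((L.filter p).reverse ++ acc) := by
  induction L generalizing acc with
  | nil => rfl
  | cons b L ih => cases h : p b <;> simp [filt, ih, h]

/-- Multiplicative code of a list of degrees. -/
def enc (m : List ℕ) : ℕ := (m.map fun d => d * d + 1).prod

/-- Signed sum of values. -/
def sv (q : ℕ) (l : List ℤ) : ℤ := (l.map fun s => s.sign * rv q s.natAbs).sum

/-- The degrees in a block. -/
def bm (t : ℕ) (y : ℤ) (l : List ℤ) : List ℕ := List.replicate t y.natAbs ++ l.map Int.natAbs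

/-- All blocks are listed in `L`. -/
def chkB (D : List ℕ) (n p E k : ℕ) (qs : List ℕ) (L : List (ℕ × List ℕ)) : Bool :=
  (List.range' 1 E).all fun o => E % o != 0 || (List.range' 1 k).all fun f => k % f != 0 || decide (k < o * f ^ 2) ||
    filt (fun b => b.1 == o * f ^ 2) (fun Lc => filt (fun s : ℤ => (s - f * o) % p == 0 && decide (f * o ≤ s.natAbs)) (fun X =>
      ((D.flatMap fun d : ℕ => [(d : ℤ), -(d : ℤ)]).filter fun s : ℤ => n / (p * k) * (f * o) % s.natAbs == 0 &&
        (s + E * f) % p == 0 && decide (f * o ≤ (p - 1) / (E / o) * s.natAbs)).all fun y =>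
          srch3 (fun l => (qs.any fun q => sv q (y :: l) != 0) || Lc.any fun b => b.2.isPerm (bm ((p - 1) / (E / o)) y l))
            (X.length + E) X (E / o) n (-y) [])
      ((D.flatMap fun d : ℕ => [(d : ℤ), -(d : ℤ)]).filter fun s : ℤ => n / (p * k) * (f * o) % s.natAbs == 0).reverse []) L []

theorem chkB_sound {D : List ℕ} {n p E k : ℕ} {qs : List ℕ} {L : List (ℕ × List ℕ)} (h : chkB D n p E k qs L = true)
    (hD : D.Pairwise (· ≥ ·)) {f o : ℕ} (ho : o ∣ E) (hE : 0 < E) (hf : f ∣ k) (hk : 0 < k) (hc : o * f ^ 2 ≤ k) {y : ℤ}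
    {l : Multiset ℤ} (hl : l.card = E / o) (h1 : ∀ s ∈ y ::ₘ l, s.natAbs ∈ D ∧ s.natAbs ∣ n / (p * k) * (f * o))
    (h2 : ∀ s ∈ l, (p : ℤ) ∣ s - f * o ∧ f * o ≤ s.natAbs) (h3 : (p : ℤ) ∣ y + E * f)
    (h4 : f * o ≤ (p - 1) / (E / o) * y.natAbs) (h5 : (l.map fun s => s.natAbs ^ 2).sum ≤ n) (h6 : l.sum = -y)
    (h7 : ∀ q ∈ qs, ((y ::ₘ l).map fun s => s.sign * rv q s.natAbs).sum = 0) :
    ∃ b ∈ L, b.1 = o * f ^ 2 ∧ (b.2 : Multiset ℕ) = Multiset.replicate ((p - 1) / (E / o)) y.natAbs + l.map Int.natAbs := by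
  have e1 := List.all_eq_true.1 h o (List.mem_range'_1.2 ⟨Nat.pos_of_dvd_of_pos ho hE, by have := Nat.le_of_dvd hE ho; omega⟩)
  rw [Nat.mod_eq_zero_of_dvd ho, bne_self_eq_false, Bool.false_or] at e1
  have e2 := List.all_eq_true.1 e1 f (List.mem_range'_1.2 ⟨Nat.pos_of_dvd_of_pos hf hk, by have := Nat.le_of_dvd hk hf; omega⟩)
  rw [Nat.mod_eq_zero_of_dvd hf, bne_self_eq_false, Bool.false_or, decide_eq_false (not_lt.2 hc), Bool.false_or, filt_eq,
    filt_eq, List.filter_reverse, List.reverse_reverse, List.append_nil, List.append_nil] at e2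
  have e3 : ∀ s ∈ y ::ₘ l, s ∈ D.flatMap fun d : ℕ => [(d : ℤ), -(d : ℤ)] := fun s hs =>
    List.mem_flatMap.2 ⟨_, (h1 s hs).1, by simpa using Int.natAbs_eq s⟩
  have e4 := List.all_eq_true.1 e2 y (List.mem_filter.2 ⟨e3 y (Multiset.mem_cons_self _ _), by
    simp [Nat.mod_eq_zero_of_dvd (h1 y (Multiset.mem_cons_self _ _)).2, Int.emod_eq_zero_of_dvd h3, h4]⟩)
  obtain ⟨l', e5, e6⟩ := srch3_sound e4 (List.Pairwise.filter _ (List.Pairwise.filter _ (List.pairwise_flatMap.2
      ⟨by simp, hD.imp fun h => by simpa using h⟩))) hl (fun s hs => List.mem_filter.2 ⟨List.mem_filter.2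
        ⟨e3 s (Multiset.mem_cons_of_mem hs), by simp [Nat.mod_eq_zero_of_dvd (h1 s (Multiset.mem_cons_of_mem hs)).2]⟩,
        by simp [Int.emod_eq_zero_of_dvd (h2 s hs).1, (h2 s hs).2]⟩) h5 h6
  obtain rfl : l = l' := by simpa using e5.symm
  rw [Bool.or_eq_true, List.any_eq_true, List.any_eq_true] at e6
  obtain ⟨b, e7, e8⟩ := e6.resolve_left fun ⟨q, hq, e⟩ => by simpa [sv] using (bne_iff_ne.1 e) (by simpa [sv] using h7 q hq)
  rw [List.mem_reverse, List.mem_filter, beq_iff_eq] at e7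
  exact ⟨b, e7.1, e7.2, by rw [Multiset.coe_eq_coe.2 (List.isPerm_iff.1 e8)]; rfl⟩

end Sv

end H19
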