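import Mathlib
import Cfsg.Agent.H19.Cov

/-!
All blocks of defect one as lists of degrees (namespace H19).
* `DOne.cost_eq`, `DOne.blk_mem`, `exists_blocks`, `exists_triples`
-/

set_option linter.unusedSectionVars false

namespace H19

open H05 Cfsg Classical Subgroup
open scoped ComplexConjugate

theorem val_eq_sum_of_partition {α ι : Type*} {s : Finset α} {R : Finset ι} {B : ι → Finset α}
    (h1 : ∀ a, a ∈ s ↔ ∃ i ∈ R, a ∈ B i) (h2 : ∀ i ∈ R, ∀ j ∈ R, ∀ a ∈ B i, a ∈ B j → i = j) :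
    s.val = (R.val.map fun i => (B i).val).sum := by
  have h3 : (R : Set ι).PairwiseDisjoint B := fun i hi j hj e => Finset.disjoint_left.2 fun a e1 e2 => e (h2 i hi j hj a e1 e2)
  rw [show s = R.disjiUnion B h3 from Finset.ext fun a => by simp [h1], Finset.disjiUnion_val]
  rfl

namespace DOne

variable {p : ℕ} [hp : Fact p.Prime] {G P H : Type*} [Group G] [Group P] [Group H] (S : DOne p G P H)
variable [Fintype G] [Fintype P] [Fintype H]

theorem cK_one (h : H) (θ : IrrCharacter S.K) : (S.cK h θ : S.K → ℂ) 1 = (θ : S.K → ℂ) 1 := by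
  rw [cK_apply]; exact congrArg _ (Subtype.ext (by simp))

theorem cost_eq (θ : IrrCharacter S.K) : ∑ θ' with S.Cj θ θ', charDegree (θ' : S.K → ℂ) ^ 2 =
    (S.T θ).index * charDegree (θ : S.K → ℂ) ^ 2 := by
  rw [Finset.sum_congr rfl (g := fun _ => charDegree (θ : S.K → ℂ) ^ 2) fun θ' h => by
    obtain ⟨g, rfl⟩ := (Finset.mem_filter.1 h).2
    rw [charDegree_eq_of_apply_one ((S.cK_one g θ).trans θ.2.charDegree_eq.symm)], Finset.sum_const, smul_eq_mul]
  congr 1
  have h1 := Finset.card_eq_sum_card_fiberwise (s := Finset.univ) (t := Finset.univ.filter (S.Cj θ)) (f := fun h => S.cK h θ)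
    (fun h _ => by simpa using ⟨h, rfl⟩)
  rw [Finset.sum_congr rfl (g := fun _ => Nat.card (S.T θ)) fun θ' h => by
    obtain ⟨g, rfl⟩ := (Finset.mem_filter.1 h).2
    rw [← Fintype.card_subtype, ← Nat.card_eq_fintype_card, T, ← H06.card_conjFun_eq S.K θ g]
    exact Nat.card_congr (Equiv.subtypeEquivRight fun h => Subtype.ext_iff (a1 := S.cK h θ) (a2 := S.cK g θ)),
    Finset.sum_const, smul_eq_mul, Finset.card_univ, ← Nat.card_eq_fintype_card, ← (S.T θ).index_mul_card] at h1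
  exact (Nat.eq_of_mul_eq_mul_right Nat.card_pos h1).symm

theorem blk_mem {D : List ℕ} {n E k : ℕ} {qs : List ℕ} {L : List (ℕ × List ℕ)} (h : Sv.chkB D n p E k qs L = true)
    (hs : D.Pairwise (· ≥ ·)) (hD : ∀ χ : IrrCharacter G, charDegree (χ : G → ℂ) ∈ D) (hn : Nat.card G = n)
    (hE : S.K.index = E) (hk : Nat.card S.K = k) (hq : ∀ q ∈ qs, ∃ g : G, ¬ p ∣ orderOf g ∧
      ∀ χ : IrrCharacter G, 2 * ((χ : G → ℂ) g).re = Sv.rv q (charDegree (χ : G → ℂ))) (θ : IrrCharacter S.K) :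
    ∃ b ∈ L, b.1 = (S.T θ).index * charDegree (θ : S.K → ℂ) ^ 2 ∧ (b.2 : Multiset ℕ) =
      (Finset.univ.filter (· ∈ S.Blk θ)).val.map fun χ : IrrCharacter G => charDegree (χ : G → ℂ) := by
  obtain ⟨X, Y, δ, ε, hX⟩ := S.exists_desc θ
  set o := (S.T θ).index
  set f := charDegree (θ : S.K → ℂ)
  have e0 : S.e θ * o = E := hE ▸ relIndex_mul_index (S.K_le_T θ)
  have o0 : 0 < o := Nat.pos_of_ne_zero index_ne_zero_of_finite
  have e1 : E / o = S.e θ := by rw [← e0, Nat.mul_div_cancel _ o0]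
  have e2 : (p - 1) / (E / o) = Y.card := by rw [e1, ← hX.cardY, Nat.mul_div_cancel _ (S.e_pos θ)]
  obtain ⟨ψ, hψ⟩ : Y.Nonempty := Finset.card_pos.1 (Nat.pos_of_mul_pos_right (hX.cardY ▸ Nat.sub_pos_of_lt hp.out.one_lt))
  have sq : ∀ {a : ℤ}, a = 1 ∨ a = -1 → ∀ d : ℕ, (a * d).natAbs = d ∧ (0 < d → (a * d).sign = a) := fun h d => by
    rcases h with rfl | rfl <;> simp +contextual [Int.sign_eq_one_of_pos]
  have s1 : -ε = 1 ∨ -ε = -1 := by have := hX.sign; omega
  have r1 := fun ψ h => hX.reg ψ h 1 (by simpa using hp.out.one_lt.ne')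
  have dY : ∀ ψ' ∈ Y, charDegree (ψ' : G → ℂ) = charDegree (ψ : G → ℂ) := fun ψ' h => charDegree_eq_of_apply_one (by
    rw [ψ.2.charDegree_eq]
    exact mul_left_cancel₀ (show (ε : ℂ) ≠ 0 by rcases hX.sign with e | e <;> simp [e]) ((r1 ψ' h).trans (r1 ψ hψ).symm))
  have : Nontrivial P := Finite.one_lt_card_iff_nontrivial.1 (S.cardP ▸ hp.out.one_lt)
  obtain ⟨u, hu⟩ := _root_.exists_ne (1 : P)
  have i1 : (centralizer ({S.jP u} : Set G)).index = n / (p * k) := by
    rw [S.index_centralizer_P hu, ← hn, S.card_G, ← S.K.card_mul_index, hk, ← mul_assoc p, mul_assoc (p * k),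
      Nat.mul_div_cancel_left _ (Nat.mul_pos hp.out.pos (hk ▸ Nat.card_pos))]
  have t0 := card_ne_zero_complex (G := S.T θ)
  have c1 : (Fintype.card H : ℂ) = Nat.card (S.T θ) * o := by
    rw [← Nat.card_eq_fintype_card, ← (S.T θ).card_mul_index, Nat.cast_mul]
  have vX : ∀ χ ∈ X, (χ : G → ℂ) (S.jP u) = (δ χ * (f * o : ℕ) : ℤ) := fun χ h => mul_left_cancel₀ t0 (by
    have := hX.apply_X h hu 1
    simp only [cK_one, Finset.sum_const, Finset.card_univ, nsmul_eq_mul, c1, ← θ.2.charDegree_eq, OneMemClass.coe_one, map_one,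
      mul_one] at this
    rw [this]; push_cast; ring)
  have vY : ∑ ψ ∈ Y, (ψ : G → ℂ) (S.jP u) = (-ε * (f * o : ℕ) : ℤ) := mul_left_cancel₀ t0 (by
    rw [Finset.mul_sum, Finset.sum_congr rfl fun ψ h => by
      simpa [cK_one] using S.apply_of_mem_Blk ((hX.mem ψ).2 (Or.inr h)) hu 1, Finset.sum_comm,
      Finset.sum_congr rfl fun h _ => by rw [← Finset.sum_mul, hX.sumYd _ (by simpa using hu)], Finset.sum_const,
      Finset.card_univ, nsmul_eq_mul, c1, ← θ.2.charDegree_eq]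
    push_cast; ring)
  have nm : ∀ χ : IrrCharacter G, ‖(χ : G → ℂ) (S.jP u)‖ ≤ charDegree (χ : G → ℂ) := fun χ => by
    simpa [← χ.2.charDegree_eq] using χ.2.isCharacter.norm_le_norm_one (S.jP u)
  obtain ⟨b, b1, b2, b3⟩ := Sv.chkB_sound h hs (f := f) (o := o) (Dvd.intro_left _ e0) (e0 ▸ Nat.mul_pos (S.e_pos θ) o0)
    (hk ▸ θ.2.charDegree_dvd_card) (hk ▸ Nat.card_pos) (by
      rw [← S.cost_eq, ← hk, ← sum_charDegree_sq]
      convert Finset.sum_le_sum_of_subset (M := ℕ) (Finset.filter_subset _ _))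
    (y := -ε * charDegree (ψ : G → ℂ)) (l := X.val.map fun χ => δ χ * charDegree (χ : G → ℂ)) (by simp [e1, hX.cardX])
    (by
      simp only [Multiset.mem_cons, forall_eq_or_imp, Multiset.forall_mem_map_iff, (sq s1 _).1]
      refine ⟨⟨hD ψ, ?_⟩, fun χ h => ?_⟩
      · have h3 : IsIntegral ℤ (∑ ψ ∈ Y, centralChar (ψ : G → ℂ) (S.jP u)) :=
          IsIntegral.sum _ fun ψ _ => H20.isIntegral_centralChar ψ.2 _
        rw [Finset.sum_congr rfl (g := fun χ : IrrCharacter G => (χ : G → ℂ) (S.jP u) * ((n / (p * k) : ℕ) / charDegree (ψ : G → ℂ)))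
          fun χ h => by simp only [centralChar, i1, ← χ.2.charDegree_eq, dY χ h]; ring, ← Finset.sum_mul, vY] at h3
        have := Int.natAbs_dvd_natAbs.2 (int_dvd_of_isIntegral_div (a := (n / (p * k) : ℕ) * (-ε * (f * o : ℕ)))
          (b := charDegree (ψ : G → ℂ)) (by exact_mod_cast ψ.2.charDegree_pos.ne') (by convert h3 using 1; generalize n / (p * k) = m; push_cast; ring))
        rwa [Int.natAbs_mul, (sq s1 _).1] at this
      · have := Int.natAbs_dvd_natAbs.2 (deg_dvd_index_mul (vX χ h))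
        rw [Int.natAbs_mul, (sq (hX.signX χ h) _).1, i1] at this
        rw [(sq (hX.signX χ h) _).1]
        exact ⟨hD χ, this⟩)
    (by
      simp only [Multiset.forall_mem_map_iff]
      refine fun χ h => ⟨?_, ?_⟩
      · have := ((hX.degX h).mul_left (δ χ)).symm.dvd
        convert this using 2
        rcases hX.signX χ h with e | e <;> simp [e, mul_comm, o, f]
      · have := nm χ
        rw [vX χ h, Complex.norm_intCast, ← Int.cast_abs, Int.abs_eq_natAbs, (sq (hX.signX χ h) _).1] at this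
        rw [(sq (hX.signX χ h) _).1]
        exact_mod_cast this)
    (by
      have := ((hX.degY hψ).mul_left (-ε)).symm.dvd
      convert this using 1
      rcases hX.sign with e | e <;> simp [e, hE, f])
    (by
      have := norm_sum_le_of_le Y fun χ h => (nm χ).trans_eq (congrArg _ (dY χ h))
      rw [vY, Complex.norm_intCast, ← Int.cast_abs, Int.abs_eq_natAbs, (sq s1 _).1, Finset.sum_const, nsmul_eq_mul] at this
      rw [e2, (sq s1 _).1]
      exact_mod_cast this)
    (by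
      rw [Multiset.map_map, ← hn, ← sum_charDegree_sq]
      refine (Finset.sum_congr rfl fun χ h => congrArg (· ^ 2) (sq (hX.signX χ h) _).1).trans_le ?_
      convert Finset.sum_le_sum_of_subset (M := ℕ) (Finset.subset_univ X))
    (Int.cast_injective (α := ℂ) (by
      have := r1 ψ hψ
      simp only [← (Subtype.property (_ : IrrCharacter _)).charDegree_eq] at this
      simp [← this, Finset.sum_val]))
    fun q hq' => by
      obtain ⟨g, g1, g2⟩ := hq q hq'
      have := congrArg (fun z : ℂ => 2 * z.re) (hX.reg ψ hψ g g1)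
      simp only [Complex.re_sum, Complex.mul_re, Complex.intCast_re, Complex.intCast_im, zero_mul, sub_zero, Finset.mul_sum,
        mul_left_comm (2 : ℝ), g2] at this
      rw [Multiset.map_cons, Multiset.sum_cons, Multiset.map_map, (sq s1 _).1, (sq s1 _).2 ψ.2.charDegree_pos]
      refine Int.cast_injective (α := ℝ) ?_
      rw [← Finset.sum_eq_multiset_sum, Finset.sum_congr rfl fun χ h => by
        rw [Function.comp, (sq (hX.signX χ h) _).1, (sq (hX.signX χ h) _).2 χ.2.charDegree_pos]]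
      push_cast; linear_combination -this
  refine ⟨b, b1, b2, ?_⟩
  rw [b3, show Finset.univ.filter (· ∈ S.Blk θ) = Y.disjUnion X hX.disj.symm from Finset.ext fun χ => by simp [hX.mem, or_comm],
    Finset.disjUnion_val, Multiset.map_add, e2, (sq s1 _).1, Multiset.map_map, Multiset.map_congr rfl dY, Multiset.map_const']
  exact congrArg₂ _ rfl (Multiset.map_congr rfl fun χ h => (sq (hX.signX χ h) _).1)

end DOne

variable {G : Type*} [Group G] [Finite G]

theorem exists_blocks {p : ℕ} (hp : p.Prime) {D : List ℕ} {n E k : ℕ} {qs : List ℕ} {L : List (ℕ × List ℕ)}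
    (h : Sv.chkB D n p E k qs L = true) (hs : D.Pairwise (· ≥ ·)) (hD : ∀ χ : IrrCharacter G, charDegree (χ : G → ℂ) ∈ D)
    (hn : Nat.card G = n) (h2 : ¬ p ^ 2 ∣ n) (hk : p * k * (E * Nat.card (Sylow p G)) = n)
    (hc : ∀ x : G, orderOf x = p → Nat.card (centralizer ({x} : Set G)) = p * k) (hq : ∀ q ∈ qs, ∃ g : G, ¬ p ∣ orderOf g ∧
      ∀ χ : IrrCharacter G, 2 * ((χ : G → ℂ) g).re = Sv.rv q (charDegree (χ : G → ℂ))) :
    ∃ Bs : Multiset (ℕ × List ℕ), (∀ b ∈ Bs, b ∈ L) ∧ (Bs.map Prod.fst).sum = k ∧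
      (Bs.map fun b => (b.2 : Multiset ℕ)).sum = (degs G).filter fun d => ¬ p ∣ d := by
  have := Fact.mk hp
  have := Fintype.ofFinite G
  subst hn
  obtain ⟨P⟩ : Nonempty (Sylow p G) := inferInstance
  have := Fintype.ofFinite P
  obtain ⟨H, _, _, S, hS⟩ := exists_dOne' P (card_sylow_eq_prime ⟨_, hk.symm.trans (mul_assoc _ _ _)⟩ h2 P)
  have : Nontrivial P := Finite.one_lt_card_iff_nontrivial.1 (S.cardP.symm ▸ hp.one_lt :)
  obtain ⟨u, hu⟩ := exists_ne (1 : P)
  have h3 : S.N.index = Nat.card (Sylow p G) := by rw [S.N_eq, hS, P.card_eq_index_normalizer]; rfl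
  have h0 : 0 < Nat.card (Sylow p G) := Nat.card_pos
  have h4 := (centralizer ({S.jP u} : Set G)).card_mul_index
  rw [hc _ ((orderOf_injective _ S.injP u).trans (S.orderOf_P hu)), S.index_centralizer_P hu, h3] at h4
  have h5 : S.K.index = E := Nat.eq_of_mul_eq_mul_right h0 (Nat.eq_of_mul_eq_mul_left
    (Nat.pos_of_mul_pos_right (hk ▸ Nat.card_pos)) (h4.trans hk.symm))
  have h6 : Nat.card S.K = k := by
    rw [S.card_G, ← S.K.card_mul_index, h3, ← mul_assoc, ← mul_assoc] at h4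
    exact Nat.eq_of_mul_eq_mul_left hp.pos (Nat.eq_of_mul_eq_mul_right (Nat.pos_of_ne_zero index_ne_zero_of_finite)
      (Nat.eq_of_mul_eq_mul_right h0 h4)).symm
  choose b b1 b2 b3 using S.blk_mem h hs hD rfl h5 h6 hq
  let s : Setoid (IrrCharacter S.K) := ⟨S.Cj, DOne.Cj.refl S, DOne.Cj.symm, DOne.Cj.trans⟩
  let R := Finset.univ.image fun θ => (Quotient.mk s θ).out
  have h7 : ∀ θ, ∃ θ' ∈ R, S.Cj θ θ' := fun θ =>
    ⟨_, Finset.mem_image_of_mem _ (Finset.mem_univ θ), (Quotient.mk_out (s := s) θ).symm⟩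
  have h8 : ∀ θ ∈ R, ∀ θ' ∈ R, S.Cj θ θ' → θ = θ' := by
    simp only [R, Finset.mem_image]
    rintro _ ⟨θ, -, rfl⟩ _ ⟨θ', -, rfl⟩ e
    rw [(Quotient.out_equiv_out (s := s)).1 e]
  refine ⟨R.val.map b, Multiset.forall_mem_map_iff.2 fun θ _ => b1 θ, ?_, ?_⟩
  · rw [← h6, ← sum_charDegree_sq, Finset.sum_eq_multiset_sum, val_eq_sum_of_partition (s := Finset.univ) (R := R)
      (B := fun θ => Finset.univ.filter (S.Cj θ)) (fun θ => iff_of_true (Finset.mem_univ _)
        ((h7 θ).imp fun θ' h => ⟨h.1, Finset.mem_filter.2 ⟨Finset.mem_univ _, h.2.symm⟩⟩)) fun θ h θ' h' a e e' =>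
          h8 θ h θ' h' ((Finset.mem_filter.1 e).2.trans (Finset.mem_filter.1 e').2.symm), Multiset.map_map, ← Multiset.join,
      Multiset.map_join, Multiset.sum_join, Multiset.map_map, Multiset.map_map]
    exact congrArg _ (Multiset.map_congr rfl fun θ _ => (b2 θ).trans (S.cost_eq θ).symm)
  · rw [degs, Multiset.filter_map, ← Finset.filter_val, val_eq_sum_of_partition (R := R)
      (B := fun θ => Finset.univ.filter (· ∈ S.Blk θ)) (fun χ => by
        simp only [Finset.mem_filter, Finset.mem_univ, true_and, Function.comp, S.not_dvd_deg_iff]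
        exact ⟨fun ⟨θ, h⟩ => let ⟨θ', h', e⟩ := h7 θ; ⟨θ', h', S.Blk_eq_of_cj e ▸ h⟩, fun ⟨θ, _, h⟩ => ⟨θ, h⟩⟩)
      fun θ h θ' h' a e e' => h8 θ h θ' h' (S.cj_of_mem_Blk (Finset.mem_filter.1 e).2 (Finset.mem_filter.1 e').2),
      Multiset.map_map, ← Multiset.join, ← Multiset.join, Multiset.map_join, Multiset.map_map]
    exact congrArg _ (Multiset.map_congr rfl fun θ _ => b3 θ)

/-- The relation between three characters of a `3`-block of defect one. -/
def Sv.rel (qs : List ℕ) (x y z : ℕ) : Bool := [1, 2].any fun m : ℤ => [1, -1].any fun s : ℤ => [1, -1].any fun s' : ℤ =>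
  m * x == s * y + s' * z && qs.all fun q => m * Sv.rv q x == s * Sv.rv q y + s' * Sv.rv q z

/-- All triples are listed. -/
def Sv.chk9 (D qs : List ℕ) (T : List (List ℕ)) : Bool := D.all fun x => D.all fun y => D.all fun z =>
  !Sv.rel qs x y z || !Sv.rel qs y x z || T.any (·.isPerm [x, y, z])

theorem tri_blk {M : Ideal AlgInt} (hM : IsPModular 3 M) {qs : List ℕ} (hq : ∀ q ∈ qs, ∃ g : G, ¬ 3 ∣ orderOf g ∧
      ∀ χ : IrrCharacter G, 2 * ((χ : G → ℂ) g).re = Sv.rv q (charDegree (χ : G → ℂ))) {χ : IrrCharacter G}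
    (h : (Nat.card G).factorization 3 = (charDegree (χ : G → ℂ)).factorization 3 + 1) :
    (∀ ψ ∈ blockOf M (χ : G → ℂ), (Nat.card G).factorization 3 = (charDegree (ψ : G → ℂ)).factorization 3 + 1) ∧
    ∃ a b : IrrCharacter G, a ≠ χ ∧ b ≠ χ ∧ a ≠ b ∧ (∀ ψ, ψ ∈ blockOf M (χ : G → ℂ) ↔ ψ = χ ∨ ψ = a ∨ ψ = b) ∧
      Sv.rel qs (charDegree (χ : G → ℂ)) (charDegree (a : G → ℂ)) (charDegree (b : G → ℂ)) = true ∧
      Sv.rel qs (charDegree (χ : G → ℂ)) (charDegree (b : G → ℂ)) (charDegree (a : G → ℂ)) = true := by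
  have := Fintype.ofFinite G
  have := hM.2.1
  have hB := H21.isPBlock_blockOf (M := M) χ
  have h1 := H21.mem_blockOf_self (M := M) χ
  have h2 := fun ψ (e : ψ ∈ blockOf M (χ : G → ℂ)) => And.intro (H21.nu_add_defect (p := 3) e) (H21.height_add_two_le hM hB e)
  have h3 := h2 χ h1
  obtain ⟨a, b, s, s', m, e1, e2, e3, e4, e5, e6, e7, e8⟩ := exists_tri h
  have h4 : ∀ ψ : IrrCharacter G, 3 * H21.contrib 3 (χ : G → ℂ) ψ = (3 - m) * (if χ = ψ then 1 else 0) +
      s * (if a = ψ then 1 else 0) + s' * (if b = ψ then 1 else 0) := fun ψ => by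
    simp only [← classInner_irr, H21.contrib, ← classInner_smul_left, ← classInner_add_left]
    congr 1
    ext g
    by_cases hg : 3 ∣ orderOf g
    · simp [H21.pRegularPart_of_dvd _ hg, e8 g hg]
    · simp only [H21.pRegularPart_of_not_dvd _ hg, Pi.smul_apply, Pi.add_apply, smul_eq_mul]; linear_combination e7 g hg
  have h5 : ∀ ψ : IrrCharacter G, H21.contrib 3 (χ : G → ℂ) ψ ≠ 0 → ψ ∈ blockOf M (χ : G → ℂ) := fun ψ e =>
    by_contra fun e' => e (H21.contrib_eq_zero hM (H20.Cfsg.IsPBlock.isInt_idem hB) h1 e')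
  have key : ∀ (a b : IrrCharacter G) (s s' : ℤ), (s = 1 ∨ s = -1) → (s' = 1 ∨ s' = -1) →
      (∀ g, ¬ 3 ∣ orderOf g → m * (χ : G → ℂ) g = s * (a : G → ℂ) g + s' * (b : G → ℂ) g) →
      Sv.rel qs (charDegree (χ : G → ℂ)) (charDegree (a : G → ℂ)) (charDegree (b : G → ℂ)) = true := fun a b s s' f1 f2 f3 => by
    simp only [Sv.rel, List.any_eq_true, Bool.and_eq_true, beq_iff_eq, List.all_eq_true]
    refine ⟨m, by simpa using e6, s, by simpa using f1, s', by simpa using f2, Int.cast_injective (α := ℂ) ?_, fun q e => ?_⟩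
    · simpa [(Subtype.property (_ : IrrCharacter _)).charDegree_eq] using f3 1 (by simp)
    · obtain ⟨g, g1, g2⟩ := hq q e
      have := congrArg (fun z : ℂ => 2 * z.re) (f3 g g1)
      simp only [Complex.add_re, Complex.mul_re, Complex.intCast_re, Complex.intCast_im, zero_mul, sub_zero, mul_add,
        mul_left_comm (2 : ℝ), g2] at this
      exact_mod_cast this
  simp only [H21.nu] at h2 h3
  refine ⟨fun ψ e => by have := h2 ψ e; omega, a, b, e1, e2, e3, fun ψ => ⟨fun e => by_contra fun e' => ?_, ?_⟩,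
    key a b s s' e4 e5 e7, key b a s' s e5 e4 fun g hg => (e7 g hg).trans (add_comm _ _)⟩
  · push Not at e'
    have := h4 ψ
    rw [if_neg (Ne.symm e'.1), if_neg (Ne.symm e'.2.1), if_neg (Ne.symm e'.2.2),
      H21.contrib_comm χ.2.isGeneralizedCharacter ψ.2.isGeneralizedCharacter, ← H21.conj_contrib] at this
    exact H21.contrib_ne_zero hM hB h1 e (by have := h2 ψ e; omega) (by simpa using this)
  · rintro (rfl | rfl | rfl)
    · exact h1
    · refine h5 _ fun e => ?_
      have := h4 ψ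
      rcases e4 with rfl | rfl <;> simp [e, e1.symm, e3.symm] at this
    · refine h5 _ fun e => ?_
      have := h4 ψ
      rcases e5 with rfl | rfl <;> simp [e, e2.symm, e3] at this

theorem exists_triples {D qs : List ℕ} {T : List (List ℕ)} (hq : ∀ q ∈ qs, ∃ g : G, ¬ 3 ∣ orderOf g ∧
      ∀ χ : IrrCharacter G, 2 * ((χ : G → ℂ) g).re = Sv.rv q (charDegree (χ : G → ℂ))) {Q : ℕ → Prop} [DecidablePred Q]
    (hQ : ∀ χ : IrrCharacter G, Q (charDegree (χ : G → ℂ)) ↔
      (Nat.card G).factorization 3 = (charDegree (χ : G → ℂ)).factorization 3 + 1)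
    (hD : ∀ χ : IrrCharacter G, Q (charDegree (χ : G → ℂ)) → charDegree (χ : G → ℂ) ∈ D) (h : Sv.chk9 D qs T = true) :
    ∃ Bs : Multiset (List ℕ), (∀ b ∈ Bs, b ∈ T) ∧ (Bs.map fun b : List ℕ => (b : Multiset ℕ)).sum = (degs G).filter Q := by
  have := Fintype.ofFinite G
  obtain ⟨M, hM⟩ := H21.exists_isPModular Nat.prime_three
  have := hM.2.1
  let S := Finset.univ.filter fun χ : IrrCharacter G => Q (charDegree (χ : G → ℂ))
  let B := fun χ : IrrCharacter G => Finset.univ.filter (· ∈ blockOf M (χ : G → ℂ))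
  have h1 : ∀ χ ψ, ψ ∈ B χ → B ψ = B χ := fun χ ψ e => by
    simp only [B, H21.blockOf_eq_of_mem (H21.isPBlock_blockOf χ) (Finset.mem_filter.1 e).2]
  have h2 : ∀ C ∈ S.image B, ∃ b ∈ T, (b : Multiset ℕ) = C.val.map fun χ : IrrCharacter G => charDegree (χ : G → ℂ) := by
    simp only [Finset.forall_mem_image]
    intro χ hχ
    replace hχ := (Finset.mem_filter.1 hχ).2
    obtain ⟨e0, a, b, e1, e2, e3, e4, e5, -⟩ := tri_blk hM hq ((hQ χ).1 hχ)
    have ea := (e4 a).2 (by simp)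
    obtain ⟨-, c, d, f1, f2, f3, f4, f5, f6⟩ := tri_blk hM hq (e0 a ea)
    rw [H21.blockOf_eq_of_mem (H21.isPBlock_blockOf χ) ea] at f4
    have f7 : Sv.rel qs (charDegree (a : G → ℂ)) (charDegree (χ : G → ℂ)) (charDegree (b : G → ℂ)) = true := by
      have g1 := (f4 χ).1 ((e4 χ).2 (by simp))
      have g2 := (f4 b).1 ((e4 b).2 (by simp))
      rcases g1 with g1 | rfl | rfl <;> rcases g2 with g2 | rfl | rfl <;> first | assumption | simp_all
    have := List.all_eq_true.1 (List.all_eq_true.1 (List.all_eq_true.1 h _ (hD χ hχ)) _ (hD a ((hQ a).2 (e0 a ea)))) _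
      (hD b ((hQ b).2 (e0 b ((e4 b).2 (by simp)))))
    simp only [e5, f7, Bool.not_true, Bool.false_or, List.any_eq_true] at this
    obtain ⟨t, t1, t2⟩ := this
    refine ⟨t, t1, ?_⟩
    rw [Multiset.coe_eq_coe.2 (List.isPerm_iff.1 t2), show B χ = {χ, a, b} from Finset.ext fun ψ => by simp [B, e4],
      Finset.insert_val_of_notMem (by simp [e1.symm, e2.symm]), Finset.insert_val_of_notMem (by simpa using e3)]
    rfl
  choose! b b1 b2 using h2
  refine ⟨(S.image B).val.map b, Multiset.forall_mem_map_iff.2 b1, ?_⟩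
  rw [degs, Multiset.filter_map, ← Finset.filter_val, val_eq_sum_of_partition (R := S.image B) (B := id) (fun χ => by
      simp only [Finset.exists_mem_image, id]
      exact ⟨fun e => ⟨χ, Finset.mem_filter.2 ⟨Finset.mem_univ _, (Finset.mem_filter.1 e).2⟩,
        by simp [B, H21.mem_blockOf_self]⟩, fun ⟨ψ, e, e'⟩ => Finset.mem_filter.2
        ⟨Finset.mem_univ _, (hQ χ).2 ((tri_blk hM hq ((hQ ψ).1 (Finset.mem_filter.1 e).2)).1 χ (Finset.mem_filter.1 e').2)⟩⟩)
    (by simp only [Finset.forall_mem_image, id]; exact fun χ _ ψ _ a e e' => (h1 χ a e).symm.trans (h1 ψ a e')),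
    Multiset.map_map, ← Multiset.join, ← Multiset.join, Multiset.map_join, Multiset.map_map]
  exact congrArg _ (Multiset.map_congr rfl b2)

end H19
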