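import Mathlib
import Cfsg.Agent.H19.Blk

/-!
Exact cover searches through lists of blocks of character degrees, second part (namespace H19.Sv).
* `tot`, `mk1`, `mk2`, `fl`, `cv_mk1`, `cv_mk2`, `pc`, `not_pc`
-/

set_option linter.unusedSectionVars false

namespace H19

namespace Sv

/-- All degrees in a multiset of blocks. -/
def tot (Bs : Multiset (ℕ × List ℕ)) : Multiset ℕ := (Bs.map fun b => (b.2 : Multiset ℕ)).sum

/-- Multiplicative code of a multiset of degrees. -/
def encM (m : Multiset ℕ) : ℕ := (m.map fun d => d * d + 1).prod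

/-- The three weights. -/
def wt (i d : ℕ) : ℕ := cond (i == 0) (d * d) (cond (i == 1) (cond (d % 11 == 0) 0 1) (d * d % 5))

/-- Sum of weights. -/
def sm (i : ℕ) (m : Multiset ℕ) : ℕ := (m.map (wt i)).sum

/-- Items covering a part of the degrees. -/
def mk1 (Q Q' : ℕ → Bool) (b : ℕ × List ℕ) : It := ⟨enc (b.2.filter Q), b.1, ((b.2.filter Q').map (wt 0)).sum,
  ((b.2.filter Q').map (wt 1)).sum, ((b.2.filter Q').map (wt 2)).sum, b.2⟩

/-- Items covering the cost. -/
def mk2 (b : ℕ × List ℕ) : It := ⟨2 ^ b.1, 0, (b.2.map (wt 0)).sum, (b.2.map (wt 1)).sum, (b.2.map (wt 2)).sum, b.2⟩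

/-- Degrees of a list of items. -/
def fl (Q : ℕ → Bool) (l : List It) : List ℕ := l.flatMap fun b => b.m.filter Q

/-- Evaluate a number first. -/
def force (k : ℕ → Bool) : ℕ → Bool
  | 0 => k 0
  | n + 1 => k (n + 1)

theorem force_eq (k : ℕ → Bool) (n : ℕ) : force k n = k n := by cases n <;> rfl

theorem tot_add (A B : Multiset (ℕ × List ℕ)) : tot (A + B) = tot A + tot B := by simp [tot]

theorem encM_add (A B : Multiset ℕ) : encM (A + B) = encM A * encM B := by simp [encM]

theorem sm_add (i : ℕ) (A B : Multiset ℕ) : sm i (A + B) = sm i A + sm i B := by simp [sm]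

theorem encM_coe (m : List ℕ) : encM m = enc m := by simp [encM, enc]

theorem encM_pos (m : Multiset ℕ) : 0 < encM m := Multiset.prod_pos (by simp)

theorem eq_nil_of_enc {m : List ℕ} (h : enc m = 1) (h0 : ∀ d ∈ m, 0 < d) : m = [] :=
  List.eq_nil_iff_forall_not_mem.2 fun d hd => by
    have := Nat.dvd_one.1 ((List.dvd_prod (List.mem_map_of_mem (f := fun d => d * d + 1) hd)).trans h.dvd)
    have := Nat.mul_pos (h0 d hd) (h0 d hd)
    omega

theorem prod_enc (Q : ℕ → Bool) (Bs : Multiset (ℕ × List ℕ)) :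
    (Bs.map fun b => enc (b.2.filter Q)).prod = encM ((tot Bs).filter (Q ·)) := by
  induction Bs using Multiset.induction_on with
  | empty => rfl
  | cons b Bs ih => simp [tot, encM_add, encM_coe] at ih ⊢; simp [ih]

theorem sum_wt (i : ℕ) (Q : ℕ → Bool) (Bs : Multiset (ℕ × List ℕ)) :
    (Bs.map fun b => ((b.2.filter Q).map (wt i)).sum).sum = sm i ((tot Bs).filter (Q ·)) := by
  induction Bs using Multiset.induction_on with
  | empty => rfl
  | cons b Bs ih => simp [tot, sm] at ih ⊢; simp [ih]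

theorem coe_fl (Q : ℕ → Bool) {mk : ℕ × List ℕ → It} (hm : ∀ b, (mk b).m = b.2) {Bs : Multiset (ℕ × List ℕ)} {l : List It}
    (h : (l : Multiset It) = Bs.map mk + ([] : List It)) : (fl Q l : Multiset ℕ) = (tot Bs).filter (Q ·) := by
  have : ∀ l : List It, (fl Q l : Multiset ℕ) = ((l : Multiset It).map fun b => (b.m : Multiset ℕ)).sum.filter (Q ·) := fun l => by
    induction l with
    | nil => rfl
    | cons b l ih => simp [fl] at ih ⊢; simp [← ih]
  simp [this, h, hm, tot]

variable {fin : List It → ℕ → ℕ → ℕ → ℕ → Bool} {f : ℕ} {I : List It} {R k s c w k' s' c' w' : ℕ} {Bs : Multiset (ℕ × List ℕ)}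

theorem cv_mk1 {Q Q' : ℕ → Bool} (h : cv fin f I R k s c w [] = true) (h1 : ∀ b ∈ Bs, mk1 Q Q' b ∈ I ∧ enc (b.2.filter Q) ≠ 1)
    (hR : encM ((tot Bs).filter (Q ·)) = R) (hk : (Bs.map Prod.fst).sum + k' = k) (hs : sm 0 ((tot Bs).filter (Q' ·)) + s' = s)
    (hc : sm 1 ((tot Bs).filter (Q' ·)) + c' = c) (hw : sm 2 ((tot Bs).filter (Q' ·)) + w' = w) :
    ∃ l, (∀ Q : ℕ → Bool, (fl Q l : Multiset ℕ) = (tot Bs).filter (Q ·)) ∧ fin l k' s' c' w' = true := by
  obtain ⟨l, e1, e2⟩ := cv_sound h (l := Bs.map (mk1 Q Q')) (Multiset.forall_mem_map_iff.2 fun b e => ⟨(h1 b e).1, by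
      have := (h1 b e).2
      have := encM_coe _ ▸ encM_pos (b.2.filter Q : List ℕ)
      simp only [mk1]; omega⟩) (by rw [← hR, ← prod_enc, Multiset.map_map]; rfl) (by rw [← hk, Multiset.map_map]; rfl)
    (by rw [← hs, ← sum_wt, Multiset.map_map]; rfl) (by rw [← hc, ← sum_wt, Multiset.map_map]; rfl)
    (by rw [← hw, ← sum_wt, Multiset.map_map]; rfl)
  exact ⟨l, fun Q => coe_fl Q (fun _ => rfl) e1, e2⟩

theorem cv_mk2 (h : cv fin f I (2 ^ k) 0 s c w [] = true) (h1 : ∀ b ∈ Bs, mk2 b ∈ I ∧ b.1 ≠ 0)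
    (hk : (Bs.map Prod.fst).sum = k) (hs : sm 0 (tot Bs) + s' = s) (hc : sm 1 (tot Bs) + c' = c) (hw : sm 2 (tot Bs) + w' = w) :
    ∃ l, (∀ Q : ℕ → Bool, (fl Q l : Multiset ℕ) = (tot Bs).filter (Q ·)) ∧ fin l 0 s' c' w' = true := by
  have e := fun i => sum_wt i (fun _ => true) Bs
  simp only [List.filter_true, Multiset.filter_true] at e
  obtain ⟨l, e1, e2⟩ := cv_sound h (l := Bs.map mk2) (k' := 0) (Multiset.forall_mem_map_iff.2 fun b e => ⟨(h1 b e).1,
      Nat.one_lt_two_pow (h1 b e).2⟩) (by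
        rw [← hk, Multiset.map_map]; clear * -
        induction Bs using Multiset.induction_on <;> simp_all [mk2, pow_add]) (by simp [mk2, Function.comp_def])
    (by rw [← hs, ← e, Multiset.map_map]; rfl) (by rw [← hc, ← e, Multiset.map_map]; rfl)
    (by rw [← hw, ← e, Multiset.map_map]; rfl)
  exact ⟨l, fun Q => coe_fl Q (fun _ => rfl) e1, e2⟩

/-- There is no cover by patterns. -/
def pc (P : List It) (k : ℕ) (m : List ℕ) : Bool := force (fun R => cv (fun _ _ _ _ _ => false) 999 P R k 0 0 0 []) (enc m)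

/-- All patterns are listed. -/
def chkP (Q : ℕ → Bool) (L : List (ℕ × List ℕ)) (P : List It) : Bool :=
  L.all fun b => force (fun A => A == 1 || P.contains ⟨A, b.1, 0, 0, 0, []⟩) (enc (b.2.filter Q))

theorem not_pc {Q : ℕ → Bool} {L : List (ℕ × List ℕ)} {P : List It} (h : chkP Q L P = true) (h1 : ∀ b ∈ Bs, b ∈ L)
    (hk : (Bs.map Prod.fst).sum = k) {m : List ℕ} (hm : (tot Bs).filter (Q ·) = m) : pc P k m = false := by
  refine Bool.eq_false_iff.2 fun e => ?_
  rw [pc, force_eq] at e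
  have e1 := Multiset.filter_add_not (fun b : ℕ × List ℕ => enc (b.2.filter Q) ≠ 1) Bs
  obtain ⟨l, -, e2⟩ := cv_sound e (l := (Bs.filter fun b => enc (b.2.filter Q) ≠ 1).map
      fun b => ⟨enc (b.2.filter Q), b.1, 0, 0, 0, []⟩) (Multiset.forall_mem_map_iff.2 fun b e => by
      rw [Multiset.mem_filter] at e
      have h2 := List.all_eq_true.1 h b (h1 b e.1)
      have := encM_coe _ ▸ encM_pos (b.2.filter Q : List ℕ)
      exact ⟨by simpa [force_eq, e.2] using h2, by have := e.2; simp only; omega⟩)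
    (by
      rw [← encM_coe, ← hm, ← prod_enc]
      conv_rhs => rw [← e1, Multiset.map_add, Multiset.prod_add, Multiset.prod_eq_one (s := Multiset.map
        (fun b : ℕ × List ℕ => enc (List.filter Q b.2)) (Multiset.filter (fun b => ¬ enc (List.filter Q b.2) ≠ 1) Bs))
          (Multiset.forall_mem_map_iff.2 fun b e => not_not.1 (Multiset.mem_filter.1 e).2)]
      simp)
    (k' := ((Bs.filter fun b => ¬ enc (b.2.filter Q) ≠ 1).map Prod.fst).sum)
    (by rw [← hk]; conv_rhs => rw [← e1, Multiset.map_add, Multiset.sum_add]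
        simp) (s' := 0) (by simp) (c' := 0) (by simp) (w' := 0) (by simp)
  simp at e2

end Sv

end H19
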