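import Mathlib
import Cfsg.Agent.H19.M22a
import Cfsg.Agent.H19.M12d
import Cfsg.Agent.H21.FS

/-!
Recognising the Mathieu group of degree 22 (namespace H19).
* `isoM22_of_char`, `isoM22_of_sylow`
-/

set_option linter.unusedSectionVars false

namespace H19

theorem m22_ar {v a b g e f d h m : ℤ} {c : ℕ} (hc : c ∣ 384) (h1 : v ^ 2 - 5 = 2 * (v + 2 * a + b)) (h2 : d = 1 - a + b)
    (h3 : v ^ 2 + 5 = 2 * (1 + v + d + g) ∨ v ^ 2 + 5 = 2 * (1 + v + 2 * d + b)) (h4 : e = -1 + v - 3 * a + b + g)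
    (h5 : f = -a + b + g) (h6 : h = g + b - 1 - v) (h7 : m = 1 + 3 * a - 3 * b - 3 * g)
    (h8 : 1 + v ^ 2 + 2 * a ^ 2 + b ^ 2 + d ^ 2 + e ^ 2 + 2 * f ^ 2 + g ^ 2 + h ^ 2 + m ^ 2 = c)
    (h9 : 45 ∣ (443520 / c : ℕ) * a) : False := by
  have key : (List.range 39).all (fun i => (List.range 39).all fun j =>
      let v := (i : ℤ) - 19; let a := (j : ℤ) - 19; let b := (v ^ 2 - 5) / 2 - v - 2 * a; let d := 1 - a + b
      v ^ 2 - 5 != 2 * (v + 2 * a + b) || (List.range 39).all fun k =>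
        let g := (k : ℤ) - 19
        let s := 1 + v ^ 2 + 2 * a ^ 2 + b ^ 2 + d ^ 2 + (-1 + v - 3 * a + b + g) ^ 2 + 2 * (-a + b + g) ^ 2 + g ^ 2 +
          (g + b - 1 - v) ^ 2 + (1 + 3 * a - 3 * b - 3 * g) ^ 2
        (v ^ 2 + 5 != 2 * (1 + v + d + g) && v ^ 2 + 5 != 2 * (1 + v + 2 * d + b)) || 384 % s != 0 ||
          443520 / s * a % 45 != 0) = true := by decide +kernel
  have h0 : (c : ℤ) ≤ 384 := by exact_mod_cast Nat.le_of_dvd (by norm_num) hc
  have bd : ∀ x : ℤ, x ^ 2 ≤ 384 → (x + 19).toNat ∈ List.range 39 ∧ ((x + 19).toNat : ℤ) - 19 = x := fun x hx => by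
    have := abs_lt_of_sq_lt_sq' (hx.trans_lt (by norm_num : (384 : ℤ) < 20 ^ 2)) (by norm_num)
    rw [List.mem_range]; omega
  have q := fun x : ℤ => sq_nonneg x
  have b1 := bd v (by linarith [q a, q b, q d, q e, q f, q g, q h, q m])
  have b2 := bd a (by linarith [q a, q b, q d, q e, q f, q g, q h, q m, q v])
  have b3 := bd g (by linarith [q a, q b, q d, q e, q f, q v, q h, q m])
  have k1 := List.all_eq_true.1 (List.all_eq_true.1 key _ b1.1) _ b2.1
  simp only [b1.2, b2.2, show (v ^ 2 - 5) / 2 - v - 2 * a = b by omega, ← h2, Bool.or_eq_true, bne_iff_ne, List.all_eq_true] at k1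
  have k2 := k1.resolve_left (not_not.2 h1) _ b3.1
  simp only [b3.2, ← h4, ← h5, ← h6, ← h7, h8, Bool.and_eq_true, bne_iff_ne] at k2
  rcases k2 with (k2 | k2) | k2
  · exact h3.elim k2.1 k2.2
  · exact k2 (Int.emod_eq_zero_of_dvd (by exact_mod_cast hc))
  · exact k2 (Int.emod_eq_zero_of_dvd (by exact_mod_cast h9))

open H05 Cfsg Classical Subgroup
open scoped Pointwise

variable {G : Type*} [Group G] [Finite G] [IsSimpleGroup G] (hn : Nat.card G = 443520)
include hn

theorem isoM22_of_char [Fintype G] {χ ψ : IrrCharacter G} (dχ : charDegree (χ : G → ℂ) = 21)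
    (h1 : ∀ φ : IrrCharacter G, φ ≠ irrOne G → charDegree (φ : G → ℂ) ≤ 21 → φ = χ) (hr : ∀ g, ((χ : G → ℂ) g).im = 0)
    (dψ : charDegree (ψ : G → ℂ) = 210) (h2 : ∀ g, (ψ : G → ℂ) g = ((χ : G → ℂ) g ^ 2 - (χ : G → ℂ) (g * g)) / 2)
    (h3 : classInner (fun g => (χ : G → ℂ) g ^ 2) χ = 1)
    (h4 : ∀ t : G, orderOf t = 2 → (χ : G → ℂ) t = 5 ∨ (χ : G → ℂ) t = -3) : Nonempty (G ≃* Spor.M22) := by
  obtain ⟨M, hM⟩ := exists_index_of_cubic hr h2 (fun e => by simp [Subtype.ext (a2 := irrOne G) e, charDegree_irrOne] at dψ)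
    (by rintro rfl; omega) (by rw [h3]; norm_num)
  obtain ⟨_, _, S, g1, g2, φ, g3⟩ := exists_steiner_of_char (k := 3) (dχ ▸ h1) dχ hM (by rw [hn]; rfl)
    (moments (by rintro rfl; simp [charDegree_irrOne] at dχ) hr h3).1 fun t ht f e e' => by
      rcases h4 t ht with h | h <;> rw [h] at e
      · exact_mod_cast (show (f : ℂ) = 6 by linear_combination -e)
      · have : (f : ℤ) = -2 := by exact_mod_cast (show (f : ℂ) = -2 by linear_combination -e)
        omega
  obtain ⟨⟨ι⟩, -⟩ := H14.Sr.aut22 g1 g2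
  have hle : Spor.M22 ≤ M24 ⊓ MulAction.stabilizer _ (H14.toSet 0x800001) := fun g hg =>
    ⟨hg.1.1, H14.Sr.smul_eq_of_fix fun p hp => by
      rw [H14.Sr.set22, Finset.mem_insert, Finset.mem_singleton] at hp
      rcases hp with rfl | rfl
      exacts [hg.1.2, hg.2]⟩
  obtain ⟨K, ⟨e⟩⟩ : ∃ K : Subgroup (setSystemAut S), Nonempty (Spor.M22 ≃* K) :=
    ⟨_, ⟨(subgroupOfEquivOfLe hle).symm.trans (ι.subgroupMap _)⟩⟩
  have c := (Nat.card_congr e.toEquiv).symm.trans H14.card_M22
  have g4 : K.index = 2 := Nat.eq_of_mul_eq_mul_right (by norm_num : 0 < 443520)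
    (((congrArg _ c).symm.trans K.index_mul_card).trans (H14.Sr.card_aut22 g1 g2))
  have := normal_of_index_eq_two g4
  have g5 : K.comap φ = ⊤ := (Normal.eq_bot_or_eq_top inferInstance).resolve_left fun h => by
    have := relIndex_dvd_index_of_normal K φ.range
    rw [← index_comap, h, index_bot, hn, g4] at this
    omega
  exact ⟨(MulEquiv.ofBijective (φ.codRestrict K fun g => g5.ge (mem_top g)) ((Nat.bijective_iff_injective_and_card _).2
    ⟨(MonoidHom.injective_codRestrict _ _ _).2 g3, hn.trans c.symm⟩)).trans e.symm⟩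

set_option maxHeartbeats 1600000 in
theorem isoM22_of_sylow (h11 : Nat.card (Sylow 11 G) = 8064) (h7 : Nat.card (Sylow 7 G) = 21120)
    (h5 : Nat.card (Sylow 5 G) = 22176) : Nonempty (G ≃* Spor.M22) := by
  have hG : ¬ IsMulCommutative G := not_comm_of_simple_card (by rw [hn]; norm_num)
  have p11 : Nat.Prime 11 := by norm_num
  have p7 : Nat.Prime 7 := by norm_num
  have := Fintype.ofFinite G
  obtain ⟨X, Y, X', Y', y', Z, W, z, A, B, C, hC, H⟩ := m22_blocks hn h11 h7 h5
  have hA : X.length + 1 = 5 := by rcases H with ⟨h, -⟩ | ⟨h, -⟩ <;> simpa using congrArg List.length h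
  have hB : X'.length + 1 = 3 := by rcases H with ⟨-, -, h, -⟩ | ⟨-, -, h⟩ <;> simpa using congrArg List.length h
  obtain ⟨χ, χ1, dχ⟩ := A.exists_deg p11.one_lt (v := -21) (by rcases H with ⟨h, -⟩ | ⟨h, -⟩ <;> simp [h])
  replace dχ : charDegree (χ : G → ℂ) = 21 := dχ
  have uχ : ∀ ψ : IrrCharacter G, charDegree (ψ : G → ℂ) = 21 → ψ = χ := fun ψ => eq_of_count_degs (by
    rw [A.count_degs p11 hn hA (by norm_num)]; rcases H with ⟨h, -⟩ | ⟨h, -⟩ <;> rw [h] <;> decide) dχ
  have iχ := exists_int_of_unique fun ψ h => uχ ψ (h.trans dχ)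
  have hr : ∀ g, ((χ : G → ℂ) g).im = 0 := fun g => by obtain ⟨m, hm⟩ := iχ g; simp [hm]
  have u1 := fun ψ : IrrCharacter G => eq_irrOne_of_perfect (commutator_eq_top_of_simple hG) (χ := ψ)
  obtain ⟨D, hD, D1, D2, D3⟩ : ∃ D : List ℕ, (∀ ψ : IrrCharacter G, charDegree (ψ : G → ℂ) ≤ 231 → charDegree (ψ : G → ℂ) ∈ D) ∧
      (∀ d ∈ D, d ≤ 21 → d = 1 ∨ d = 21) ∧ Sv.parts (fun L => (L.map (Sv.rv 11)).sum != 2 || (L.map (Sv.rv 7)).sum != 0 ||
        (L.map (Sv.rv 5)).sum != 0 || L.count 1 != 0 || L == [210] || (y' == -45 && L == [21, 45, 45, 99])) 300 D 210 [] = true ∧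
      Sv.parts (fun L => (L.map (Sv.rv 11)).sum != 0 || (L.map (Sv.rv 7)).sum != 0 || (L.map (Sv.rv 5)).sum != 2 ||
        L.count 1 != 1 || L == [1, 21, 55, 154] || (y' == -45 && L == [1, 21, 55, 55, 99]) ||
          (y' == -66 && L == [1, 55, 55, 120])) 300 D 231 [] = true := by
    have key : ∀ ψ : IrrCharacter G, charDegree (ψ : G → ℂ) ≤ 231 → charDegree (ψ : G → ℂ) ∈ (List.range 232).reverse.filter
        fun d => 0 < d && (d % 11 == 0 || (Sv.bl 2 (-280) (X.map Prod.snd)).contains d) &&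
          (d % 7 == 0 || (Sv.bl 2 y' (X'.map Prod.snd)).contains d) && [0, 1, 4].contains (d % 5) := fun ψ h => by
      have e1 := A.deg_mem_bl p11 hn hA ψ
      have e2 := B.deg_mem_bl p7 hn hB ψ
      have e3 := C.deg_mod Nat.prime_five hn hC ψ
      simp only [Nat.dvd_iff_mod_eq_zero] at e1 e2 e3
      simpa [e1, e2, ψ.2.charDegree_pos] using by omega
    refine ⟨_, key, ?_⟩
    rcases H with ⟨h, rfl, h', -⟩ | ⟨h, rfl, h'⟩ <;> rw [h, h'] <;> decide +kernel
  obtain ⟨x, hx⟩ := exists_prime_orderOf_dvd_card' (G := G) 11 (hp := ⟨p11⟩) (by omega)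
  obtain ⟨u, hu⟩ := exists_prime_orderOf_dvd_card' (G := G) 7 (hp := ⟨p7⟩) (by omega)
  obtain ⟨w, hw⟩ := exists_prime_orderOf_dvd_card' (G := G) 5 (hp := ⟨Nat.prime_five⟩) (by omega)
  have rx := fun x (hx : orderOf x = 11) => A.two_re p11 hn hA (by omega) (by norm_num) (Or.inl ⟨by decide, rfl⟩) hx
  have ru := fun x (hx : orderOf x = 7) => B.two_re p7 hn hB (by omega) (by norm_num) (Or.inl ⟨by decide, rfl⟩) hx
  have rw5 := fun x (hx : orderOf x = 5) => C.two_re Nat.prime_five hn hC (by omega) (by norm_num) (Or.inr rfl) hx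
  have val : ∀ {p : ℕ} {v : ℤ} {x : G}, (∀ x, orderOf x = p → ∀ χ : IrrCharacter G,
      2 * ((χ : G → ℂ) x).re = Sv.rv p (charDegree (χ : G → ℂ))) → orderOf x = p → Sv.rv p 21 = 2 * v → p.Coprime 2 →
      (χ : G → ℂ) x = v ∧ (χ : G → ℂ) (x * x) = v := fun {p v x} h1 h2 h3 h4 => by
    have key : ∀ x, orderOf x = p → (χ : G → ℂ) x = v := fun x hx => Complex.ext (by
      have := h1 x hx χ
      rw [dχ, h3] at this
      simpa using this) (by simp [hr])
    exact ⟨key x h2, key _ (by rw [← sq, Nat.Coprime.orderOf_pow (h2 ▸ h4), h2])⟩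
  have vx := val (v := -1) rx hx rfl (by norm_num)
  have vu := val (v := 0) ru hu rfl (by norm_num)
  have vw := val (v := 1) rw5 hw rfl (by norm_num)
  obtain ⟨L₁, L₂, f1, f2, f3, f4, f5⟩ := sq_parts hG hr (a := 210) (b := 231) (by rw [dχ]; rfl) (by rw [dχ]) hD D2 D3
  have f6 : (L₁.map fun ψ : IrrCharacter G => charDegree (ψ : G → ℂ)).count 1 = 0 := Nat.cast_eq_zero.1
    ((classInner_list_deg f1 (charDegree_irrOne G) u1).symm.trans
      (classInner_sq_one (H21.fsIndicator_of_odd χ.2 hr (by rw [dχ]; decide))).2.2)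
  rw [two_re_list (rx x hx) L₁ (v := 1) (by rw [← f1, vx.1, vx.2]; norm_num),
    two_re_list (ru u hu) L₁ (v := 0) (by rw [← f1, vu.1, vu.2]; norm_num),
    two_re_list (rw5 w hw) L₁ (v := 0) (by rw [← f1, vw.1, vw.2]; norm_num), f6] at f3
  rw [two_re_list (rx x hx) L₂ (v := 0) (by rw [← f2, vx.1, vx.2]; norm_num),
    two_re_list (ru u hu) L₂ (v := 0) (by rw [← f2, vu.1, vu.2]; norm_num),
    two_re_list (rw5 w hw) L₂ (v := 1) (by rw [← f2, vw.1, vw.2]; norm_num), show List.count 1 _ = 1 by omega] at f4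
  simp only [mul_one, mul_zero, bne_self_eq_false, Bool.false_or, Bool.or_eq_true, beq_iff_eq, Bool.and_eq_true] at f3 f4
  have c1 : (χ : G → ℂ) 1 = 21 := by rw [← χ.2.charDegree_eq, dχ]; norm_num
  have cd : ∀ t : G, orderOf t = 2 → Nat.card (centralizer ({t} : Set G)) ∣ 5760 := fun t ht =>
    Nat.dvd_gcd (A.cent_dvd p11 hn (by rintro rfl; simp at ht) (by rw [ht]; norm_num))
      (B.cent_dvd p7 hn (by rintro rfl; simp at ht) (by rw [ht]; norm_num))
  have c2 : ∀ t : G, orderOf t = 2 → 2 ∣ Nat.card (centralizer ({t} : Set G)) := fun t ht =>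
    ht ▸ orderOf_dvd_natCard _ (mem_centralizer_singleton_iff.2 rfl)
  have fin : (L₁.map fun ψ : IrrCharacter G => charDegree (ψ : G → ℂ)) = [210] →
      (L₂.map fun ψ : IrrCharacter G => charDegree (ψ : G → ℂ)).count 21 = 1 →
      (∀ t : G, orderOf t = 2 → (χ : G → ℂ) t = 5 ∨ (χ : G → ℂ) t = -3) → Nonempty (G ≃* Spor.M22) := fun e1 e2 e3 => by
    obtain ⟨ψ, rfl⟩ := List.length_eq_one_iff.1 (show L₁.length = 1 by simpa using congrArg List.length e1)
    refine isoM22_of_char hn dχ (fun φ e e' => uχ φ ((D1 _ (hD φ (by omega)) e').resolve_left (mt (u1 φ) e))) hr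
      (ψ := ψ) (by simpa using e1) (fun g => by simpa using (f1 g).symm) ?_ e3
    rw [classInner_list_deg (L := ψ :: L₂) (fun g => by
      rw [List.map_cons, List.sum_cons, ← f2]; linear_combination (by simpa using f1 g : _ = (ψ : G → ℂ) g)) dχ uχ,
      List.map_cons, List.count_cons_of_ne (by simp at e1; omega), e2, Nat.cast_one]
  have sq1 : ∀ t : G, orderOf t = 2 → (χ : G → ℂ) (t * t) = 21 := fun t ht => by rw [← sq, ← ht, pow_orderOf_eq_one, c1]
  rcases H with ⟨h1, rfl, h2, h3⟩ | ⟨h1, rfl, h2⟩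
  swap
  · replace f3 := f3.resolve_right (by simp)
    match X, h1, X', h2 with
    | [(χ', _), (a, _), (a', _), (k, _)], rfl, [(k', _), (d, _)], rfl =>
    obtain rfl := uχ χ' (A.degX _ List.mem_cons_self)
    have inv : ∀ t : G, orderOf t = 2 → (χ' : G → ℂ) t = -3 := fun t ht => by
      obtain ⟨o, g1, -, -, g2⟩ := A.vals_inv' hG p11 (by norm_num) hn (by norm_num) (by norm_num) (by decide) (l := [-21, 210, 210, -120])
        rfl ht (cd t ht) (by norm_num) (c2 t ht) (out := [(96, 0, [5, -2, 6, 0]), (96, 0, [5, 6, -2, 0]), (128, 0, [5, -2, 6, 0]),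
          (128, 0, [5, 6, -2, 0]), (192, 0, [5, -2, 6, 0]), (192, 0, [5, 6, -2, 0]), (384, 8, [-3, -6, 2, -8]),
          (384, -8, [-3, -6, 2, 8]), (384, 0, [5, -2, 6, 0]), (384, 8, [-3, 2, -6, -8]), (384, -8, [-3, 2, -6, 8]),
          (384, 0, [5, 6, -2, 0]), (1152, -8, [9, -18, 18, 0]), (1152, 16, [-3, 6, 6, 0]), (1152, -8, [9, 18, -18, 0])])
        (by decide +kernel)
      obtain ⟨ψ, rfl⟩ := List.length_eq_one_iff.1 (show L₁.length = 1 by simpa using congrArg List.length f3)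
      have g3 := f1 t
      have g4 := A.degX
      have g5 := A.degY ψ
      simp only [List.map_cons, List.map_nil, List.cons.injEq, and_true, List.forall_mem_cons] at f3 g4
      have g6 : ψ = a ∨ ψ = a' := by
        have := A.all hn ψ (by omega)
        simp only [List.map_cons, List.map_nil, List.mem_cons, List.mem_append, List.not_mem_nil, or_false] at this
        rcases this with rfl | h | rfl | h | h | rfl
        exacts [by simp [charDegree_irrOne] at f3, by simp [f3] at g5; exact absurd h g5, by omega, Or.inl h, Or.inr h,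
          by simp [f3] at g4]
      simp only [List.mem_cons, List.not_mem_nil, or_false] at g1
      rw [sq1 t ht] at g3
      rcases g6 with rfl | rfl <;> rcases g1 with rfl | rfl | rfl | rfl | rfl | rfl | rfl | rfl | rfl | rfl | rfl | rfl | rfl |
        rfl | rfl <;> simp only [List.map_cons, List.map_nil, List.cons.injEq] at g2 <;>
          first | simpa using g2.1 | norm_num [g2] at g3
    rcases f4 with (f4 | f4) | ⟨-, f4⟩
    · exact fin f3 (by rw [f4]; rfl) fun t ht => Or.inr (inv t ht)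
    · simp at f4
    obtain ⟨t, ht⟩ := exists_prime_orderOf_dvd_card' (G := G) 2 (by omega)
    obtain ⟨o, g1, -, -, g2⟩ := B.vals_inv' hG p7 (by norm_num) hn (by norm_num) (by norm_num) (by decide) (l := [120, -55])
      rfl ht (cd t ht) (by norm_num) (c2 t ht) (out := [(192, 2, [-8, -9]), (384, 2, [-8, -9]), (384, 10, [8, -1]), (1152, -6, [-24, -17])] ++
        [120, 128, 144, 160, 180, 192, 240, 288, 320, 360, 384, 480, 576, 640, 720, 960, 1152, 1440, 1920, 2880, 5760].map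
          fun c => (c, 6, [0, -5])) (by decide +kernel)
    have g3 := f2 t
    have u := fun (z : IrrCharacter G × ℤ) (h : z ∈ [(k', 120), (d, -55)]) => B.eq_of_deg hn h
    match L₂, (show L₂.length = 4 by simpa using congrArg List.length f4) with
    | [o', d₁, d₂, k₁], _ =>
    simp only [List.map_cons, List.map_nil, List.cons.injEq, and_true] at f4
    rw [u1 o' f4.1, u (d, -55) (by simp) (by norm_num) (by simp) d₁ (by rw [f4.2.1, B.degX (d, -55) (by simp)]; rfl),
      u (d, -55) (by simp) (by norm_num) (by simp) d₂ (by rw [f4.2.2.1, B.degX (d, -55) (by simp)]; rfl),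
      u (k', 120) (by simp) (by norm_num) (by simp) k₁ (by rw [f4.2.2.2, B.degX (k', 120) (by simp)]; rfl),
      sq1 t ht, inv t ht] at g3
    simp only [List.mem_append, List.mem_cons, List.not_mem_nil, or_false, List.mem_map] at g1
    rcases g1 with (rfl | rfl | rfl | rfl) | ⟨_, -, rfl⟩ <;> simp only [List.map_cons, List.map_nil, List.cons.injEq] at g2 <;>
      norm_num [g2] at g3
  obtain ⟨Z', P, h4, -⟩ := C.one rfl (by norm_num) h3
  have cnt : ∀ {n : ℕ} {φ : IrrCharacter G}, charDegree (φ : G → ℂ) = n → n ∈ [210, 99, 55, 154, 231] →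
      ∀ ψ : IrrCharacter G, charDegree (ψ : G → ℂ) = n → ψ = φ := fun {n φ} e1 e2 ψ => eq_of_count_degs (by
    have e3 : (Sv.bl ((5 - 1) / 4) z (Z.map Prod.snd)).Perm [1, 21, 99, 154, 231] := (h3.map Int.natAbs).cons 1
    simp only [List.mem_cons, List.not_mem_nil, or_false] at e2
    rcases e2 with rfl | rfl | rfl | rfl | rfl
    · rw [A.count_degs p11 hn hA (by norm_num), h1]; decide
    · rw [B.count_degs p7 hn hB (by norm_num), h2]; decide
    · rw [B.count_degs p7 hn hB (by norm_num), h2]; decide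
    all_goals rw [C.count_degs Nat.prime_five hn hC (by norm_num), e3.count_eq]; decide) e1
  have mem : ∀ φ : IrrCharacter G, 11 ∣ charDegree (φ : G → ℂ) → charDegree (φ : G → ℂ) ∉ [99, 55, 154, 231] →
      385 ∣ charDegree (φ : G → ℂ) := fun φ e1 e2 => by
    have e3 := h2 ▸ B.deg_mem_bl p7 hn hB φ
    have e4 := (C.deg_mem_bl Nat.prime_five hn hC φ).imp_right fun h => ((h3.map Int.natAbs).cons 1).subset h
    simp [Sv.bl] at e2 e3 e4
    omega
  obtain ⟨s, s', rfl⟩ := List.length_eq_two.1 (show Y.length = 2 by have := A.lenY; omega)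
  match X, h1, X', h2, Z', h4 with
  | [(χ', _), (a, _), (b, _), (b', _)], rfl, [(c, _), (d, _)], rfl, [(χ'', _), (c', _), (e, _), (f, _)], rfl =>
  have g1 := A.degX
  have g2 := A.degY
  have g3 := B.degX
  have g4 := P.deg
  simp only [List.forall_mem_cons, List.not_mem_nil, false_imp_iff, implies_true, and_true, Int.reduceNeg, Int.natAbs_neg]
    at g1 g2 g3 g4
  obtain ⟨-, da : _ = 210, db : _ = 45, db' : _ = 45⟩ := id g1
  obtain ⟨ds : _ = 280, ds' : _ = 280⟩ := g2
  obtain ⟨dc : _ = 99, dd : _ = 55⟩ := g3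
  obtain ⟨-, -, de : _ = 154, df : _ = 231⟩ := id g4
  obtain rfl := uχ χ' g1.1
  obtain rfl := uχ χ'' g4.1
  obtain rfl := cnt dc (by simp) c' g4.2.1
  have mY : ∀ φ : IrrCharacter G, charDegree (φ : G → ℂ) = 45 → φ ∈ Y' := fun φ h =>
    B.mem_Y p7 hn hB (by omega) (by omega) (by omega)
  have inv : ∀ t : G, orderOf t = 2 → (Nat.card (centralizer ({t} : Set G)) = 192 ∨ Nat.card (centralizer ({t} : Set G)) = 384) ∧
      (s : G → ℂ) t = -8 ∧ (s' : G → ℂ) t = -8 ∧ (χ'' : G → ℂ) t = 5 ∧ (a : G → ℂ) t = 2 ∧ (b : G → ℂ) t = -3 ∧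
      (b' : G → ℂ) t = -3 ∧ (c' : G → ℂ) t = 3 ∧ (d : G → ℂ) t = 7 := fun t ht => by
    obtain ⟨o, k1, k2, k3, k4⟩ := A.vals_inv' hG p11 (by norm_num) hn (by norm_num) (by norm_num) (by decide) (l := [-21, 210, 45, 45])
      rfl ht (cd t ht) (by norm_num) (c2 t ht) (out := [(192, -8, [5, 2, -3, -3]), (384, -8, [5, 2, -3, -3]), (1152, 16, [9, 6, 9, 9])])
      (by decide +kernel)
    obtain ⟨o', k5, k6, k7, k8⟩ := B.vals_inv' hG p7 (by norm_num) hn (by norm_num) (by norm_num) (by decide) (l := [99, -55])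
      rfl ht (cd t ht) (by norm_num) (c2 t ht) (out := [(80, 5, [-1, -5]), (96, -3, [3, 7]), (128, 5, [-1, -5]), (128, -3, [3, 7]),
        (160, 5, [-1, -5]), (192, -3, [3, 7]), (320, 5, [-1, -5]), (384, -3, [3, 7]), (640, 5, [-1, -5]), (640, 5, [19, 15]),
        (960, -15, [-21, -5]), (1920, -15, [-21, -5])]) (by decide +kernel)
    obtain ⟨k9, k10, k11, k12⟩ : (o.1 = 192 ∨ o.1 = 384) ∧ o.2.1 = -8 ∧ o.2.2 = [5, 2, -3, -3] ∧ o'.2.2 = [3, 7] :=
      (by decide : ∀ o ∈ (_ : List (ℕ × ℤ × List ℤ)), ∀ o' ∈ (_ : List (ℕ × ℤ × List ℤ)), o.1 = o'.1 →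
        (o.1 = 192 ∨ o.1 = 384) ∧ o.2.1 = -8 ∧ o.2.2 = [5, 2, -3, -3] ∧ o'.2.2 = [3, 7]) o k1 o' k5 (k2.symm.trans k6)
    simp [k10, k11, k12] at k3 k4 k8
    exact ⟨k2 ▸ k9, k3.1, k3.2, k4.1, k4.2.1, k4.2.2.1, k4.2.2.2, k8⟩
  rcases f3 with f3 | ⟨-, f3⟩
  · exact fin f3 (by rcases f4 with (f4 | ⟨-, f4⟩) | ⟨f4, -⟩; exacts [f4 ▸ rfl, f4 ▸ rfl, by simp at f4])
      fun t ht => Or.inl (inv t ht).2.2.2.1
  obtain ⟨ρ, dρ, k1, k2⟩ := exists_last (L := [irrOne G, s, s', χ'', a, b, b'] ++ [c', d, e, f]) (k := 385)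
    (List.nodup_append.2 ⟨A.nodup, List.Nodup.of_map (fun χ : IrrCharacter G => charDegree (χ : G → ℂ)) (by simp [dc, dd, de, df]),
      fun φ h φ' h' e => A.not_dvd_bl p11 (by omega) hA _ (A.map_deg p11 ▸ List.mem_map_of_mem h) (by
        simp only [List.mem_cons, List.not_mem_nil, or_false] at h'
        rcases h' with rfl | rfl | rfl | rfl <;> rw [e] <;> omega)⟩) (by norm_num) (fun φ h => by
      rw [List.mem_append, not_or] at h
      refine mem φ (by_contra fun e => h.1 (A.all hn φ e)) fun e => h.2 ?_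
      simp only [List.mem_cons, List.not_mem_nil, or_false] at e ⊢
      rcases e with e | e | e | e
      exacts [Or.inl (cnt dc (by simp) φ e), Or.inr (Or.inl (cnt dd (by simp) φ e)), Or.inr (Or.inr (Or.inl (cnt de (by simp) φ e))),
        Or.inr (Or.inr (Or.inr (cnt df (by simp) φ e)))]) (by
      rw [hn]; simp [charDegree_irrOne, dχ, da, db, db', ds, ds', dc, dd, de, df])
  obtain ⟨g, hg⟩ : ∃ g : G, orderOf g = 4 := by
    by_contra! h
    obtain ⟨S, hS⟩ := Sylow.exists_subgroup_card_pow_prime (G := G) 2 (n := 7) (by omega)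
    have := card_dvd_of_vanish (χ''.2.isGeneralizedCharacter.sub (isGeneralizedCharacter_one.zsmul 5)) S (m := 16)
      (by simp [c1]; norm_num) fun u hu u1 => by
        obtain ⟨j, -, hj⟩ := (Nat.dvd_prime_pow Nat.prime_two).1 (hS ▸ orderOf_dvd_natCard S hu)
        rcases j with _ | _ | j
        · exact absurd (orderOf_eq_one_iff.1 hj) u1
        · simp [(inv u hj).2.2.2.1]
        · exact absurd (orderOf_pow_orderOf_div (orderOf_pos u).ne' (hj ▸ pow_dvd_pow 2 (show 2 ≤ j + 1 + 1 by omega))) (h _)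
    rw [hS] at this
    norm_num at this
  have ht : orderOf (g * g) = 2 := by rw [← sq, orderOf_pow' _ two_ne_zero, hg]; rfl
  obtain ⟨t0, t1, t2, t3, t4, t5, t6, t7, t8⟩ := inv _ ht
  have uρ : ∀ ψ : IrrCharacter G, charDegree (ψ : G → ℂ) = 385 → ψ = ρ := fun ψ h => k1 ψ fun h' => by
    simp only [List.mem_append, List.mem_cons, List.not_mem_nil, or_false] at h'
    have := charDegree_irrOne G
    rcases h' with (rfl | rfl | rfl | rfl | rfl | rfl | rfl) | rfl | rfl | rfl | rfl <;> omega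
  choose va ha using exists_int_of_unique fun ψ h => cnt da (by simp) ψ (h.trans da)
  choose vc hc using exists_int_of_unique fun ψ h => cnt dc (by simp) ψ (h.trans dc)
  choose vd hd using exists_int_of_unique fun ψ h => cnt dd (by simp) ψ (h.trans dd)
  choose ve he using exists_int_of_unique fun ψ h => cnt de (by simp) ψ (h.trans de)
  choose vf hf using exists_int_of_unique fun ψ h => cnt df (by simp) ψ (h.trans df)
  choose vρ hρ using exists_int_of_unique fun ψ h => uρ ψ (h.trans dρ)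
  choose vχ hχ using iχ
  have deg1 := fun φ : IrrCharacter G => φ.2.charDegree_eq.symm
  have o1 := fun g (h : g ≠ 1) => (k2 _).symm.trans (sum_irr_mul_conj_of_not_isConj (g := g) (h := 1) (mt isConj_one_left.1 h))
  have o2 := fun g => (k2 _).symm.trans (sum_irr_mul_conj_of_isConj (IsConj.refl g))
  have r5 := P.reg
  have r7 : ∀ φ : IrrCharacter G, charDegree (φ : G → ℂ) = 45 → (φ : G → ℂ) g = (1 + vc g - vd g : ℤ) := fun φ h => by
    have := B.reg φ (mY φ h) g (by rw [hg]; norm_num)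
    simp [hc, hd, Int.sign_eq_one_of_pos] at this ⊢
    linear_combination -this
  have r11 : ∀ φ ∈ [s, s'], (φ : G → ℂ) g = (1 - vχ g + va g + 2 * (1 + vc g - vd g) : ℤ) := fun φ h => by
    have := A.reg φ h g (by rw [hg]; norm_num)
    simp [hχ, ha, r7 b db, r7 b' db', Int.sign_eq_one_of_pos] at this ⊢
    linear_combination -this
  have o3 := (k2 _).symm.trans (sum_irr_mul_conj_of_not_isConj (g := g) (h := g * g) fun ⟨c, e⟩ => by
    have := e.orderOf_eq; omega)
  have o4 := o1 (g * g) (by rintro h; simp [h] at ht)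
  have o5 := o1 g (by rintro rfl; simp at hg)
  have o6 := o2 (g * g)
  have o7 := o2 g
  have r1 := r5 (g * g) (by rw [ht]; norm_num)
  have r2 := r5 g (by rw [hg]; norm_num)
  simp only [List.cons_append, List.nil_append, List.map_cons, List.map_nil, List.sum_cons, List.sum_nil, irrOne_apply, t1, t2, t3,
    t4, t5, t6, t7, t8, deg1, da, db, db', ds, ds', dc, dd, de, df, dχ, dρ, charDegree_irrOne, map_natCast, map_intCast, map_one, map_neg, map_ofNat,
    r7 b db, r7 b' db', r11 s (by simp), r11 s' (by simp), he, hf, hρ, hχ g, ha g, hc g, hd g] at o3 o4 o5 o6 o7 r1 r2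
  norm_num [Int.sign_eq_one_of_pos] at r1 r2
  have ci := @Int.cast_injective ℂ _ _
  have i1 : vf (g * g) = ve (g * g) - 3 := ci (by push_cast; linear_combination r1)
  have i2 : vρ (g * g) = 11 - ve (g * g) := ci (by push_cast at o4 ⊢; linear_combination o4 / 385 - 3 / 5 * r1)
  have i3 : 234 + ve (g * g) ^ 2 + vf (g * g) ^ 2 + vρ (g * g) ^ 2 = Nat.card (centralizer ({g * g} : Set G)) :=
    ci (by push_cast; linear_combination o6)
  rw [i1, i2] at i3
  have i4 : Nat.card (centralizer ({g * g} : Set G)) = 384 := t0.resolve_left fun h => by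
    rw [h] at i3; push_cast at i3; nlinarith [sq_nonneg (3 * ve (g * g) - 14)]
  have i5 : ve (g * g) = 10 := by
    have : (ve (g * g) - 10) * (3 * ve (g * g) + 2) = 0 := by rw [i4] at i3; push_cast at i3; linear_combination i3
    clear * - this
    rcases mul_eq_zero.1 this with h | h <;> omega
  rw [i1, i2, i5] at o3
  have i6 : vf g = ve g + vc g - 1 - vχ g := ci (by push_cast; linear_combination r2)
  have i7 : 1 - 2 * vχ g + 3 * (1 + vc g - vd g) + vc g + 2 * va g + ve g + vρ g = 0 :=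
    ci (by push_cast at o5 ⊢; linear_combination o5 / 385 - 3 / 5 * r2)
  have i8 : -15 + 14 * vχ g - 45 * (1 + vc g - vd g) + 17 * vc g - 14 * va g + 17 * ve g + vρ g = 0 :=
    ci (by push_cast at o3 ⊢; linear_combination o3 - 7 * r2)
  have i9 := (centralizer ({g} : Set G)).index_mul_card
  have i10 := deg_dvd_index_mul (r7 b db)
  rw [db, Nat.eq_div_of_mul_eq_left Nat.card_pos.ne' i9, hn] at i10
  match L₁, (show L₁.length = 4 by simpa using congrArg List.length f3) with
  | [φ₁, φ₂, φ₃, φ₄], _ =>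
  simp only [List.map_cons, List.map_nil, List.cons.injEq, and_true] at f3
  have j1 := f1 g
  have j2 := f2 g
  simp only [List.map_cons, List.map_nil, List.sum_cons, List.sum_nil, uχ φ₁ f3.1, r7 φ₂ f3.2.1, r7 φ₃ f3.2.2.1,
    cnt dc (by simp) φ₄ f3.2.2.2, t3, hχ g, hc g] at j1 j2
  refine (m22_ar (v := vχ g) (a := 1 + vc g - vd g) (b := vc g) (g := ve g) (e := va g) (d := vd g) (h := vf g) (m := vρ g)
    (f := 1 - vχ g + va g + 2 * (1 + vc g - vd g)) (i4 ▸ card_dvd_of_le fun y hy => mem_centralizer_singleton_iff.2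
      ((show Commute y g from mem_centralizer_singleton_iff.1 hy).mul_right (mem_centralizer_singleton_iff.1 hy)))
    (ci (by push_cast at j1 ⊢; linear_combination 2 * j1)) (by ring) ?_ (by omega) (by omega) i6 (by omega)
    (ci (by push_cast at o7 ⊢; linear_combination o7)) i10).elim
  rcases f4 with (f4 | ⟨-, f4⟩) | ⟨f4, -⟩
  · match L₂, (show L₂.length = 4 by simpa using congrArg List.length f4) with
    | [φ₁, φ₂, φ₃, φ₄], _ =>
    simp only [List.map_cons, List.map_nil, List.cons.injEq, and_true] at f4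
    simp only [List.map_cons, List.map_nil, List.sum_cons, List.sum_nil, u1 φ₁ f4.1, uχ φ₂ f4.2.1, cnt dd (by simp) φ₃ f4.2.2.1,
      cnt de (by simp) φ₄ f4.2.2.2, hχ g, hd g, he g, irrOne_apply] at j2
    exact Or.inl (ci (by push_cast; linear_combination 2 * j2))
  · match L₂, (show L₂.length = 5 by simpa using congrArg List.length f4) with
    | [φ₁, φ₂, φ₃, φ₄, φ₅], _ =>
    simp only [List.map_cons, List.map_nil, List.cons.injEq, and_true] at f4
    simp only [List.map_cons, List.map_nil, List.sum_cons, List.sum_nil, u1 φ₁ f4.1, uχ φ₂ f4.2.1, cnt dd (by simp) φ₃ f4.2.2.1,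
      cnt dd (by simp) φ₄ f4.2.2.2.1, cnt dc (by simp) φ₅ f4.2.2.2.2, hχ g, hd g, hc g, irrOne_apply] at j2
    exact Or.inr (ci (by push_cast; linear_combination 2 * j2))
  · simp at f4

end H19
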