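import Mathlib
import Cfsg.Agent.H19.Typ

/-!
Simple groups of order 443520 (namespace H19).
* the searches `m22_c1`, `m22_c2`, `m22_c3`
-/

set_option linter.unusedSectionVars false

namespace H19

/-- All divisors. -/
def m22R : List ℕ := Sv.divs [(2, 7), (3, 2), (5, 1), (7, 1), (11, 1)]

/-- Small divisors. -/
def m22E : List ℕ := [660, 640, 630, 616, 576, 560, 528, 504, 495, 480, 462, 448, 440, 420, 396, 385, 384, 360, 352, 336, 330, 320, 315, 308, 288,
  280, 264, 252, 240, 231, 224, 220, 210, 198, 192, 180, 176, 168, 165, 160, 154, 144, 140, 132, 128, 126, 120, 112, 110,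
  105, 99, 96, 90, 88, 84, 80, 77, 72, 70, 66, 64, 63, 60, 56, 55, 48, 45, 44, 42, 40, 36, 35, 33, 32, 30, 28, 24, 22, 21,
  20, 18, 16, 15, 14, 12, 11, 10, 9, 8, 7, 6, 5, 4, 3, 2]

theorem mem_m22R (d : ℕ) (h : d ∣ 443520) : d ∈ m22R := Sv.mem_divs (by decide +kernel) h

theorem m22_c1 : Sv.chkT m22R m22E 443520 11 (fun _ _ k => k == 1) (fun _ e k y l => k % 2 == 0 &&
    Sv.chkw 443520 11 (10 / e) 4 false y l (m22R.filter (· % 22 == 0)) fun _ _ _ => false) = true := by decide +kernel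

theorem m22_c2 : Sv.chk3 m22E 443520 11 5 (fun y l => (y % 3 == 0 && y % 9 != 0 && !(1 :: l).contains (2 * y)) ||
    Sv.chkw 443520 11 2 4 true y l (m22R.filter fun c => c % 128 == 0 && c % 11 != 0)
      (fun c w V => !Sv.levs 443520 1 [(2, 7), (3, 2), (5, 1), (7, 1)] y l c w V) ||
    Sv.chkw 443520 11 2 4 true y l (m22R.filter fun c => c % 2 == 0 && c % 11 != 0)
      fun c w V => [192, 384, 896].contains c || !Sv.levs 443520 1 [(2, 7), (3, 2), (5, 1), (7, 1)] y l c w V) = true := by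
  decide +kernel

theorem m22_c3 : Sv.chkT m22R m22E 443520 7 (fun _ e k => k == 1 || k % 11 == 0 || [(1, 64), (2, 32), (3, 16), (4, 8), (5, 4), (6, 2)].any
    fun a => k % 2 ^ a.1 == 0 && [896, 112, 14].all fun u => u % (7 * 2 ^ a.1) != 0 || 7 * e * k % u != 0)
    (fun _ _ _ _ _ => false) = true := by decide +kernel

end H19
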