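import Mathlib
import Cfsg.Agent.H19.M22c
import Cfsg.Agent.H19.M22b

/-!
Simple groups of order 443520 (namespace H19).
* `isoM22_of_card`
-/

set_option linter.unusedSectionVars false

namespace H19

open H05 Cfsg Classical Subgroup

theorem fact_eq_of_dvd {q a n : ℕ} (hq : q.Prime) (h1 : q ^ a ∣ n) (h2 : ¬ q ^ (a + 1) ∣ n) : n.factorization q = a := by
  have h0 : n ≠ 0 := by rintro rfl; simp at h2
  rw [hq.pow_dvd_iff_le_factorization h0] at h1 h2
  omega

theorem isoM22_of_card {G : Type*} [Group G] [Finite G] [IsSimpleGroup G] (hn : Nat.card G = 443520) :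
    Nonempty (G ≃* Spor.M22) := by
  have hG : ¬ IsMulCommutative G := not_comm_of_simple_card (by rw [hn]; norm_num)
  have p11 : Nat.Prime 11 := by norm_num
  have p7 : Nat.Prime 7 := by norm_num
  have := Fact.mk p11
  have := Fact.mk p7
  have := Fact.mk Nat.prime_five
  have hD : ∀ χ : IrrCharacter G, χ ≠ irrOne G → charDegree (χ : G → ℂ) ∈ m22E := fun χ h =>
    deg_mem_of_covers hG hn mem_m22R (ok := fun _ => true) (by decide +kernel) h rfl
  have hs : m22E.Pairwise (· ≥ ·) := by decide +kernel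
  have hR : ∀ t : G, Nat.card (centralizer ({t} : Set G)) ∈ m22R := fun t => mem_m22R _ (hn ▸ card_subgroup_dvd_card _)
  obtain ⟨r, e, k, X, Y, y, A, hA, e1, e2, e3, e4, h⟩ := exists_pb_types hG p11 hn (by norm_num) (by norm_num) mem_m22R hs hD m22_c1
  obtain ⟨x, hx⟩ := exists_prime_orderOf_dvd_card' (G := G) 11 (by omega)
  obtain rfl : k = 1 := beq_iff_eq.1 (h.resolve_right fun h => by
    rw [Bool.and_eq_true, beq_iff_eq] at h
    obtain ⟨t, h1, ht, -⟩ := exists_dvd_cent Nat.prime_two hx (by rw [A.card_cent p11 (e4.trans hn.symm) hx]; omega)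
    obtain ⟨_, _, h2, -⟩ := A.vals_inv2 p11 hG (by norm_num) hn (by norm_num) (by norm_num) (quad := false) (by simp) ht (List.mem_filter.2
      ⟨hR t, by simpa using Nat.mod_eq_zero_of_dvd (mul_dvd_card_centralizer hx ht (by norm_num) h1)⟩) h.2
    simp at h2)
  obtain ⟨rfl, rfl⟩ : e = 5 ∧ r = 8064 := by have := Nat.le_of_dvd (by norm_num) e2; interval_cases e <;> omega
  obtain ⟨X, A, hA, h⟩ := A.search3 p11 (by omega) hA hs (fun s hs => by
    obtain ⟨χ, f1, f2⟩ := A.exists_deg p11.one_lt hs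
    exact f2 ▸ hD χ f1) (M := []) (by simp) hn m22_c2
  have h11 : ∀ t : G, orderOf t = 2 → Nat.card (centralizer ({t} : Set G)) % 11 ≠ 0 := fun t ht h =>
    p11.coprime_iff_not_dvd.1 (A.coprime_cent p11 hn (by rintro rfl; simp at ht) (by rw [ht]; norm_num)) (Nat.dvd_of_mod_eq_zero h)
  have hl := fun (t : G) w V => A.levs p11 hn (by norm_num) (by norm_num) (k := 1) rfl (qs := [(2, 7), (3, 2), (5, 1), (7, 1)])
    (by decide +kernel) (t := t) (w := w) (V := V)
  have hc : ∀ t : G, orderOf t = 2 → Nat.card (centralizer ({t} : Set G)) ∈ [192, 384, 896] := fun t ht => by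
    simp only [Bool.or_eq_true, Bool.and_eq_true, beq_iff_eq, bne_iff_ne, Bool.not_eq_true', List.contains_eq_mem,
      decide_eq_false_iff_not] at h
    rcases h with (⟨⟨h1, h2⟩, h⟩ | h) | h
    · refine absurd (A.exc3 p11 hn hA (by omega) (by decide) rfl (by norm_num) ?_) h
      rw [hn, fact_eq_of_dvd (a := 2) Nat.prime_three (by norm_num) (by norm_num),
        fact_eq_of_dvd (a := 1) Nat.prime_three (by omega) (by omega)]
    · obtain ⟨t, -, ht, h1⟩ := exists_central_elt (k := 6) Nat.prime_two (H := (⊤ : Subgroup G)) (by rw [card_top]; omega)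
      rw [inf_top_eq] at h1
      obtain ⟨w, V, h2, h3, h4⟩ := A.vals_inv2 p11 hG (by norm_num) hn (by norm_num) (by norm_num) (fun _ => by decide) ht
        (List.mem_filter.2 ⟨hR t, by simpa [h11 t ht] using Nat.mod_eq_zero_of_dvd h1⟩) h
      simp [hl t w V h3 h4] at h2
    · obtain ⟨w, V, h2, h3, h4⟩ := A.vals_inv2 p11 hG (by norm_num) hn (by norm_num) (by norm_num) (fun _ => by decide) ht
        (List.mem_filter.2 ⟨hR t, by
          simpa [h11 t ht] using Nat.mod_eq_zero_of_dvd (ht ▸ orderOf_dvd_natCard _ (mem_centralizer_singleton_iff.2 rfl) :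
            2 ∣ Nat.card (centralizer ({t} : Set G)))⟩) h
      simpa [hl t w V h3 h4] using h2
  have k11 : ∀ {q k : ℕ} {u : G}, orderOf u = q → q ≠ 1 → q < 11 → Nat.card (centralizer ({u} : Set G)) = q * k → ¬ 11 ∣ k :=
    fun {q k u} hu h1 h2 h3 h4 => by
      obtain ⟨z, -, h5, h6⟩ := exists_dvd_cent p11 hu (h3 ▸ h4.mul_left q)
      rw [(A.cent' p11 hn h5.symm.dvd).2, Nat.dvd_prime p11] at h6
      omega
  obtain ⟨r, e, k, X', Y', y', B, hB, e1, e2, e3, e4, h⟩ := exists_pb_types hG p7 hn (by norm_num) (by norm_num) mem_m22R hs hD m22_c3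
  obtain ⟨u, hu⟩ := exists_prime_orderOf_dvd_card' (G := G) 7 (by omega)
  have c7 := B.card_cent p7 (e4.trans hn.symm) hu
  obtain rfl : k = 1 := by
    simp only [Bool.or_eq_true, Bool.and_eq_true, beq_iff_eq, bne_iff_ne, List.any_eq_true, List.all_eq_true, Bool.false_eq_true,
      or_false] at h
    rcases h with (h | h) | ⟨a, h1, h2, h3⟩
    · exact h
    · exact absurd (Nat.dvd_of_mod_eq_zero h) (k11 hu (by norm_num) (by norm_num) c7)
    have h0 : 1 ≤ a.1 := by clear h2 h3; revert a; decide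
    obtain ⟨t, h4, ht, h5⟩ := exists_central_elt (k := a.1 - 1) Nat.prime_two (H := centralizer {u}) (by
      rw [c7, Nat.sub_add_cancel h0]; exact (Nat.dvd_of_mod_eq_zero h2).mul_left 7)
    have h6 : u ∈ centralizer ({t} : Set G) := mem_centralizer_singleton_iff.2 (mem_centralizer_singleton_iff.1 h4).symm
    obtain ⟨m, v, h7, h8, h9, h10⟩ := exists_cfilter p7 (by omega) hu h6
    have h11 : Nat.card (centralizer ({t} : Set G)) = 896 := by
      have := hc t ht
      have := mul_dvd_card_centralizer hu ht (by norm_num) h4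
      simp only [List.mem_cons, List.not_mem_nil, or_false] at *; omega
    rw [inf_comm, Nat.sub_add_cancel h0] at h5
    have h12 : 7 ∣ Nat.card (centralizer ({u} : Set G) ⊓ centralizer {t} : Subgroup G) :=
      hu ▸ orderOf_dvd_natCard _ ⟨mem_centralizer_singleton_iff.2 rfl, h6⟩
    have h13 := (Nat.Coprime.mul_dvd_of_dvd_of_dvd (Nat.Coprime.pow_right _ (by norm_num)) h12 h5).trans h9
    rw [B.syl, hn, ← e4, show 7 * k * (e * r) = 7 * e * k * r by ring] at h10
    have h14 := Nat.dvd_of_mul_dvd_mul_right (by omega) h10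
    have h15 : v ∈ [896, 112, 14] := by
      have h16 : 14 ∣ v := (Nat.mul_dvd_mul_left 7 (dvd_pow_self 2 (by omega))).trans h13
      have := Nat.le_of_dvd (by norm_num) (Dvd.intro _ (h11 ▸ h7).symm)
      obtain ⟨j, rfl⟩ := h16
      have h17 : m * j = 64 := by rw [h11] at h7; linarith
      have := Nat.le_of_dvd (by norm_num) (Dvd.intro _ h17)
      interval_cases m <;> simp <;> omega
    exact absurd (Nat.mod_eq_zero_of_dvd h14) ((h3 v h15).resolve_left (not_not.2 (Nat.mod_eq_zero_of_dvd h13)))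
  obtain ⟨rfl, rfl⟩ : e = 3 ∧ r = 21120 := by have := Nat.le_of_dvd (by norm_num) e2; interval_cases e <;> omega
  obtain ⟨r, e, X'', Y'', y'', C, -, f1, f2, f3, f4, k, f5⟩ := exists_pb_of_syl hG Nat.prime_five (by omega) (by omega)
  obtain ⟨w, hw⟩ := exists_prime_orderOf_dvd_card' (G := G) 5 (by omega)
  have c5 := C.card_cent Nat.prime_five f5 hw
  have g1 := k11 hw (by norm_num) (by norm_num) c5
  have g2 : ¬ 7 ∣ k := fun h => by
    obtain ⟨z, -, h5, h6⟩ := exists_dvd_cent p7 hw (c5 ▸ h.mul_left 5)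
    rw [(B.cent' p7 hn h5.symm.dvd).2] at h6
    omega
  have g3 : ¬ 2 ∣ k := fun h => by
    obtain ⟨z, -, h5, h6⟩ := exists_dvd_cent Nat.prime_two hw (c5 ▸ h.mul_left 5)
    have := hc z h5
    simp only [List.mem_cons, List.not_mem_nil, or_false] at this; omega
  have g4 : k ∈ m22R := mem_m22R k ⟨5 * (e * r), by rw [← hn, ← f5]; ring⟩
  have g5 : k = 1 ∨ k = 3 ∨ k = 9 ∨ 5 ∣ k := (by decide +kernel : ∀ k ∈ m22R, ¬ 11 ∣ k → ¬ 7 ∣ k → ¬ 2 ∣ k →
    k = 1 ∨ k = 3 ∨ k = 9 ∨ 5 ∣ k) k g4 g1 g2 g3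
  refine isoM22_of_sylow hn A.syl B.syl (f4.trans ?_)
  have := Nat.le_of_dvd (by norm_num) f2
  rcases g5 with rfl | rfl | rfl | ⟨j, rfl⟩
  · interval_cases e <;> omega
  · interval_cases e <;> omega
  · interval_cases e <;> omega
  · exact absurd ⟨j * (e * r), by rw [← hn, ← f5]; ring⟩ (by norm_num : ¬ 25 ∣ 443520)

end H19
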