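import Mathlib
import Cfsg.Agent.H19.Stein

/-!
Simple groups of order 10200960 with self-centralising elements of orders 11 and 23: the principal blocks (namespace H19).
* `m23_deg`, `m23_five`, `m23_blocks`
-/

set_option linter.unusedSectionVars false

namespace H19

/-- Possible degrees. -/
def m23D : List ℕ := [12, 22, 23, 45, 115, 126, 138, 160, 230, 231, 252, 253, 264, 276, 368, 483, 495, 506, 528, 644, 736, 759,
  770, 896, 990, 1012, 1035, 1265, 1288, 1380, 1518, 1540, 1656, 1760, 1771, 1920, 2024, 2277, 2415, 2530, 2760, 2772, 2898, 3036]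

open H05 Cfsg Classical Subgroup
open scoped ComplexConjugate

variable {G : Type*} [Group G] [Finite G] [IsSimpleGroup G] (hn : Nat.card G = 10200960)
  {X X' : List (IrrCharacter G × ℤ)} {Y Y' : List (IrrCharacter G)} {y y' : ℤ}
  (A : PB G 23 40320 11 X Y y) (hA : X.length + 1 = 11) (B : PB G 11 185472 5 X' Y' y') (hB : X'.length + 1 = 5)
include hn A hA B hB

theorem m23_deg (χ : IrrCharacter G) (h : χ ≠ irrOne G) : charDegree (χ : G → ℂ) ∈ m23D := by
  have hG : ¬ IsMulCommutative G := not_comm_of_simple_card (by rw [hn]; norm_num)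
  have p23 : Nat.Prime 23 := by norm_num
  have key : ∀ χ : IrrCharacter G, χ ≠ irrOne G → charDegree (χ : G → ℂ) ∈ 11 :: m23D := fun χ h => by
    have h4 := A.deg_mod p23 hn hA χ
    have h5 := B.deg_mod (by norm_num) hn hB χ
    exact Sv.degChk_sound (R := [(23, [0, 1, 11, 12, 22]), (11, [0, 1, 5, 6, 10])]) (by decide +kernel)
      (deg_facts hG hn (B := 3194) (by norm_num) h) (by
        simp only [List.forall_mem_cons]
        simp only [List.mem_cons, List.not_mem_nil, false_imp_iff, implies_true, and_true] at h4 h5 ⊢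
        exact ⟨by clear h5; omega, by clear h4; omega⟩)
  refine (List.mem_cons.1 (key χ h)).resolve_left fun h1 => ?_
  have := Fintype.ofFinite G
  obtain ⟨x, hx⟩ := exists_prime_orderOf_dvd_card' (G := G) 23 (hp := ⟨p23⟩) (by omega)
  have h2 := A.mem_Y p23 hn hA (χ := χ) (by omega) (by omega) (by omega)
  have h3 := (A.exc_norm p23 hn hA (by omega) (by decide) rfl hx h2).1
  obtain ⟨L, h4, h5⟩ := exists_parts (χ.2.isCharacter.mul χ.2.isCharacter.conj) (N := 121)
    (by simp [← χ.2.charDegree_eq, h1, map_ofNat]; norm_num) (D := [115, 45, 23, 22, 11, 1])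
    (fin := fun L => (L.map (Sv.rv 23)).sum != 12 || L.count 1 != 1) (f := 200) (fun ψ e => by
      by_cases e1 : ψ = irrOne G
      · simp [e1, charDegree_irrOne]
      have e2 := A.deg_mod p23 hn hA ψ
      rw [← A.degY χ h2, h1] at e2
      exact (by decide : ∀ d ∈ 11 :: m23D, d ≤ 121 → d ≠ 12 → d ∈ [115, 45, 23, 22, 11, 1]) _ (key ψ e1) e (by omega))
    (by decide +kernel)
  have h6 := classInner_list_deg h4 (charDegree_irrOne G) fun _ => eq_irrOne_of_perfect (commutator_eq_top_of_simple hG)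
  rw [two_re_list (A.two_re p23 hn hA (by omega) (by norm_num) (Or.inl ⟨by decide, rfl⟩) hx) L (v := 6)
    (by rw [← h4]; simp only [Pi.mul_apply]; linear_combination h3 / 4), Nat.cast_eq_one.1 (h6.symm.trans
      ((classInner_eq_classInner_mul_one _ _).symm.trans χ.2.classInner_self))] at h5
  simp at h5

theorem m23_five : (∃ w : G, orderOf w = 5 ∧ Nat.card (centralizer ({w} : Set G)) = 15 ∧
    ∀ χ : IrrCharacter G, ∃ v : ℤ, (χ : G → ℂ) w = v) ∧ ∃ X₁, PB G 11 185472 5 X₁ Y' (-896) ∧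
      X₁.map Prod.snd ∈ [[45, 45, -230, 1035], [45, 45, -483, 1288]] ∧
        ((Sv.bl 2 (-896) (X₁.map Prod.snd) ++ [231, 2024] : List ℕ) : Multiset ℕ) ≤ degs G := by
  have hG : ¬ IsMulCommutative G := not_comm_of_simple_card (by rw [hn]; norm_num)
  have p11 : Nat.Prime 11 := by norm_num
  have hD := m23_deg hn A hA B hB
  obtain ⟨r, e, Z, W, z, C, h1, h2, h3, h4, -, k, h5⟩ := exists_pb_of_syl hG Nat.prime_five (by omega) (by omega)
  obtain ⟨Z, C, -, h6⟩ := C.search Nat.prime_five (by omega) h1 hD (M := []) (by simp) hn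
    (fin := fun y l => e == 4 && [[1, 644, 896, 1771, 2024], [1, 126, 126, 1771, 2024], [1, 231, 896, 896, 2024],
      [1, 506, 644, 759, 896], [1, 126, 264, 759, 896], [1, 126, 126, 506, 759]].any (Sv.bl 1 y l).isPerm) (by
      have := Nat.le_of_dvd (by norm_num) h3
      interval_cases e
      exacts [by decide +kernel, by omega, by decide +kernel])
  simp only [Bool.and_eq_true, beq_iff_eq, List.any_eq_true, List.isPerm_iff] at h6
  obtain ⟨rfl, M, h7, h8⟩ := h6
  have h9 : (M : Multiset ℕ) ≤ degs G := Multiset.coe_eq_coe.2 h8 ▸ C.bl_le Nat.prime_five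
  obtain ⟨X₁, B₁, h0, h10⟩ := B.search p11 (by omega) hB hD h9 hn (fin := fun y l =>
    !(M.filter fun d => d % 11 != 0).isSubperm (Sv.bl 2 y l) || (y == -126 && l.contains 12) ||
      (M == [1, 231, 896, 896, 2024] && y == -896 && [[45, 45, -230, 1035], [45, 45, -483, 1288]].any l.isPerm))
    ((by decide +kernel : ∀ M ∈ _, Sv.chk2 m23D (10200960 - ((M.filter fun d => d % 11 == 0).map (· ^ 2)).sum) 11 5 (fun y l =>
      !(M.filter fun d => d % 11 != 0).isSubperm (Sv.bl 2 y l) || (y == -126 && l.contains 12) ||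
      (M == [1, 231, 896, 896, 2024] && y == -896 && [[45, 45, -230, 1035], [45, 45, -483, 1288]].any l.isPerm)) = true) M h7)
  simp only [List.isSubperm_iff.2 (B₁.subperm p11 hn h0 h9), Bool.not_true, Bool.false_or, Bool.or_eq_true, Bool.and_eq_true,
    beq_iff_eq, List.any_eq_true, List.isPerm_iff, List.contains_iff_mem] at h10
  rcases h10 with ⟨rfl, h10⟩ | ⟨⟨rfl, rfl⟩, l, h10, h11⟩
  · obtain ⟨χ, -, e1⟩ := B₁.exists_deg p11.one_lt List.mem_cons_self
    obtain ⟨ψ, -, e2⟩ := B₁.exists_deg p11.one_lt (List.mem_cons_of_mem _ h10)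
    have e3 := A.deg_mod (by norm_num) hn hA χ
    have e4 := A.deg_mod (by norm_num) hn hA ψ
    simp only [e1, e2] at e3 e4
    omega
  obtain ⟨X₂, B₂, rfl⟩ := B₁.perm' h11
  refine ⟨?_, X₂, B₂, h10, add_filter_le_degs (B₂.bl_le p11)
    (B₂.not_dvd_bl p11 (by omega) (by simpa [← h0] using h11.length_eq.symm)) h9⟩
  obtain ⟨w, hw⟩ := exists_prime_orderOf_dvd_card' (G := G) 5 (hp := ⟨Nat.prime_five⟩) (by omega)
  refine ⟨w, hw, ?_, fun χ => χ.2.isGeneralizedCharacter.exists_int_of_rational_class w fun k h =>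
    C.isConj_of_order (by norm_num) hw (h.symm.orderOf_pow.trans hw)⟩
  have e1 := C.cent w hw
  have e2 := fun d h => C.dvd_of_mem_bl Nat.prime_five (by omega) rfl d (h8.symm.subset h)
  obtain ⟨j, hj⟩ : 680064 ∣ 4 * r := Nat.lcm_dvd (e2 231 (by simp)) (Nat.lcm_dvd (e2 896 (by simp)) (e2 2024 (by simp)))
  rw [hj, hn] at h5 e1
  have : j ∣ 3 := Dvd.intro_left k (by linarith)
  have := Nat.le_of_dvd (by norm_num) this
  interval_cases j <;> omega

theorem m23_blocks : ∃ X₀ X₁, PB G 23 40320 11 X₀ Y (-770) ∧ PB G 11 185472 5 X₁ Y' (-896) ∧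
    X₀.map Prod.snd = [-22, 231, 231, 231, 990, 990, -45, -45, -896, -896] ∧ X₁.map Prod.snd = [45, 45, -230, 1035] := by
  have hG : ¬ IsMulCommutative G := not_comm_of_simple_card (by rw [hn]; norm_num)
  have p11 : Nat.Prime 11 := by norm_num
  have p23 : Nat.Prime 23 := by norm_num
  obtain ⟨⟨w, h1, h2, h3⟩, X₁, B₁, h4, h5⟩ := m23_five hn A hA B hB
  have h6 : X₁.length + 1 = 5 := by
    simpa using (by decide : ∀ l ∈ [[45, 45, -230, 1035], [45, 45, -483, 1288]], l.length + 1 = 5) _ h4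
  generalize hl : X₁.map Prod.snd = l at h4 h5
  obtain ⟨X₀, A₀, h7, h8⟩ := A.search p23 (by omega) hA (D := m23D.filter fun d => d % 11 == 0 || (Sv.bl 2 (-896) l).contains d)
    (fun χ h => List.mem_filter.2 ⟨m23_deg hn A hA B hB χ h, by
      simpa [← hl, Nat.dvd_iff_mod_eq_zero] using B₁.deg_mem_bl p11 hn h6 χ⟩) h5 hn (fin := fun y l' =>
      !((Sv.bl 2 (-896) l ++ [231, 2024]).filter fun d => d % 23 != 0).isSubperm (Sv.bl 2 y l') ||
      Sv.chkv 10200960 23 2 5 false y l' 15 15 [] ||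
      (l == [45, 45, -230, 1035] && y == -770 && l'.isPerm [-22, 231, 231, 231, 990, 990, -45, -45, -896, -896]))
    (by rcases List.mem_pair.1 h4 with rfl | rfl <;> decide +kernel)
  simp only [List.isSubperm_iff.2 (A₀.subperm p23 hn h7 h5), Bool.not_true, Bool.false_or, Bool.or_eq_true, Bool.and_eq_true,
    beq_iff_eq, List.isPerm_iff] at h8
  rcases h8 with h8 | ⟨⟨rfl, rfl⟩, h8⟩
  · obtain ⟨_, ⟨⟩, -⟩ := A₀.vals p23 hG rfl (g := w) (by rintro rfl; simp at h1) (by rw [h1]; norm_num) (fun z _ => h3 z.1)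
      (fun χ v h => dvd_deg_sub_of_pow Nat.prime_five (k := 1) (by rw [pow_one, ← h1, pow_orderOf_eq_one]) h) (quad := false)
      (by simp) hn h2.dvd (by norm_num) h2.symm.dvd h8
  · obtain ⟨X₂, A₂, h9⟩ := A₀.perm' h8
    exact ⟨X₂, X₁, A₂, B₁, h9, hl⟩

end H19
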