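import Mathlib
import Cfsg.Agent.H19.M23a
import Cfsg.Agent.H19.Cubic
import Cfsg.Agent.H20.Defect

/-!
Recognising the Mathieu group of degree 23 (namespace H19).
* `isoM23_of_sylow` : a simple group of order 10200960 with the right numbers of Sylow 11- and 23-subgroups
-/

set_option linter.unusedSectionVars false

namespace H19

theorem m23_ar {a b c d v : ℤ} (ha : a.natAbs < 45) (hb : b.natAbs < 45) (hv : v.natAbs < 22) (ha' : 4 ∣ 45 - a)
    (hb' : 4 ∣ 45 - b) (hv' : 4 ∣ 22 - v) (h1 : 1 + a + b - c + d = 0) (h2 : 2070 + 46 * (a ^ 2 + b ^ 2) + 2 * d ^ 2 = 9 * c ^ 2) :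
    2 * c ≠ v ^ 2 - 24 ∧ (2 * c = (v - 1) ^ 2 + 19 → v = 6 ∨ v = -10) := by
  have key : ∀ i < 22, ∀ j < 22, ∀ k < 10, let a := 4 * (i : ℕ) - (43 : ℤ); let b := 4 * (j : ℕ) - (43 : ℤ)
      let v := 4 * (k : ℕ) - (18 : ℤ); let F := fun c : ℤ => 2070 + 46 * (a ^ 2 + b ^ 2) + 2 * (c - 1 - a - b) ^ 2 = 9 * c ^ 2
      ¬ F ((v ^ 2 - 24) / 2) ∧ (F (((v - 1) ^ 2 + 19) / 2) → v = 6 ∨ v = -10) := by decide +kernel
  have := key ((a + 43) / 4).toNat (by omega) ((b + 43) / 4).toNat (by omega) ((v + 18) / 4).toNat (by omega)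
  simp only [show 4 * (((a + 43) / 4).toNat : ℤ) - 43 = a by omega, show 4 * (((b + 43) / 4).toNat : ℤ) - 43 = b by omega,
    show 4 * (((v + 18) / 4).toNat : ℤ) - 18 = v by omega] at this
  obtain rfl : d = c - 1 - a - b := by omega
  exact ⟨fun h => this.1 (by rwa [← h, Int.mul_ediv_cancel_left _ two_ne_zero]),
    fun h => this.2 (by rwa [← h, Int.mul_ediv_cancel_left _ two_ne_zero])⟩

set_option synthInstance.maxSize 1000 in
theorem m23_dec : ∀ d < 254, 0 < d → (23 ∣ d ∨ d ∈ Sv.bl 2 (-770) [-22, 231, 231, 231, 990, 990, -45, -45, -896, -896]) →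
    (11 ∣ d ∨ d ∈ Sv.bl 2 (-896) [45, 45, -230, 1035]) → d ∈ [253, 231, 230, 45, 22, 1] := by decide +kernel

open H05 Cfsg Classical Subgroup

variable {G : Type*} [Group G] [Finite G] [IsSimpleGroup G] (hn : Nat.card G = 10200960)
include hn

theorem isoM23_of_sylow (h23 : Nat.card (Sylow 23 G) = 40320) (h11 : Nat.card (Sylow 11 G) = 185472) :
    Nonempty (G ≃* Spor.M23) := by
  have hG : ¬ IsMulCommutative G := not_comm_of_simple_card (by rw [hn]; norm_num)
  have p11 : Nat.Prime 11 := by norm_num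
  have p23 : Nat.Prime 23 := by norm_num
  have := Fintype.ofFinite G
  obtain ⟨_, e, X, Y, y, A, hA, e1, e2, -, rfl, k, e3⟩ := exists_pb_of_syl hG p23 (by omega) (by omega)
  obtain ⟨_, e', X', Y', y', B, hB, e4, e5, -, rfl, k', e6⟩ := exists_pb_of_syl hG p11 (by omega) (by omega)
  rw [h23] at A e3
  rw [h11] at B e6
  obtain rfl : e = 11 := by have := Nat.le_of_dvd (by norm_num) e2; interval_cases e <;> omega
  obtain rfl : e' = 5 := by have := Nat.le_of_dvd (by norm_num) e5; interval_cases e' <;> omega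
  obtain ⟨X, X', A, B, h1, h2⟩ := m23_blocks hn A hA B hB
  replace hA : X.length + 1 = 11 := by simpa using congrArg List.length h1
  replace hB : X'.length + 1 = 5 := by simpa using congrArg List.length h2
  have hD : ∀ ψ : IrrCharacter G, charDegree (ψ : G → ℂ) ≤ 253 → charDegree (ψ : G → ℂ) ∈ [253, 231, 230, 45, 22, 1] := fun ψ h =>
    m23_dec _ (by omega) ψ.2.charDegree_pos
      (h1 ▸ A.deg_mem_bl p23 hn hA ψ) (h2 ▸ B.deg_mem_bl p11 hn hB ψ)
  obtain ⟨χ, -, dχ⟩ := A.exists_deg p23.one_lt (v := -22) (by simp [h1])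
  replace dχ : charDegree (χ : G → ℂ) = 22 := dχ
  have uχ : ∀ ψ : IrrCharacter G, charDegree (ψ : G → ℂ) = 22 → ψ = χ := fun ψ =>
    eq_of_count_degs (by rw [A.count_degs p23 hn hA (by norm_num), h1]; decide) dχ
  have iχ := exists_int_of_unique fun ψ h => uχ ψ (h.trans dχ)
  have hr : ∀ g, ((χ : G → ℂ) g).im = 0 := fun g => by obtain ⟨m, hm⟩ := iχ g; simp [hm]
  have χ1 : χ ≠ irrOne G := by rintro rfl; simp [charDegree_irrOne] at dχ
  obtain ⟨x, hx⟩ := exists_prime_orderOf_dvd_card' (G := G) 23 (hp := ⟨p23⟩) (by omega)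
  obtain ⟨u, hu⟩ := exists_prime_orderOf_dvd_card' (G := G) 11 (hp := ⟨p11⟩) (by omega)
  have rx := fun x (hx : orderOf x = 23) => A.two_re p23 hn hA (by omega) (by norm_num) (Or.inl ⟨by decide, rfl⟩) hx
  have ru := B.two_re p11 hn hB (by omega) (by norm_num) (Or.inl ⟨by decide, rfl⟩) hu
  have vx : ∀ x : G, orderOf x = 23 → (χ : G → ℂ) x = -1 := fun x hx => Complex.ext (by
    have := rx x hx χ
    rw [dχ, show Sv.rv 23 22 = -2 from rfl] at this
    simp at this ⊢; linarith) (by simp [hr])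
  have vx2 := vx (x * x) (by rw [← sq, Nat.Coprime.orderOf_pow (by rw [hx]; norm_num), hx])
  have vu := B.val0 χ (by omega) u hu.symm.dvd
  have vu2 := B.val0 χ (by omega) (u * u) (by rw [← sq, Nat.Coprime.orderOf_pow (by rw [hu]; norm_num), hu])
  obtain ⟨L₁, L₂, f1, f2, f3, f4, f5⟩ := sq_parts hG hr (a := 231) (b := 253) (by rw [dχ]; rfl) (by rw [dχ]) hD (f := 300)
    (f₁ := fun L => (L.map (Sv.rv 23)).sum != 2 || (L.map (Sv.rv 11)).sum != 0 || decide (1 < L.count 1) ||
      L == [231] || L == [1, 230])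
    (f₂ := fun L => (L.map (Sv.rv 23)).sum != 0 || (L.map (Sv.rv 11)).sum != 0 || L.count 1 != 1 || L == [1, 22, 230])
    (by decide +kernel) (by decide +kernel)
  rw [two_re_list (rx x hx) L₁ (v := 1) (by rw [← f1, vx x hx, vx2]; norm_num),
    two_re_list ru L₁ (v := 0) (by rw [← f1, vu, vu2]; norm_num), decide_eq_false (by omega)] at f3
  rw [two_re_list (rx x hx) L₂ (v := 0) (by rw [← f2, vx x hx, vx2]; norm_num),
    two_re_list ru L₂ (v := 0) (by rw [← f2, vu, vu2]; norm_num)] at f4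
  match X', h2 with
  | [(a, _), (b, _), (c, _), (d, _)], rfl =>
  have da := B.degX
  simp only [List.forall_mem_cons, List.not_mem_nil, false_imp_iff, implies_true, and_true, Int.reduceNeg, Int.reduceAbs,
    Int.natAbs_neg, show (45 : ℤ).natAbs = 45 from rfl, show (230 : ℤ).natAbs = 230 from rfl] at da
  have uc : ∀ ψ : IrrCharacter G, charDegree (ψ : G → ℂ) = 230 → ψ = c := fun ψ =>
    eq_of_count_degs (by rw [B.count_degs p11 hn hB (by norm_num)]; exact le_of_eq rfl) da.2.2.1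
  have u1 := fun ψ : IrrCharacter G => eq_irrOne_of_perfect (commutator_eq_top_of_simple hG) (χ := ψ)
  have inv : ∀ t : G, orderOf t = 2 → ∃ v : ℤ, (χ : G → ℂ) t = v ∧ 2 * (c : G → ℂ) t ≠ v ^ 2 - 24 ∧
      (2 * (c : G → ℂ) t = (v - 1) ^ 2 + 19 → v = 6 ∨ v = -10) := fun t ht => by
    have t1 : t ≠ 1 := by rintro rfl; simp at ht
    have t2 : t ^ 2 = 1 := ht ▸ pow_orderOf_eq_one t
    choose τ hτ using fun χ : IrrCharacter G => χ.2.isGeneralizedCharacter.exists_int_of_sq_eq_one t2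
    obtain ⟨M, hM⟩ := H21.exists_isPModular Nat.prime_two
    have g1 : ∀ ψ ∈ Y', (ψ : G → ℂ) t = 0 := fun ψ h =>
      H20.apply_eq_zero_of_defect_zero hM (by rw [B.degY ψ h, hn]; decide +kernel) ht.symm.dvd
    obtain ⟨ψ, hψ⟩ := List.exists_mem_of_length_pos (show 0 < Y'.length by have := B.lenY; omega)
    have g2 := B.reg ψ hψ t (by rw [ht]; norm_num)
    have g3 := B.quad p11 hu (B.not_isConj_inv p11 (by omega) (by decide) (by norm_num) hu) t2 g1
    rw [g1 ψ hψ] at g2
    simp [hτ, Int.sign_eq_one_of_pos] at g2 g3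
    have lt := fun (ψ : IrrCharacter G) (h : charDegree (ψ : G → ℂ) ≠ 1) =>
      natAbs_lt_deg hG (by rintro rfl; exact h (charDegree_irrOne G)) t1 (hτ ψ)
    have := m23_ar (da.1 ▸ lt a (by omega)) (da.2.1 ▸ lt b (by omega)) (dχ ▸ lt χ (by omega))
      (by simpa [da.1] using four_dvd_deg_sub hG t2 (hτ a)) (by simpa [da.2.1] using four_dvd_deg_sub hG t2 (hτ b))
      (by simpa [dχ] using four_dvd_deg_sub hG t2 (hτ χ)) (c := τ c) (d := τ d)
      (Int.cast_injective (α := ℂ) (by push_cast; linear_combination g2))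
      (Int.cast_injective (α := ℂ) (by push_cast; linear_combination 2070 * g3))
    exact ⟨τ χ, hτ χ, by rw [hτ]; exact_mod_cast this.1, fun h => this.2 (by rw [hτ] at h; exact_mod_cast h)⟩
  have c1 : (χ : G → ℂ) 1 = 22 := by rw [← χ.2.charDegree_eq, dχ]; norm_num
  simp only [mul_one, mul_zero, bne_self_eq_false, Bool.false_or, Bool.or_eq_true, beq_iff_eq] at f3 f4
  rcases f3 with f3 | f3
  swap
  · obtain ⟨t, ht⟩ := exists_prime_orderOf_dvd_card' (G := G) 2 (by omega)
    obtain ⟨v, g1, g2, -⟩ := inv t ht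
    obtain ⟨o, c', rfl⟩ := List.length_eq_two.1 (show L₁.length = 2 by simpa using congrArg List.length f3)
    simp only [List.map_cons, List.map_nil, List.cons.injEq, and_true] at f3
    have := f1 t
    rw [u1 o f3.1, uc c' f3.2, ← sq, ← ht, pow_orderOf_eq_one, ht, c1, g1] at this
    exact absurd (by simp at this; linear_combination -2 * this) g2
  rw [f3] at f5
  replace f4 := f4.resolve_left (by simpa using f5)
  clear f5
  obtain ⟨ψ, rfl⟩ := List.length_eq_one_iff.1 (show L₁.length = 1 by simpa using congrArg List.length f3)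
  obtain ⟨o, χ', c', rfl⟩ := List.length_eq_three.1 (show L₂.length = 3 by simpa using congrArg List.length f4)
  simp only [List.map_cons, List.map_nil, List.cons.injEq, and_true] at f3 f4
  obtain rfl := u1 o f4.1
  obtain rfl := uχ χ' f4.2.1
  obtain rfl := uc c' f4.2.2
  have f6 : ∀ g, (χ' : G → ℂ) g ^ 2 = ([ψ, irrOne G, χ', c'].map fun ψ : IrrCharacter G => (ψ : G → ℂ) g).sum := fun g => by
    simp only [List.map_cons, List.map_nil, List.sum_cons, List.sum_nil] at f1 f2 ⊢
    linear_combination f1 g + f2 g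
  have f7 := classInner_list_deg f6 dχ uχ
  have f8 := classInner_self_list f6 (by simp [f3, f4])
  simp [f3, f4] at f7 f8
  obtain ⟨M, hM⟩ := exists_index_of_cubic hr (ψ := ψ) (fun g => by simpa using (f1 g).symm)
    (fun e => by simp [Subtype.ext (a2 := irrOne G) e, charDegree_irrOne] at f3) (by rintro rfl; omega) (by rw [f7]; norm_num)
  obtain ⟨_, _, S, g1, g2, φ, g3⟩ := exists_steiner_of_char (k := 4) (fun ψ e e' => uχ ψ (by
      have := hD ψ (by omega)
      have := mt (u1 ψ) e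
      simp only [List.mem_cons, List.not_mem_nil, or_false] at *; omega)) dχ hM (by rw [hn]; rfl)
    ((moments χ1 hr f7).2 f8) fun t ht f e e' => by
      obtain ⟨v, g1, -, g2⟩ := inv t ht
      have := f2 t
      rw [← sq, ← ht, pow_orderOf_eq_one, ht, c1, g1] at this
      have g3 : v + 1 = f := by rw [g1] at e; exact_mod_cast e
      have := g2 (by simp [g1] at this; linear_combination -2 * this)
      omega
  obtain ⟨⟨ι⟩, -⟩ := H14.Sr.aut23 g1 g2
  exact ⟨(MulEquiv.ofBijective φ ((Nat.bijective_iff_injective_and_card φ).2 ⟨g3, hn.trans ((Nat.card_congr ι.toEquiv).symm.trans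
    ((Nat.card_congr H14.eqv23.toEquiv).symm.trans (H14.card_stab_pt _))).symm⟩)).trans ι.symm⟩

end H19
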