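import Mathlib
import Cfsg.Agent.H19.M24a

/-!
Searches for simple groups of order 244823040 (namespace H19.M24).
* `c5a`, `c5b`, `c7a`, `c7b`, `c7c`, `c3`, `cP`, `cA`
-/

set_option linter.unusedSectionVars false
set_option maxRecDepth 100000

namespace H19

namespace M24

open Sv

theorem c5a : chkB D 244823040 5 4 12 [23, 11] L5a = true := by decide +kernel

theorem c5b : chkB D 244823040 5 2 24 [23, 11] L5b = true := by decide +kernel

theorem c7a : chkB D 244823040 7 3 6 [23, 11] L7a = true := by decide +kernel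

theorem c7b : chkB D 244823040 7 6 3 [23, 11] L7b = true := by decide +kernel

theorem c7c : chkB D 244823040 7 2 9 [23, 11] L7c = true := by decide +kernel

theorem c3 : chk9 (D.filter fun d => d % 9 == 0 && d % 27 != 0) [23, 11] (L3.map Prod.snd) = true := by decide +kernel

theorem cP : (chkP (· % 23 != 0) L5a P5a && chkP (· % 23 != 0) L5b P5b && chkP (· % 23 != 0) L7a P7a &&
    chkP (· % 23 != 0) L7b P7b && chkP (· % 23 != 0) L7c P7c && chkP (· % 23 != 0) L3 P3 && chkP (· % 7 != 0) L3 P37) = true := by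
  decide +kernel

/-- The degrees prime to `23`. -/
def sg : List ℕ := [1, 770, 770, 45, 45, 231, 231, 252, 990, 990, 3520, 5544, 10395]

theorem cA : chk3 D.dropLast 244823040 23 11 (fun y l => pc P3 0 ((bl 2 y l).filter fun d => d % 9 == 0 && d % 27 != 0) ||
    (pc P7a 6 ((bl 2 y l).filter (· % 7 != 0)) && pc P7b 3 ((bl 2 y l).filter (· % 7 != 0)) &&
      pc P7c 9 ((bl 2 y l).filter (· % 7 != 0))) ||
    (pc P5a 12 ((bl 2 y l).filter (· % 5 != 0)) && pc P5b 24 ((bl 2 y l).filter (· % 5 != 0))) || bl 2 y l == sg) = true := by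
  decide +kernel

theorem cA' : (pc P7b 3 (sg.filter (· % 7 != 0)) && pc P7c 9 (sg.filter (· % 7 != 0)) && pc P5b 24 (sg.filter (· % 5 != 0))) =
    true := by decide +kernel

end M24

end H19
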