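import Mathlib
import Cfsg.Agent.H19.M24b

/-!
The search for the degrees divisible by 23 (namespace H19.M24).
* `cI`, `cB`
-/

set_option linter.unusedSectionVars false
set_option maxRecDepth 100000

namespace H19

namespace M24

open Sv

theorem cI : (L5a.all (fun b => b.1 != 0 && decide ((b.2.map (wt 2)).sum ≤ 5 * b.1) &&
    cond (enc (b.2.filter (· % 23 != 0)) == 1) (cond (enc (b.2.filter (· % 7 != 0)) == 1) (I5c.contains (mk2 b))
      (I5b.contains (mk1 (· % 7 != 0) (· % 7 == 0) b))) (I5a.contains (mk1 (· % 23 != 0) (· % 161 == 0) b))) &&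
    L7a.all fun b => b.1 != 0 && cond (enc (b.2.filter (· % 23 != 0)) == 1) (I7b.contains (mk2 b))
      (I7a.contains (mk1 (· % 23 != 0) (· % 23 == 0) b))) = true := by decide +kernel

/-- The degrees divisible by `23`. -/
def sg' : List ℕ := [23, 253, 483, 1035, 1035, 1035, 1265, 1771, 2024, 2277, 3312, 5313, 5796]

/-- Last test. -/
def f4 (z : List ℕ) (l : List It) (_ s c _ : ℕ) : Bool :=
  (List.range 11).all fun i => (List.range 2).all fun j => (List.range 4).all fun m =>
    i * 4830 ^ 2 + j * 12880 ^ 2 + m * 8855 ^ 2 != s || i + j != c ||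
      ((sg ++ (z ++ fl (fun _ => true) l)).map fun d => rv 11 d * d).sum + i * 9660 - j * 25760 != 0 ||
        (i + j + m == 0 && (z ++ fl (fun _ => true) l).isPerm sg')

/-- Third test. -/
def f3 (l5 : List It) (k5 : ℕ) (l7 l : List It) (_ s c w : ℕ) : Bool :=
  force (fun K => force (fun K0 => K % K0 != 0 ||
    pc P37 0 ((sg.filter (· % 7 != 0) ++ (fl (· % 23 == 0) l7 ++ fl (fun _ => true) l)).filter fun d => d % 9 == 0 && d % 27 != 0) ||
    force (fun R => filt (fun b => R % b.A == 0) (fun I => cv (fun l' k s c w => cv (f4 (fl (· % 23 == 0) l7 ++ fl (fun _ => true) l ++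
      fl (· % 161 == 0) l5 ++ fl (· % 7 == 0) l')) 999 I5c (2 ^ k) 0 s c w []) 999 I R k5 s c w []) I5b []) (K / K0))
    (enc (fl (fun d => d % 23 == 0 && d % 7 != 0) l5))) (enc ((fl (· % 23 == 0) l7 ++ fl (fun _ => true) l).filter (· % 5 != 0)))

theorem cB : cv (fun l5 k5 s c w => cv (fun l7 k7 s c w => cv (f3 l5 k5 l7) 999 I7b (2 ^ k7) 0 s c w []) 999 I7a
    (enc (sg.filter (· % 7 != 0))) 6 s c w []) 999 I5a (enc (sg.filter (· % 5 != 0))) 12 90320402 7 52 [] = true := by
  decide +kernel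

end M24

end H19
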