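import Mathlib
import Cfsg.Agent.H19.M24c

/-!
The degrees divisible by 23 (namespace H19.M24).
* `stageB`
-/

set_option linter.unusedSectionVars false
set_option maxRecDepth 100000

namespace H19

namespace M24

open Sv Multiset

theorem filter_coe' (Q : ℕ → Bool) (l : List ℕ) : filter (fun d => Q d = true) (l : Multiset ℕ) = (l.filter Q : List ℕ) := by simp

theorem mem_tot {Bs : Multiset (ℕ × List ℕ)} {d : ℕ} : d ∈ tot Bs ↔ ∃ b ∈ Bs, d ∈ b.2 := by
  induction Bs using Multiset.induction_on with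
  | empty => simp [tot]
  | cons b Bs ih => simp [tot] at ih ⊢; simp [ih]

theorem count_tot {Bs : Multiset (ℕ × List ℕ)} {q : ℕ} (h0 : ∀ d ∈ tot Bs, 0 < d)
    (h : ∀ b ∈ Bs, ¬ enc (b.2.filter (· % q != 0)) ≠ 1) (d : ℕ) (hd : d % q ≠ 0) : count d (tot Bs) = 0 :=
  count_eq_zero.2 fun e => by
    obtain ⟨b, e1, e2⟩ := mem_tot.1 e
    have := eq_nil_of_enc (not_not.1 (h b e1)) fun x e => h0 x (mem_tot.2 ⟨b, e1, List.mem_of_mem_filter e⟩)
    simpa [hd] using List.filter_eq_nil_iff.1 this d e2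

theorem sm_le {Bs : Multiset (ℕ × List ℕ)} (h : ∀ b ∈ Bs, (b.2.map (wt 2)).sum ≤ 5 * b.1) :
    sm 2 (tot Bs) ≤ 5 * (Bs.map Prod.fst).sum := by
  induction Bs using Multiset.induction_on with
  | empty => simp [tot, sm]
  | cons b Bs ih =>
    have := ih fun b e => h b (mem_cons_of_mem e)
    have := h b (mem_cons_self _ _)
    simp [tot, sm] at *; omega

set_option maxHeartbeats 1000000 in
theorem stageB {M : Multiset ℕ} (hM : ∀ d ∈ M, d ∈ D) (h23 : M.filter (¬ 23 ∣ ·) = sg) {B5 B7 B3 : Multiset (ℕ × List ℕ)}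
    (m5 : ∀ b ∈ B5, b ∈ L5a) (k5 : (B5.map Prod.fst).sum = 12) (h5 : tot B5 = M.filter (¬ 5 ∣ ·))
    (m7 : ∀ b ∈ B7, b ∈ L7a) (k7 : (B7.map Prod.fst).sum = 6) (h7 : tot B7 = M.filter (¬ 7 ∣ ·))
    (m3 : ∀ b ∈ B3, b ∈ L3) (k3 : (B3.map Prod.fst).sum = 0) (h3 : tot B3 = M.filter fun d => d % 9 = 0 ∧ d % 27 ≠ 0)
    (hs : sm 0 M = 244823040) (hc : sm 1 M = 11) (hT : (M.map fun d => rv 11 d * d).sum = 0) : M = (sg ++ sg' : List ℕ) := by
  have h0 : ∀ d ∈ M, 0 < d := fun d e => (by decide +kernel : ∀ d ∈ D, 0 < d) d (hM d e)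
  have i5 := fun b e => List.all_eq_true.1 (Bool.and_eq_true_iff.1 cI).1 b (m5 b e)
  have i7 := fun b e => List.all_eq_true.1 (Bool.and_eq_true_iff.1 cI).2 b (m7 b e)
  simp only [Bool.and_eq_true, bne_iff_ne, decide_eq_true_eq] at i5 i7
  have hw : sm 2 M ≤ 60 := by
    have e1 := sm_le fun b e => (i5 b e).1.2
    have e2 : sm 2 (M.filter fun d => ¬ ¬ 5 ∣ d) = 0 := sum_eq_zero (forall_mem_map_iff.2 fun d e => by
      obtain ⟨c, rfl⟩ := not_not.1 (mem_filter.1 e).2
      simp [wt, mul_assoc])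
    rw [← filter_add_not (¬ 5 ∣ ·) M, sm_add, ← h5]; omega
  obtain ⟨a5, r5, rfl, a1, a2⟩ : ∃ a r, a + r = B5 ∧ (∀ b ∈ a, enc (b.2.filter (· % 23 != 0)) ≠ 1) ∧
      ∀ b ∈ r, ¬ enc (b.2.filter (· % 23 != 0)) ≠ 1 :=
    ⟨_, _, filter_add_not _ B5, fun b e => (mem_filter.1 e).2, fun b e => (mem_filter.1 e).2⟩
  obtain ⟨b5, c5, rfl, a3, a4⟩ : ∃ a r, a + r = r5 ∧ (∀ b ∈ a, enc (b.2.filter (· % 7 != 0)) ≠ 1) ∧
      ∀ b ∈ r, ¬ enc (b.2.filter (· % 7 != 0)) ≠ 1 :=
    ⟨_, _, filter_add_not _ r5, fun b e => (mem_filter.1 e).2, fun b e => (mem_filter.1 e).2⟩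
  obtain ⟨a7, b7, rfl, a5', a6⟩ : ∃ a r, a + r = B7 ∧ (∀ b ∈ a, enc (b.2.filter (· % 23 != 0)) ≠ 1) ∧
      ∀ b ∈ r, ¬ enc (b.2.filter (· % 23 != 0)) ≠ 1 :=
    ⟨_, _, filter_add_not _ B7, fun b e => (mem_filter.1 e).2, fun b e => (mem_filter.1 e).2⟩
  simp only [tot_add, Multiset.map_add, sum_add, mem_add] at h5 h7 k5 k7 i5 i7 a2
  have p5 : ∀ d, d ∈ tot a5 + (tot b5 + tot c5) → 0 < d := fun d e => h0 d (mem_of_mem_filter (h5 ▸ e))
  have p7 : ∀ d, d ∈ tot a7 + tot b7 → 0 < d := fun d e => h0 d (mem_of_mem_filter (h7 ▸ e))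
  simp only [mem_add] at p5 p7
  have key : ∀ d, (count d (tot a5) + (count d (tot b5) + count d (tot c5)) = if d % 5 ≠ 0 then count d M else 0) ∧
      (count d (tot a7) + count d (tot b7) = if d % 7 ≠ 0 then count d M else 0) ∧
      (count d (sg : Multiset ℕ) = if d % 23 ≠ 0 then count d M else 0) ∧
      (d % 23 ≠ 0 → count d (tot b5) = 0) ∧ (d % 23 ≠ 0 → count d (tot c5) = 0) ∧ (d % 7 ≠ 0 → count d (tot c5) = 0) ∧
      (d % 23 ≠ 0 → count d (tot b7) = 0) := fun d =>
    ⟨by simpa [count_filter, Nat.dvd_iff_mod_eq_zero] using congrArg (count d) h5,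
      by simpa [count_filter, Nat.dvd_iff_mod_eq_zero] using congrArg (count d) h7,
      by simpa [count_filter, Nat.dvd_iff_mod_eq_zero] using congrArg (count d) h23.symm,
      count_tot (fun d e => p5 d (by simp [e])) (fun b e => a2 b (Or.inl e)) d,
      count_tot (fun d e => p5 d (by simp [e])) (fun b e => a2 b (Or.inr e)) d,
      count_tot (fun d e => p5 d (by simp [e])) a4 d, count_tot (fun d e => p7 d (by simp [e])) a6 d⟩
  have h161 : ∀ d, d % 161 = 0 ↔ d % 7 = 0 ∧ d % 23 = 0 := fun d => by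
    simp only [← Nat.dvd_iff_mod_eq_zero]
    exact ⟨fun h => ⟨(by norm_num : 7 ∣ 161).trans h, (by norm_num : 23 ∣ 161).trans h⟩,
      fun h => Nat.Coprime.mul_dvd_of_dvd_of_dvd (m := 7) (n := 23) (by norm_num) h.1 h.2⟩
  set R := M.filter fun d => d % 5 = 0 ∧ d % 7 = 0 ∧ d % 23 = 0
  have e1 : M = sg + ((tot a7).filter (fun d => d % 23 == 0) + tot b7 + (tot a5).filter (fun d => d % 161 == 0) +
      (tot b5).filter (fun d => d % 7 == 0) + tot c5) + R := by
    ext d; have := key d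
    by_cases x5 : d % 5 = 0 <;> by_cases x7 : d % 7 = 0 <;> by_cases x23 : d % 23 = 0 <;>
      simp only [x5, x7, x23, count_add, count_filter, R, h161, beq_iff_eq, bne_iff_ne, Bool.and_eq_true, ne_eq, not_true_eq_false,
        not_false_eq_true, if_true, if_false, true_and, and_true, false_and, and_false, forall_const, false_imp_iff] at this ⊢ <;>
      clear * - this <;> omega
  have e2 : (tot a5).filter (fun d => d % 23 != 0) = (sg.filter (· % 5 != 0) : List ℕ) := by
    rw [← filter_coe']; ext d; have := key d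
    by_cases x5 : d % 5 = 0 <;> by_cases x7 : d % 7 = 0 <;> by_cases x23 : d % 23 = 0 <;>
      simp only [x5, x7, x23, count_add, count_filter, R, h161, beq_iff_eq, bne_iff_ne, Bool.and_eq_true, ne_eq, not_true_eq_false,
        not_false_eq_true, if_true, if_false, true_and, and_true, false_and, and_false, forall_const, false_imp_iff] at this ⊢ <;>
      clear * - this <;> omega
  have e3 : (tot a7).filter (fun d => d % 23 != 0) = (sg.filter (· % 7 != 0) : List ℕ) := by
    rw [← filter_coe']; ext d; have := key d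
    by_cases x5 : d % 5 = 0 <;> by_cases x7 : d % 7 = 0 <;> by_cases x23 : d % 23 = 0 <;>
      simp only [x5, x7, x23, count_add, count_filter, R, h161, beq_iff_eq, bne_iff_ne, Bool.and_eq_true, ne_eq, not_true_eq_false,
        not_false_eq_true, if_true, if_false, true_and, and_true, false_and, and_false, forall_const, false_imp_iff] at this ⊢ <;>
      clear * - this <;> omega
  have e4 : ((tot a7).filter (fun d => d % 23 == 0) + tot b7).filter (fun d => d % 5 != 0) =
      (tot a5).filter (fun d => d % 23 == 0 && d % 7 != 0) + (tot b5).filter (fun d => d % 7 != 0) := by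
    ext d; have := key d
    by_cases x5 : d % 5 = 0 <;> by_cases x7 : d % 7 = 0 <;> by_cases x23 : d % 23 = 0 <;>
      simp only [x5, x7, x23, count_add, count_filter, R, h161, beq_iff_eq, bne_iff_ne, Bool.and_eq_true, ne_eq, not_true_eq_false,
        not_false_eq_true, if_true, if_false, true_and, and_true, false_and, and_false, forall_const, false_imp_iff] at this ⊢ <;>
      clear * - this <;> omega
  have e5 : (tot B3).filter (fun d => d % 7 != 0) = ((sg : Multiset ℕ).filter (fun d => d % 7 != 0) +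
      ((tot a7).filter (fun d => d % 23 == 0) + tot b7)).filter fun d => d % 9 == 0 && d % 27 != 0 := by
    rw [h3]; ext d; have := key d
    by_cases x9 : d % 9 = 0 ∧ ¬ d % 27 = 0 <;> by_cases x5 : d % 5 = 0 <;> by_cases x7 : d % 7 = 0 <;> by_cases x23 : d % 23 = 0 <;>
      simp only [x5, x7, x23, x9, count_add, count_filter, beq_iff_eq, bne_iff_ne, Bool.and_eq_true, not_true_eq_false,
        not_false_eq_true, if_true, if_false, true_and, and_true, false_and, and_false, forall_const, false_imp_iff, ne_eq] at this ⊢ <;>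
      clear * - this <;> omega
  obtain ⟨i, j, m, e6⟩ : ∃ i j m, R = replicate i 4830 + replicate j 12880 + replicate m 8855 := by
    refine ⟨count 4830 R, count 12880 R, count 8855 R, ?_⟩
    ext d
    simp only [count_add, count_replicate]
    split_ifs <;> try omega
    exacts [by simp [*], by simp [*], by simp [*], count_eq_zero.2 fun e => by
      have := (by decide +kernel : ∀ d ∈ D, d % 5 = 0 ∧ d % 7 = 0 ∧ d % 23 = 0 → 4830 = d ∨ 12880 = d ∨ 8855 = d) d
        (hM d (mem_of_mem_filter e)) (mem_filter.1 e).2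
      omega]
  have s0 := fun i => congrArg (sm i) e1
  simp only [sm_add] at s0
  have s1 := s0 0
  have s2 := s0 1
  have s3 := s0 2
  rw [show sm 0 sg = 154502638 by decide +kernel, hs] at s1
  rw [show sm 1 sg = 4 by decide +kernel, hc] at s2
  rw [show sm 2 sg = 8 by decide +kernel] at s3
  obtain ⟨l5, f1, g1⟩ := cv_mk1 cB (Bs := a5) (fun b e => ⟨by simpa [a1 b e] using (i5 b (Or.inl e)).2, a1 b e⟩)
    (by rw [e2, encM_coe]) k5 (Nat.add_sub_cancel' (by omega)) (Nat.add_sub_cancel' (by omega)) (Nat.add_sub_cancel' (by omega))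
  obtain ⟨l7, f2, g2⟩ := cv_mk1 g1 (Bs := a7) (fun b e => ⟨by simpa [a5' b e] using (i7 b (Or.inl e)).2, a5' b e⟩)
    (by rw [e3, encM_coe]) k7 (Nat.add_sub_cancel' (by omega)) (Nat.add_sub_cancel' (by omega)) (Nat.add_sub_cancel' (by omega))
  obtain ⟨l, f3', g3⟩ := cv_mk2 g2 (Bs := b7) (fun b e => ⟨by simpa [not_not.1 (a6 b e)] using (i7 b (Or.inr e)).2,
    (i7 b (Or.inr e)).1⟩) rfl (Nat.add_sub_cancel' (by omega)) (Nat.add_sub_cancel' (by omega)) (Nat.add_sub_cancel' (by omega))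
  have f3t : (fl (fun _ => true) l : Multiset ℕ) = tot b7 := by simpa using f3' fun _ => true
  have e7 : enc ((fl (· % 23 == 0) l7 ++ fl (fun _ => true) l).filter (· % 5 != 0)) =
      enc (fl (fun d => d % 23 == 0 && d % 7 != 0) l5) * encM ((tot b5).filter fun d => d % 7 != 0) := by
    rw [← encM_coe, ← encM_coe, f1, ← encM_add, ← e4, ← f2, ← f3t, coe_add, filter_coe']
  rw [f3, force_eq, force_eq, force_eq, filt_eq, e7, Nat.mul_mod_right, bne_self_eq_false, Bool.false_or,
    Nat.mul_div_cancel_left _ (encM_coe _ ▸ encM_pos _), not_pc (Bool.and_eq_true_iff.1 cP).2 m3 k3 (by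
      rw [e5, ← f2, ← f3t, filter_coe', coe_add, coe_add, filter_coe']), Bool.false_or] at g3
  obtain ⟨l', f4', g4⟩ := cv_mk1 g3 (Bs := b5) (Q := (· % 7 != 0)) (Q' := (· % 7 == 0)) (fun b e => ⟨by
      rw [List.append_nil, List.mem_reverse, List.mem_filter, beq_iff_eq, ← prod_enc]
      exact ⟨by simpa [a3 b e, not_not.1 (a2 b (Or.inl e))] using (i5 b (Or.inr (Or.inl e))).2,
        Nat.mod_eq_zero_of_dvd (dvd_prod (mem_map_of_mem _ e))⟩, a3 b e⟩) rfl rfl
    (Nat.add_sub_cancel' (by omega)) (Nat.add_sub_cancel' (by omega)) (Nat.add_sub_cancel' (by omega))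
  obtain ⟨l'', f5, g5⟩ := cv_mk2 g4 (Bs := c5) (s' := sm 0 R) (c' := sm 1 R) (fun b e => ⟨by
      simpa [not_not.1 (a4 b e), not_not.1 (a2 b (Or.inr e))] using (i5 b (Or.inr (Or.inr e))).2,
    (i5 b (Or.inr (Or.inr e))).1.1⟩) rfl (by omega) (by omega) (Nat.add_sub_cancel' (by omega))
  have f5t : (fl (fun _ => true) l'' : Multiset ℕ) = tot c5 := by simpa using f5 fun _ => true
  rw [← f1, ← f2, ← f3t, ← f4', ← f5t, coe_add, coe_add, coe_add, coe_add, coe_add] at e1
  have t0 : sm 0 R = i * 4830 ^ 2 + j * 12880 ^ 2 + m * 8855 ^ 2 := by simp [e6, sm, wt]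
  have t1 : sm 1 R = i + j := by simp [e6, sm, wt]
  have t2 := List.all_eq_true.1 (List.all_eq_true.1 (List.all_eq_true.1 g5 i (List.mem_range.2 (by omega))) j
    (List.mem_range.2 (by omega))) m (List.mem_range.2 (by omega))
  rw [e1, e6, Multiset.map_add, sum_add, map_coe, sum_coe] at hT
  simp only [Multiset.map_add, sum_add, map_replicate, sum_replicate, nsmul_eq_mul, show rv 11 4830 = 2 from rfl,
    show rv 11 12880 = -2 from rfl, show rv 11 8855 = 0 from rfl] at hT
  rw [t0, t1, bne_self_eq_false, bne_self_eq_false, Bool.false_or, Bool.false_or, Bool.or_eq_true, bne_iff_ne, Bool.and_eq_true,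
    beq_iff_eq, List.isPerm_iff] at t2
  obtain ⟨t3, t4⟩ := t2.resolve_left (not_not.2 (by push_cast at hT; linear_combination hT))
  obtain ⟨rfl, rfl, rfl⟩ : i = 0 ∧ j = 0 ∧ m = 0 := by omega
  rw [e1, e6]
  simpa using t4.append_left sg

end M24

end H19
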