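import Mathlib
import Cfsg.Agent.H19.M24d
import Cfsg.Agent.H19.M22d

/-!
The character degrees of a simple group of order 244823040 with the Sylow numbers of `M24` (namespace H19.M24).
* `degs_eq`
-/

set_option linter.unusedSectionVars false
set_option maxRecDepth 100000

namespace H19

namespace M24

open Sv H05 Cfsg Classical Subgroup

theorem filter_bl {M : Multiset ℕ} {l : List ℕ} (h : M.filter (¬ 23 ∣ ·) = l) (Q : ℕ → Bool) {Q' : ℕ → Prop} [DecidablePred Q']
    (hQ : ∀ d, Q' d ↔ Q d = true) {B : Multiset ℕ} (hB : B = M.filter Q') :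
    B.filter (fun d => (d % 23 != 0) = true) = (l.filter Q : List ℕ) := by
  rw [← filter_coe', ← h, hB, Multiset.filter_filter, Multiset.filter_filter]
  exact Multiset.filter_congr fun d _ => by simp [hQ, Nat.dvd_iff_mod_eq_zero, and_comm]

variable {G : Type*} [Group G] [Finite G] [IsSimpleGroup G] (hn : Nat.card G = 244823040)
  {X X' : List (IrrCharacter G × ℤ)} {Y Y' : List (IrrCharacter G)} {y y' : ℤ}
  (A : PB G 23 967680 11 X Y y) (hA : X.length + 1 = 11) (B : PB G 11 2225664 10 X' Y' y') (hB : X'.length + 1 = 10)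
include hn A hA B hB

theorem deg_mem (χ : IrrCharacter G) (h : χ ≠ irrOne G) : charDegree (χ : G → ℂ) ∈ D.dropLast := by
  have h4 := A.deg_mod (by norm_num) hn hA χ
  have h5 := B.deg_mod (by norm_num) hn hB χ
  refine deg_mem_of_covers (not_comm_of_simple_card (by rw [hn]; norm_num)) hn
    (R := divs [(2, 10), (3, 3), (5, 1), (7, 1), (11, 1), (23, 1)]) (fun d e => mem_divs (by decide +kernel) e)
    (ok := fun d => [0, 1, 11, 12, 22].contains (d % 23) && [0, 1, 10].contains (d % 11)) (by decide +kernel) h ?_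
  simp only [List.contains_eq_mem, List.mem_cons, List.not_mem_nil, or_false, decide_eq_true_eq, Bool.and_eq_true] at h4 h5 ⊢
  exact ⟨by clear h5; omega, by clear h4; omega⟩

theorem degs_eq (h5 : Nat.card (Sylow 5 G) = 1020096) (h7 : Nat.card (Sylow 7 G) = 1943040) :
    degs G = (sg ++ sg' : List ℕ) := by
  have hG : ¬ IsMulCommutative G := not_comm_of_simple_card (by rw [hn]; norm_num)
  have p7 : Nat.Prime 7 := by norm_num
  have p11 : Nat.Prime 11 := by norm_num
  have p23 : Nat.Prime 23 := by norm_num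
  have hD' := deg_mem hn A hA B hB
  have hD : ∀ χ : IrrCharacter G, charDegree (χ : G → ℂ) ∈ D := fun χ => by
    by_cases h : χ = irrOne G
    · rw [h, charDegree_irrOne]; decide
    · exact List.mem_of_mem_dropLast (hD' χ h)
  have hs : D.Pairwise (· ≥ ·) := by decide +kernel
  obtain ⟨x, hx⟩ := exists_prime_orderOf_dvd_card' (G := G) 23 (hp := ⟨p23⟩) (by omega)
  obtain ⟨u, hu⟩ := exists_prime_orderOf_dvd_card' (G := G) 11 (hp := ⟨p11⟩) (by omega)
  have rx := A.two_re p23 hn hA (by omega) (by norm_num) (Or.inl ⟨by decide, rfl⟩) hx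
  have ru := B.two_re p11 hn hB (by omega) (by norm_num) (Or.inr rfl) hu
  have hq : ∀ p, ¬ p ∣ 23 → ¬ p ∣ 11 → ∀ q ∈ [23, 11], ∃ g : G, ¬ p ∣ orderOf g ∧
      ∀ χ : IrrCharacter G, 2 * ((χ : G → ℂ) g).re = rv q (charDegree (χ : G → ℂ)) := fun p h1 h2 => by
    simp only [List.forall_mem_cons]
    exact ⟨⟨x, hx ▸ h1, rx⟩, ⟨u, hu ▸ h2, ru⟩, by simp⟩
  obtain ⟨B3, m3, k3, h3⟩ : ∃ B3 : Multiset (ℕ × List ℕ), (∀ b ∈ B3, b ∈ L3) ∧ (B3.map Prod.fst).sum = 0 ∧
      tot B3 = (degs G).filter fun d => d % 9 = 0 ∧ d % 27 ≠ 0 := by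
    obtain ⟨T, t1, t2⟩ := exists_triples (hq 3 (by norm_num) (by norm_num)) (Q := fun d => d % 9 = 0 ∧ d % 27 ≠ 0) (fun χ => by
      have h0 := χ.2.charDegree_pos.ne'
      rw [hn, fact_eq_of_dvd (a := 3) Nat.prime_three (by norm_num) (by norm_num)]
      refine ⟨fun h => by rw [fact_eq_of_dvd (a := 2) Nat.prime_three (by omega) (by omega)], fun h => ?_⟩
      have e1 := Nat.prime_three.pow_dvd_iff_le_factorization (k := 2) h0
      have e2 := Nat.prime_three.pow_dvd_iff_le_factorization (k := 3) h0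
      omega) (fun χ h => List.mem_filter.2 ⟨hD χ, by simpa using h⟩) c3
    refine ⟨T.map fun b => (0, b), Multiset.forall_mem_map_iff.2 fun b e => ?_, by simp, by rw [tot, Multiset.map_map]; exact t2⟩
    obtain ⟨c, c1, rfl⟩ := List.mem_map.1 (t1 b e)
    rwa [← (by decide +kernel : ∀ c ∈ L3, c.1 = 0) c c1]
  obtain ⟨B5, h5⟩ : ∃ B5 : Multiset (ℕ × List ℕ), ((∀ b ∈ B5, b ∈ L5a) ∧ (B5.map Prod.fst).sum = 12 ∨
      (∀ b ∈ B5, b ∈ L5b) ∧ (B5.map Prod.fst).sum = 24) ∧ tot B5 = (degs G).filter (¬ 5 ∣ ·) := by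
    obtain ⟨_, e, Z, W, z, C, -, e1, e2, -, rfl, k, e3⟩ := exists_pb_of_syl hG Nat.prime_five (by omega) (by omega)
    have e4 := fun x => C.card_cent Nat.prime_five e3 (x := x)
    have := Nat.le_of_dvd (by norm_num) e2
    rw [h5, hn] at e3
    interval_cases e
    · obtain rfl : k = 24 := by omega
      obtain ⟨T, t1, t2, t3⟩ := exists_blocks Nat.prime_five c5b hs hD hn (by norm_num) (by rw [h5]) e4
        (hq 5 (by norm_num) (by norm_num))
      exact ⟨T, Or.inr ⟨t1, t2⟩, t3⟩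
    · omega
    · obtain rfl : k = 12 := by omega
      obtain ⟨T, t1, t2, t3⟩ := exists_blocks Nat.prime_five c5a hs hD hn (by norm_num) (by rw [h5]) e4
        (hq 5 (by norm_num) (by norm_num))
      exact ⟨T, Or.inl ⟨t1, t2⟩, t3⟩
  obtain ⟨B7, h7⟩ : ∃ B7 : Multiset (ℕ × List ℕ), ((∀ b ∈ B7, b ∈ L7a) ∧ (B7.map Prod.fst).sum = 6 ∨
      (∀ b ∈ B7, b ∈ L7b) ∧ (B7.map Prod.fst).sum = 3 ∨ (∀ b ∈ B7, b ∈ L7c) ∧ (B7.map Prod.fst).sum = 9) ∧
      tot B7 = (degs G).filter (¬ 7 ∣ ·) := by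
    obtain ⟨_, e, Z, W, z, C, -, e1, e2, -, rfl, k, e3⟩ := exists_pb_of_syl hG p7 (by omega) (by omega)
    have e4 := fun x => C.card_cent p7 e3 (x := x)
    have := Nat.le_of_dvd (by norm_num) e2
    rw [h7, hn] at e3
    interval_cases e
    · obtain rfl : k = 9 := by omega
      obtain ⟨T, t1, t2, t3⟩ := exists_blocks p7 c7c hs hD hn (by norm_num) (by rw [h7]) e4 (hq 7 (by norm_num) (by norm_num))
      exact ⟨T, Or.inr (Or.inr ⟨t1, t2⟩), t3⟩
    · obtain rfl : k = 6 := by omega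
      obtain ⟨T, t1, t2, t3⟩ := exists_blocks p7 c7a hs hD hn (by norm_num) (by rw [h7]) e4 (hq 7 (by norm_num) (by norm_num))
      exact ⟨T, Or.inl ⟨t1, t2⟩, t3⟩
    · omega
    · omega
    · obtain rfl : k = 3 := by omega
      obtain ⟨T, t1, t2, t3⟩ := exists_blocks p7 c7b hs hD hn (by norm_num) (by rw [h7]) e4 (hq 7 (by norm_num) (by norm_num))
      exact ⟨T, Or.inr (Or.inl ⟨t1, t2⟩), t3⟩
  obtain ⟨X₀, A₀, hA₀, h⟩ := A.search3 p23 (by omega) hA (D := D.dropLast) (by decide +kernel) (fun s hs => by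
    obtain ⟨χ, f1, f2⟩ := A.exists_deg p23.one_lt hs
    exact f2 ▸ hD' χ f1) (M := []) (by simp) hn cA
  have h23 : (degs G).filter (¬ 23 ∣ ·) = (bl 2 y (X₀.map Prod.snd) : List ℕ) := A₀.filter_degs p23 hn hA₀
  generalize bl 2 y (X₀.map Prod.snd) = σ at h h23
  have cP' := cP
  simp only [Bool.and_eq_true] at cP'
  obtain ⟨⟨⟨⟨⟨⟨c1, c2⟩, c3⟩, c4⟩, c5⟩, c6⟩, -⟩ := cP'
  have f5 := filter_bl h23 (· % 5 != 0) (by simp [Nat.dvd_iff_mod_eq_zero]) h5.2
  have f7 := filter_bl h23 (· % 7 != 0) (by simp [Nat.dvd_iff_mod_eq_zero]) h7.2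
  rw [not_pc c6 m3 k3 (filter_bl h23 _ (by simp) h3), Bool.false_or] at h
  have g5 : (pc P5a 12 (σ.filter (· % 5 != 0)) && pc P5b 24 (σ.filter (· % 5 != 0))) = false := by
    rcases h5.1 with h | h
    · rw [not_pc c1 h.1 h.2 f5, Bool.false_and]
    · rw [not_pc c2 h.1 h.2 f5, Bool.and_false]
  have g7 : (pc P7a 6 (σ.filter (· % 7 != 0)) && pc P7b 3 (σ.filter (· % 7 != 0)) && pc P7c 9 (σ.filter (· % 7 != 0))) = false := by
    rcases h7.1 with h | h | h
    · rw [not_pc c3 h.1 h.2 f7, Bool.false_and, Bool.false_and]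
    · rw [not_pc c4 h.1 h.2 f7, Bool.and_false, Bool.false_and]
    · rw [not_pc c5 h.1 h.2 f7, Bool.and_false]
  rw [g5, g7, Bool.false_or, Bool.false_or, beq_iff_eq] at h
  subst h
  have cA'' := cA'
  simp only [Bool.and_eq_true] at cA''
  replace g5 := h5.1.resolve_right fun h => Bool.false_ne_true ((not_pc c2 h.1 h.2 f5).symm.trans cA''.2)
  replace g7 := h7.1.resolve_right fun h => h.elim (fun h => Bool.false_ne_true ((not_pc c4 h.1 h.2 f7).symm.trans cA''.1.1))
    fun h => Bool.false_ne_true ((not_pc c5 h.1 h.2 f7).symm.trans cA''.1.2)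
  refine stageB (fun d e => by obtain ⟨χ, rfl⟩ := mem_degs.1 e; exact hD χ) h23 g5.1 g5.2 h5.2 g7.1 g7.2 h7.2 m3 k3 h3 ?_ ?_ ?_
  · rw [← hn, ← sum_charDegree_sq, sm, degs, Multiset.map_map]
    exact congrArg _ (Multiset.map_congr rfl fun χ _ => (sq _).symm)
  · have e1 := congrArg Multiset.card (B.filter_degs p11 hn hB)
    have e2 : ∀ M : Multiset ℕ, sm 1 M = (M.filter (¬ 11 ∣ ·)).card := fun M => by
      induction M using Multiset.induction_on with
      | empty => rfl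
      | cons d M ih =>
        rw [Multiset.filter_cons, Multiset.card_add, ← ih, sm, Multiset.map_cons, Multiset.sum_cons]
        by_cases h : d % 11 = 0 <;> simp [wt, sm, h, Nat.dvd_iff_mod_eq_zero, Bool.cond_eq_ite]
    rw [e2, e1]
    simp [bl]; omega
  · have e1 := congrArg (fun z : ℂ => 2 * z.re) (sum_degree_mul_apply_of_ne (g := u) (by rintro rfl; simp at hu))
    simp only [← (Subtype.property (_ : IrrCharacter _)).charDegree_eq, Complex.re_sum, Finset.mul_sum, Complex.mul_re,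
      Complex.natCast_re, Complex.natCast_im, zero_mul, sub_zero, mul_left_comm (2 : ℝ), ru] at e1
    rw [degs, Multiset.map_map]
    refine Int.cast_injective (α := ℝ) ?_
    simpa [mul_comm] using e1

end M24

end H19
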