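import Mathlib
import Cfsg.Agent.H19.Fast

/-!
Types of Sylow 11-normalisers in a simple group of order 244823040 (namespace H19.M24).
* `R`, `E`, `c11`
-/

set_option linter.unusedSectionVars false
set_option maxRecDepth 100000

namespace H19

namespace M24

open Sv

/-- Divisors. -/
def R : List ℕ := divs [(2, 10), (3, 3), (5, 1), (7, 1), (11, 1), (23, 1)]

/-- Small divisors with the right residues modulo `23`. -/
def E : List ℕ := [15456, 15180, 14720, 14490, 14168, 13824, 13662, 13248, 12880, 12672, 12420, 12144, 11880, 11776, 11592, 11385, 11040, 10752,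
  10626, 10395, 10304, 10120, 9936, 9856, 9660, 9108, 8855, 8832, 8694, 8280, 8096, 7728, 7590, 7360, 7245, 7084, 6912, 6831,
  6624, 6440, 6336, 6210, 6072, 6048, 5888, 5796, 5544, 5520, 5313, 5152, 5060, 4968, 4830, 4554, 4416, 4347, 4140, 4048,
  3864, 3840, 3795, 3680, 3542, 3520, 3312, 3220, 3105, 3036, 3024, 2944, 2898, 2772, 2760, 2576, 2530, 2484, 2415, 2277,
  2208, 2070, 2024, 1932, 1920, 1840, 1771, 1760, 1680, 1656, 1610, 1540, 1518, 1472, 1449, 1380, 1288, 1265, 1242, 1104,
  1080, 1035, 1024, 1012, 990, 966, 920, 896, 840, 828, 805, 770, 759, 736, 690, 644, 621, 576, 552, 540, 528, 506, 495, 483,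
  460, 448, 414, 368, 345, 322, 288, 276, 264, 253, 252, 231, 230, 207, 184, 161, 160, 138, 126, 115, 92, 80, 70, 69, 46, 45,
  35, 24, 23, 22, 12, 11]

theorem mem_R (d : ℕ) (h : d ∣ 244823040) : d ∈ R := mem_divs (by decide +kernel) h

theorem c11 : chkT R E 244823040 11 (fun r _ k => k == 1 || r != 2225664) (fun _ e k y l =>
    (k % 5 == 0 && (y :: l).any fun s => decide ((bl (10 / e) y l).count s.natAbs ≤ 1) && decide (s.natAbs < 4 * 11)) ||
    (e == 5 && k == 2 && chkf 244823040 11 2 4 true y l (R.filter fun c => c % 23 != 0 &&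
      [22, 110].any fun u => c % u == 0 && c / u % 11 == 1)
      fun c w V => !levs 244823040 2 [(2, 10), (3, 3), (5, 1), (7, 1), (23, 1)] y l c w V)) = true := by
  decide +kernel

end M24

end H19
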