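import Mathlib
import Cfsg.Agent.H19.M24e
import Cfsg.Agent.H19.M24g
import Cfsg.Agent.H19.M23e
import Cfsg.Agent.H19.M12d
import Cfsg.Agent.H21.FS
import Cfsg.Agent.H14.M24Chain

/-!
Recognising the Mathieu group of degree 24 (namespace H19).
* `isoM24_of_action`, `isoM24_of_degs`, `isoM24_of_sylow`
-/

set_option linter.unusedSectionVars false

namespace H19

open H05 Cfsg Classical Subgroup MulAction SubMulAction

theorem card_fixedBy_ofStabilizer {G α : Type*} [Group G] [MulAction G α] [Finite α] {a : α} (t : stabilizer G a) :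
    Nat.card (fixedBy α (t : G)) = Nat.card (fixedBy (ofStabilizer G a) t) + 1 := by
  rw [← Finite.card_option]
  refine (Nat.card_congr (Equiv.ofBijective (fun o => Option.casesOn o ⟨a, t.2⟩ fun b =>
    ⟨b.1.1, congrArg Subtype.val b.2⟩) ⟨?_, fun b => ?_⟩)).symm
  · rintro (_ | b) (_ | c) e
    · rfl
    · exact absurd (congrArg Subtype.val e).symm c.1.2
    · exact absurd (congrArg Subtype.val e) b.1.2
    · exact congrArg _ (Subtype.ext (Subtype.ext (congrArg Subtype.val e :)))
  · by_cases h : b.1 = a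
    · exact ⟨none, Subtype.ext h.symm⟩
    · exact ⟨some ⟨⟨b.1, h⟩, Subtype.ext b.2⟩, rfl⟩

variable {G : Type*} [Group G] [Finite G] [IsSimpleGroup G] (hn : Nat.card G = 244823040)
include hn

theorem isoM24_of_action {α : Type*} [MulAction G α] [Fintype α] [IsMultiplyPretransitive G α 2] (hα : Fintype.card α = 24)
    (hc : ∀ x : G, orderOf x = 11 ∨ orderOf x = 23 → Nat.card (centralizer ({x} : Set G)) = orderOf x) :
    Nonempty (G ≃* M24) := by
  have : IsPretransitive G α := is_one_pretransitive_iff.1 (isMultiplyPretransitive_of_le (n := 2) (by norm_num) (by simp [hα]))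
  have key := fun a : α => by
    have := Fintype.ofFinite (ofStabilizer G a)
    have : IsPretransitive (stabilizer G a) (ofStabilizer G a) :=
      is_one_pretransitive_iff.1 (ofStabilizer.isMultiplyPretransitive.1 ‹_›)
    have h1 := nat_card_ofStabilizer_add_one_eq G a
    have h2 := (stabilizer G a).card_mul_index
    rw [index_stabilizer_of_transitive] at h2
    rw [Nat.card_eq_fintype_card (α := α), hα] at h1 h2
    exact m23_action (G := stabilizer G a) (α := ofStabilizer G a) (by omega) (by rw [← Nat.card_eq_fintype_card]; omega)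
      fun x hx => Nat.dvd_antisymm (by
        rw [← Subgroup.orderOf_coe, ← hc x (by rwa [Subgroup.orderOf_coe])]
        exact card_dvd_of_injective (((stabilizer G a).subtype.comp (Subgroup.subtype _)).codRestrict _ fun g =>
          mem_centralizer_singleton_iff.2 (congrArg Subtype.val (mem_centralizer_singleton_iff.1 g.2)))
          fun a b e => Subtype.ext (Subtype.ext (congrArg Subtype.val e :)))
        (orderOf_dvd_natCard _ (mem_centralizer_singleton_iff.2 rfl))
  obtain ⟨a⟩ : Nonempty α := Fintype.card_pos_iff.1 (by omega)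
  have h3 : IsMultiplyPretransitive G α 5 := ofStabilizer.isMultiplyPretransitive.2 (key a).1
  obtain ⟨B, h4, h5⟩ := exists_steiner (G := G) (α := α) (k := 5) (fun s hs => by
    have e1 := h3.index_of_fixingSubgroup_mul (s := (s : Set α)) (by simpa using hs)
    have e2 := (fixingSubgroup G (s : Set α)).card_mul_index
    rw [Nat.card_eq_fintype_card, hα] at e1
    rw [show (fixingSubgroup G (s : Set α)).index = 5100480 from Nat.eq_of_mul_eq_mul_right (Nat.factorial_pos _)
      (e1.trans (by decide))] at e2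
    omega) fun t ht h => by
      obtain ⟨a, ha⟩ : Nonempty (fixedBy α t) := (Nat.card_pos_iff.1 (by omega)).1
      have e1 := card_fixedBy_ofStabilizer (⟨t, ha⟩ : stabilizer G a)
      have := (key a).2 ⟨t, ha⟩ ((orderOf_mk _ _).trans ht)
      simp only at e1
      omega
  obtain ⟨φ, h6⟩ := exists_hom_aut (by omega) h5
  obtain ⟨⟨ι⟩, -⟩ := H14.Sr.aut24 hα h4
  exact ⟨(MulEquiv.ofBijective φ ((Nat.bijective_iff_injective_and_card φ).2 ⟨h6, hn.trans ((Nat.card_congr ι.toEquiv).symm.trans
    H14.card_M24).symm⟩)).trans ι.symm⟩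

theorem isoM24_of_degs {X X' : List (IrrCharacter G × ℤ)} {Y Y' : List (IrrCharacter G)} {y y' : ℤ}
    (A : PB G 23 967680 11 X Y y) (hA : X.length + 1 = 11) (B : PB G 11 2225664 10 X' Y' y') (hB : X'.length + 1 = 10)
    (h : degs G = (M24.sg ++ M24.sg' : List ℕ)) : Nonempty (G ≃* M24) := by
  have hG : ¬ IsMulCommutative G := not_comm_of_simple_card (by rw [hn]; norm_num)
  have p11 : Nat.Prime 11 := by norm_num
  have p23 : Nat.Prime 23 := by norm_num
  have := Fintype.ofFinite G
  have hD : ∀ ψ : IrrCharacter G, charDegree (ψ : G → ℂ) ≤ 276 → charDegree (ψ : G → ℂ) ∈ [253, 252, 231, 45, 23, 1] := fun ψ =>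
    (by decide : ∀ d ∈ M24.sg ++ M24.sg', d ≤ 276 → d ∈ [253, 252, 231, 45, 23, 1]) _
      (Multiset.mem_coe.1 (h ▸ mem_degs.2 ⟨ψ, rfl⟩))
  obtain ⟨χ, dχ⟩ := mem_degs.1 (show 23 ∈ degs G by rw [h]; decide)
  have uχ : ∀ ψ : IrrCharacter G, charDegree (ψ : G → ℂ) = 23 → ψ = χ := fun ψ => eq_of_count_degs (by rw [h]; decide) dχ
  have iχ := exists_int_of_unique fun ψ h => uχ ψ (h.trans dχ)
  have hr : ∀ g, ((χ : G → ℂ) g).im = 0 := fun g => by obtain ⟨m, hm⟩ := iχ g; simp [hm]
  have χ1 : χ ≠ irrOne G := by rintro rfl; simp [charDegree_irrOne] at dχ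
  obtain ⟨x, hx⟩ := exists_prime_orderOf_dvd_card' (G := G) 23 (hp := ⟨p23⟩) (by omega)
  obtain ⟨u, hu⟩ := exists_prime_orderOf_dvd_card' (G := G) 11 (hp := ⟨p11⟩) (by omega)
  have rx := A.two_re p23 hn hA (by omega) (by norm_num) (Or.inl ⟨by decide, rfl⟩) hx
  have ru := fun u (hu : orderOf u = 11) => B.two_re p11 hn hB (by omega) (by norm_num) (Or.inr rfl) hu
  have vu : ∀ u : G, orderOf u = 11 → (χ : G → ℂ) u = 1 := fun u hu => Complex.ext (by
    have := ru u hu χ
    rw [dχ, show Sv.rv 11 23 = 2 from rfl] at this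
    simp at this ⊢; linarith) (by simp [hr])
  have vu2 := vu (u * u) (by rw [← sq, Nat.Coprime.orderOf_pow (by rw [hu]; norm_num), hu])
  have vx := A.val0 χ (by omega) x hx.symm.dvd
  have vx2 := A.val0 χ (by omega) (x * x) (by rw [← sq, Nat.Coprime.orderOf_pow (by rw [hx]; norm_num), hx])
  obtain ⟨L₁, L₂, f1, f2, f3, f4, f5⟩ := sq_parts hG hr (a := 253) (b := 276) (by rw [dχ]; rfl) (by rw [dχ]) hD (f := 300)
    (f₁ := fun L => (L.map (Sv.rv 23)).sum != 0 || (L.map (Sv.rv 11)).sum != 0 || L.count 1 != 0 || L == [253])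
    (f₂ := fun L => (L.map (Sv.rv 23)).sum != 0 || (L.map (Sv.rv 11)).sum != 2 || L.count 1 != 1 || L == [1, 23, 252])
    (by decide +kernel) (by decide +kernel)
  have u1 := fun ψ : IrrCharacter G => eq_irrOne_of_perfect (commutator_eq_top_of_simple hG) (χ := ψ)
  have f0 := Nat.cast_eq_one.1 ((classInner_list_deg f2 (charDegree_irrOne G) u1).symm.trans
    (classInner_sq_one (H21.fsIndicator_of_odd χ.2 hr (by rw [dχ]; decide))).2.1)
  rw [two_re_list rx L₁ (v := 0) (by rw [← f1, vx, vx2]; norm_num),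
    two_re_list (ru u hu) L₁ (v := 0) (by rw [← f1, vu u hu, vu2]; norm_num), show List.count 1 _ = 0 by omega] at f3
  rw [two_re_list rx L₂ (v := 0) (by rw [← f2, vx, vx2]; norm_num),
    two_re_list (ru u hu) L₂ (v := 1) (by rw [← f2, vu u hu, vu2]; norm_num), f0] at f4
  simp only [mul_one, mul_zero, bne_self_eq_false, Bool.false_or, beq_iff_eq] at f3 f4
  obtain ⟨ψ, rfl⟩ := List.length_eq_one_iff.1 (show L₁.length = 1 by simpa using congrArg List.length f3)
  have f6 : ∀ g, (χ : G → ℂ) g ^ 2 = ((ψ :: L₂).map fun ψ : IrrCharacter G => (ψ : G → ℂ) g).sum := fun g => by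
    simp only [List.map_cons, List.map_nil, List.sum_cons, List.sum_nil] at f1 ⊢
    linear_combination f1 g + f2 g
  have f7 := classInner_list_deg f6 dχ uχ
  simp only [List.map_cons, List.map_nil, List.cons.injEq, and_true] at f3
  simp [f3, f4] at f7
  obtain ⟨M, hM⟩ := exists_index_of_cubic hr (ψ := ψ) (fun g => by simpa using (f1 g).symm)
    (fun e => by simp [Subtype.ext (a2 := irrOne G) e, charDegree_irrOne] at f3) (by rintro rfl; omega) (by rw [f7]; norm_num)
  have := Fintype.ofFinite (G ⧸ M)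
  have h1 : Fintype.card (G ⧸ M) = charDegree (χ : G → ℂ) + 1 := Nat.card_eq_fintype_card.symm.trans hM
  have h2 := card_fixedBy_eq_of_min h1 fun ψ e e' => uχ ψ (by
    have := hD ψ (by omega)
    have := mt (u1 ψ) e
    simp only [List.mem_cons, List.not_mem_nil, or_false] at *; omega)
  have h3 : IsMultiplyPretransitive G (G ⧸ M) 3 :=
    multi_of_classInner (by simpa only [← h2, descPochhammer_eval_eq_descFactorial] using (moments χ1 hr f7).1)
  have : IsMultiplyPretransitive G (G ⧸ M) 2 := isMultiplyPretransitive_of_le (n := 3) (by norm_num) (by simp [h1, dχ])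
  exact isoM24_of_action hn (α := G ⧸ M) (by rw [h1, dχ]) fun x hx => hx.elim
    (fun e => e ▸ (B.cent' p11 hn e.symm.dvd).2) fun e => e ▸ (A.cent' p23 hn e.symm.dvd).2

theorem isoM24_of_sylow (h23 : Nat.card (Sylow 23 G) = 967680) (h11 : Nat.card (Sylow 11 G) = 2225664)
    (h5 : Nat.card (Sylow 5 G) = 1020096) (h7 : Nat.card (Sylow 7 G) = 1943040) : Nonempty (G ≃* M24) := by
  have hG : ¬ IsMulCommutative G := not_comm_of_simple_card (by rw [hn]; norm_num)
  have p11 : Nat.Prime 11 := by norm_num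
  have p23 : Nat.Prime 23 := by norm_num
  have := Fact.mk p11
  obtain ⟨_, e, X, Y, y, A, hA, e1, e2, -, rfl, k, e3⟩ := exists_pb_of_syl hG p23 (by omega) (by omega)
  rw [h23] at A e3
  obtain rfl : e = 11 := by have := Nat.le_of_dvd (by norm_num) e2; interval_cases e <;> omega
  obtain ⟨r, e, k, X', Y', y', B, hB, e1, e2, e3, e4, h⟩ := exists_pb_types hG p11 hn (by norm_num) (by norm_num) M24.mem_R
    (by decide +kernel) (fun χ h => deg_mem_of_covers hG hn M24.mem_R
      (ok := fun d => [0, 1, 11, 12, 22].contains (d % 23)) (by decide +kernel) h (by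
        have := A.deg_mod p23 hn hA χ
        simp only [List.contains_eq_mem, List.mem_cons, List.not_mem_nil, or_false, decide_eq_true_eq] at this ⊢; omega)) M24.c11
  obtain rfl : r = 2225664 := B.syl.symm.trans h11
  obtain ⟨u, hu⟩ := exists_prime_orderOf_dvd_card' (G := G) 11 (by omega)
  have c11 := B.card_cent p11 (e4.trans hn.symm) hu
  obtain rfl : k = 1 := by
    simp only [Bool.or_eq_true, Bool.and_eq_true, beq_iff_eq, bne_iff_ne, List.any_eq_true, decide_eq_true_eq, ne_eq,
      not_true_eq_false, or_false] at h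
    rcases h with h | ⟨h2, s, h3, h4, h5⟩ | ⟨⟨rfl, rfl⟩, h⟩
    · exact h
    · exact absurd (B.uniq_le p11 hG (by omega) (e4.trans hn.symm) Nat.prime_five (by norm_num) (Nat.dvd_of_mod_eq_zero h2) h3 h4)
        (not_le.2 h5)
    obtain ⟨t, h3, ht, -⟩ := exists_dvd_cent Nat.prime_two hu (by omega)
    have h6 : u ∈ centralizer ({t} : Set G) := mem_centralizer_singleton_iff.2 (mem_centralizer_singleton_iff.1 h3).symm
    obtain ⟨m, v, h7, h8, h9, h10⟩ := exists_cfilter p11 (by omega) hu h6
    replace h9 : 11 * 2 ∣ v := (Nat.Coprime.mul_dvd_of_dvd_of_dvd (by norm_num)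
      (hu ▸ Subgroup.orderOf_dvd_natCard _ (mem_inf.2 ⟨mem_centralizer_singleton_iff.2 rfl, h6⟩))
      (ht ▸ Subgroup.orderOf_dvd_natCard _ (mem_inf.2 ⟨h3, mem_centralizer_singleton_iff.2 rfl⟩))).trans h9
    rw [h11, hn] at h10
    have h12 : v ∣ 110 := Nat.dvd_of_mul_dvd_mul_right (by norm_num) h10
    obtain ⟨w, V, h2, h4, h5⟩ := B.vals_inv2 p11 hG (by norm_num) hn (by norm_num) (by norm_num) (fun _ => by decide) ht
      (List.mem_filter.2 ⟨M24.mem_R _ (hn ▸ card_subgroup_dvd_card _), by
        have := p23.coprime_iff_not_dvd.1 (A.coprime_cent p23 hn (g := t) (by rintro rfl; simp at ht) (by rw [ht]; norm_num))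
        have h13 : v = 22 ∨ v = 110 := (by decide : ∀ v ≤ 110, v ∣ 110 → 22 ∣ v → v = 22 ∨ v = 110) v
          (Nat.le_of_dvd (by norm_num) h12) h12 h9
        simp only [Bool.and_eq_true, bne_iff_ne, List.any_eq_true, beq_iff_eq]
        exact ⟨by omega, v, by simpa using h13, by simp [h7], by rw [h7, Nat.mul_div_cancel _ (show 0 < v by omega), h8]⟩⟩)
      (Sv.chkw_of_chkf h)
    simp [B.levs p11 hn (by norm_num) (by norm_num) e4 (qs := [(2, 10), (3, 3), (5, 1), (7, 1), (23, 1)]) (by decide +kernel) h4 h5]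
      at h2
  obtain rfl : e = 10 := by omega
  exact isoM24_of_degs hn A hA B hB (M24.degs_eq hn A hA B hB h5 h7)

end H19
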