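import Mathlib
import Cfsg.Agent.H19.Recog
import Cfsg.Agent.H14.P24
import Cfsg.Agent.S0363
import Cfsg.Agent.S5394
import Cfsg.Agent.S5600
import Cfsg.Agent.S5601

/-!
Self-centralising elements of the Mathieu groups of degrees 22 and 23 (namespace H19).
* `fix_M24`, `selfC_of_le_M24`, `selfC_M23`, `selfC_M22`
-/

open Subgroup Cfsg Equiv Finset

namespace H19

theorem fix_modEq {α : Type*} [Fintype α] [DecidableEq α] {y z : Perm α} (hc : Commute y z) {p : ℕ} [Fact p.Prime]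
    (hy : y ^ p = 1) : #{a | z a = a} ≡ #{a | z a = a ∧ y a = a} [MOD p] := by
  have h1 : ∀ a, z (y a) = y a ↔ z a = a := fun a => by
    rw [← Perm.mul_apply, ← hc.eq, Perm.mul_apply, y.apply_eq_iff_eq]
  let f : {a // z a = a} → {a // z a = a} := fun a => ⟨y a, (h1 a).2 a.2⟩
  have h3 : ∀ n a, ((f^[n] a : {a // z a = a}) : α) = (y ^ n) a := fun n a => by
    induction n with
    | zero => rfl
    | succ n ih => rw [Function.iterate_succ_apply', pow_succ', Perm.mul_apply, ← ih]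
  have h2 := Perm.card_fixedPoints_modEq (f := f) (p := p) (n := 1) (by
    rw [pow_one]
    exact funext fun a => Subtype.ext ((h3 p a).trans (by rw [hy]; rfl)))
  rw [Fintype.card_subtype] at h2
  refine h2.trans (congrArg (· % p) ?_)
  rw [← Fintype.card_subtype]
  exact Fintype.card_congr ⟨fun a => ⟨a.1.1, a.1.2, congrArg Subtype.val a.2⟩, fun a => ⟨⟨a.1, a.2.1⟩, Subtype.ext a.2.2⟩,
    fun _ => rfl, fun _ => rfl⟩

theorem fix_M24 {z : Perm GolayPt} (hz : z ∈ M24) (hq : (orderOf z).Prime) :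
    (orderOf z, #{a | z a = a}) ∈ [(2, 8), (2, 0), (3, 6), (3, 0), (5, 4), (7, 3), (11, 2), (23, 1)] := by
  have := Fact.mk hq
  have h1 := fix_modEq (Commute.one_right z) (pow_orderOf_eq_one z)
  simp only [Perm.one_apply, true_and, filter_true, card_univ, Fintype.card_option, ZMod.card] at h1
  have h2 : orderOf z ∣ 244823040 := H14.card_M24 ▸ orderOf_dvd_natCard _ hz
  by_cases h3 : orderOf z = 2
  · rcases Cfsg.Agent.S5394.result.1 z hz h3 with h | h
    · simp [h3, Cfsg.Agent.S0363.result.1 _ h]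
    · simp [h3, h]
  by_cases h4 : orderOf z = 3
  · have := Cfsg.Agent.S5601.result.1 (zpowers ⟨z, hz⟩) (by rw [Nat.card_zpowers, orderOf_mk, h4])
    rw [show {p : GolayPt | ∀ x ∈ zpowers (⟨z, hz⟩ : M24), (x : Perm GolayPt) p = p} = (({a | z a = a} : Finset _) : Set _) from
      Set.ext fun a => ⟨fun h => by simpa using h _ (mem_zpowers _), fun h => by
        rintro _ ⟨k, rfl⟩
        exact Perm.zpow_apply_eq_self_of_apply_eq_self (by simpa using h) k⟩, Set.ncard_coe_finset] at this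
    rcases this with h | h <;> simp [h4, h]
  have h5 : #{a | z a = a} < 6 := not_le.1 fun h => by
    obtain ⟨E, e1, e2⟩ := exists_subset_card_eq h
    have e3 := orderOf_dvd_natCard (M24 ⊓ fixingSubgroup _ (E : Set GolayPt))
      (show z ∈ _ from ⟨hz, (mem_fixingSubgroup_iff _).2 fun a ha => (mem_filter.1 (e1 ha)).2⟩)
    replace e3 : orderOf z ∣ Nat.card {g : Perm GolayPt // g ∈ M24 ∧ ∀ p ∈ E, g p = p} := e3.trans (dvd_of_eq
      (Nat.card_congr (Equiv.subtypeEquivRight fun g => and_congr_right' (mem_fixingSubgroup_iff _))))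
    obtain ⟨-, e4, e5⟩ := Cfsg.Agent.S5600.result E e2
    by_cases e : ∃ o ∈ octads, E ⊆ o
    · exact h3 ((Nat.prime_dvd_prime_iff_eq hq Nat.prime_two).1 (hq.dvd_of_dvd_pow (n := 4) (e3.trans (e4 e).dvd)))
    · exact h4 ((Nat.prime_dvd_prime_iff_eq hq Nat.prime_three).1 ((e5 e).1 ▸ e3))
  have h6 : orderOf z ∈ [2, 3, 5, 7, 11, 23] := by
    obtain ⟨r, e1, e2⟩ := (Prime.dvd_prod_iff hq.prime).1
      (hq.dvd_of_dvd_pow (h2.trans (by norm_num : 244823040 ∣ [2, 3, 5, 7, 11, 23].prod ^ 10)))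
    rwa [(Nat.prime_dvd_prime_iff_eq hq ((by decide : ∀ r ∈ [2, 3, 5, 7, 11, 23], Nat.Prime r) r e1)).1 e2]
  exact (by decide : ∀ q ∈ [2, 3, 5, 7, 11, 23], ∀ f < 6, q ≠ 2 ∧ q ≠ 3 ∧ 24 % q = f % q →
    (q, f) ∈ [(2, 8), (2, 0), (3, 6), (3, 0), (5, 4), (7, 3), (11, 2), (23, 1)]) _ h6 _ h5 ⟨h3, h4, h1⟩

theorem selfC_of_le_M24 {H : Subgroup (Perm GolayPt)} (hH : H ≤ M24) {s : Finset GolayPt} (hs : ∀ g ∈ H, ∀ a ∈ s, g a = a)
    {p : ℕ} (hp : p.Prime) (h2 : ¬ p ^ 2 ∣ Nat.card H)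
    (h : ∀ u ∈ [(2, 8), (2, 0), (3, 6), (3, 0), (5, 4), (7, 3), (11, 2), (23, 1)], u.1 = p →
      ∀ v ∈ [(2, 8), (2, 0), (3, 6), (3, 0), (5, 4), (7, 3), (11, 2), (23, 1)], ∀ F ≤ u.2,
        #s ≤ F ∧ F ≤ v.2 ∧ v.2 % p = F % p ∧ u.2 % v.1 = F % v.1 → v.1 = p)
    (y : H) (hy : orderOf y = p) : Nat.card (centralizer ({y} : Set H)) = p := by
  obtain ⟨k, hk⟩ : p ∣ Nat.card (centralizer ({y} : Set H)) := hy ▸ orderOf_dvd_natCard _ (mem_centralizer_singleton_iff.2 rfl)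
  by_contra h3
  obtain ⟨q, hq, h4⟩ := Nat.exists_prime_and_dvd (show k ≠ 1 by rintro rfl; exact h3 (by simpa using hk))
  have := Fact.mk hq
  have := Fact.mk hp
  obtain ⟨⟨z, hz⟩, h5⟩ := exists_prime_orderOf_dvd_card' q (hk ▸ h4.mul_left p)
  rw [orderOf_mk, ← orderOf_coe] at h5
  rw [← orderOf_coe] at hy
  have hc : Commute (z : Perm GolayPt) y := congrArg Subtype.val (mem_centralizer_singleton_iff.1 hz)
  have h6 := fix_modEq hc (h5 ▸ pow_orderOf_eq_one _)
  simp only [and_comm (a := (y : Perm GolayPt) _ = _)] at h6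
  have h7 := h _ (fix_M24 (hH y.2) (hy ▸ hp)) hy _ (fix_M24 (hH z.2) (h5 ▸ hq)) _
    (card_le_card (monotone_filter_right _ fun _ _ h => h.2)) ⟨card_le_card fun a ha =>
      mem_filter.2 ⟨mem_univ a, hs _ z.2 a ha, hs _ y.2 a ha⟩, card_le_card (monotone_filter_right _ fun _ _ h => h.1),
      fix_modEq hc.symm (hy ▸ pow_orderOf_eq_one _), h5 ▸ h6⟩
  obtain rfl : q = p := h5.symm.trans h7
  exact h2 ((show q ^ 2 ∣ _ by rw [sq, hk]; exact Nat.mul_dvd_mul_left _ h4).trans (card_subgroup_dvd_card _))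

theorem selfC_M23 {p : ℕ} (hp : p = 11 ∨ p = 23) (y : Spor.M23) (hy : orderOf y = p) :
    Nat.card (centralizer ({y} : Set Spor.M23)) = p := by
  rcases hp with rfl | rfl <;> exact selfC_of_le_M24 (H := Spor.M23) inf_le_left (s := {none})
    (fun g hg a ha => by rw [mem_singleton.1 ha]; exact hg.2)
    (by norm_num) (by rw [H14.card_M23]; norm_num) (by decide +kernel) y hy

theorem selfC_M22 {p : ℕ} (hp : p = 5 ∨ p = 7 ∨ p = 11) (y : Spor.M22) (hy : orderOf y = p) :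
    Nat.card (centralizer ({y} : Set Spor.M22)) = p := by
  rcases hp with rfl | rfl | rfl <;> exact selfC_of_le_M24 (H := Spor.M22) (inf_le_left.trans inf_le_left) (s := {none, some 0})
    (fun g hg a ha => by rcases mem_insert.1 ha with rfl | ha; exacts [hg.1.2, by rw [mem_singleton.1 ha]; exact hg.2])
    (by norm_num) (by rw [H14.card_M22]; norm_num) (by decide +kernel) y hy

end H19
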