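import Mathlib
import Cfsg.Agent.H19.SelfM
import Cfsg.Agent.H19.Typ
import Cfsg.Agent.H20.One24
import Cfsg.Agent.H14.MSimple

/-!
Numbers of elements of given order and Sylow numbers of `M24` (namespace H19).
* `card_sylow_eq_of_nse'`, `sylow_of_nse24`
-/

set_option linter.unusedSectionVars false

namespace H19

open Subgroup Cfsg H13 H14 H14.PK H14.PK.TS

theorem card_orderOf_modEq {G : Type*} [Group G] [Finite G] {p : ℕ} [Fact p.Prime] {x : G} (hx : orderOf x = p) (n : ℕ) :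
    Nat.card {g : G // orderOf g = n} ≡ {g | g ∈ centralizer ({x} : Set G) ∧ orderOf g = n}.ncard [MOD p] := by
  classical
  have := Fintype.ofFinite G
  let f : {g : G // orderOf g = n} → {g : G // orderOf g = n} := fun q => ⟨x * q * x⁻¹,
    (SemiconjBy.orderOf_eq x (by simp [SemiconjBy])).symm.trans q.2⟩
  have h3 : ∀ k q, ((f^[k] q : {g : G // orderOf g = n}) : G) = x ^ k * q * (x ^ k)⁻¹ := fun k q => by
    induction k with
    | zero => simp
    | succ n ih => rw [Function.iterate_succ_apply', pow_succ']; simp only [f, ih]; group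
  have h4 := Equiv.Perm.card_fixedPoints_modEq (p := p) (n := 1) (f := (f : Function.End _)) (by
    funext q
    refine Subtype.ext ?_
    change ((f^[p ^ 1] q : {g : G // orderOf g = n}) : G) = q
    rw [h3, pow_one, ← hx, pow_orderOf_eq_one]; simp)
  rw [← Nat.card_eq_fintype_card, ← Nat.card_eq_fintype_card] at h4
  exact h4.trans <| congrArg (· % p) <|
    Nat.card_congr ⟨fun q => ⟨q.1.1, mem_centralizer_singleton_iff.2
      (mul_inv_eq_iff_eq_mul.1 (congrArg Subtype.val q.2)).symm, q.1.2⟩,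
    fun g => ⟨⟨g.1, g.2.2⟩, Subtype.ext (mul_inv_eq_iff_eq_mul.2 (mem_centralizer_singleton_iff.1 g.2.1).symm)⟩,
    fun _ => rfl, fun _ => rfl⟩

theorem card_sylow_eq_of_nse' {G M : Type*} [Group G] [Finite G] [Group M] [Finite M] {p : ℕ} [hp : Fact p.Prime]
    {P : Sylow p G} (hP : Nat.card (P : Subgroup G) = p) {Q : Sylow p M} (hQ : Nat.card (Q : Subgroup M) = p) {x : M}
    (hx : orderOf x = p) (hc : ∀ n ≠ p, ({g | g ∈ centralizer ({x} : Set M) ∧ orderOf g = n}.ncard + 1) % p ≠ 0)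
    (h : {c : ℕ | 0 < c ∧ ∃ n : ℕ, c = Nat.card {g : G // orderOf g = n}} =
      {c : ℕ | 0 < c ∧ ∃ n : ℕ, c = Nat.card {g : M // orderOf g = n}}) :
    Nat.card (Sylow p G) = Nat.card (Sylow p M) := by
  have h1 := card_orderOf_eq_prime hP
  have h2 := hp.out.one_lt
  obtain ⟨-, n, h3⟩ := h.le (show _ ∧ _ from ⟨Nat.mul_pos Nat.card_pos (by omega), p, h1.symm⟩)
  by_cases e2 : n = p
  · rw [e2, card_orderOf_eq_prime hQ] at h3
    exact Nat.eq_of_mul_eq_mul_right (by omega) h3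
  refine absurd (Eq.trans ((card_orderOf_modEq hx n).add_right 1).symm ?_) (hc n e2)
  rw [← h3, (((card_sylow_modEq_one p G).mul_right _).add_right 1 :), one_mul, Nat.sub_add_cancel h2.le, Nat.mod_self]

/-- The table has order `k`. -/
noncomputable def ordB (w n k T : ℕ) : Bool := Nat.beq (tp w n T k) (idv w n) &&
  (List.range k).all fun m => k % m != 0 || !Nat.beq (tp w n T m) (idv w n)

theorem ncard_ne {G : Type*} [Group G] {w n : ℕ} {S : TS G w n} {K : Subgroup G} {ch : Ch} (h : S.Full K ch) {p N : ℕ}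
    (hp : 1 < p) (hN : chN ch = N) (h0 : 0 < N) (e : ((List.range (N + 1)).all fun k => k == p || N % k != 0 ||
      (esum w n (fun _ _ _ _ => false) (fun f => Bool.rec (nat_lit 0) (nat_lit 1) (force (mkT w n f) (ordB w n k))) ch 0
        (idv w n) (idv w n) + 1) % p != 0) = true) : ∀ k ≠ p, ({g | g ∈ K ∧ orderOf g = k}.ncard + 1) % p ≠ 0 := fun k hk => by
  have := S.finite
  by_cases hd : k ∣ N
  · have h1 := List.all_eq_true.1 e k (List.mem_range.2 (Nat.lt_succ_of_le (Nat.le_of_dvd h0 hd)))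
    rw [h.cntT (p := ordB w n k) (fun x => by
      rw [orderOf_eq_iff (Nat.pos_of_dvd_of_pos hd h0)]
      simp only [ordB, Bool.and_eq_true, Nat.beq_eq, List.all_eq_true, List.mem_range, Bool.or_eq_true, bne_iff_ne,
        Bool.not_eq_true', ← Bool.not_eq_true, ← S.tb_pow, ← S.tb_one, S.tb_eq_iff]
      refine and_congr_right fun e => ⟨fun h m h1 h2 h3 => ?_, fun h m h1 => or_iff_not_imp_left.2 fun h2 => h m h1 ?_⟩
      · exact (h _ ((orderOf_le_of_pow_eq_one h2 h3).trans_lt h1)).elim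
          (fun c => c (Nat.mod_eq_zero_of_dvd (orderOf_dvd_of_pow_eq_one e))) fun c => c (pow_orderOf_eq_one x)
      · exact Nat.pos_of_ne_zero (by rintro rfl; simp at h2; omega)) (Nat.beq_refl _)]
    simpa [hk, Nat.mod_eq_zero_of_dvd hd] using h1
  · rw [show {g | g ∈ K ∧ orderOf g = k} = ∅ from Set.eq_empty_of_forall_notMem fun g e =>
      hd (e.2 ▸ hN ▸ h.card ▸ K.orderOf_dvd_natCard e.1), Set.ncard_empty, Nat.mod_eq_of_lt hp]
    simp

/-- The centraliser of an element of order five. -/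
def c5Ch : Ch := [(0, [nat_lit 0xbdab49ca307b9ac5a928398a418820, nat_lit 0x22aa914a082c5aeb85ec38c13b2cd4, nat_lit 0x986af5c90c041b1218ae3da8255c69, nat_lit 0x11aa5bc98ea21b098c113a92b092cf, nat_lit 0x58ea0249d14b1a815a90385f734d45, nat_lit 0x9b9a65d414b164f244693a14265e01, nat_lit 0x145a3bd689502459c2cf3b02b71106, nat_lit 0x5c1b62552f0d240121453b8d78cd83, nat_lit 0xba1aa9d5e5326545b0203c464809d6, nat_lit 0x231a1154a01be49bb8d43c2d342e2a, nat_lit 0xb824c9b4c3886aa5d1d63be0428928, nat_lit 0x2524e1347681aa1ba62a3951302dec, nat_lit 0x9a6515b6ca40ea623e0138182a5cae, nat_lit 0x13e50bb54165aa3995063d1cb49011, nat_lit 0x596482342672ab6101833a6377ce90, nat_lit 0x33cebb498e222b0096f16d2634a802, nat_lit 0x194f7549d19b2a8300906a4567868b, nat_lit 0xb00e40ca3013aac1d2686bd6a29937, nat_lit 0x550f334a085c6aeb244c696e100de4, nat_lit 0xa4e21c90cbc2b153d6e68086a58b3]),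
  (20, [nat_lit 0xbdab49ca307b9ac5a928398a418820]),
  (9, [nat_lit 0xbdab49ca307b9ac5a928398a418820]),
  (15, [nat_lit 0xbdab49ca307b9ac5a928398a418820]),
  (5, [nat_lit 0xbdab49ca307b9ac5a928398a418820]),
  (1, [nat_lit 0xbdab49ca307b9ac5a928398a418820, nat_lit 0xb22b409c4b7ce441b1376c4aa819c0, nat_lit 0x45eb4734c3784ea81136908ac5c660]),
  (6, [nat_lit 0xbdab49ca307b9ac5a928398a418820])]

theorem c5_full : S24.Full (centralizer {S24.el H20.M24d.a5}) c5Ch :=
  cent24 (ch := H20.M24d.a5G) (full24_of (by decide +kernel)) (in_M24 (by decide +kernel)) (by decide +kernel) (by decide +kernel)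

/-- The centraliser of an element of order eleven. -/
def c11Ch : Ch := [(0, [nat_lit 0xbdab49ca307b9ac5a928398a418820, nat_lit 0xadd4542e32982063b5220bdd665083, nat_lit 0x555ae11e2b40e4f0c13424c17316cc, nat_lit 0x6aa00a06271317324925b20757bae6, nat_lit 0x8364329221a18e8b2d2eb898a982af, nat_lit 0x9416c75a242bc22b9d20ad0cd40d53, nat_lit 0x5c8e605e3674c94a8523515f0131a8, nat_lit 0x3ac2f1d637022c55112c6ba72a1a02, nat_lit 0x9c9362a3518aee6d9268010b2be54, nat_lit 0x206c83362a652a085d2f90c4774d65, nat_lit 0xb12e27c22d31543955335b281020ee]),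
  (3, [nat_lit 0xbdab49ca307b9ac5a928398a418820]),
  (12, [nat_lit 0xbdab49ca307b9ac5a928398a418820]),
  (6, [nat_lit 0xbdab49ca307b9ac5a928398a418820]),
  (15, [nat_lit 0xbdab49ca307b9ac5a928398a418820]),
  (19, [nat_lit 0xbdab49ca307b9ac5a928398a418820]),
  (8, [nat_lit 0xbdab49ca307b9ac5a928398a418820])]

theorem c11_full : S24.Full (centralizer {S24.el H20.M24d.a11}) c11Ch :=
  cent24 (ch := H20.M24d.a11G) (full24_of (by decide +kernel)) (in_M24 (by decide +kernel)) (by decide +kernel) (by decide +kernel)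

theorem sylow_M24 {p : ℕ} (hp : p.Prime) (h1 : p ∣ 244823040) (h2 : ¬ p ^ 2 ∣ 244823040) {x : M24} (hx : orderOf x = p) :
    ∃ e, e ∣ p - 1 ∧ Nat.card (centralizer ({x} : Set M24)) * (e * Nat.card (Sylow p M24)) = 244823040 ∧
      Nat.card (Sylow p M24) % p = 1 := by
  have := simple_M24
  obtain ⟨_, e, X, Y, y, A, -, -, e2, e1, rfl, k, e3⟩ := exists_pb_of_syl (G := M24)
    (not_comm_of_simple_card (by rw [H14.card_M24]; norm_num)) hp (H14.card_M24 ▸ h1) (H14.card_M24 ▸ h2)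
  exact ⟨e, e2, by rw [A.card_cent hp e3 hx, e3, H14.card_M24], e1⟩

theorem sylow_of_nse24 {G : Type*} [Group G] [Finite G] (hn : Nat.card G = 244823040)
    (h : {c : ℕ | 0 < c ∧ ∃ n : ℕ, c = Nat.card {g : G // orderOf g = n}} =
      {c : ℕ | 0 < c ∧ ∃ n : ℕ, c = Nat.card {g : M24 // orderOf g = n}}) :
    Nat.card (Sylow 23 G) = 967680 ∧ Nat.card (Sylow 11 G) = 2225664 ∧ Nat.card (Sylow 5 G) = 1020096 ∧
      Nat.card (Sylow 7 G) = 1943040 := by
  have key : ∀ (p : ℕ) [Fact p.Prime], p ∈ [23, 11, 5, 7] → (∀ P : Sylow p G, Nat.card (P : Subgroup G) = p) ∧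
      (∀ P : Sylow p M24, Nat.card (P : Subgroup M24) = p) ∧ p ∣ 244823040 ∧ ¬ p ^ 2 ∣ 244823040 := fun p _ hp => by
    have h1 : p ∣ 244823040 ∧ ¬ p ^ 2 ∣ 244823040 := (by decide : ∀ p ∈ [23, 11, 5, 7], p ∣ 244823040 ∧ ¬ p ^ 2 ∣ 244823040) p hp
    exact ⟨card_sylow_eq_prime (hn ▸ h1.1) (hn ▸ h1.2), card_sylow_eq_prime (H14.card_M24 ▸ h1.1) (H14.card_M24 ▸ h1.2), h1⟩
  have k1 : ∀ (p : ℕ) [Fact p.Prime], p = 23 → ∃ e, e ∣ p - 1 ∧ p * (e * Nat.card (Sylow p G)) = 244823040 ∧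
      Nat.card (Sylow p G) % p = 1 := fun p hp h0 => by
    obtain ⟨h1, h2, h3, h4⟩ := key p (by simp [h0])
    have hc := selfC_of_le_M24 le_rfl (s := ∅) (by simp) hp.out (H14.card_M24 ▸ h4) (by subst h0; decide +kernel)
    obtain ⟨x, hx⟩ := exists_prime_orderOf_dvd_card' (G := M24) p (H14.card_M24 ▸ h3)
    rw [card_sylow_eq_of_nse (by omega) (h1 default) (h2 default) hc h, ← hc x hx]
    simpa only [hc x hx] using sylow_M24 hp.out h3 h4 hx
  have k2 : ∀ (p : ℕ) [Fact p.Prime], p = 11 ∨ p = 5 ∨ p = 7 → ∀ {x : M24} {ch : Ch} {N : ℕ}, orderOf x = p →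
      S24.Full (centralizer {x}) ch → chN ch = N →
      (∀ k ≠ p, ({g | g ∈ centralizer ({x} : Set M24) ∧ orderOf g = k}.ncard + 1) % p ≠ 0) →
      ∃ e, e ∣ p - 1 ∧ N * (e * Nat.card (Sylow p G)) = 244823040 ∧ Nat.card (Sylow p G) % p = 1 :=
    fun p hp h0 x ch N hx h5 h6 h7 => by
      obtain ⟨h1, h2, h3, h4⟩ := key p (by rcases h0 with rfl | rfl | rfl <;> simp)
      rw [card_sylow_eq_of_nse' (h1 default) (h2 default) hx h7 h, ← h6, ← h5.card]
      exact sylow_M24 hp.out h3 h4 hx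
  have := Fact.mk (by norm_num : Nat.Prime 23)
  have := Fact.mk (by norm_num : Nat.Prime 11)
  have := Fact.mk (by norm_num : Nat.Prime 5)
  have := Fact.mk (by norm_num : Nat.Prime 7)
  obtain ⟨a, a1, a2, a3⟩ := k1 23 (by simp)
  obtain ⟨b, b1, b2, b3⟩ := k2 11 (by simp) (N := 11) H20.M24d.a11_ord c11_full (by decide +kernel)
    (ncard_ne c11_full (N := 11) (by norm_num) (by decide +kernel) (by norm_num) (by decide +kernel))
  obtain ⟨c, c1, c2, c3⟩ := k2 5 (by simp) (N := 60) H20.M24d.a5_ord c5_full (by decide +kernel)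
    (ncard_ne c5_full (N := 60) (by norm_num) (by decide +kernel) (by norm_num) (by decide +kernel))
  obtain ⟨d, d1, d2, d3⟩ := k2 7 (by simp) (N := 42) ord7 c7_full (by decide +kernel)
    (ncard_ne c7_full (N := 42) (by norm_num) (by decide +kernel) (by norm_num) (by decide +kernel))
  have := Nat.le_of_dvd (by norm_num) a1
  have := Nat.le_of_dvd (by norm_num) b1
  have := Nat.le_of_dvd (by norm_num) c1
  have := Nat.le_of_dvd (by norm_num) d1
  refine ⟨?_, ?_, ?_, ?_⟩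
  · clear b2 c2 d2; interval_cases a <;> omega
  · clear a2 c2 d2; interval_cases b <;> omega
  · clear a2 b2 d2; interval_cases c <;> omega
  · clear a2 b2 c2; interval_cases d <;> omega

end H19
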