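import Mathlib
import Cfsg.Agent.L.Js0
import Cfsg.Agent.S3035
import Cfsg.Agent.H08.ZStarCore
import Cfsg.Agent.H08.Dihedral

/-! Part X of the S5573 cluster. -/

set_option autoImplicit false
open Cfsg BG Subgroup

namespace Cfsg.Agent.H19.S7X

universe u

theorem six {X : Type u} [Group X] [Finite X] {w : X} (o : orderOf w = 2) (d : 3 ∣ Nat.card C_[w]) :
    ∃ g : X, g * g * g * (g * g * g) = 1 ∧ g * g ≠ 1 ∧ g * g * g ≠ 1 ∧ g * g * g = w := by
  have : Fact (Nat.Prime 3) := ⟨by norm_num⟩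
  obtain ⟨y, hy⟩ := exists_prime_orderOf_dvd_card' 3 d
  rw [← Subgroup.orderOf_coe] at hy
  have c : Commute (y : X) w := mem_cent1.1 y.2
  have w2 : w ^ 2 = 1 := o ▸ pow_orderOf_eq_one w
  have y3 : (y : X) ^ 3 = 1 := hy ▸ pow_orderOf_eq_one _
  have e : y * w * (y * w) * (y * w) = w := by
    rw [← pow_three', c.mul_pow, y3, one_mul, pow_succ, w2, one_mul]
  refine ⟨y * w, by rw [e, ← sq, w2], fun h => ?_, by rw [e]; rintro rfl; simp at o, e⟩
  rw [← sq, c.mul_pow, w2, mul_one] at h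
  have := orderOf_dvd_of_pow_eq_one h
  rw [hy] at this; omega

theorem a4 : ∀ g : Equiv.Perm (Fin 4), g * g * g * (g * g * g) = 1 → g * g = 1 ∨ g * g * g = 1 := by decide +kernel
theorem a6 : ∀ g : Equiv.Perm (Fin 6), g * g * g * (g * g * g) = 1 → Equiv.Perm.sign g = 1 → g * g = 1 ∨ g * g * g = 1 := by
  decide +kernel
theorem a3 : ∀ g : Matrix (Fin 3) (Fin 3) (ZMod 2), g * g * g * (g * g * g) = 1 → g * g = 1 ∨ g * g * g = 1 := by
  decide +kernel
theorem a5 : ∀ g : Equiv.Perm (Fin 5), g * g * g * (g * g * g) = 1 → g * g ≠ 1 → g * g * g ≠ 1 →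
    ∃ c, c * Equiv.swap 0 1 * c⁻¹ = g * g * g := by decide +kernel
theorem a12 : Fintype.card {h : Equiv.Perm (Fin 5) // h * Equiv.swap 0 1 = Equiv.swap 0 1 * h} = 12 := by decide +kernel

theorem cc {X : Type u} [Group X] {a b : X} (h : IsConj a b) : Nat.card C_[b] = Nat.card C_[a] := by
  obtain ⟨c, rfl⟩ := isConj_iff.1 h
  rw [← cj_cent1, card_cj]

theorem clt {X : Type u} [Group X] [Finite X] {A B : Subgroup X} (h : A < B) : Nat.card A < Nat.card B :=
  lt_of_le_of_ne (card_le_of_le h.le) fun e => h.ne (eq_of_le_of_card_ge h.le e.ge)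

theorem x : _root_.L.Js.XStmt.{u} := by
  intro X _ _ U z H cU hU oz z3
  have : Fact (Nat.Prime 2) := ⟨Nat.prime_two⟩
  have U2 : ∀ w ∈ U, w * w = 1 := fun w hw => by
    by_cases e : w = 1
    · simp [e]
    · rw [← sq, ← (hU w hw e).1, pow_orderOf_eq_one]
  obtain ⟨P, UP⟩ := (IsPGroup.of_card (p := 2) (n := 2) cU).exists_le_sylow
  obtain ⟨R, zR⟩ := (IsPGroup.of_card (p := 2) (n := 1) (G := zpowers z) (by rw [Nat.card_zpowers, oz]; rfl)).exists_le_sylow
  obtain ⟨g, rfl⟩ := MulAction.exists_smul_eq X R P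
  have zP : g * z * g⁻¹ ∈ ((g • R : Sylow 2 X) : Subgroup X) := ⟨z, zR (mem_zpowers z), rfl⟩
  have ic : IsConj z (g * z * g⁻¹) := isConj_iff.2 ⟨g, rfl⟩
  have o' : orderOf (g * z * g⁻¹) = 2 := by rw [← oz]; exact (MulAut.conj g).orderOf_eq z
  have c3 : 3 ∣ Nat.card C_[g * z * g⁻¹] := cc ic ▸ z3
  generalize g * z * g⁻¹ = s at zP ic o' c3
  generalize g • R = P at UP zP
  have c12 : Nat.card C_[s] ∣ 12 := ((H s o').resolve_left fun h => absurd (c3.trans h) (by decide)).2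
  have s1 : s ≠ 1 := by rintro rfl; simp at o'
  have s2 : s * s = 1 := by rw [← sq, ← o', pow_orderOf_eq_one]
  have sU : s ∉ U := fun h => absurd (c3.trans (hU s h s1).2) (by decide)
  obtain ⟨n, hn⟩ := P.2.exists_card_eq
  have l : 4 < Nat.card (P : Subgroup X) := cU ▸ clt (lt_of_le_of_ne UP fun e => sU (e ▸ zP))
  have d8 : 8 ∣ Nat.card (P : Subgroup X) := by
    rw [hn] at l ⊢
    exact pow_dvd_pow 2 (show 3 ≤ n from (Nat.pow_lt_pow_iff_right (a := 2) (n := 2) (by norm_num)).1 l)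
  have nt : Nontrivial (P : Subgroup X) := Finite.one_lt_card_iff_nontrivial.1 (by omega)
  have := P.2.center_nontrivial
  obtain ⟨t, ht⟩ := exists_prime_orderOf_dvd_card' (G := center (P : Subgroup X)) 2
    ((P.2.to_subgroup _).card_eq_or_dvd.resolve_left Finite.one_lt_card.ne')
  rw [← Subgroup.orderOf_coe, ← Subgroup.orderOf_coe] at ht
  have Pt : (P : Subgroup X) ≤ C_[(t.1 : X)] := fun y hy => mem_cent1.2 (congrArg Subtype.val (mem_center_iff.1 t.2 ⟨y, hy⟩))
  generalize (t.1 : X) = t at ht Pt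
  have d8' := d8.trans (card_dvd_of_le Pt)
  have c8 : Nat.card C_[t] = 8 := Nat.dvd_antisymm ((H t ht).resolve_right fun h => absurd (d8'.trans h.2) (by decide)) d8'
  obtain ⟨v, vU, n⟩ : ∃ v ∈ U, v * s ≠ s * v := by
    by_contra! h
    have a : U ⊔ zpowers s ≤ C_[t] ⊓ C_[s] := sup_le (le_inf (UP.trans Pt) fun v hv => mem_cent1.2 (h v hv))
      (zpowers_le.2 ⟨Pt zP, mem_cent1_self s⟩)
    have b : 4 < Nat.card ↥(C_[t] ⊓ C_[s]) := cU ▸ clt (lt_of_le_of_ne (le_sup_left.trans a) fun e =>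
      sU (e ▸ a (mem_sup_right (mem_zpowers s))))
    have c := card_dvd_of_le (inf_le_left : C_[t] ⊓ C_[s] ≤ _)
    have d := (card_dvd_of_le (inf_le_right : C_[t] ⊓ C_[s] ≤ _)).trans c12
    rw [c8] at c
    exact b.not_ge (Nat.le_of_dvd (by norm_num) (Nat.dvd_gcd c d))
  have v1 : v⁻¹ = v := inv_eq_of_mul_eq_one_right (U2 v vU)
  have s1' : s⁻¹ = s := inv_eq_of_mul_eq_one_right s2
  have rel : s * (v * s) * s⁻¹ = (v * s)⁻¹ := by rw [mul_inv_rev, v1, s1', mul_assoc, mul_assoc, s2, mul_one]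
  have nm : s ∉ zpowers (v * s) := fun h => n (by
    have := (Commute.refl (v * s)).zpow_right
    obtain ⟨k, e⟩ := h
    have q := (this k).eq
    rw [show (v * s) ^ k = s from e, mul_assoc, ← mul_assoc s v s] at q
    exact (mul_right_cancel (q.symm.trans (mul_assoc v s s).symm)).symm)
  have rC : v * s ∈ C_[t] := mul_mem (Pt (UP vU)) (Pt zP)
  obtain ⟨e⟩ := H08.nonempty_closure_equiv_dihedral (orderOf_pos (v * s)).ne' rfl s2 rel nm
  have le : closure {v * s, s} ≤ C_[t] := (closure_le _).2 (by rintro _ (rfl | rfl); exacts [rC, Pt zP])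
  have k1 := card_dvd_of_le le
  rw [Nat.card_congr e.toEquiv, DihedralGroup.nat_card, c8] at k1
  have o4 : orderOf (v * s) = 4 := by
    have a : ¬ orderOf (v * s) ∣ 2 := fun h => n (by
      have := orderOf_dvd_iff_pow_eq_one.1 h
      rw [sq, mul_eq_one_iff_eq_inv, mul_inv_rev, v1, s1'] at this; exact this)
    have := Nat.le_of_dvd (by norm_num) k1
    generalize orderOf (v * s) = m at a k1 this
    have : m ≤ 4 := by omega
    interval_cases m <;> simp_all
  have eq : closure {v * s, s} = C_[t] := eq_of_le_of_card_ge le (by rw [Nat.card_congr e.toEquiv, DihedralGroup.nat_card, c8, o4])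
  rw [o4, eq] at e
  obtain ⟨a, a1, a2, a3', a4'⟩ := six oz z3
  rcases S3035.result t ht ⟨e⟩ with h | ⟨⟨f⟩⟩ | ⟨⟨f⟩⟩ | ⟨⟨f⟩⟩ | ⟨⟨f⟩⟩
  · exfalso
    have od := H08.odd_card_oddCore X
    have fp : ∀ w ∈ U, w ≠ 1 → ∀ y ∈ oddCore X, w * y * w⁻¹ = y → y = 1 := fun w hw w1 y hy k => by
      have b1 := (Subgroup.orderOf_dvd_natCard C_[w] (mem_cent1.2 (mul_inv_eq_iff_eq_mul.1 k).symm)).trans (hU w hw w1).2
      exact orderOf_eq_one_iff.1 (Nat.eq_one_of_dvd_coprimes ((Nat.coprime_two_right.2 od).pow_right 3)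
        (Subgroup.orderOf_dvd_natCard _ hy) b1)
    have iv : ∀ w ∈ U, w ≠ 1 → ∀ y ∈ oddCore X, w * y * w⁻¹ = y⁻¹ := fun w hw w1 y hy =>
      congrArg Subtype.val (congrFun (MonoidHom.FixedPointFree.coe_eq_inv_of_involutive (φ := (MulAut.conjNormal w : MulAut (oddCore X)))
        (fun y k => Subtype.ext (fp w hw w1 _ y.2 (congrArg Subtype.val k))) fun y => Subtype.ext (by
          show w * (w * y * w⁻¹) * w⁻¹ = y
          rw [show w * (w * y * w⁻¹) * w⁻¹ = w * w * y * (w * w)⁻¹ by group, U2 w hw]; simp)) ⟨y, hy⟩)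
    have v0 : v ≠ 1 := by rintro rfl; simp at n
    obtain ⟨w, wU, w1, wv⟩ : ∃ w ∈ U, w ≠ 1 ∧ w ≠ v := by
      by_contra! k
      have : U ≤ zpowers v := fun w hw => (em (w = 1)).elim (fun e => e ▸ one_mem _) fun e => k w hw e ▸ mem_zpowers _
      have := card_le_of_le this
      rw [Nat.card_zpowers, (hU v vU v0).1] at this; omega
    have ob : oddCore X = ⊥ := eq_bot_iff.2 fun y hy => fp (w * v) (mul_mem wU vU)
      (fun e => wv (mul_right_cancel (e.trans (U2 v vU).symm))) y hy (by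
        rw [show w * v * y * (w * v)⁻¹ = w * (v * y * v⁻¹) * w⁻¹ by group, iv v vU v0 y hy, iv w wU w1 _ (inv_mem hy), inv_inv])
    rw [ob, sup_bot_eq] at h
    have := z3.trans (card_dvd_of_le (h.symm ▸ le_top : C_[z] ≤ C_[t]))
    rw [c8] at this; omega
  · exact absurd (a4 (f a) (by simpa using congrArg f a1)) (by
      simp only [← map_mul, map_eq_one_iff f f.injective]; tauto)
  · have k : ∀ w : X, orderOf w = 2 → 3 ∣ Nat.card C_[w] → IsConj (f.symm (Equiv.swap 0 1)) w := fun w o d => by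
      obtain ⟨b, b1, b2, b3, rfl⟩ := six o d
      obtain ⟨c, hc⟩ := a5 (f b) (by simpa using congrArg f b1) (by rwa [← map_mul, Ne, map_eq_one_iff f f.injective])
        (by rwa [← map_mul, ← map_mul, Ne, map_eq_one_iff f f.injective])
      exact isConj_iff.2 ⟨f.symm c, f.injective (by simpa using hc)⟩
    refine ⟨⟨f⟩, ?_, fun w o d => (k z oz z3).symm.trans (k w o d)⟩
    rw [cc (k z oz z3), ← a12, ← Nat.card_eq_fintype_card]
    exact Nat.card_congr (f.toEquiv.subtypeEquiv fun h => mem_cent1.trans (f.injective.eq_iff.symm.trans (by simp)))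
  · refine ((a3 (f a).1 (by simpa using congrArg (fun y => (f y).1) a1)).elim (fun h => a2 (f.injective (Subtype.ext ?_)))
      fun h => a3' (f.injective (Subtype.ext ?_))).elim <;> simpa using h
  · refine ((a6 (f a).1 (by simpa using congrArg (fun y => (f y).1) a1) (f a).2).elim (fun h => a2 (f.injective (Subtype.ext ?_)))
      fun h => a3' (f.injective (Subtype.ext ?_))).elim <;> simpa using h

end Cfsg.Agent.H19.S7X
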